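import Mathlib
import Cfsg.Prelude.Def_Classical

set_option autoImplicit false

namespace Cfsg.Agent.Helper15

theorem isSquare_gram_det_iff {F : Type*} [Field F] {κ : Type*} [Fintype κ] [DecidableEq κ]
    (Q : (κ → F) → F) (P : Matrix κ κ F)
    (hP : ∀ u v : κ → F, QuadraticMap.polar Q u v = u ⬝ᵥ P.mulVec v)
    {ι : Type*} [Fintype ι] [DecidableEq ι] (b : Module.Basis ι F (κ → F)) :
    IsSquare (Matrix.of (fun i j : ι => QuadraticMap.polar Q (b i) (b j))).det ↔
      IsSquare P.det := by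
  classical
  let e : ι ≃ κ := b.indexEquiv (Pi.basisFun F κ)
  obtain ⟨T, hT⟩ : ∃ T : Matrix κ κ F, T = Matrix.of fun k j => b (e.symm j) k := ⟨_, rfl⟩
  have hG : (Matrix.of (fun i j : ι => QuadraticMap.polar Q (b i) (b j))).submatrix e.symm e.symm
      = T.transpose * (P * T) := by
    ext i j
    simp only [Matrix.submatrix_apply, Matrix.of_apply, hP, Matrix.mul_apply,
      Matrix.transpose_apply, dotProduct, Matrix.mulVec, hT]
  have hTdet : T.det ≠ 0 := by
    have h1 : T = (Pi.basisFun F κ).toMatrix (b.reindex e) := by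
      ext k j
      simp [hT, Module.Basis.toMatrix_apply]
    rw [h1, ← Module.Basis.det_apply]
    exact (Module.Basis.isUnit_det _ _).ne_zero
  rw [← Matrix.det_submatrix_equiv_self e.symm, hG, Matrix.det_mul, Matrix.det_mul,
    Matrix.det_transpose]
  constructor
  · rintro ⟨r, hr⟩
    refine ⟨r / T.det, ?_⟩
    rw [div_mul_div_comm, ← hr]
    field_simp
  · rintro ⟨r, hr⟩
    exact ⟨T.det * r, by rw [hr]; ring⟩

theorem polar_quadFormPlus {F : Type*} [Field F] (m : ℕ) (u v : Fin m ⊕ Fin m → F) :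
    QuadraticMap.polar (Cfsg.quadFormPlus m F) u v
      = u ⬝ᵥ (Matrix.fromBlocks 0 1 1 0 :
          Matrix (Fin m ⊕ Fin m) (Fin m ⊕ Fin m) F).mulVec v := by
  have hR : u ⬝ᵥ (Matrix.fromBlocks 0 1 1 0 :
          Matrix (Fin m ⊕ Fin m) (Fin m ⊕ Fin m) F).mulVec v
      = ∑ i : Fin m, u (.inl i) * v (.inr i) + ∑ i : Fin m, u (.inr i) * v (.inl i) := by
    rw [Matrix.fromBlocks_mulVec]
    simp [dotProduct, Fintype.sum_sum_type]
  rw [hR]
  have key : ∀ i : Fin m, (u + v) (.inl i) * (u + v) (.inr i)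
      = u (.inl i) * u (.inr i) + v (.inl i) * v (.inr i)
        + (u (.inl i) * v (.inr i) + u (.inr i) * v (.inl i)) := by
    intro i
    simp only [Pi.add_apply]
    ring
  simp only [QuadraticMap.polar, Cfsg.quadFormPlus, key, Finset.sum_add_distrib]
  ring

theorem det_swapBlocks {F : Type*} [Field F] (m : ℕ) :
    (Matrix.fromBlocks 0 1 1 0 : Matrix (Fin m ⊕ Fin m) (Fin m ⊕ Fin m) F).det = (-1) ^ m := by
  have h1 : (Matrix.fromBlocks 0 1 1 0 : Matrix (Fin m ⊕ Fin m) (Fin m ⊕ Fin m) F)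
      * Matrix.fromBlocks 1 0 1 1 = Matrix.fromBlocks 1 1 1 0 := by
    rw [Matrix.fromBlocks_multiply]
    simp
  have h2 := congrArg Matrix.det h1
  rw [Matrix.det_mul, Matrix.det_fromBlocks_zero₁₂, Matrix.det_fromBlocks_one₁₁] at h2
  simpa [Matrix.det_neg] using h2

theorem polar_quadFormMinus {F : Type*} [Field F] (m : ℕ) (a c : F)
    (u v : (Fin m ⊕ Fin m) ⊕ Fin 2 → F) :
    QuadraticMap.polar (Cfsg.quadFormMinus m F a c) u v
      = u ⬝ᵥ (Matrix.fromBlocks (Matrix.fromBlocks 0 1 1 0) 0 0 !![2, a; a, 2 * c] :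
          Matrix ((Fin m ⊕ Fin m) ⊕ Fin 2) ((Fin m ⊕ Fin m) ⊕ Fin 2) F).mulVec v := by
  have hR : u ⬝ᵥ (Matrix.fromBlocks (Matrix.fromBlocks 0 1 1 0) 0 0 !![2, a; a, 2 * c] :
          Matrix ((Fin m ⊕ Fin m) ⊕ Fin 2) ((Fin m ⊕ Fin m) ⊕ Fin 2) F).mulVec v
      = (∑ i : Fin m, u (.inl (.inl i)) * v (.inl (.inr i))
          + ∑ i : Fin m, u (.inl (.inr i)) * v (.inl (.inl i)))
        + (u (.inr 0) * (2 * v (.inr 0) + a * v (.inr 1))
            + u (.inr 1) * (a * v (.inr 0) + 2 * c * v (.inr 1))) := by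
    rw [Matrix.fromBlocks_mulVec, Matrix.fromBlocks_mulVec]
    simp [dotProduct, Fintype.sum_sum_type, Fin.sum_univ_two]
  rw [hR]
  have key : ∀ i : Fin m, (u + v) (.inl (.inl i)) * (u + v) (.inl (.inr i))
      = u (.inl (.inl i)) * u (.inl (.inr i)) + v (.inl (.inl i)) * v (.inl (.inr i))
        + (u (.inl (.inl i)) * v (.inl (.inr i)) + u (.inl (.inr i)) * v (.inl (.inl i))) := by
    intro i
    simp only [Pi.add_apply]
    ring
  simp only [QuadraticMap.polar, Cfsg.quadFormMinus, key, Finset.sum_add_distrib]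
  simp only [Pi.add_apply]
  ring

end Cfsg.Agent.Helper15
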