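import Mathlib

set_option autoImplicit false

namespace Cfsg.Agent.Helper15

open Module LinearMap

theorem finrank_ker_comp_le {K V : Type*} [Field K] [AddCommGroup V] [Module K V]
    [FiniteDimensional K V] (f g : V →ₗ[K] V) :
    finrank K (ker (g ∘ₗ f)) ≤ finrank K (ker f) + finrank K (ker g) := by
  let φ : ker (g ∘ₗ f) →ₗ[K] ker g :=
    (f.domRestrict (ker (g ∘ₗ f))).codRestrict (ker g) (fun x => by
      have h := x.2
      rw [LinearMap.mem_ker, LinearMap.comp_apply] at h
      rw [LinearMap.mem_ker]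
      exact h)
  have h1 := LinearMap.finrank_range_add_finrank_ker φ
  have h2 : finrank K (range φ) ≤ finrank K (ker g) := Submodule.finrank_le _
  have h3 : finrank K (ker φ) ≤ finrank K (ker f) := by
    rw [← Submodule.finrank_map_subtype_eq]
    apply Submodule.finrank_mono
    rintro x ⟨y, hy, rfl⟩
    have hy' : φ y = 0 := hy
    have : (φ y : V) = 0 := by rw [hy']; rfl
    simpa [LinearMap.mem_ker, φ] using this
  omega

theorem finrank_ker_pow_le {K V : Type*} [Field K] [AddCommGroup V] [Module K V]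
    [FiniteDimensional K V] (f : V →ₗ[K] V) (k : ℕ) :
    finrank K (ker (f ^ k)) ≤ k * finrank K (ker f) := by
  induction k with
  | zero =>
    have : ker (f ^ 0) = ⊥ := by
      rw [pow_zero]; exact LinearMap.ker_id
    rw [this]; simp
  | succ k ih =>
    have h : f ^ (k + 1) = (f ^ k) ∘ₗ f := by rw [pow_succ]; rfl
    rw [h]
    have := finrank_ker_comp_le f (f ^ k)
    calc finrank K (ker ((f ^ k) ∘ₗ f)) ≤ finrank K (ker f) + finrank K (ker (f ^ k)) := this
      _ ≤ finrank K (ker f) + k * finrank K (ker f) := by omega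
      _ = (k + 1) * finrank K (ker f) := by ring

/-- Invariant subspaces of a nilpotent endomorphism with one-dimensional kernel. -/
theorem invariant_eq_ker_pow {K V : Type*} [Field K] [AddCommGroup V] [Module K V]
    [FiniteDimensional K V] (f : V →ₗ[K] V) (m : ℕ) (hnil : f ^ m = 0)
    (hker : finrank K (ker f) ≤ 1) (W : Submodule K V) (hW : ∀ v ∈ W, f v ∈ W) :
    W = ker (f ^ finrank K W) := by
  have hle : W ≤ ker (f ^ finrank K W) := by
    intro w hw
    have h1 : (f.restrict hW) ^ m = 0 := by
      rw [Module.End.pow_restrict m hW]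
      ext x
      simp [hnil]
    have h2 := Module.End.ker_pow_le_ker_pow_finrank (f.restrict hW) m
    have h3 : (⟨w, hw⟩ : W) ∈ ker ((f.restrict hW) ^ m) := by
      rw [h1]; simp
    have h4 := h2 h3
    rw [LinearMap.mem_ker, Module.End.pow_restrict _ hW] at h4
    rw [LinearMap.mem_ker]
    have := congrArg Subtype.val h4
    simpa using this
  apply Submodule.eq_of_le_of_finrank_le hle
  calc finrank K (ker (f ^ finrank K W)) ≤ finrank K W * finrank K (ker f) := finrank_ker_pow_le f _
    _ ≤ finrank K W * 1 := Nat.mul_le_mul_left _ hker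
    _ = finrank K W := Nat.mul_one _

theorem finrank_ker_mulVecLin_le_one {F : Type*} [Field F] {n : ℕ} (N : Matrix (Fin n) (Fin n) F)
    (hreg : N.rank = n - 1) : finrank F (ker (Matrix.mulVecLin N)) ≤ 1 := by
  have h1 := LinearMap.finrank_range_add_finrank_ker (Matrix.mulVecLin N)
  have h2 : finrank F (range (Matrix.mulVecLin N)) = n - 1 := hreg
  have h3 : finrank F (Fin n → F) = n := by simp
  omega

theorem mulVecLin_pow' {F : Type*} [Field F] {n : ℕ} (N : Matrix (Fin n) (Fin n) F) (k : ℕ) :
    Matrix.mulVecLin (N ^ k) = (Matrix.mulVecLin N) ^ k := by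
  have := Matrix.toLin'_pow N k
  simpa [Matrix.toLin'_apply'] using this

theorem finrank_ker_mulVecLin_le_one' {F : Type*} [Field F] {ι : Type*} [Fintype ι] [DecidableEq ι]
    (N : Matrix ι ι F) (hreg : N.rank = Fintype.card ι - 1) :
    finrank F (ker (Matrix.mulVecLin N)) ≤ 1 := by
  have h1 := LinearMap.finrank_range_add_finrank_ker (Matrix.mulVecLin N)
  have h2 : finrank F (range (Matrix.mulVecLin N)) = Fintype.card ι - 1 := hreg
  have h3 : finrank F (ι → F) = Fintype.card ι := by simp
  omega

theorem mulVecLin_pow'' {F : Type*} [Field F] {ι : Type*} [Fintype ι] [DecidableEq ι]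
    (N : Matrix ι ι F) (k : ℕ) :
    Matrix.mulVecLin (N ^ k) = (Matrix.mulVecLin N) ^ k := by
  have := Matrix.toLin'_pow N k
  simpa [Matrix.toLin'_apply'] using this

theorem ker_pow_mono' {K V : Type*} [Field K] [AddCommGroup V] [Module K V]
    (f : V →ₗ[K] V) {a b : ℕ} (hab : a ≤ b) : ker (f ^ a) ≤ ker (f ^ b) := by
  obtain ⟨c, rfl⟩ := Nat.exists_eq_add_of_le hab
  intro x hx
  rw [LinearMap.mem_ker] at hx ⊢
  rw [add_comm, pow_add, Module.End.mul_apply, hx, map_zero]

end Cfsg.Agent.Helper15
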