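import Mathlib

set_option autoImplicit false

namespace Cfsg.Agent.Helper15
open Polynomial

universe u

theorem det_aeval_irred_factor {F : Type u} [Field F] {ι : Type*} [Fintype ι] [DecidableEq ι]
    (A : Matrix ι ι F) (π : F[X]) (hπ : Irreducible π) (hdvd : π ∣ A.charpoly) :
    (Polynomial.aeval A π).det = 0 := by
  haveI : Fact (Irreducible π) := ⟨hπ⟩
  have hroot : ((A.map (algebraMap F (AdjoinRoot π))).charpoly).IsRoot (AdjoinRoot.root π) := by
    rw [Matrix.charpoly_map]
    obtain ⟨r, hr⟩ := hdvd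
    have h1 := AdjoinRoot.isRoot_root π
    rw [IsRoot] at h1
    rw [hr, Polynomial.map_mul, IsRoot, eval_mul, AdjoinRoot.algebraMap_eq, h1, zero_mul]
  have hdet0 : (Matrix.scalar ι (AdjoinRoot.root π) - A.map (algebraMap F (AdjoinRoot π))).det = 0 := by
    rw [← Matrix.eval_charpoly]
    exact hroot
  have hdet1 : (A.map (algebraMap F (AdjoinRoot π)) - Matrix.scalar ι (AdjoinRoot.root π)).det = 0 := by
    rw [← neg_sub, Matrix.det_neg, hdet0, mul_zero]
  have hfac : (X - C (AdjoinRoot.root π)) ∣ π.map (algebraMap F (AdjoinRoot π)) :=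
    dvd_iff_isRoot.2 (AdjoinRoot.isRoot_root π)
  obtain ⟨ρ, hρ⟩ := hfac
  have h1 : Polynomial.aeval (A.map (algebraMap F (AdjoinRoot π)))
        (π.map (algebraMap F (AdjoinRoot π)))
      = (Polynomial.aeval A π).map (algebraMap F (AdjoinRoot π)) := by
    rw [Polynomial.aeval_map_algebraMap]
    exact Polynomial.aeval_algHom_apply
      (AlgHom.mapMatrix (Algebra.ofId F (AdjoinRoot π)) (m := ι)) A π
  have h2 : Polynomial.aeval (A.map (algebraMap F (AdjoinRoot π)))
        (π.map (algebraMap F (AdjoinRoot π)))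
      = (A.map (algebraMap F (AdjoinRoot π)) - Matrix.scalar ι (AdjoinRoot.root π))
        * Polynomial.aeval (A.map (algebraMap F (AdjoinRoot π))) ρ := by
    rw [hρ, map_mul, map_sub, aeval_X, aeval_C]
    rfl
  have h3 : ((Polynomial.aeval A π).map (algebraMap F (AdjoinRoot π))).det = 0 := by
    rw [← h1, h2, Matrix.det_mul, hdet1, zero_mul]
  have h4 : algebraMap F (AdjoinRoot π) ((Polynomial.aeval A π).det) = 0 := by
    rw [RingHom.map_det]
    exact h3
  exact (map_eq_zero (algebraMap F (AdjoinRoot π))).1 h4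

theorem exists_ker_aeval_irred {F : Type u} [Field F] {V : Type*} [AddCommGroup V] [Module F V]
    [FiniteDimensional F V] (g : V →ₗ[F] V) (π : F[X]) (hπ : Irreducible π)
    (hdvd : π ∣ g.charpoly) :
    ∃ v : V, v ≠ 0 ∧ (Polynomial.aeval g π) v = 0 := by
  classical
  have h1 : (LinearMap.toMatrix (Module.finBasis F V) (Module.finBasis F V) g).charpoly
      = g.charpoly := LinearMap.charpoly_toMatrix g (Module.finBasis F V)
  have h2 : (Polynomial.aeval (LinearMap.toMatrix (Module.finBasis F V) (Module.finBasis F V) g)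
      π).det = 0 :=
    det_aeval_irred_factor _ π hπ (h1 ▸ hdvd)
  have h3 : Polynomial.aeval (LinearMap.toMatrix (Module.finBasis F V) (Module.finBasis F V) g) π
      = LinearMap.toMatrix (Module.finBasis F V) (Module.finBasis F V) (Polynomial.aeval g π) :=
    Polynomial.aeval_algHom_apply (LinearMap.toMatrixAlgEquiv (Module.finBasis F V)) g π
  rw [h3, LinearMap.det_toMatrix] at h2
  have h4 := LinearMap.bot_lt_ker_of_det_eq_zero h2
  obtain ⟨v, hv, hv0⟩ := Submodule.exists_mem_ne_zero_of_ne_bot h4.ne'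
  exact ⟨v, hv0, LinearMap.mem_ker.1 hv⟩

noncomputable def cycMap {F : Type u} [Field F] {V : Type*} [AddCommGroup V] [Module F V]
    (g : V →ₗ[F] V) (v : V) : F[X] →ₗ[F] V where
  toFun f := (Polynomial.aeval g f) v
  map_add' := fun a b => by simp
  map_smul' := fun c a => by simp

theorem cycMap_apply {F : Type u} [Field F] {V : Type*} [AddCommGroup V] [Module F V]
    (g : V →ₗ[F] V) (v : V) (f : F[X]) : cycMap g v f = (Polynomial.aeval g f) v := rfl

theorem cycMap_X_mul {F : Type u} [Field F] {V : Type*} [AddCommGroup V] [Module F V]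
    (g : V →ₗ[F] V) (v : V) (f : F[X]) : cycMap g v (X * f) = g (cycMap g v f) := by
  rw [cycMap_apply, cycMap_apply, map_mul, aeval_X, Module.End.mul_apply]

theorem cycMap_eq_zero_iff {F : Type u} [Field F] {V : Type*} [AddCommGroup V] [Module F V]
    (g : V →ₗ[F] V) (v : V) (hv : v ≠ 0) (π : F[X]) (hπ : Irreducible π)
    (h0 : (Polynomial.aeval g π) v = 0) (f : F[X]) :
    cycMap g v f = 0 ↔ π ∣ f := by
  constructor
  · intro hf
    by_contra hnd
    have hcop : IsCoprime π f := (Irreducible.coprime_iff_not_dvd hπ).2 hnd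
    obtain ⟨a, b, hab⟩ := hcop
    apply hv
    have h1 : (Polynomial.aeval g (a * π + b * f)) v = v := by
      rw [hab, map_one]
      rfl
    rw [map_add, map_mul, map_mul, LinearMap.add_apply, Module.End.mul_apply, Module.End.mul_apply,
      h0, map_zero, zero_add] at h1
    rw [← h1, show (Polynomial.aeval g f) v = 0 from hf, map_zero]
  · rintro ⟨r, rfl⟩
    rw [cycMap_apply, mul_comm, map_mul, Module.End.mul_apply, h0, map_zero]

theorem cyc_equiv {F : Type u} [Field F] {V V' : Type u} [AddCommGroup V] [Module F V]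
    [AddCommGroup V'] [Module F V'] (g : V →ₗ[F] V) (h : V' →ₗ[F] V') (v : V) (v' : V')
    (hker : LinearMap.ker (cycMap g v) = LinearMap.ker (cycMap h v'))
    (hWg : ∀ x ∈ LinearMap.range (cycMap g v), g x ∈ LinearMap.range (cycMap g v))
    (hWh : ∀ x ∈ LinearMap.range (cycMap h v'), h x ∈ LinearMap.range (cycMap h v')) :
    ∃ T : LinearMap.range (cycMap g v) ≃ₗ[F] LinearMap.range (cycMap h v'),
      ∀ w, T (g.restrict hWg w) = h.restrict hWh (T w) := by
  let T : LinearMap.range (cycMap g v) ≃ₗ[F] LinearMap.range (cycMap h v') :=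
    (cycMap g v).quotKerEquivRange.symm ≪≫ₗ (Submodule.quotEquivOfEq _ _ hker) ≪≫ₗ
      (cycMap h v').quotKerEquivRange
  have key : ∀ (f : F[X]) (hf : cycMap g v f ∈ LinearMap.range (cycMap g v)),
      T ⟨cycMap g v f, hf⟩ = ⟨cycMap h v' f, LinearMap.mem_range_self _ f⟩ := by
    intro f hf
    apply Subtype.ext
    simp only [T, LinearEquiv.trans_apply]
    rw [LinearMap.quotKerEquivRange_symm_apply_image]
    rfl
  refine ⟨T, ?_⟩
  intro w
  obtain ⟨f, hf⟩ := w.2
  have hw : w = ⟨cycMap g v f, LinearMap.mem_range_self _ f⟩ := Subtype.ext hf.symm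
  rw [hw]
  apply Subtype.ext
  have h1 : g.restrict hWg ⟨cycMap g v f, LinearMap.mem_range_self _ f⟩
      = ⟨cycMap g v (X * f), LinearMap.mem_range_self _ _⟩ :=
    Subtype.ext (by rw [LinearMap.coe_restrict_apply]; exact (cycMap_X_mul g v f).symm)
  rw [h1, key (X * f) (LinearMap.mem_range_self _ _), LinearMap.coe_restrict_apply,
    key f (LinearMap.mem_range_self _ f)]
  exact cycMap_X_mul h v' f

theorem charpoly_of_isCompl {F : Type u} [Field F] {V : Type u} [AddCommGroup V] [Module F V]
    [FiniteDimensional F V] (g : V →ₗ[F] V) (W W2 : Submodule F V)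
    (hW : ∀ x ∈ W, g x ∈ W) (hW2 : ∀ x ∈ W2, g x ∈ W2) (hc : IsCompl W W2) :
    g.charpoly = (g.restrict hW).charpoly * (g.restrict hW2).charpoly := by
  have key : g = (Submodule.prodEquivOfIsCompl W W2 hc).conj
      ((g.restrict hW).prodMap (g.restrict hW2)) := by
    apply LinearMap.ext
    intro x
    obtain ⟨y, rfl⟩ := (Submodule.prodEquivOfIsCompl W W2 hc).surjective x
    rw [LinearEquiv.conj_apply_apply, LinearEquiv.symm_apply_apply,
      Submodule.coe_prodEquivOfIsCompl', Submodule.coe_prodEquivOfIsCompl', map_add]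
    rfl
  conv_lhs => rw [key]
  rw [LinearEquiv.charpoly_conj, LinearMap.charpoly_prodMap]

theorem glue_equiv {F : Type u} [Field F] {V V' : Type u} [AddCommGroup V] [Module F V]
    [AddCommGroup V'] [Module F V'] (g : V →ₗ[F] V) (h : V' →ₗ[F] V')
    (W W2 : Submodule F V) (W' W2' : Submodule F V') (hc : IsCompl W W2) (hc' : IsCompl W' W2')
    (hW : ∀ x ∈ W, g x ∈ W) (hW2 : ∀ x ∈ W2, g x ∈ W2)
    (hW' : ∀ x ∈ W', h x ∈ W') (hW2' : ∀ x ∈ W2', h x ∈ W2')
    (T1 : W ≃ₗ[F] W') (T2 : W2 ≃ₗ[F] W2')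
    (h1 : ∀ w, T1 (g.restrict hW w) = h.restrict hW' (T1 w))
    (h2 : ∀ w, T2 (g.restrict hW2 w) = h.restrict hW2' (T2 w)) :
    ∃ T : V ≃ₗ[F] V', ∀ v, T (g v) = h (T v) := by
  refine ⟨(Submodule.prodEquivOfIsCompl W W2 hc).symm ≪≫ₗ (T1.prodCongr T2) ≪≫ₗ
    (Submodule.prodEquivOfIsCompl W' W2' hc'), ?_⟩
  intro x
  obtain ⟨y, rfl⟩ := (Submodule.prodEquivOfIsCompl W W2 hc).surjective x
  have hg : g (Submodule.prodEquivOfIsCompl W W2 hc y)
      = Submodule.prodEquivOfIsCompl W W2 hc (g.restrict hW y.1, g.restrict hW2 y.2) := by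
    rw [Submodule.coe_prodEquivOfIsCompl', Submodule.coe_prodEquivOfIsCompl', map_add]
    rfl
  rw [hg]
  simp only [LinearEquiv.trans_apply, LinearEquiv.symm_apply_apply, LinearEquiv.prodCongr_apply]
  rw [h1, h2, Submodule.coe_prodEquivOfIsCompl', Submodule.coe_prodEquivOfIsCompl', map_add]
  rfl

theorem restrict_pow_one {F : Type u} [Field F] {V : Type*} [AddCommGroup V] [Module F V]
    (g : V →ₗ[F] V) (W : Submodule F V) (hW : ∀ x ∈ W, g x ∈ W) (m : ℕ) (hg : g ^ m = 1) :
    (g.restrict hW) ^ m = 1 := by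
  have key : ∀ (k : ℕ) (w : W), (((g.restrict hW) ^ k) w : V) = (g ^ k) (w : V) := by
    intro k
    induction k with
    | zero => intro w; rfl
    | succ k ih =>
      intro w
      rw [pow_succ, pow_succ, Module.End.mul_apply, Module.End.mul_apply, ih,
        LinearMap.coe_restrict_apply]
  apply LinearMap.ext
  intro w
  apply Subtype.ext
  rw [key, hg]
  rfl

theorem semi_conj_aux {F : Type u} [Field F] (m : ℕ) (hm : (m : F) ≠ 0) :
    ∀ (n : ℕ) (V V' : Type u) [AddCommGroup V] [Module F V] [FiniteDimensional F V]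
      [AddCommGroup V'] [Module F V'] [FiniteDimensional F V']
      (g : V →ₗ[F] V) (h : V' →ₗ[F] V'),
      Module.finrank F V = n → g ^ m = 1 → h ^ m = 1 → g.charpoly = h.charpoly →
      ∃ T : V ≃ₗ[F] V', ∀ v, T (g v) = h (T v) := by
  intro n
  induction n using Nat.strong_induction_on with
  | _ n ih =>
    intro V V' _ _ _ _ _ _ g h hn hg hh hc
    have hn' : Module.finrank F V' = n := by
      rw [← hn, ← LinearMap.charpoly_natDegree g, ← LinearMap.charpoly_natDegree h, hc]
    rcases Nat.eq_zero_or_pos n with h0 | hpos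
    · have : Subsingleton V := Module.finrank_zero_iff.1 (hn.trans h0)
      have : Subsingleton V' := Module.finrank_zero_iff.1 (hn'.trans h0)
      exact ⟨LinearEquiv.ofSubsingleton V V', fun v => Subsingleton.elim _ _⟩
    · have hdeg : g.charpoly.natDegree = n := by rw [LinearMap.charpoly_natDegree, hn]
      have hne0 : g.charpoly ≠ 0 := (LinearMap.charpoly_monic g).ne_zero
      have hnu : ¬ IsUnit g.charpoly := by
        intro hu
        have := Polynomial.natDegree_eq_zero_of_isUnit hu
        omega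
      obtain ⟨π, hπ, hπd⟩ := WfDvdMonoid.exists_irreducible_factor hnu hne0
      obtain ⟨v, hv, hv0⟩ := exists_ker_aeval_irred g π hπ hπd
      obtain ⟨v', hv', hv0'⟩ := exists_ker_aeval_irred h π hπ (hc ▸ hπd)
      have hker : LinearMap.ker (cycMap g v) = LinearMap.ker (cycMap h v') := by
        ext f
        rw [LinearMap.mem_ker, LinearMap.mem_ker, cycMap_eq_zero_iff g v hv π hπ hv0,
          cycMap_eq_zero_iff h v' hv' π hπ hv0']
      have hWg : ∀ x ∈ LinearMap.range (cycMap g v), g x ∈ LinearMap.range (cycMap g v) := by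
        rintro x ⟨f, rfl⟩
        exact ⟨X * f, cycMap_X_mul g v f⟩
      have hWh : ∀ x ∈ LinearMap.range (cycMap h v'), h x ∈ LinearMap.range (cycMap h v') := by
        rintro x ⟨f, rfl⟩
        exact ⟨X * f, cycMap_X_mul h v' f⟩
      obtain ⟨TW, hTW⟩ := cyc_equiv g h v v' hker hWg hWh
      have hsq : Squarefree (X ^ m - 1 : F[X]) := by
        have h1 := Polynomial.separable_X_pow_sub_C (1 : F) hm one_ne_zero
        rw [map_one] at h1
        exact h1.squarefree
      have hgs : Module.End.IsSemisimple g :=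
        Module.End.isSemisimple_of_squarefree_aeval_eq_zero hsq
          (by rw [map_sub, map_pow, aeval_X, map_one, hg, sub_self])
      have hhs : Module.End.IsSemisimple h :=
        Module.End.isSemisimple_of_squarefree_aeval_eq_zero hsq
          (by rw [map_sub, map_pow, aeval_X, map_one, hh, sub_self])
      obtain ⟨W2, hW2m, hcomp⟩ := Module.End.isSemisimple_iff.1 hgs _
        ((Module.End.mem_invtSubmodule_iff_forall_mem_of_mem g).2 hWg)
      obtain ⟨W2', hW2m', hcomp'⟩ := Module.End.isSemisimple_iff.1 hhs _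
        ((Module.End.mem_invtSubmodule_iff_forall_mem_of_mem h).2 hWh)
      have hW2 : ∀ x ∈ W2, g x ∈ W2 := (Module.End.mem_invtSubmodule_iff_forall_mem_of_mem g).1 hW2m
      have hW2' : ∀ x ∈ W2', h x ∈ W2' :=
        (Module.End.mem_invtSubmodule_iff_forall_mem_of_mem h).1 hW2m'
      have hχW : (g.restrict hWg).charpoly = (h.restrict hWh).charpoly := by
        have h1 : TW.conj (g.restrict hWg) = h.restrict hWh := by
          apply LinearMap.ext
          intro w
          rw [LinearEquiv.conj_apply_apply, hTW, LinearEquiv.apply_symm_apply]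
        rw [← h1, LinearEquiv.charpoly_conj]
      have e1 := charpoly_of_isCompl g _ W2 hWg hW2 hcomp
      have e2 := charpoly_of_isCompl h _ W2' hWh hW2' hcomp'
      have hχ2 : (g.restrict hW2).charpoly = (h.restrict hW2').charpoly := by
        have h3 : (g.restrict hWg).charpoly * (g.restrict hW2).charpoly
            = (g.restrict hWg).charpoly * (h.restrict hW2').charpoly := by
          rw [← e1, hχW, ← e2, hc]
        exact mul_left_cancel₀ (LinearMap.charpoly_monic _).ne_zero h3
      have hdim : Module.finrank F W2 < n := by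
        have h5 := Submodule.finrank_add_eq_of_isCompl hcomp
        have h6 : 0 < Module.finrank F (LinearMap.range (cycMap g v)) := by
          apply Module.finrank_pos_iff_exists_ne_zero.2
          refine ⟨⟨v, ⟨1, by simp [cycMap_apply]⟩⟩, ?_⟩
          intro h7
          exact hv (congrArg Subtype.val h7)
        omega
      have hpow2 : (g.restrict hW2) ^ m = 1 := restrict_pow_one g W2 hW2 m hg
      have hpow2' : (h.restrict hW2') ^ m = 1 := restrict_pow_one h W2' hW2' m hh
      obtain ⟨T2, hT2⟩ := ih (Module.finrank F W2) hdim W2 W2' (g.restrict hW2)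
        (h.restrict hW2') rfl hpow2 hpow2' hχ2
      exact glue_equiv g h _ W2 _ W2' hcomp hcomp' hWg hW2 hWh hW2' TW T2 hTW hT2

theorem gl_conj_of_charpoly {F : Type u} [Field F] {n : ℕ} (m : ℕ) (hm : (m : F) ≠ 0)
    (A B : Matrix (Fin n) (Fin n) F) (hA : A ^ m = 1) (hB : B ^ m = 1)
    (hc : A.charpoly = B.charpoly) :
    ∃ P P' : Matrix (Fin n) (Fin n) F, P * P' = 1 ∧ P' * P = 1 ∧ P * A = B * P := by
  obtain ⟨T, hT⟩ := semi_conj_aux m hm (Module.finrank F (Fin n → F)) (Fin n → F) (Fin n → F)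
    (Matrix.toLin' A) (Matrix.toLin' B) rfl
    (by rw [← Matrix.toLin'_pow, hA, Matrix.toLin'_one]; rfl)
    (by rw [← Matrix.toLin'_pow, hB, Matrix.toLin'_one]; rfl)
    (by rw [Matrix.charpoly_toLin', Matrix.charpoly_toLin', hc])
  refine ⟨LinearMap.toMatrix' T.toLinearMap, LinearMap.toMatrix' T.symm.toLinearMap, ?_, ?_, ?_⟩
  · rw [← LinearMap.toMatrix'_comp]
    have : T.toLinearMap ∘ₗ T.symm.toLinearMap = LinearMap.id :=
      LinearMap.ext fun x => T.apply_symm_apply x
    rw [this, LinearMap.toMatrix'_id]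
  · rw [← LinearMap.toMatrix'_comp]
    have : T.symm.toLinearMap ∘ₗ T.toLinearMap = LinearMap.id :=
      LinearMap.ext fun x => T.symm_apply_apply x
    rw [this, LinearMap.toMatrix'_id]
  · have h1 : T.toLinearMap ∘ₗ Matrix.toLin' A = Matrix.toLin' B ∘ₗ T.toLinearMap :=
      LinearMap.ext hT
    have h2 := congrArg LinearMap.toMatrix' h1
    rwa [LinearMap.toMatrix'_comp, LinearMap.toMatrix'_comp, LinearMap.toMatrix'_toLin',
      LinearMap.toMatrix'_toLin'] at h2

end Cfsg.Agent.Helper15
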