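import Mathlib
import Cfsg.Agent.Helper15.SemiConj1

set_option autoImplicit false

namespace Cfsg.Agent.Helper15
open Polynomial

universe u

structure IsoPack {F : Type u} [Field F] {V : Type u} [AddCommGroup V] [Module F V]
    (B : LinearMap.BilinForm F V) (g : V →ₗ[F] V) (m : ℕ) : Prop where
  alt : ∀ u, B u u = 0
  nd : ∀ u, (∀ w, B u w = 0) → u = 0
  iso : ∀ u w, B (g u) (g w) = B u w
  pow : g ^ m = 1
  mpos : 1 ≤ m

theorem range_equiv {F : Type u} [Field F] {V V' P : Type u} [AddCommGroup V] [Module F V]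
    [AddCommGroup V'] [Module F V'] [AddCommGroup P] [Module F P]
    (Φ : P →ₗ[F] V) (Φ' : P →ₗ[F] V') (hker : LinearMap.ker Φ = LinearMap.ker Φ') :
    ∃ T : LinearMap.range Φ ≃ₗ[F] LinearMap.range Φ',
      ∀ x : P, T ⟨Φ x, LinearMap.mem_range_self _ x⟩ = ⟨Φ' x, LinearMap.mem_range_self _ x⟩ := by
  refine ⟨Φ.quotKerEquivRange.symm ≪≫ₗ (Submodule.quotEquivOfEq _ _ hker) ≪≫ₗ
      Φ'.quotKerEquivRange, ?_⟩
  intro x
  apply Subtype.ext
  simp only [LinearEquiv.trans_apply]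
  rw [LinearMap.quotKerEquivRange_symm_apply_image]
  rfl

section
variable {F : Type u} [Field F] {V : Type u} [AddCommGroup V] [Module F V]
  {B : LinearMap.BilinForm F V} {g : V →ₗ[F] V} {m : ℕ}

theorem IsoPack.skew (hP : IsoPack B g m) (u w : V) : B u w = - B w u := by
  have h1 := hP.alt (u + w)
  simp only [map_add, LinearMap.add_apply, hP.alt, zero_add, add_zero] at h1
  exact eq_neg_of_add_eq_zero_right h1

theorem IsoPack.gk (hP : IsoPack B g m) (x : V) : g ((g ^ (m - 1)) x) = x := by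
  have h1 : g * g ^ (m - 1) = 1 := by
    rw [← pow_succ', Nat.sub_add_cancel hP.mpos, hP.pow]
  exact congrArg (fun φ : V →ₗ[F] V => φ x) h1

theorem IsoPack.kg (hP : IsoPack B g m) (x : V) : (g ^ (m - 1)) (g x) = x := by
  have h1 : g ^ (m - 1) * g = 1 := by
    rw [← pow_succ, Nat.sub_add_cancel hP.mpos, hP.pow]
  exact congrArg (fun φ : V →ₗ[F] V => φ x) h1

theorem IsoPack.adj1 (hP : IsoPack B g m) (u w : V) : B (g u) w = B u ((g ^ (m - 1)) w) := by
  have h1 := hP.iso u ((g ^ (m - 1)) w)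
  rw [hP.gk] at h1
  exact h1

theorem IsoPack.swap (hP : IsoPack B g m) : IsoPack B (g ^ (m - 1)) m where
  alt := hP.alt
  nd := hP.nd
  iso := fun u w => by
    have h1 := hP.iso ((g ^ (m - 1)) u) ((g ^ (m - 1)) w)
    rw [hP.gk, hP.gk] at h1
    exact h1.symm
  pow := by rw [← pow_mul, mul_comm, pow_mul, hP.pow, one_pow]
  mpos := hP.mpos

theorem IsoPack.kk (hP : IsoPack B g m) : (g ^ (m - 1)) ^ (m - 1) = g := by
  rcases Nat.lt_or_ge m 2 with h | h
  · have hm1 : m = 1 := le_antisymm (by omega) hP.mpos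
    have h1 := hP.pow
    rw [hm1, pow_one] at h1
    rw [hm1, h1]
    simp
  · have h1 : (m - 1) * (m - 1) = m * (m - 2) + 1 := by
      obtain ⟨r, rfl⟩ : ∃ r, m = r + 2 := ⟨m - 2, by omega⟩
      have h2 : r + 2 - 1 = r + 1 := by omega
      have h3 : r + 2 - 2 = r := by omega
      rw [h2, h3]
      ring
    rw [← pow_mul, h1, pow_succ, pow_mul, hP.pow, one_pow, one_mul]

theorem IsoPack.adj_pow (hP : IsoPack B g m) (n : ℕ) (u w : V) :
    B ((g ^ n) u) w = B u (((g ^ (m - 1)) ^ n) w) := by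
  induction n generalizing u w with
  | zero => simp
  | succ n ih =>
    have h1 : (g ^ (n + 1)) u = (g ^ n) (g u) := by rw [pow_succ]; rfl
    have h2 : ((g ^ (m - 1)) ^ (n + 1)) w = (g ^ (m - 1)) (((g ^ (m - 1)) ^ n) w) := by
      rw [pow_succ']; rfl
    rw [h1, h2, ih, hP.adj1]

theorem IsoPack.adj (hP : IsoPack B g m) (f : F[X]) (u w : V) :
    B (aeval g f u) w = B u (aeval (g ^ (m - 1)) f w) := by
  induction f using Polynomial.induction_on' with
  | add p q hp hq =>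
    simp only [map_add, LinearMap.add_apply, hp, hq]
  | monomial n a =>
    simp only [aeval_monomial, Module.End.mul_apply, Module.algebraMap_end_apply, map_smul,
      LinearMap.smul_apply, hP.adj_pow]

theorem IsoPack.adj' (hP : IsoPack B g m) (f : F[X]) (u w : V) :
    B u (aeval g f w) = B (aeval (g ^ (m - 1)) f u) w := by
  rw [hP.skew, hP.adj, hP.skew, neg_neg]

theorem aeval_pow_comp (g : V →ₗ[F] V) (n : ℕ) (f : F[X]) :
    aeval (g ^ n) f = aeval g (f.comp (X ^ n)) := by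
  rw [aeval_comp, map_pow, aeval_X]

theorem aeval_comm_apply (g : V →ₗ[F] V) (f₁ f₂ : F[X]) (u : V) :
    aeval g f₁ (aeval g f₂ u) = aeval g f₂ (aeval g f₁ u) := by
  rw [← Module.End.mul_apply, ← map_mul, mul_comm, map_mul, Module.End.mul_apply]

theorem aeval_mul_apply (g : V →ₗ[F] V) (f₁ f₂ : F[X]) (u : V) :
    aeval g (f₁ * f₂) u = aeval g f₁ (aeval g f₂ u) := by
  rw [map_mul, Module.End.mul_apply]

theorem cyc_inv (g : V →ₗ[F] V) (π : F[X]) (hπ : Irreducible π) (v : V)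
    (hv : aeval g π v = 0) (f : F[X]) (hf : aeval g f v ≠ 0) :
    ∃ c : F[X], aeval g (c * f) v = v := by
  have hnd : ¬ π ∣ f := by
    rintro ⟨r, rfl⟩
    apply hf
    rw [mul_comm, aeval_mul_apply, hv, map_zero]
  obtain ⟨a, b, hab⟩ := (Irreducible.coprime_iff_not_dvd hπ).2 hnd
  refine ⟨b, ?_⟩
  have h1 : aeval g (a * π + b * f) v = v := by
    rw [hab, map_one]
    rfl
  rw [map_add, LinearMap.add_apply, aeval_mul_apply g a π, hv, map_zero, zero_add] at h1
  exact h1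

theorem dvd_pow_sub_one (hP : IsoPack B g m) (π : F[X]) (hπ : Irreducible π) (v : V)
    (hv : aeval g π v = 0) (hv0 : v ≠ 0) : π ∣ X ^ m - 1 := by
  apply (cycMap_eq_zero_iff g v hv0 π hπ hv (X ^ m - 1)).1
  rw [cycMap_apply, map_sub, map_pow, aeval_X, map_one, hP.pow, sub_self]
  rfl

theorem proj_poly (hm : (m : F) ≠ 0) (π : F[X]) (hπ : Irreducible π) (hπμ : π ∣ X ^ m - 1) :
    ∃ e a b : F[X], a * π + e = 1 ∧ π * e = b * (X ^ m - 1) := by
  obtain ⟨τ, hτ⟩ := hπμ
  have hsq : Squarefree (X ^ m - 1 : F[X]) := by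
    have h1 := Polynomial.separable_X_pow_sub_C (1 : F) hm one_ne_zero
    rw [map_one] at h1
    exact h1.squarefree
  have hcop : IsCoprime π τ := by
    apply (Irreducible.coprime_iff_not_dvd hπ).2
    rintro ⟨r, rfl⟩
    have h2 : π * π ∣ X ^ m - 1 := ⟨r, by rw [hτ]; ring⟩
    exact hπ.not_isUnit (hsq π h2)
  obtain ⟨a, b, hab⟩ := hcop
  exact ⟨b * τ, a, b, hab, by rw [hτ]; ring⟩

theorem hyp_isotropic (hP : IsoPack B g m) (π : F[X]) (hπ : Irreducible π)
    (hH : IsCoprime π (π.comp (X ^ (m - 1))) ∨ π ∣ X ^ 2 - 1) (u : V) (hu : aeval g π u = 0)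
    (f : F[X]) : B (aeval g f u) u = 0 := by
  rcases hH with hH | hH
  · obtain ⟨a, b, hab⟩ := hH
    have h1 : aeval g (a * π + b * π.comp (X ^ (m - 1))) u = u := by
      rw [hab, map_one]
      rfl
    rw [map_add, LinearMap.add_apply, aeval_mul_apply g a π, hu, map_zero, zero_add, mul_comm,
      aeval_mul_apply, ← aeval_pow_comp] at h1
    have h2 : B (aeval g f u) (aeval (g ^ (m - 1)) π (aeval g b u)) = 0 := by
      rw [← hP.adj, aeval_comm_apply, hu, map_zero, map_zero, LinearMap.zero_apply]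
    rw [h1] at h2
    exact h2
  · have hfac : (X ^ 2 - 1 : F[X]) = (X - C 1) * (X - C (-1)) := by
      simp only [map_neg, map_one]
      ring
    rw [hfac] at hH
    have key : ∀ ε : F, π ∣ X - C ε → B (aeval g f u) u = 0 := by
      rintro ε ⟨r, hr⟩
      have h1 : aeval g (X - C ε) u = 0 := by
        rw [hr, mul_comm, aeval_mul_apply, hu, map_zero]
      rw [map_sub, aeval_X, aeval_C, LinearMap.sub_apply, Module.algebraMap_end_apply,
        sub_eq_zero] at h1
      have h3 : ∀ n : ℕ, (g ^ n) u = ε ^ n • u := by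
        intro n
        induction n with
        | zero => simp
        | succ n ih =>
          have h4 : (g ^ (n + 1)) u = (g ^ n) (g u) := by rw [pow_succ]; rfl
          rw [h4, h1, map_smul, ih, smul_smul, pow_succ']
      have h2 : ∀ f : F[X], aeval g f u = f.eval ε • u := by
        intro f
        induction f using Polynomial.induction_on' with
        | add p q hp hq => rw [map_add, LinearMap.add_apply, hp, hq, eval_add, add_smul]
        | monomial n a =>
          rw [aeval_monomial, Module.End.mul_apply, Module.algebraMap_end_apply, eval_monomial,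
            h3, smul_smul]
      rw [h2, map_smul, LinearMap.smul_apply, hP.alt, smul_zero]
    rcases (hπ.prime.dvd_mul).1 hH with h | h
    · exact key 1 h
    · exact key (-1) h

theorem pair_exists (hm : (m : F) ≠ 0) (hP : IsoPack B g m) (π : F[X]) (hπ : Irreducible π)
    (v₁ : V) (hv₁ : aeval g π v₁ = 0) (hv₁0 : v₁ ≠ 0) :
    ∃ v₂ : V, aeval (g ^ (m - 1)) π v₂ = 0 ∧ B v₁ v₂ ≠ 0 := by
  have hw : ∃ w, B v₁ w ≠ 0 := by
    by_contra hcon
    push Not at hcon
    exact hv₁0 (hP.nd v₁ hcon)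
  obtain ⟨w, hw⟩ := hw
  obtain ⟨e, a, b, hab, hπe⟩ := proj_poly hm π hπ (dvd_pow_sub_one hP π hπ v₁ hv₁ hv₁0)
  refine ⟨aeval (g ^ (m - 1)) e w, ?_, ?_⟩
  · rw [← aeval_mul_apply, hπe, aeval_mul_apply]
    have h1 : aeval (g ^ (m - 1)) (X ^ m - 1 : F[X]) w = 0 := by
      rw [map_sub, map_pow, aeval_X, map_one, hP.swap.pow, sub_self]
      rfl
    rw [h1, map_zero]
  · rw [← hP.adj]
    have h1 : aeval g (a * π + e) v₁ = v₁ := by
      rw [hab, map_one]
      rfl
    rw [map_add, LinearMap.add_apply, aeval_mul_apply g a π, hv₁, map_zero, zero_add] at h1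
    rw [h1]
    exact hw

theorem pair_match {V' : Type u} [AddCommGroup V'] [Module F V'] [FiniteDimensional F V']
    {B' : LinearMap.BilinForm F V'} {h : V' →ₗ[F] V'}
    (hm : (m : F) ≠ 0) (hP : IsoPack B g m) (hP' : IsoPack B' h m) (π : F[X])
    (hπ : Irreducible π)
    (v₁ : V) (hv₁ : aeval g π v₁ = 0) (hv₁0 : v₁ ≠ 0) (v₂ : V)
    (v₁' : V') (hv₁' : aeval h π v₁' = 0) (hv₁0' : v₁' ≠ 0) :
    ∃ v₂' : V', aeval (h ^ (m - 1)) π v₂' = 0 ∧
      ∀ f : F[X], B' (aeval h f v₁') v₂' = B (aeval g f v₁) v₂ := by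
  have hker : LinearMap.ker (cycMap h v₁') = LinearMap.ker (cycMap g v₁) := by
    ext f
    rw [LinearMap.mem_ker, LinearMap.mem_ker, cycMap_eq_zero_iff h v₁' hv₁0' π hπ hv₁',
      cycMap_eq_zero_iff g v₁ hv₁0 π hπ hv₁]
  obtain ⟨Tc, hTc⟩ := range_equiv (cycMap h v₁') (cycMap g v₁) hker
  obtain ⟨φ', hφ'⟩ := LinearMap.exists_extend
    ((B.flip v₂) ∘ₗ (Submodule.subtype _) ∘ₗ Tc.toLinearMap)
  have hinj : Function.Injective (B' : V' →ₗ[F] Module.Dual F V') := by
    rw [injective_iff_map_eq_zero]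
    intro x hx
    apply hP'.nd
    intro w
    rw [hx]
    rfl
  have hsurj := (LinearMap.injective_iff_surjective_of_finrank_eq_finrank
    (Subspace.dual_finrank_eq (K := F) (V := V')).symm).1 hinj
  obtain ⟨w', hw'⟩ := hsurj φ'
  obtain ⟨e, a, b, hab, hπe⟩ := proj_poly hm π hπ (dvd_pow_sub_one hP π hπ v₁ hv₁ hv₁0)
  refine ⟨aeval (h ^ (m - 1)) e (-w'), ?_, ?_⟩
  · rw [← aeval_mul_apply, hπe, aeval_mul_apply]
    have h1 : aeval (h ^ (m - 1)) (X ^ m - 1 : F[X]) (-w') = 0 := by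
      rw [map_sub, map_pow, aeval_X, map_one, hP'.swap.pow, sub_self]
      rfl
    rw [h1, map_zero]
  · intro f
    rw [← hP'.adj]
    have h0 : aeval h π (aeval h f v₁') = 0 := by
      rw [aeval_comm_apply, hv₁', map_zero]
    have h1 : aeval h (a * π + e) (aeval h f v₁') = aeval h f v₁' := by
      rw [hab, map_one]
      rfl
    rw [map_add, LinearMap.add_apply, aeval_mul_apply h a π, h0, map_zero, zero_add] at h1
    rw [h1, map_neg, hP'.skew, neg_neg]
    have h2 : B' w' (aeval h f v₁') = φ' (aeval h f v₁') := by rw [hw']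
    have h3 := LinearMap.congr_fun hφ'
      ⟨cycMap h v₁' f, LinearMap.mem_range_self _ f⟩
    have h4 : φ' (aeval h f v₁') = B (Tc ⟨cycMap h v₁' f, LinearMap.mem_range_self _ f⟩ : V) v₂ :=
      h3
    rw [h2, h4, hTc]
    rfl

theorem aniso_exists (hm : (m : F) ≠ 0) (hP : IsoPack B g m) (π : F[X]) (hπ : Irreducible π)
    (hd : π ∣ π.comp (X ^ (m - 1))) (h2 : ¬ π ∣ X ^ 2 - 1)
    (v₁ : V) (hv₁ : aeval g π v₁ = 0) (hv₁0 : v₁ ≠ 0) :
    ∃ v : V, aeval g π v = 0 ∧ ∃ f : F[X], B (aeval g f v) v ≠ 0 := by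
  by_contra hcon
  push Not at hcon
  -- hcon : ∀ v, aeval g π v = 0 → ∀ f, B (aeval g f v) v = 0
  have hkg : ∀ w : V, aeval (g ^ (m - 1)) π w = 0 → aeval g π w = 0 := by
    intro w hw
    obtain ⟨r, hr⟩ := hd
    have h1 : aeval (g ^ (m - 1)) (π.comp (X ^ (m - 1))) w = aeval g π w := by
      rw [← aeval_pow_comp, hP.kk]
    rw [← h1, hr, mul_comm, aeval_mul_apply, hw, map_zero]
  have hgk : aeval g π ((g ^ (m - 1)) v₁) = 0 := by
    have h1 : (g ^ (m - 1)) v₁ = aeval g (X ^ (m - 1) : F[X]) v₁ := by rw [map_pow, aeval_X]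
    rw [h1, aeval_comm_apply, hv₁, map_zero]
  have hgg : aeval g π (g v₁) = 0 := by
    have h1 : g v₁ = aeval g (X : F[X]) v₁ := by rw [aeval_X]
    rw [h1, aeval_comm_apply, hv₁, map_zero]
  have hu : g v₁ - (g ^ (m - 1)) v₁ = 0 := by
    by_contra hne
    have hu0 : aeval g π (g v₁ - (g ^ (m - 1)) v₁) = 0 := by
      rw [map_sub, hgg, hgk, sub_zero]
    obtain ⟨w, hw, hBw⟩ := pair_exists hm hP π hπ _ hu0 hne
    have hw' := hkg w hw
    have e1 := hcon (v₁ + w) (by rw [map_add, hv₁, hw', add_zero]) (X : F[X])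
    have e2 := hcon v₁ hv₁ (X : F[X])
    have e3 := hcon w hw' (X : F[X])
    rw [aeval_X] at e1 e2 e3
    simp only [map_add, LinearMap.add_apply, e2, e3, zero_add, add_zero] at e1
    -- e1 : B (g v₁) w + B (g w) v₁ = 0
    apply hBw
    rw [map_sub, LinearMap.sub_apply]
    have e4 : B ((g ^ (m - 1)) v₁) w = B v₁ (g w) := by
      have := hP.swap.adj1 v₁ w
      rw [hP.kk] at this
      exact this
    rw [e4, hP.skew v₁ (g w), sub_neg_eq_add, add_comm]
    exact e1
  have h3 : aeval g (X ^ 2 - 1 : F[X]) v₁ = 0 := by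
    rw [map_sub, map_pow, aeval_X, map_one, LinearMap.sub_apply, pow_two, Module.End.mul_apply]
    have h4 : g v₁ = (g ^ (m - 1)) v₁ := sub_eq_zero.1 hu
    rw [h4, hP.gk]
    exact sub_self _
  exact h2 ((cycMap_eq_zero_iff g v₁ hv₁0 π hπ hv₁ (X ^ 2 - 1 : F[X])).1 h3)

end

end Cfsg.Agent.Helper15
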