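import Mathlib
import Cfsg.Agent.Helper15.SpSemi1
import Cfsg.Agent.Helper15.RegUnip

set_option autoImplicit false

namespace Cfsg.Agent.Helper15
open Polynomial

universe u

theorem finrank_ker_prodMap {F : Type u} [Field F] {V₁ V₂ : Type u} [AddCommGroup V₁] [Module F V₁]
    [FiniteDimensional F V₁] [AddCommGroup V₂] [Module F V₂] [FiniteDimensional F V₂]
    (A : V₁ →ₗ[F] V₁) (B : V₂ →ₗ[F] V₂) :
    Module.finrank F (LinearMap.ker (A.prodMap B))
      = Module.finrank F (LinearMap.ker A) + Module.finrank F (LinearMap.ker B) := by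
  have e : LinearMap.ker (A.prodMap B) ≃ₗ[F] (LinearMap.ker A × LinearMap.ker B) :=
    { toFun := fun x => (⟨x.1.1, by
          have h1 := x.2
          rw [LinearMap.mem_ker, LinearMap.prodMap_apply, Prod.mk_eq_zero] at h1
          exact h1.1⟩, ⟨x.1.2, by
          have h1 := x.2
          rw [LinearMap.mem_ker, LinearMap.prodMap_apply, Prod.mk_eq_zero] at h1
          exact h1.2⟩)
      map_add' := fun _ _ => rfl
      map_smul' := fun _ _ => rfl
      invFun := fun y => ⟨(y.1.1, y.2.1), by
        rw [LinearMap.mem_ker, LinearMap.prodMap_apply, Prod.mk_eq_zero]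
        exact ⟨y.1.2, y.2.2⟩⟩
      left_inv := fun _ => rfl
      right_inv := fun _ => rfl }
  rw [e.finrank_eq, Module.finrank_prod]

theorem prodMap_pow' {F : Type u} [Field F] {V₁ V₂ : Type u} [AddCommGroup V₁] [Module F V₁]
    [AddCommGroup V₂] [Module F V₂] (A : V₁ →ₗ[F] V₁) (B : V₂ →ₗ[F] V₂) (k : ℕ) :
    (A.prodMap B) ^ k = (A ^ k).prodMap (B ^ k) := by
  induction k with
  | zero => rw [pow_zero, pow_zero, pow_zero, LinearMap.prodMap_one]
  | succ k ihk => rw [pow_succ, ihk, LinearMap.prodMap_mul, pow_succ, pow_succ]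

theorem kappa_conj {F : Type u} [Field F] {V V' : Type u} [AddCommGroup V] [Module F V]
    [AddCommGroup V'] [Module F V'] (N : V →ₗ[F] V) (N' : V' →ₗ[F] V') (T : V ≃ₗ[F] V')
    (hT : ∀ v, T (N v) = N' (T v)) (k : ℕ) :
    Module.finrank F (LinearMap.ker (N ^ k)) = Module.finrank F (LinearMap.ker (N' ^ k)) := by
  have hpow : ∀ (j : ℕ) (v : V), T ((N ^ j) v) = (N' ^ j) (T v) := by
    intro j
    induction j with
    | zero => intro v; rfl
    | succ j ih =>
      intro v
      have h1 : (N ^ (j + 1)) v = (N ^ j) (N v) := by rw [pow_succ]; rfl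
      have h2 : (N' ^ (j + 1)) (T v) = (N' ^ j) (N' (T v)) := by rw [pow_succ]; rfl
      rw [h1, h2, ih, hT]
  have hmap : (LinearMap.ker (N ^ k)).map T.toLinearMap = LinearMap.ker (N' ^ k) := by
    ext w
    rw [Submodule.mem_map, LinearMap.mem_ker]
    constructor
    · rintro ⟨v, hv, rfl⟩
      rw [LinearMap.mem_ker] at hv
      show (N' ^ k) (T v) = 0
      rw [← hpow, hv, map_zero]
    · intro hw
      refine ⟨T.symm w, ?_, T.apply_symm_apply w⟩
      rw [LinearMap.mem_ker]
      apply T.injective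
      rw [hpow, T.apply_symm_apply, hw, map_zero]
  rw [← hmap]
  exact (LinearEquiv.finrank_map_eq T _).symm

theorem restrict_pow_coe {F : Type u} [Field F] {V : Type u} [AddCommGroup V] [Module F V]
    (g : V →ₗ[F] V) (W : Submodule F V) (hW : ∀ x ∈ W, g x ∈ W) (k : ℕ) (w : W) :
    (((g.restrict hW) ^ k) w : V) = (g ^ k) (w : V) := by
  induction k generalizing w with
  | zero => rfl
  | succ k ih =>
    rw [pow_succ, pow_succ, Module.End.mul_apply, Module.End.mul_apply, ih,
      LinearMap.coe_restrict_apply]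

theorem restrict_pow_zero {F : Type u} [Field F] {V : Type u} [AddCommGroup V] [Module F V]
    (g : V →ₗ[F] V) (W : Submodule F V) (hW : ∀ x ∈ W, g x ∈ W) (r : ℕ) (hg : g ^ r = 0) :
    (g.restrict hW) ^ r = 0 := by
  apply LinearMap.ext
  intro w
  apply Subtype.ext
  rw [restrict_pow_coe, hg]
  rfl

theorem aeval_restrict_coe {F : Type u} [Field F] {V : Type u} [AddCommGroup V] [Module F V]
    (g : V →ₗ[F] V) (W : Submodule F V) (hW : ∀ x ∈ W, g x ∈ W) (f : F[X]) (w : W) :
    ((aeval (g.restrict hW) f) w : V) = (aeval g f) (w : V) := by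
  induction f using Polynomial.induction_on' with
  | add p q hp hq =>
    rw [map_add, map_add, LinearMap.add_apply, LinearMap.add_apply, Submodule.coe_add, hp, hq]
  | monomial n a =>
    rw [aeval_monomial, aeval_monomial, Module.End.mul_apply, Module.End.mul_apply,
      Module.algebraMap_end_apply, Module.algebraMap_end_apply, Submodule.coe_smul,
      restrict_pow_coe]

theorem kappa_isCompl {F : Type u} [Field F] {V : Type u} [AddCommGroup V] [Module F V]
    [FiniteDimensional F V] (N : V →ₗ[F] V) (W W2 : Submodule F V)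
    (hW : ∀ x ∈ W, N x ∈ W) (hW2 : ∀ x ∈ W2, N x ∈ W2) (hc : IsCompl W W2) (k : ℕ) :
    Module.finrank F (LinearMap.ker (N ^ k))
      = Module.finrank F (LinearMap.ker ((N.restrict hW) ^ k))
        + Module.finrank F (LinearMap.ker ((N.restrict hW2) ^ k)) := by
  have h1 := kappa_conj ((N.restrict hW).prodMap (N.restrict hW2)) N
    (Submodule.prodEquivOfIsCompl W W2 hc) (by
      intro y
      rw [Submodule.coe_prodEquivOfIsCompl', Submodule.coe_prodEquivOfIsCompl', map_add]
      rfl) k
  rw [← h1, prodMap_pow', finrank_ker_prodMap]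

theorem pow_zero_iff_ker {F : Type u} [Field F] {V : Type u} [AddCommGroup V] [Module F V]
    [FiniteDimensional F V] (N : V →ₗ[F] V) (k : ℕ) :
    N ^ k = 0 ↔ Module.finrank F (LinearMap.ker (N ^ k)) = Module.finrank F V := by
  constructor
  · intro h
    rw [h, LinearMap.ker_zero, finrank_top]
  · intro h
    exact LinearMap.ker_eq_top.1 (Submodule.eq_top_of_finrank_eq h)

theorem nil_ker_iff {F : Type u} [Field F] {V : Type u} [AddCommGroup V] [Module F V]
    (N : V →ₗ[F] V) (v : V) (e : ℕ) (he : 1 ≤ e) (hNe : (N ^ e) v = 0)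
    (hv : (N ^ (e - 1)) v ≠ 0) (f : F[X]) : aeval N f v = 0 ↔ X ^ e ∣ f := by
  classical
  constructor
  · intro hf
    have h1 := EuclideanDomain.gcd_eq_gcd_ab f (X ^ e)
    have h2 : aeval N (EuclideanDomain.gcd f (X ^ e)) v = 0 := by
      rw [h1, map_add, LinearMap.add_apply, mul_comm f, aeval_mul_apply, hf, map_zero,
        mul_comm (X ^ e), aeval_mul_apply, map_pow, aeval_X, hNe, map_zero, add_zero]
    obtain ⟨i, hi, hassoc⟩ := (dvd_prime_pow Polynomial.prime_X e).1
      (EuclideanDomain.gcd_dvd_right f (X ^ e))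
    obtain ⟨u, hu⟩ := hassoc
    have h3 : (N ^ i) v = 0 := by
      have h4 : aeval N (X ^ i : F[X]) v = 0 := by
        rw [← hu, mul_comm, aeval_mul_apply, h2, map_zero]
      rw [map_pow, aeval_X] at h4
      exact h4
    have hie : i = e := by
      by_contra hne
      apply hv
      obtain ⟨d, hd⟩ := Nat.exists_eq_add_of_le (show i ≤ e - 1 by omega)
      rw [hd, add_comm, pow_add, Module.End.mul_apply, h3, map_zero]
    rw [hie] at hu
    have h5 : X ^ e ∣ EuclideanDomain.gcd f (X ^ e) :=
      (Associated.symm ⟨u, hu⟩).dvd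
    exact dvd_trans h5 (EuclideanDomain.gcd_dvd_left f (X ^ e))
  · rintro ⟨r, rfl⟩
    rw [mul_comm, aeval_mul_apply, map_pow, aeval_X, hNe, map_zero]

theorem aeval_of_ker {F : Type u} [Field F] {V : Type u} [AddCommGroup V] [Module F V]
    (N : V →ₗ[F] V) (z : V) (hz : N z = 0) (r : F[X]) : aeval N r z = r.coeff 0 • z := by
  conv_lhs => rw [← Polynomial.divX_mul_X_add r]
  rw [map_add, LinearMap.add_apply, aeval_mul_apply, aeval_X, hz, map_zero, zero_add, aeval_C,
    Module.algebraMap_end_apply]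

theorem nil_ker_le {F : Type u} [Field F] {V : Type u} [AddCommGroup V] [Module F V]
    (N : V →ₗ[F] V) (v : V) (e : ℕ) (he : 1 ≤ e) (hNe : (N ^ e) v = 0)
    (hv : (N ^ (e - 1)) v ≠ 0) (u : V) (hu : ∃ f : F[X], aeval N f v = u) (hNu : N u = 0) :
    ∃ c : F, u = c • (N ^ (e - 1)) v := by
  obtain ⟨f, rfl⟩ := hu
  have h1 : aeval N (X * f) v = 0 := by
    rw [aeval_mul_apply, aeval_X]
    exact hNu
  have h2 := (nil_ker_iff N v e he hNe hv (X * f)).1 h1
  have h3 : (X : F[X]) ^ e = X * X ^ (e - 1) := by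
    rw [← pow_succ', Nat.sub_add_cancel he]
  rw [h3] at h2
  obtain ⟨r, hr⟩ := (mul_dvd_mul_iff_left (X_ne_zero (R := F))).1 h2
  refine ⟨r.coeff 0, ?_⟩
  have hz : N ((N ^ (e - 1)) v) = 0 := by
    rw [← Module.End.mul_apply, ← pow_succ', Nat.sub_add_cancel he]
    exact hNe
  rw [hr, mul_comm, aeval_mul_apply, map_pow, aeval_X, aeval_of_ker N _ hz]

theorem cyclic_kappa {F : Type u} [Field F] {V : Type u} [AddCommGroup V] [Module F V]
    [FiniteDimensional F V] (M : V →ₗ[F] V) (v : V) (e : ℕ) (he : 1 ≤ e)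
    (hsurj : ∀ x, ∃ f : F[X], aeval M f v = x) (hMe : (M ^ e) v = 0)
    (hv : (M ^ (e - 1)) v ≠ 0) :
    ∀ k, Module.finrank F (LinearMap.ker (M ^ k)) = min e k := by
  have hM0 : M ^ e = 0 := by
    apply LinearMap.ext
    intro x
    obtain ⟨f, rfl⟩ := hsurj x
    have h1 : (M ^ e) (aeval M f v) = aeval M f ((M ^ e) v) := by
      have h2 : (M ^ e) = aeval M (X ^ e : F[X]) := by rw [map_pow, aeval_X]
      rw [h2, aeval_comm_apply]
    rw [h1, hMe, map_zero]
    rfl
  have hker1 : Module.finrank F (LinearMap.ker M) ≤ 1 := by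
    have hle : LinearMap.ker M ≤ Submodule.span F {(M ^ (e - 1)) v} := by
      intro u hu
      obtain ⟨c, hc⟩ := nil_ker_le M v e he hMe hv u (hsurj u) (LinearMap.mem_ker.1 hu)
      rw [hc]
      exact Submodule.smul_mem _ _ (Submodule.mem_span_singleton_self _)
    calc Module.finrank F (LinearMap.ker M)
        ≤ Module.finrank F (Submodule.span F {(M ^ (e - 1)) v}) := Submodule.finrank_mono hle
      _ = 1 := finrank_span_singleton hv
  have hup : ∀ k, Module.finrank F (LinearMap.ker (M ^ k)) ≤ k := by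
    intro k
    calc Module.finrank F (LinearMap.ker (M ^ k))
        ≤ k * Module.finrank F (LinearMap.ker M) := finrank_ker_pow_le M k
      _ ≤ k * 1 := Nat.mul_le_mul_left k hker1
      _ = k := mul_one k
  have hlow : ∀ k, k ≤ e → k ≤ Module.finrank F (LinearMap.ker (M ^ k)) := by
    intro k
    induction k with
    | zero => intro _; exact Nat.zero_le _
    | succ k ih =>
      intro hk
      have h1 := ih (by omega)
      have hlt : LinearMap.ker (M ^ k) < LinearMap.ker (M ^ (k + 1)) := by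
        refine lt_of_le_of_ne (ker_pow_mono' M (Nat.le_succ k)) ?_
        intro heq
        have hu : (M ^ (e - (k + 1))) v ∈ LinearMap.ker (M ^ (k + 1)) := by
          rw [LinearMap.mem_ker, ← Module.End.mul_apply, ← pow_add,
            show k + 1 + (e - (k + 1)) = e by omega, hMe]
        rw [← heq, LinearMap.mem_ker, ← Module.End.mul_apply, ← pow_add,
          show k + (e - (k + 1)) = e - 1 by omega] at hu
        exact hv hu
      have h2 := Submodule.finrank_lt_finrank_of_lt hlt
      omega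
  intro k
  rcases le_or_gt k e with hk | hk
  · rw [min_eq_right hk]
    exact le_antisymm (hup k) (hlow k hk)
  · rw [min_eq_left hk.le]
    have h1 : LinearMap.ker (M ^ k) = LinearMap.ker (M ^ e) := by
      have hz : M ^ k = 0 := by
        obtain ⟨c, rfl⟩ := Nat.exists_eq_add_of_le hk.le
        rw [pow_add, hM0, zero_mul]
      rw [hz, hM0]
    rw [h1]
    exact le_antisymm (hup e) (hlow e le_rfl)

theorem nil_split {F : Type u} [Field F] {V : Type u} [AddCommGroup V] [Module F V]
    [FiniteDimensional F V] (N : V →ₗ[F] V) (hnil : ∃ r, N ^ r = 0)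
    (hpos : 0 < Module.finrank F V) :
    ∃ (e : ℕ) (v : V) (W₂ : Submodule F V)
      (hW : ∀ x ∈ LinearMap.range (cycMap N v), N x ∈ LinearMap.range (cycMap N v)),
      1 ≤ e ∧ N ^ e = 0 ∧ (N ^ (e - 1)) v ≠ 0 ∧ (∀ u ∈ W₂, N u ∈ W₂) ∧
      IsCompl (LinearMap.range (cycMap N v)) W₂ ∧
      Module.finrank F (LinearMap.range (cycMap N v)) = e ∧
      ∀ k, Module.finrank F (LinearMap.ker ((N.restrict hW) ^ k)) = min e k := by
  classical
  haveI : Nontrivial V := Module.finrank_pos_iff.1 hpos
  have he0 : N ^ (Nat.find hnil) = 0 := Nat.find_spec hnil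
  have he1 : 1 ≤ Nat.find hnil := by
    by_contra hlt
    have h0 : Nat.find hnil = 0 := by omega
    rw [h0, pow_zero] at he0
    obtain ⟨x, hx⟩ := exists_ne (0 : V)
    exact hx (LinearMap.congr_fun he0 x)
  have hne : N ^ (Nat.find hnil - 1) ≠ 0 := Nat.find_min hnil (by omega)
  obtain ⟨v, hv⟩ : ∃ v, (N ^ (Nat.find hnil - 1)) v ≠ 0 := by
    by_contra hcon
    push Not at hcon
    exact hne (LinearMap.ext hcon)
  obtain ⟨φ, hφ⟩ : ∃ φ : Module.Dual F V, φ ((N ^ (Nat.find hnil - 1)) v) ≠ 0 := by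
    by_contra hcon
    push Not at hcon
    exact hv ((Module.forall_dual_apply_eq_zero_iff F _).1 hcon)
  obtain ⟨e, hedef⟩ : ∃ e, e = Nat.find hnil := ⟨_, rfl⟩
  rw [← hedef] at he0 he1 hv hφ
  obtain ⟨Θ, hΘdef⟩ : ∃ Θ : V →ₗ[F] (Fin e → F),
      Θ = LinearMap.pi (fun i : Fin e => φ ∘ₗ (N ^ (i : ℕ))) := ⟨_, rfl⟩
  have hΘ : ∀ u, u ∈ LinearMap.ker Θ ↔ ∀ i : ℕ, i < e → φ ((N ^ i) u) = 0 := by
    intro u
    rw [LinearMap.mem_ker, hΘdef]
    constructor
    · intro h i hi
      exact congrFun h ⟨i, hi⟩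
    · intro h
      funext i
      exact h i i.2
  have hinv : ∀ u ∈ LinearMap.ker Θ, N u ∈ LinearMap.ker Θ := by
    intro u hu
    rw [hΘ] at hu ⊢
    intro i hi
    have h3 : (N ^ i) (N u) = (N ^ (i + 1)) u := by rw [pow_succ]; rfl
    rw [h3]
    rcases Nat.lt_or_ge (i + 1) e with h1 | h1
    · exact hu (i + 1) h1
    · have h2 : i + 1 = e := by omega
      rw [h2, he0]
      simp
  have hNev : (N ^ e) v = 0 := by
    rw [he0]
    rfl
  have hWinv : ∀ x ∈ LinearMap.range (cycMap N v), N x ∈ LinearMap.range (cycMap N v) := by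
    rintro x ⟨f, rfl⟩
    exact ⟨X * f, cycMap_X_mul N v f⟩
  have hdisj : LinearMap.range (cycMap N v) ⊓ LinearMap.ker Θ = ⊥ := by
    rw [eq_bot_iff]
    intro w hw
    obtain ⟨hw1, hw2⟩ := Submodule.mem_inf.1 hw
    rw [Submodule.mem_bot]
    by_contra hw0
    have hex : ∃ t, (N ^ t) w = 0 := ⟨e, by rw [he0]; rfl⟩
    have ht : (N ^ (Nat.find hex)) w = 0 := Nat.find_spec hex
    have ht1 : 1 ≤ Nat.find hex := by
      by_contra hlt
      have h0 : Nat.find hex = 0 := by omega
      rw [h0, pow_zero] at ht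
      exact hw0 ht
    have htm : (N ^ (Nat.find hex - 1)) w ≠ 0 := Nat.find_min hex (by omega)
    have hu1 : ∃ f : F[X], aeval N f v = (N ^ (Nat.find hex - 1)) w := by
      obtain ⟨f, rfl⟩ := hw1
      refine ⟨X ^ (Nat.find hex - 1) * f, ?_⟩
      rw [aeval_mul_apply, map_pow, aeval_X]
      rfl
    have hu2 : N ((N ^ (Nat.find hex - 1)) w) = 0 := by
      rw [← Module.End.mul_apply, ← pow_succ', Nat.sub_add_cancel ht1]
      exact ht
    obtain ⟨c, hc⟩ := nil_ker_le N v e he1 hNev hv _ hu1 hu2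
    have hte : Nat.find hex - 1 < e := by
      by_contra hge
      push Not at hge
      apply htm
      obtain ⟨d, hd⟩ := Nat.exists_eq_add_of_le hge
      rw [hd, pow_add, he0, zero_mul]
      rfl
    have h3 := (hΘ w).1 hw2 (Nat.find hex - 1) hte
    rw [hc, map_smul, smul_eq_mul] at h3
    rcases mul_eq_zero.1 h3 with h4 | h4
    · apply htm
      rw [hc, h4, zero_smul]
    · exact hφ h4
  have hkW := cyclic_kappa (N.restrict hWinv)
    ⟨v, ⟨1, by rw [cycMap_apply, map_one]; rfl⟩⟩ e he1 (by
      rintro ⟨x, f, rfl⟩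
      refine ⟨f, ?_⟩
      apply Subtype.ext
      rw [aeval_restrict_coe]
      rfl) (by
      apply Subtype.ext
      rw [restrict_pow_coe]
      exact hNev) (by
      intro h0
      apply hv
      have h1 := congrArg Subtype.val h0
      rw [restrict_pow_coe] at h1
      exact h1)
  have hfinW : Module.finrank F (LinearMap.range (cycMap N v)) = e := by
    have hk := hkW e
    rw [min_self, restrict_pow_zero N _ hWinv e he0, LinearMap.ker_zero, finrank_top] at hk
    exact hk
  have hdim : Module.finrank F V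
      ≤ Module.finrank F (LinearMap.range (cycMap N v)) + Module.finrank F (LinearMap.ker Θ) := by
    have h1 := LinearMap.finrank_range_add_finrank_ker Θ
    have h2 : Module.finrank F (LinearMap.range Θ) ≤ e := by
      calc Module.finrank F (LinearMap.range Θ) ≤ Module.finrank F (Fin e → F) :=
            Submodule.finrank_le _
        _ = e := Module.finrank_fin_fun F
    omega
  refine ⟨e, v, LinearMap.ker Θ, hWinv, he1, he0, hv, hinv, ?_, hfinW, hkW⟩
  refine IsCompl.of_eq hdisj ?_
  apply Submodule.eq_top_of_finrank_eq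
  have h3 := Submodule.finrank_sup_add_finrank_inf_eq (LinearMap.range (cycMap N v))
    (LinearMap.ker Θ)
  rw [hdisj, finrank_bot, add_zero] at h3
  have h4 := Submodule.finrank_le (LinearMap.range (cycMap N v) ⊔ LinearMap.ker Θ)
  omega

theorem nil_conj_aux {F : Type u} [Field F] :
    ∀ (n : ℕ) (V V' : Type u) [AddCommGroup V] [Module F V] [FiniteDimensional F V]
      [AddCommGroup V'] [Module F V'] [FiniteDimensional F V']
      (N : V →ₗ[F] V) (N' : V' →ₗ[F] V'),
      Module.finrank F V = n → (∃ r, N ^ r = 0) → (∃ r, N' ^ r = 0) →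
      (∀ k, Module.finrank F (LinearMap.ker (N ^ k))
        = Module.finrank F (LinearMap.ker (N' ^ k))) →
      ∃ T : V ≃ₗ[F] V', ∀ v, T (N v) = N' (T v) := by
  intro n
  induction n using Nat.strong_induction_on with
  | _ n ih =>
    intro V V' _ _ _ _ _ _ N N' hn hnil hnil' hκ
    have hn' : Module.finrank F V' = n := by
      obtain ⟨r, hr⟩ := hnil
      obtain ⟨r', hr'⟩ := hnil'
      have h1 := hκ (r + r')
      rw [pow_add, hr, zero_mul, pow_add, hr', mul_zero, LinearMap.ker_zero, LinearMap.ker_zero,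
        finrank_top, finrank_top] at h1
      rw [← h1, hn]
    rcases Nat.eq_zero_or_pos n with h0 | hpos
    · have : Subsingleton V := Module.finrank_zero_iff.1 (hn.trans h0)
      have : Subsingleton V' := Module.finrank_zero_iff.1 (hn'.trans h0)
      exact ⟨LinearEquiv.ofSubsingleton V V', fun v => Subsingleton.elim _ _⟩
    · obtain ⟨e, v, W₂, hWg, he1, he0, hv, hW₂, hc, hfW, -⟩ := nil_split N hnil (hn ▸ hpos)
      obtain ⟨e', v', W₂', hWh, he1', he0', hv', hW₂', hc', hfW', -⟩ :=
        nil_split N' hnil' (hn' ▸ hpos)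
      have hzero_iff : ∀ k, N ^ k = 0 ↔ N' ^ k = 0 := by
        intro k
        rw [pow_zero_iff_ker N k, pow_zero_iff_ker N' k, hκ k, hn, hn']
      have hee : e = e' := by
        have h1 : N' ^ e = 0 := (hzero_iff e).1 he0
        have h2 : N ^ e' = 0 := (hzero_iff e').2 he0'
        have a1 : e' ≤ e := by
          by_contra hlt
          push Not at hlt
          apply hv'
          obtain ⟨d, hd⟩ := Nat.exists_eq_add_of_le (show e ≤ e' - 1 by omega)
          rw [hd, pow_add, h1, zero_mul]
          rfl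
        have a2 : e ≤ e' := by
          by_contra hlt
          push Not at hlt
          apply hv
          obtain ⟨d, hd⟩ := Nat.exists_eq_add_of_le (show e' ≤ e - 1 by omega)
          rw [hd, pow_add, h2, zero_mul]
          rfl
        omega
      subst hee
      have hker : LinearMap.ker (cycMap N v) = LinearMap.ker (cycMap N' v') := by
        ext f
        rw [LinearMap.mem_ker, LinearMap.mem_ker, cycMap_apply, cycMap_apply,
          nil_ker_iff N v e he1 (by rw [he0]; rfl) hv,
          nil_ker_iff N' v' e he1 (by rw [he0']; rfl) hv']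
      obtain ⟨TW, hTW⟩ := cyc_equiv N N' v v' hker hWg hWh
      have hκ2 : ∀ k, Module.finrank F (LinearMap.ker ((N.restrict hW₂) ^ k))
          = Module.finrank F (LinearMap.ker ((N'.restrict hW₂') ^ k)) := by
        intro k
        have a := kappa_isCompl N _ W₂ hWg hW₂ hc k
        have b := kappa_isCompl N' _ W₂' hWh hW₂' hc' k
        have c := hκ k
        have d := kappa_conj (N.restrict hWg) (N'.restrict hWh) TW hTW k
        omega
      have hdim : Module.finrank F W₂ < n := by
        have h5 := Submodule.finrank_add_eq_of_isCompl hc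
        omega
      obtain ⟨T2, hT2⟩ := ih (Module.finrank F W₂) hdim W₂ W₂' (N.restrict hW₂)
        (N'.restrict hW₂') rfl
        (by obtain ⟨r, hr⟩ := hnil; exact ⟨r, restrict_pow_zero N _ hW₂ r hr⟩)
        (by obtain ⟨r, hr⟩ := hnil'; exact ⟨r, restrict_pow_zero N' _ hW₂' r hr⟩) hκ2
      exact glue_equiv N N' _ W₂ _ W₂' hc hc' hWg hW₂ hWh hW₂' TW T2 hTW hT2

theorem nil_type_exists {F : Type u} [Field F] :
    ∀ (n : ℕ) (V : Type u) [AddCommGroup V] [Module F V] [FiniteDimensional F V]
      (N : V →ₗ[F] V), Module.finrank F V = n → (∃ r, N ^ r = 0) →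
      ∃ s : Multiset ℕ, (∀ a ∈ s, 1 ≤ a) ∧ s.sum = n ∧
        ∀ k, Module.finrank F (LinearMap.ker (N ^ k)) = (s.map (fun a => min a k)).sum := by
  intro n
  induction n using Nat.strong_induction_on with
  | _ n ih =>
    intro V _ _ _ N hn hnil
    rcases Nat.eq_zero_or_pos n with h0 | hpos
    · refine ⟨0, fun a ha => absurd ha (Multiset.notMem_zero a), by rw [Multiset.sum_zero, h0], ?_⟩
      intro k
      have h1 := Submodule.finrank_le (LinearMap.ker (N ^ k))
      rw [Multiset.map_zero, Multiset.sum_zero]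
      omega
    · obtain ⟨e, v, W₂, hWg, he1, he0, hv, hW₂, hc, hfW, hkW⟩ := nil_split N hnil (hn ▸ hpos)
      have h5 := Submodule.finrank_add_eq_of_isCompl hc
      have hdim : Module.finrank F W₂ < n := by omega
      obtain ⟨s₂, hs1, hs2, hs3⟩ := ih (Module.finrank F W₂) hdim W₂ (N.restrict hW₂) rfl
        (by obtain ⟨r, hr⟩ := hnil; exact ⟨r, restrict_pow_zero N _ hW₂ r hr⟩)
      refine ⟨e ::ₘ s₂, ?_, ?_, ?_⟩
      · intro a ha
        rcases Multiset.mem_cons.1 ha with rfl | ha
        · exact he1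
        · exact hs1 a ha
      · rw [Multiset.sum_cons, hs2]
        omega
      · intro k
        rw [Multiset.map_cons, Multiset.sum_cons, kappa_isCompl N _ W₂ hWg hW₂ hc k, hkW k, hs3 k]

end Cfsg.Agent.Helper15
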