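import Mathlib
import Cfsg.Agent.Helper15.SpSemi1

set_option autoImplicit false

namespace Cfsg.Agent.Helper15
open Polynomial

universe u

theorem invol_norm_surj {K : Type*} [Field K] [Finite K] (σ : K →+* K) (hσ : ∀ x, σ (σ x) = x)
    (hne : ∃ x, σ x ≠ x) (a : K) (ha : a ≠ 0) (hfix : σ a = a) : ∃ c : K, c * σ c = a := by
  classical
  let S : Kˣ →* Kˣ := Units.map (σ : K →* K)
  have hS : ∀ b : Kˣ, S (S b) = b := fun b => Units.ext (hσ b)
  let N : Kˣ →* Kˣ := MonoidHom.id Kˣ * S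
  let D : Kˣ →* Kˣ := MonoidHom.id Kˣ * S⁻¹
  have hN : ∀ c, N c = c * S c := fun c => rfl
  have hD : ∀ b, D b = b * (S b)⁻¹ := fun b => rfl
  have h1 : D.range = N.ker := by
    ext c
    constructor
    · rintro ⟨b, rfl⟩
      rw [MonoidHom.mem_ker, hN, hD, map_mul, map_inv, hS]
      group
    · intro hc
      rw [MonoidHom.mem_ker, hN] at hc
      have hc' : (c : K) * σ (c : K) = 1 := congrArg Units.val hc
      have hx : ∃ x : K, x + (c : K) * σ x ≠ 0 := by
        by_cases h1c : (1 : K) + c = 0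
        · obtain ⟨x, hx⟩ := hne
          refine ⟨x, ?_⟩
          have hc1 : (c : K) = -1 := by linear_combination h1c
          rw [hc1]
          intro h0
          apply hx
          linear_combination -h0
        · exact ⟨1, by rw [map_one, mul_one]; exact h1c⟩
      obtain ⟨x, hx⟩ := hx
      have hy : (c : K) * σ (x + (c : K) * σ x) = x + (c : K) * σ x := by
        rw [map_add, map_mul, hσ, mul_add, ← mul_assoc, hc', one_mul, add_comm]
      have hsy : σ (x + (c : K) * σ x) ≠ 0 := by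
        intro h0
        apply hx
        rw [← hy, h0, mul_zero]
      refine ⟨Units.mk0 _ hx, ?_⟩
      rw [hD]
      apply Units.ext
      rw [Units.val_mul, Units.val_inv_eq_inv_val]
      show (x + (c : K) * σ x) * (σ (x + (c : K) * σ x))⁻¹ = c
      rw [mul_inv_eq_iff_eq_mul₀ hsy]
      exact hy.symm
  have h2 : ∀ b : Kˣ, b ∈ D.ker ↔ S b = b := by
    intro b
    rw [MonoidHom.mem_ker, hD, mul_inv_eq_one, eq_comm]
  have h3 : N.range ≤ D.ker := by
    rintro _ ⟨c, rfl⟩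
    rw [h2, hN, map_mul, hS, mul_comm]
  have c1 := Subgroup.card_mul_index N.ker
  have c2 := Subgroup.card_mul_index D.ker
  rw [Subgroup.index_ker] at c1 c2
  rw [← h1] at c1
  have c3 : Nat.card N.range = Nat.card D.ker := by
    have hpos : 0 < Nat.card D.range := Nat.card_pos
    have h4 : Nat.card D.range * Nat.card N.range = Nat.card D.range * Nat.card D.ker := by
      rw [c1, mul_comm, c2]
    exact Nat.eq_of_mul_eq_mul_left hpos h4
  have h4 : N.range = D.ker := Subgroup.eq_of_le_of_card_ge h3 (le_of_eq c3.symm)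
  have h5 : Units.mk0 a ha ∈ D.ker := by
    rw [h2]
    exact Units.ext hfix
  rw [← h4] at h5
  obtain ⟨c, hc⟩ := h5
  exact ⟨c, congrArg Units.val hc⟩

theorem pow_kk {M : Type*} [Monoid M] (x : M) (m : ℕ) (hm : 1 ≤ m) (hx : x ^ m = 1) :
    (x ^ (m - 1)) ^ (m - 1) = x := by
  rcases Nat.lt_or_ge m 2 with h | h
  · have hm1 : m = 1 := le_antisymm (by omega) hm
    rw [hm1, pow_one] at hx
    rw [hm1, hx]
    simp
  · have h1 : (m - 1) * (m - 1) = m * (m - 2) + 1 := by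
      obtain ⟨r, rfl⟩ : ∃ r, m = r + 2 := ⟨m - 2, by omega⟩
      have h2 : r + 2 - 1 = r + 1 := by omega
      have h3 : r + 2 - 2 = r := by omega
      rw [h2, h3]
      ring
    rw [← pow_mul, h1, pow_succ, pow_mul, hx, one_pow, one_mul]

theorem nu_lift {F : Type u} [Field F] {V : Type u} [AddCommGroup V] [Module F V]
    (B : LinearMap.BilinForm F V) (g : V →ₗ[F] V) (π : F[X]) (v : V) (hv : aeval g π v = 0) :
    ∃ ν : AdjoinRoot π →ₗ[F] F, ∀ f : F[X], ν (AdjoinRoot.mk π f) = B (aeval g f v) v := by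
  have hsurj : LinearMap.range (AdjoinRoot.mkₐ π).toLinearMap = ⊤ := by
    apply LinearMap.range_eq_top.2
    exact AdjoinRoot.mk_surjective
  obtain ⟨r, hr⟩ := LinearMap.exists_rightInverse_of_surjective _ hsurj
  refine ⟨(B.flip v) ∘ₗ (cycMap g v) ∘ₗ r, ?_⟩
  intro f
  have h1 : AdjoinRoot.mk π (r (AdjoinRoot.mk π f)) = AdjoinRoot.mk π f :=
    LinearMap.congr_fun hr (AdjoinRoot.mk π f)
  obtain ⟨t, ht⟩ := AdjoinRoot.mk_eq_mk.1 h1
  have h2 : r (AdjoinRoot.mk π f) = f + t * π := by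
    rw [mul_comm, ← ht]
    ring
  show B (aeval g (r (AdjoinRoot.mk π f)) v) v = B (aeval g f v) v
  rw [h2, map_add, LinearMap.add_apply, aeval_mul_apply, hv, map_zero, add_zero]

theorem func_L {F : Type u} [Field F] {L : Type*} [Field L] [Algebra F L] [FiniteDimensional F L]
    (ν₀ ν : L →ₗ[F] F) (h0 : ν₀ ≠ 0) : ∃ a : L, ∀ x, ν x = ν₀ (a * x) := by
  let Ψ : L →ₗ[F] Module.Dual F L :=
    { toFun := fun a => ν₀ ∘ₗ (LinearMap.mulLeft F a)
      map_add' := by
        intro a b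
        apply LinearMap.ext
        intro x
        simp [add_mul]
      map_smul' := by
        intro c a
        apply LinearMap.ext
        intro x
        simp }
  have hΨ : ∀ a x, Ψ a x = ν₀ (a * x) := fun a x => rfl
  have hinj : Function.Injective Ψ := by
    rw [injective_iff_map_eq_zero]
    intro a ha
    by_contra hne
    apply h0
    apply LinearMap.ext
    intro x
    have h1 := hΨ a (a⁻¹ * x)
    rw [ha, ← mul_assoc, mul_inv_cancel₀ hne, one_mul] at h1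
    exact h1.symm
  have hsurj := (LinearMap.injective_iff_surjective_of_finrank_eq_finrank
    (Subspace.dual_finrank_eq (K := F) (V := L)).symm).1 hinj
  obtain ⟨a, ha⟩ := hsurj ν
  exact ⟨a, fun x => by rw [← ha, hΨ]⟩

theorem mk_comp_pow {F : Type u} [Field F] (π f : F[X]) (n : ℕ) :
    AdjoinRoot.mk π (f.comp (X ^ n)) = f.eval₂ (AdjoinRoot.of π) (AdjoinRoot.root π ^ n) := by
  rw [comp, hom_eval₂, map_pow, AdjoinRoot.mk_X]
  rfl

theorem norm_match {F : Type u} [Field F] [Fintype F] {V V' : Type u} [AddCommGroup V]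
    [Module F V] [AddCommGroup V'] [Module F V']
    {B : LinearMap.BilinForm F V} {g : V →ₗ[F] V} {B' : LinearMap.BilinForm F V'}
    {h : V' →ₗ[F] V'} {m : ℕ}
    (hP : IsoPack B g m) (hP' : IsoPack B' h m) (π : F[X]) (hπ : Irreducible π)
    (hd : π ∣ π.comp (X ^ (m - 1))) (h2 : ¬ π ∣ X ^ 2 - 1) (hμ : π ∣ X ^ m - 1)
    (v : V) (hv : aeval g π v = 0) (f₀ : F[X]) (hf₀ : B (aeval g f₀ v) v ≠ 0)
    (v₀ : V') (hv₀ : aeval h π v₀ = 0) (f₁ : F[X]) (hf₁ : B' (aeval h f₁ v₀) v₀ ≠ 0) :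
    ∃ v' : V', aeval h π v' = 0 ∧ ∀ f : F[X], B' (aeval h f v') v' = B (aeval g f v) v := by
  haveI : Fact (Irreducible π) := ⟨hπ⟩
  have hπ0 : π ≠ 0 := hπ.ne_zero
  haveI : FiniteDimensional F (AdjoinRoot π) :=
    Module.Finite.of_basis (AdjoinRoot.powerBasis hπ0).basis
  haveI : Finite (AdjoinRoot π) := Finite.of_equiv (Fin π.natDegree → F)
    (AdjoinRoot.powerBasis hπ0).basis.equivFun.symm.toEquiv
  -- root facts
  have hrm : AdjoinRoot.root π ^ m = 1 := by
    have h1 : AdjoinRoot.mk π (X ^ m - 1) = 0 := AdjoinRoot.mk_eq_zero.2 hμ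
    rw [map_sub, map_pow, AdjoinRoot.mk_X, map_one, sub_eq_zero] at h1
    exact h1
  have hrkk : (AdjoinRoot.root π ^ (m - 1)) ^ (m - 1) = AdjoinRoot.root π :=
    pow_kk _ m hP.mpos hrm
  have hlift : π.eval₂ (AdjoinRoot.of π) (AdjoinRoot.root π ^ (m - 1)) = 0 := by
    rw [← mk_comp_pow]
    exact AdjoinRoot.mk_eq_zero.2 hd
  obtain ⟨σ, hσdef⟩ : ∃ σ : AdjoinRoot π →+* AdjoinRoot π,
      σ = AdjoinRoot.lift (AdjoinRoot.of π) (AdjoinRoot.root π ^ (m - 1)) hlift := ⟨_, rfl⟩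
  have hσmk : ∀ f : F[X], σ (AdjoinRoot.mk π f) = AdjoinRoot.mk π (f.comp (X ^ (m - 1))) := by
    intro f
    rw [hσdef, AdjoinRoot.lift_mk, mk_comp_pow]
  have hmk1 : ∀ f : F[X], f.eval₂ (AdjoinRoot.of π) (AdjoinRoot.root π) = AdjoinRoot.mk π f := by
    intro f
    have h1 := mk_comp_pow π f 1
    rw [pow_one, pow_one, comp_X] at h1
    exact h1.symm
  have hσσ : ∀ x, σ (σ x) = x := by
    intro x
    obtain ⟨f, rfl⟩ := AdjoinRoot.mk_surjective x
    rw [hσmk, hσdef, AdjoinRoot.lift_mk, eval₂_comp, eval₂_X_pow, hrkk, hmk1]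
  have hσne : ∃ x, σ x ≠ x := by
    refine ⟨AdjoinRoot.root π, ?_⟩
    rw [hσdef, AdjoinRoot.lift_root]
    intro h0
    apply h2
    apply AdjoinRoot.mk_eq_zero.1
    rw [map_sub, map_pow, AdjoinRoot.mk_X, map_one, sub_eq_zero, pow_two]
    have h1 : AdjoinRoot.root π ^ (m - 1) * AdjoinRoot.root π = 1 := by
      rw [← pow_succ, Nat.sub_add_cancel hP.mpos, hrm]
    rw [h0] at h1
    exact h1
  obtain ⟨ν, hν⟩ := nu_lift B g π v hv
  obtain ⟨ν₀, hν₀⟩ := nu_lift B' h π v₀ hv₀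
  have hν₀ne : ν₀ ≠ 0 := by
    intro h0
    apply hf₁
    rw [← hν₀, h0]
    rfl
  obtain ⟨a, ha⟩ := func_L ν₀ ν hν₀ne
  have hsk : ∀ x, ν (σ x) = - ν x := by
    intro x
    obtain ⟨f, rfl⟩ := AdjoinRoot.mk_surjective x
    rw [hσmk, hν, hν, ← aeval_pow_comp, ← hP.adj', hP.skew]
  have hsk₀ : ∀ x, ν₀ (σ x) = - ν₀ x := by
    intro x
    obtain ⟨f, rfl⟩ := AdjoinRoot.mk_surjective x
    rw [hσmk, hν₀, hν₀, ← aeval_pow_comp, ← hP'.adj', hP'.skew]
  have hasym : σ a = a := by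
    by_contra hne
    have hne' : a - σ a ≠ 0 := sub_ne_zero.2 (Ne.symm hne)
    apply hν₀ne
    apply LinearMap.ext
    intro z
    have key : ∀ y, ν₀ ((a - σ a) * y) = 0 := by
      intro y
      have e2 : ν₀ (a * y) = ν₀ (σ a * y) := by
        calc ν₀ (a * y) = ν y := (ha y).symm
          _ = ν (σ (σ y)) := by rw [hσσ]
          _ = - ν (σ y) := hsk _
          _ = - ν₀ (a * σ y) := by rw [ha]
          _ = ν₀ (σ (a * σ y)) := by rw [hsk₀]
          _ = ν₀ (σ a * y) := by rw [map_mul, hσσ]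
      rw [sub_mul, map_sub, e2, sub_self]
    have h1 := key ((a - σ a)⁻¹ * z)
    rw [← mul_assoc, mul_inv_cancel₀ hne', one_mul] at h1
    exact h1
  have ha0 : a ≠ 0 := by
    rintro rfl
    apply hf₀
    rw [← hν, ha, zero_mul, map_zero]
  obtain ⟨c, hc⟩ := invol_norm_surj σ hσσ hσne a ha0 hasym
  obtain ⟨c₀, rfl⟩ := AdjoinRoot.mk_surjective c
  refine ⟨aeval h c₀ v₀, by rw [aeval_comm_apply, hv₀, map_zero], ?_⟩
  intro f
  have e1 : AdjoinRoot.mk π (c₀.comp (X ^ (m - 1)) * f * c₀)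
      = (AdjoinRoot.mk π c₀ * σ (AdjoinRoot.mk π c₀)) * AdjoinRoot.mk π f := by
    rw [map_mul, map_mul, hσmk]
    ring
  rw [hP'.adj', aeval_pow_comp, ← aeval_mul_apply, ← aeval_mul_apply, ← hν₀, e1, hc, ← ha, hν]

end Cfsg.Agent.Helper15
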