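import Mathlib
import Cfsg.Agent.Helper15.SpSemi2

set_option autoImplicit false

namespace Cfsg.Agent.Helper15
open Polynomial

universe u

theorem gram_equiv {F : Type u} [Field F] {V V' P : Type u} [AddCommGroup V] [Module F V]
    [AddCommGroup V'] [Module F V'] [AddCommGroup P] [Module F P]
    (B : LinearMap.BilinForm F V) (B' : LinearMap.BilinForm F V')
    (g : V →ₗ[F] V) (h : V' →ₗ[F] V') (s : P →ₗ[F] P)
    (Φ : P →ₗ[F] V) (Φ' : P →ₗ[F] V')
    (hs : ∀ x, Φ (s x) = g (Φ x)) (hs' : ∀ x, Φ' (s x) = h (Φ' x))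
    (hiso : ∀ x y, B (Φ x) (Φ y) = B' (Φ' x) (Φ' y))
    (hnd : ∀ x, (∀ y, B (Φ x) (Φ y) = 0) → Φ x = 0)
    (hnd' : ∀ x, (∀ y, B' (Φ' x) (Φ' y) = 0) → Φ' x = 0)
    (hU : ∀ u ∈ LinearMap.range Φ, g u ∈ LinearMap.range Φ)
    (hU' : ∀ u ∈ LinearMap.range Φ', h u ∈ LinearMap.range Φ') :
    ∃ T : LinearMap.range Φ ≃ₗ[F] LinearMap.range Φ',
      (∀ w, T (g.restrict hU w) = h.restrict hU' (T w)) ∧
      (∀ u w : LinearMap.range Φ, B' (T u : V') (T w : V') = B (u : V) (w : V)) := by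
  have hker : LinearMap.ker Φ = LinearMap.ker Φ' := by
    ext x
    rw [LinearMap.mem_ker, LinearMap.mem_ker]
    constructor
    · intro hx
      apply hnd'
      intro y
      rw [← hiso, hx, map_zero, LinearMap.zero_apply]
    · intro hx
      apply hnd
      intro y
      rw [hiso, hx, map_zero, LinearMap.zero_apply]
  obtain ⟨T, hT⟩ := range_equiv Φ Φ' hker
  refine ⟨T, ?_, ?_⟩
  · intro w
    obtain ⟨x, hx⟩ := w.2
    have hw : w = ⟨Φ x, LinearMap.mem_range_self _ x⟩ := Subtype.ext hx.symm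
    rw [hw]
    apply Subtype.ext
    have h1 : g.restrict hU ⟨Φ x, LinearMap.mem_range_self _ x⟩
        = ⟨Φ (s x), LinearMap.mem_range_self _ _⟩ :=
      Subtype.ext (by rw [LinearMap.coe_restrict_apply]; exact (hs x).symm)
    rw [h1, hT, LinearMap.coe_restrict_apply, hT]
    exact hs' x
  · intro u w
    obtain ⟨x, hx⟩ := u.2
    obtain ⟨y, hy⟩ := w.2
    have hu : u = ⟨Φ x, LinearMap.mem_range_self _ x⟩ := Subtype.ext hx.symm
    have hw : w = ⟨Φ y, LinearMap.mem_range_self _ y⟩ := Subtype.ext hy.symm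
    rw [hu, hw, hT, hT]
    exact (hiso x y).symm

section
variable {F : Type u} [Field F] {V : Type u} [AddCommGroup V] [Module F V]
  {B : LinearMap.BilinForm F V} {g : V →ₗ[F] V} {m : ℕ}

theorem IsoPack.aeval_g_eq (hP : IsoPack B g m) (f : F[X]) :
    aeval g f = aeval (g ^ (m - 1)) (f.comp (X ^ (m - 1))) := by
  rw [← aeval_pow_comp, hP.kk]

theorem cyc_gram (hP : IsoPack B g m) (v : V) (f f' : F[X]) :
    B (aeval g f v) (aeval g f' v) = B (aeval g (f'.comp (X ^ (m - 1)) * f) v) v := by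
  rw [hP.adj', aeval_pow_comp, ← aeval_mul_apply]

theorem cyc_nd (hP : IsoPack B g m) (π : F[X]) (hπ : Irreducible π) (v : V)
    (hv : aeval g π v = 0) (f₀ : F[X]) (hf₀ : B (aeval g f₀ v) v ≠ 0) (f : F[X])
    (hf : ∀ y, B (cycMap g v f) (cycMap g v y) = 0) : cycMap g v f = 0 := by
  by_contra hne
  obtain ⟨c, hc⟩ := cyc_inv g π hπ v hv f hne
  apply hf₀
  have h1 : B (aeval g (c * f) v) (aeval g f₀ v) = 0 := by
    rw [aeval_mul_apply, hP.adj, aeval_pow_comp, ← aeval_mul_apply]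
    exact hf _
  rw [hc] at h1
  rw [hP.skew, h1, neg_zero]

theorem hyp_gram (hP : IsoPack B g m) (v₁ v₂ : V)
    (i1 : ∀ f : F[X], B (aeval g f v₁) v₁ = 0)
    (i2 : ∀ f : F[X], B (aeval (g ^ (m - 1)) f v₂) v₂ = 0)
    (x y : F[X] × F[X]) :
    B (((cycMap g v₁).coprod (cycMap (g ^ (m - 1)) v₂)) x)
      (((cycMap g v₁).coprod (cycMap (g ^ (m - 1)) v₂)) y)
      = B (aeval g (y.2 * x.1) v₁) v₂ - B (aeval g (x.2 * y.1) v₁) v₂ := by
  rw [LinearMap.coprod_apply, LinearMap.coprod_apply, cycMap_apply, cycMap_apply, cycMap_apply,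
    cycMap_apply]
  have t11 : B (aeval g x.1 v₁) (aeval g y.1 v₁) = 0 := by
    rw [cyc_gram hP]
    exact i1 _
  have t12 : B (aeval g x.1 v₁) (aeval (g ^ (m - 1)) y.2 v₂) = B (aeval g (y.2 * x.1) v₁) v₂ := by
    rw [← hP.adj y.2 (aeval g x.1 v₁) v₂, ← aeval_mul_apply g]
  have t21 : B (aeval (g ^ (m - 1)) x.2 v₂) (aeval g y.1 v₁)
      = - B (aeval g (x.2 * y.1) v₁) v₂ := by
    rw [hP.skew, ← hP.adj x.2 (aeval g y.1 v₁) v₂, ← aeval_mul_apply g]
  have t22 : B (aeval (g ^ (m - 1)) x.2 v₂) (aeval (g ^ (m - 1)) y.2 v₂) = 0 := by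
    rw [← hP.adj y.2 (aeval (g ^ (m - 1)) x.2 v₂) v₂, hP.aeval_g_eq,
      ← aeval_mul_apply (g ^ (m - 1))]
    exact i2 _
  simp only [map_add, LinearMap.add_apply, t11, t12, t21, t22]
  ring

theorem hyp_nd (hP : IsoPack B g m) (π : F[X]) (hπ : Irreducible π) (v₁ v₂ : V)
    (hv₁ : aeval g π v₁ = 0) (hv₂ : aeval (g ^ (m - 1)) π v₂ = 0) (hB : B v₁ v₂ ≠ 0)
    (i1 : ∀ f : F[X], B (aeval g f v₁) v₁ = 0)
    (i2 : ∀ f : F[X], B (aeval (g ^ (m - 1)) f v₂) v₂ = 0)
    (x : F[X] × F[X])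
    (hx : ∀ y, B (((cycMap g v₁).coprod (cycMap (g ^ (m - 1)) v₂)) x)
      (((cycMap g v₁).coprod (cycMap (g ^ (m - 1)) v₂)) y) = 0) :
    ((cycMap g v₁).coprod (cycMap (g ^ (m - 1)) v₂)) x = 0 := by
  have hx' : ∀ y : F[X] × F[X],
      B (aeval g (y.2 * x.1) v₁) v₂ - B (aeval g (x.2 * y.1) v₁) v₂ = 0 := by
    intro y
    rw [← hyp_gram hP v₁ v₂ i1 i2]
    exact hx y
  have h1 : aeval g x.1 v₁ = 0 := by
    by_contra hne
    obtain ⟨c, hc⟩ := cyc_inv g π hπ v₁ hv₁ x.1 hne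
    have h2 := hx' (0, c)
    simp only [mul_zero, map_zero, LinearMap.zero_apply, sub_zero] at h2
    rw [hc] at h2
    exact hB h2
  have h2 : aeval (g ^ (m - 1)) x.2 v₂ = 0 := by
    by_contra hne
    obtain ⟨c, hc⟩ := cyc_inv (g ^ (m - 1)) π hπ v₂ hv₂ x.2 hne
    have h3 := hx' (c, 0)
    simp only [zero_mul, map_zero, LinearMap.zero_apply, zero_sub, neg_eq_zero] at h3
    rw [hP.adj, mul_comm, hc] at h3
    exact hB h3
  rw [LinearMap.coprod_apply, cycMap_apply, cycMap_apply, h1, h2, add_zero]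

theorem pow_mem_of_inv (g : V →ₗ[F] V) (U : Submodule F V) (hU : ∀ u ∈ U, g u ∈ U) (n : ℕ) :
    ∀ u ∈ U, (g ^ n) u ∈ U := by
  induction n with
  | zero => intro u hu; simpa using hu
  | succ n ih =>
    intro u hu
    have h1 : (g ^ (n + 1)) u = (g ^ n) (g u) := by rw [pow_succ]; rfl
    rw [h1]
    exact ih _ (hU u hu)

theorem orth_pack [FiniteDimensional F V] (hP : IsoPack B g m) (U : Submodule F V)
    (hU : ∀ u ∈ U, g u ∈ U) (hndU : ∀ u ∈ U, (∀ w ∈ U, B u w = 0) → u = 0) :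
    ∃ (W : Submodule F V) (hW : ∀ u ∈ W, g u ∈ W), IsCompl U W ∧
      (∀ u ∈ U, ∀ w ∈ W, B u w = 0) ∧ IsoPack (B.restrict W) (g.restrict hW) m := by
  have hrefl : B.IsRefl := LinearMap.BilinForm.IsAlt.isRefl hP.alt
  have hnd2 : (B.restrict U).Nondegenerate := by
    refine ⟨fun x hx => ?_, fun y hy => ?_⟩
    · apply Subtype.ext
      exact hndU x.1 x.2 (fun w hw => hx ⟨w, hw⟩)
    · apply Subtype.ext
      refine hndU y.1 y.2 (fun w hw => ?_)
      rw [hP.skew]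
      have := hy ⟨w, hw⟩
      exact neg_eq_zero.2 this
  have hc : IsCompl U (B.orthogonal U) :=
    LinearMap.BilinForm.isCompl_orthogonal_of_restrict_nondegenerate hrefl hnd2
  have hmem : ∀ w, w ∈ B.orthogonal U ↔ ∀ u ∈ U, B u w = 0 := fun w =>
    LinearMap.BilinForm.mem_orthogonal_iff
  have hW : ∀ w ∈ B.orthogonal U, g w ∈ B.orthogonal U := by
    intro w hw
    rw [hmem] at hw ⊢
    intro u hu
    have h1 := hP.iso ((g ^ (m - 1)) u) w
    rw [hP.gk] at h1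
    rw [h1]
    exact hw _ (pow_mem_of_inv g U hU (m - 1) u hu)
  refine ⟨B.orthogonal U, hW, hc, fun u hu w hw => (hmem w).1 hw u hu, ?_⟩
  refine ⟨fun u => hP.alt u.1, ?_, fun u w => ?_, restrict_pow_one g _ hW m hP.pow, hP.mpos⟩
  · intro u hu
    apply Subtype.ext
    apply hP.nd
    intro z
    have hz : z ∈ U ⊔ B.orthogonal U := by
      rw [hc.sup_eq_top]
      exact Submodule.mem_top
    obtain ⟨a, ha, b, hb, rfl⟩ := Submodule.mem_sup.1 hz
    rw [map_add]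
    have h1 : B u.1 a = 0 := by
      rw [hP.skew, (hmem u.1).1 u.2 a ha, neg_zero]
    have h2 : B u.1 b = 0 := hu ⟨b, hb⟩
    rw [h1, h2, add_zero]
  · exact hP.iso u.1 w.1

theorem iso_glue {V' : Type u} [AddCommGroup V'] [Module F V']
    (B : LinearMap.BilinForm F V) (B' : LinearMap.BilinForm F V')
    (g : V →ₗ[F] V) (h : V' →ₗ[F] V')
    (U W : Submodule F V) (U' W' : Submodule F V') (hc : IsCompl U W) (hc' : IsCompl U' W')
    (hU : ∀ x ∈ U, g x ∈ U) (hW : ∀ x ∈ W, g x ∈ W)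
    (hU' : ∀ x ∈ U', h x ∈ U') (hW' : ∀ x ∈ W', h x ∈ W')
    (horth : ∀ u ∈ U, ∀ w ∈ W, B u w = 0 ∧ B w u = 0)
    (horth' : ∀ u ∈ U', ∀ w ∈ W', B' u w = 0 ∧ B' w u = 0)
    (T1 : U ≃ₗ[F] U') (T2 : W ≃ₗ[F] W')
    (h1 : ∀ w, T1 (g.restrict hU w) = h.restrict hU' (T1 w))
    (h2 : ∀ w, T2 (g.restrict hW w) = h.restrict hW' (T2 w))
    (i1 : ∀ u w : U, B' (T1 u : V') (T1 w : V') = B (u : V) (w : V))
    (i2 : ∀ u w : W, B' (T2 u : V') (T2 w : V') = B (u : V) (w : V)) :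
    ∃ T : V ≃ₗ[F] V', (∀ v, T (g v) = h (T v)) ∧ (∀ u w, B' (T u) (T w) = B u w) := by
  have hT : ∀ y : U × W, ((Submodule.prodEquivOfIsCompl U W hc).symm ≪≫ₗ (T1.prodCongr T2) ≪≫ₗ
      (Submodule.prodEquivOfIsCompl U' W' hc')) (Submodule.prodEquivOfIsCompl U W hc y)
      = ((T1 y.1 : U') : V') + ((T2 y.2 : W') : V') := by
    intro y
    simp only [LinearEquiv.trans_apply, LinearEquiv.symm_apply_apply, LinearEquiv.prodCongr_apply]
    rw [Submodule.coe_prodEquivOfIsCompl']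
  refine ⟨(Submodule.prodEquivOfIsCompl U W hc).symm ≪≫ₗ (T1.prodCongr T2) ≪≫ₗ
    (Submodule.prodEquivOfIsCompl U' W' hc'), ?_, ?_⟩
  · intro x
    obtain ⟨y, rfl⟩ := (Submodule.prodEquivOfIsCompl U W hc).surjective x
    have hg : g (Submodule.prodEquivOfIsCompl U W hc y)
        = Submodule.prodEquivOfIsCompl U W hc (g.restrict hU y.1, g.restrict hW y.2) := by
      rw [Submodule.coe_prodEquivOfIsCompl', Submodule.coe_prodEquivOfIsCompl', map_add]
      rfl
    rw [hg, hT, hT, h1, h2, map_add]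
    rfl
  · intro x z
    obtain ⟨y, rfl⟩ := (Submodule.prodEquivOfIsCompl U W hc).surjective x
    obtain ⟨y', rfl⟩ := (Submodule.prodEquivOfIsCompl U W hc).surjective z
    rw [hT, hT, Submodule.coe_prodEquivOfIsCompl', Submodule.coe_prodEquivOfIsCompl']
    simp only [map_add, LinearMap.add_apply]
    rw [i1, i2, (horth' _ (T1 y.1).2 _ (T2 y'.2).2).1, (horth' _ (T1 y'.1).2 _ (T2 y.2).2).2,
      (horth _ y.1.2 _ y'.2.2).1, (horth _ y'.1.2 _ y.2.2).2]

end

theorem piece_exists {F : Type u} [Field F] [Fintype F] {V V' : Type u} [AddCommGroup V]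
    [Module F V] [FiniteDimensional F V] [AddCommGroup V'] [Module F V'] [FiniteDimensional F V']
    {B : LinearMap.BilinForm F V} {g : V →ₗ[F] V} {B' : LinearMap.BilinForm F V'}
    {h : V' →ₗ[F] V'} {m : ℕ}
    (hm : (m : F) ≠ 0) (hP : IsoPack B g m) (hP' : IsoPack B' h m) (π : F[X])
    (hπ : Irreducible π)
    (v₁ : V) (hv₁ : aeval g π v₁ = 0) (hv₁0 : v₁ ≠ 0)
    (v₁' : V') (hv₁' : aeval h π v₁' = 0) (hv₁0' : v₁' ≠ 0) :
    ∃ (U : Submodule F V) (U' : Submodule F V') (hU : ∀ u ∈ U, g u ∈ U)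
      (hU' : ∀ u ∈ U', h u ∈ U') (T : U ≃ₗ[F] U'),
      (∀ w, T (g.restrict hU w) = h.restrict hU' (T w)) ∧
      (∀ u w : U, B' (T u : V') (T w : V') = B (u : V) (w : V)) ∧
      (∀ u ∈ U, (∀ w ∈ U, B u w = 0) → u = 0) ∧
      (∀ u ∈ U', (∀ w ∈ U', B' u w = 0) → u = 0) ∧
      U ≠ ⊥ := by
  by_cases hH : IsCoprime π (π.comp (X ^ (m - 1))) ∨ π ∣ X ^ 2 - 1
  · -- hyperbolic case
    obtain ⟨v₂, hv₂, hB12⟩ := pair_exists hm hP π hπ v₁ hv₁ hv₁0
    obtain ⟨v₂', hv₂', hmatch⟩ := pair_match hm hP hP' π hπ v₁ hv₁ hv₁0 v₂ v₁' hv₁' hv₁0'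
    have i1 := hyp_isotropic hP π hπ hH v₁ hv₁
    have i2 := hyp_isotropic hP.swap π hπ hH v₂ hv₂
    have i1' := hyp_isotropic hP' π hπ hH v₁' hv₁'
    have i2' := hyp_isotropic hP'.swap π hπ hH v₂' hv₂'
    have hB12' : B' v₁' v₂' ≠ 0 := by
      have h1 := hmatch 1
      rw [map_one, map_one] at h1
      have h2 : B' v₁' v₂' = B v₁ v₂ := h1
      rw [h2]
      exact hB12
    have hs : ∀ x : F[X] × F[X], ((cycMap g v₁).coprod (cycMap (g ^ (m - 1)) v₂))
        (((LinearMap.mulLeft F (X : F[X])).prodMap (LinearMap.mulLeft F (X ^ (m - 1) : F[X]))) x)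
        = g (((cycMap g v₁).coprod (cycMap (g ^ (m - 1)) v₂)) x) := by
      intro x
      rw [LinearMap.coprod_apply, LinearMap.coprod_apply, map_add]
      congr 1
      · exact cycMap_X_mul g v₁ x.1
      · show aeval (g ^ (m - 1)) (X ^ (m - 1) * x.2) v₂ = g (aeval (g ^ (m - 1)) x.2 v₂)
        rw [aeval_mul_apply, map_pow, aeval_X, hP.kk]
    have hs' : ∀ x : F[X] × F[X], ((cycMap h v₁').coprod (cycMap (h ^ (m - 1)) v₂'))
        (((LinearMap.mulLeft F (X : F[X])).prodMap (LinearMap.mulLeft F (X ^ (m - 1) : F[X]))) x)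
        = h (((cycMap h v₁').coprod (cycMap (h ^ (m - 1)) v₂')) x) := by
      intro x
      rw [LinearMap.coprod_apply, LinearMap.coprod_apply, map_add]
      congr 1
      · exact cycMap_X_mul h v₁' x.1
      · show aeval (h ^ (m - 1)) (X ^ (m - 1) * x.2) v₂' = h (aeval (h ^ (m - 1)) x.2 v₂')
        rw [aeval_mul_apply, map_pow, aeval_X, hP'.kk]
    have hiso : ∀ x y : F[X] × F[X],
        B (((cycMap g v₁).coprod (cycMap (g ^ (m - 1)) v₂)) x)
          (((cycMap g v₁).coprod (cycMap (g ^ (m - 1)) v₂)) y)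
        = B' (((cycMap h v₁').coprod (cycMap (h ^ (m - 1)) v₂')) x)
          (((cycMap h v₁').coprod (cycMap (h ^ (m - 1)) v₂')) y) := by
      intro x y
      rw [hyp_gram hP v₁ v₂ i1 i2, hyp_gram hP' v₁' v₂' i1' i2', hmatch, hmatch]
    have hnd := hyp_nd hP π hπ v₁ v₂ hv₁ hv₂ hB12 i1 i2
    have hnd' := hyp_nd hP' π hπ v₁' v₂' hv₁' hv₂' hB12' i1' i2'
    have hU : ∀ u ∈ LinearMap.range ((cycMap g v₁).coprod (cycMap (g ^ (m - 1)) v₂)),
        g u ∈ LinearMap.range ((cycMap g v₁).coprod (cycMap (g ^ (m - 1)) v₂)) := by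
      rintro _ ⟨x, rfl⟩
      exact ⟨_, hs x⟩
    have hU' : ∀ u ∈ LinearMap.range ((cycMap h v₁').coprod (cycMap (h ^ (m - 1)) v₂')),
        h u ∈ LinearMap.range ((cycMap h v₁').coprod (cycMap (h ^ (m - 1)) v₂')) := by
      rintro _ ⟨x, rfl⟩
      exact ⟨_, hs' x⟩
    obtain ⟨T, hT1, hT2⟩ := gram_equiv B B' g h _ _ _ hs hs' hiso hnd hnd' hU hU'
    refine ⟨_, _, hU, hU', T, hT1, hT2, ?_, ?_, ?_⟩
    · rintro _ ⟨x, rfl⟩ hx
      exact hnd x (fun y => hx _ ⟨y, rfl⟩)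
    · rintro _ ⟨x, rfl⟩ hx
      exact hnd' x (fun y => hx _ ⟨y, rfl⟩)
    · intro hbot
      apply hv₁0
      have h1 : v₁ ∈ LinearMap.range ((cycMap g v₁).coprod (cycMap (g ^ (m - 1)) v₂)) := by
        refine ⟨(1, 0), ?_⟩
        rw [LinearMap.coprod_apply, cycMap_apply, cycMap_apply, map_one, map_zero]
        simp
      rw [hbot] at h1
      exact (Submodule.mem_bot F).1 h1
  · -- anisotropic case
    push Not at hH
    obtain ⟨hH1, hH2⟩ := hH
    have hd : π ∣ π.comp (X ^ (m - 1)) := (hπ.isCoprime_or_dvd _).resolve_left hH1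
    have hμ := dvd_pow_sub_one hP π hπ v₁ hv₁ hv₁0
    obtain ⟨v, hv, f₀, hf₀⟩ := aniso_exists hm hP π hπ hd hH2 v₁ hv₁ hv₁0
    obtain ⟨v₀', hv₀', f₁, hf₁⟩ := aniso_exists hm hP' π hπ hd hH2 v₁' hv₁' hv₁0'
    obtain ⟨v', hv', hmatch⟩ := norm_match hP hP' π hπ hd hH2 hμ v hv f₀ hf₀ v₀' hv₀' f₁ hf₁
    have hf₀' : B' (aeval h f₀ v') v' ≠ 0 := by
      rw [hmatch]
      exact hf₀
    have hs : ∀ x : F[X], (cycMap g v) ((LinearMap.mulLeft F (X : F[X])) x)
        = g ((cycMap g v) x) := fun x => cycMap_X_mul g v x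
    have hs' : ∀ x : F[X], (cycMap h v') ((LinearMap.mulLeft F (X : F[X])) x)
        = h ((cycMap h v') x) := fun x => cycMap_X_mul h v' x
    have hiso : ∀ x y : F[X], B (cycMap g v x) (cycMap g v y)
        = B' (cycMap h v' x) (cycMap h v' y) := by
      intro x y
      rw [cycMap_apply, cycMap_apply, cycMap_apply, cycMap_apply, cyc_gram hP, cyc_gram hP',
        hmatch]
    have hnd := cyc_nd hP π hπ v hv f₀ hf₀
    have hnd' := cyc_nd hP' π hπ v' hv' f₀ hf₀'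
    have hU : ∀ u ∈ LinearMap.range (cycMap g v), g u ∈ LinearMap.range (cycMap g v) := by
      rintro _ ⟨x, rfl⟩
      exact ⟨_, hs x⟩
    have hU' : ∀ u ∈ LinearMap.range (cycMap h v'), h u ∈ LinearMap.range (cycMap h v') := by
      rintro _ ⟨x, rfl⟩
      exact ⟨_, hs' x⟩
    obtain ⟨T, hT1, hT2⟩ := gram_equiv B B' g h _ _ _ hs hs' hiso hnd hnd' hU hU'
    refine ⟨_, _, hU, hU', T, hT1, hT2, ?_, ?_, ?_⟩
    · rintro _ ⟨x, rfl⟩ hx
      exact hnd x (fun y => hx _ ⟨y, rfl⟩)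
    · rintro _ ⟨x, rfl⟩ hx
      exact hnd' x (fun y => hx _ ⟨y, rfl⟩)
    · intro hbot
      have h1 : v ∈ LinearMap.range (cycMap g v) := by
        refine ⟨1, ?_⟩
        rw [cycMap_apply, map_one]
        rfl
      rw [hbot] at h1
      have h2 : v = 0 := (Submodule.mem_bot F).1 h1
      apply hf₀
      rw [h2]
      simp

theorem sp_conj_aux {F : Type u} [Field F] [Fintype F] (m : ℕ) (hm : (m : F) ≠ 0) :
    ∀ (n : ℕ) (V V' : Type u) [AddCommGroup V] [Module F V] [FiniteDimensional F V]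
      [AddCommGroup V'] [Module F V'] [FiniteDimensional F V']
      (B : LinearMap.BilinForm F V) (B' : LinearMap.BilinForm F V')
      (g : V →ₗ[F] V) (h : V' →ₗ[F] V'),
      IsoPack B g m → IsoPack B' h m → Module.finrank F V = n → g.charpoly = h.charpoly →
      ∃ T : V ≃ₗ[F] V', (∀ v, T (g v) = h (T v)) ∧ (∀ u w, B' (T u) (T w) = B u w) := by
  intro n
  induction n using Nat.strong_induction_on with
  | _ n ih =>
    intro V V' _ _ _ _ _ _ B B' g h hP hP' hn hc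
    have hn' : Module.finrank F V' = n := by
      rw [← hn, ← LinearMap.charpoly_natDegree g, ← LinearMap.charpoly_natDegree h, hc]
    rcases Nat.eq_zero_or_pos n with h0 | hpos
    · have : Subsingleton V := Module.finrank_zero_iff.1 (hn.trans h0)
      have : Subsingleton V' := Module.finrank_zero_iff.1 (hn'.trans h0)
      refine ⟨LinearEquiv.ofSubsingleton V V', fun v => Subsingleton.elim _ _, fun u w => ?_⟩
      rw [Subsingleton.elim u 0, Subsingleton.elim (LinearEquiv.ofSubsingleton V V' 0) 0,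
        map_zero, map_zero, LinearMap.zero_apply, LinearMap.zero_apply]
    · have hdeg : g.charpoly.natDegree = n := by rw [LinearMap.charpoly_natDegree, hn]
      have hne0 : g.charpoly ≠ 0 := (LinearMap.charpoly_monic g).ne_zero
      have hnu : ¬ IsUnit g.charpoly := by
        intro hu
        have := Polynomial.natDegree_eq_zero_of_isUnit hu
        omega
      obtain ⟨π, hπ, hπd⟩ := WfDvdMonoid.exists_irreducible_factor hnu hne0
      obtain ⟨v, hv, hv0⟩ := exists_ker_aeval_irred g π hπ hπd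
      obtain ⟨v', hv', hv0'⟩ := exists_ker_aeval_irred h π hπ (hc ▸ hπd)
      obtain ⟨U, U', hU, hU', T1, hT1, hT1i, hndU, hndU', hUne⟩ :=
        piece_exists hm hP hP' π hπ v hv0 hv v' hv0' hv'
      obtain ⟨W, hW, hcW, horW, hPW⟩ := orth_pack hP U hU hndU
      obtain ⟨W', hW', hcW', horW', hPW'⟩ := orth_pack hP' U' hU' hndU'
      have hχU : (g.restrict hU).charpoly = (h.restrict hU').charpoly := by
        have h1 : T1.conj (g.restrict hU) = h.restrict hU' := by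
          apply LinearMap.ext
          intro w
          rw [LinearEquiv.conj_apply_apply, hT1, LinearEquiv.apply_symm_apply]
        rw [← h1, LinearEquiv.charpoly_conj]
      have e1 := charpoly_of_isCompl g U W hU hW hcW
      have e2 := charpoly_of_isCompl h U' W' hU' hW' hcW'
      have hχW : (g.restrict hW).charpoly = (h.restrict hW').charpoly := by
        have h3 : (g.restrict hU).charpoly * (g.restrict hW).charpoly
            = (g.restrict hU).charpoly * (h.restrict hW').charpoly := by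
          rw [← e1, hχU, ← e2, hc]
        exact mul_left_cancel₀ (LinearMap.charpoly_monic _).ne_zero h3
      have hdim : Module.finrank F W < n := by
        have h5 := Submodule.finrank_add_eq_of_isCompl hcW
        have h6 : 0 < Module.finrank F U := by
          obtain ⟨b, hb, hb0⟩ := Submodule.exists_mem_ne_zero_of_ne_bot hUne
          apply Module.finrank_pos_iff_exists_ne_zero.2
          refine ⟨⟨b, hb⟩, ?_⟩
          intro h7
          exact hb0 (congrArg Subtype.val h7)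
        omega
      obtain ⟨T2, hT2, hT2i⟩ := ih (Module.finrank F W) hdim W W' (B.restrict W)
        (B'.restrict W') (g.restrict hW) (h.restrict hW') hPW hPW' rfl hχW
      exact iso_glue B B' g h U W U' W' hcW hcW' hU hW hU' hW'
        (fun u hu w hw => ⟨horW u hu w hw, by rw [hP.skew, horW u hu w hw, neg_zero]⟩)
        (fun u hu w hw => ⟨horW' u hu w hw, by rw [hP'.skew, horW' u hu w hw, neg_zero]⟩)
        T1 T2 hT1 hT2 hT1i hT2i

end Cfsg.Agent.Helper15
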