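import Mathlib
import Cfsg.Agent.Helper15.SpSemi3
import Cfsg.Agent.Helper15.Jord1

set_option autoImplicit false

namespace Cfsg.Agent.Helper15

universe u

structure InvPack {F : Type u} [Field F] {V : Type u} [AddCommGroup V] [Module F V]
    (B : LinearMap.BilinForm F V) (N : V →ₗ[F] V) : Prop where
  alt : ∀ u, B u u = 0
  nd : ∀ u, (∀ w, B u w = 0) → u = 0
  sq : ∀ u, N (N u) = 0
  adj : ∀ u w, B (N u) w = B u (N w)

section
variable {F : Type u} [Field F] {V : Type u} [AddCommGroup V] [Module F V]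
  {B : LinearMap.BilinForm F V} {N : V →ₗ[F] V}

theorem InvPack.skew (hP : InvPack B N) (u w : V) : B u w = - B w u := by
  have h1 := hP.alt (u + w)
  simp only [map_add, LinearMap.add_apply, hP.alt, zero_add, add_zero] at h1
  exact eq_neg_of_add_eq_zero_right h1

theorem InvPack.symm [CharP F 2] (hP : InvPack B N) (u w : V) : B u w = B w u := by
  rw [hP.skew u w, CharTwo.neg_eq]

theorem InvPack.orth [FiniteDimensional F V] (hP : InvPack B N) (U : Submodule F V)
    (hU : ∀ u ∈ U, N u ∈ U) (hndU : ∀ u ∈ U, (∀ w ∈ U, B u w = 0) → u = 0) :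
    ∃ (W : Submodule F V) (hW : ∀ u ∈ W, N u ∈ W), IsCompl U W ∧
      (∀ w, w ∈ W ↔ ∀ u ∈ U, B u w = 0) ∧ InvPack (B.restrict W) (N.restrict hW) := by
  have hrefl : B.IsRefl := LinearMap.BilinForm.IsAlt.isRefl hP.alt
  have hnd2 : (B.restrict U).Nondegenerate := by
    refine ⟨fun x hx => ?_, fun y hy => ?_⟩
    · apply Subtype.ext
      exact hndU x.1 x.2 (fun w hw => hx ⟨w, hw⟩)
    · apply Subtype.ext
      refine hndU y.1 y.2 (fun w hw => ?_)
      rw [hP.skew]
      have := hy ⟨w, hw⟩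
      exact neg_eq_zero.2 this
  have hc : IsCompl U (B.orthogonal U) :=
    LinearMap.BilinForm.isCompl_orthogonal_of_restrict_nondegenerate hrefl hnd2
  have hmem : ∀ w, w ∈ B.orthogonal U ↔ ∀ u ∈ U, B u w = 0 := fun w =>
    LinearMap.BilinForm.mem_orthogonal_iff
  have hW : ∀ w ∈ B.orthogonal U, N w ∈ B.orthogonal U := by
    intro w hw
    rw [hmem] at hw ⊢
    intro u hu
    rw [← hP.adj]
    exact hw _ (hU u hu)
  refine ⟨B.orthogonal U, hW, hc, hmem, ?_⟩
  refine ⟨fun u => hP.alt u.1, ?_, fun u => ?_, fun u w => hP.adj u.1 w.1⟩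
  · intro u hu
    apply Subtype.ext
    apply hP.nd
    intro z
    have hz : z ∈ U ⊔ B.orthogonal U := by
      rw [hc.sup_eq_top]
      exact Submodule.mem_top
    obtain ⟨a, ha, b, hb, rfl⟩ := Submodule.mem_sup.1 hz
    rw [map_add]
    have h1 : B u.1 a = 0 := by
      rw [hP.skew, (hmem u.1).1 u.2 a ha, neg_zero]
    have h2 : B u.1 b = 0 := hu ⟨b, hb⟩
    rw [h1, h2, add_zero]
  · apply Subtype.ext
    exact hP.sq u.1

end

theorem inv_peel {F : Type u} [Field F] {V V' P : Type u} [AddCommGroup V] [Module F V]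
    [FiniteDimensional F V] [AddCommGroup V'] [Module F V'] [FiniteDimensional F V']
    [AddCommGroup P] [Module F P]
    (B : LinearMap.BilinForm F V) (B' : LinearMap.BilinForm F V')
    (N : V →ₗ[F] V) (N' : V' →ₗ[F] V') (hP : InvPack B N) (hP' : InvPack B' N')
    (s : P →ₗ[F] P) (Φ : P →ₗ[F] V) (Φ' : P →ₗ[F] V')
    (hs : ∀ x, Φ (s x) = N (Φ x)) (hs' : ∀ x, Φ' (s x) = N' (Φ' x))
    (hiso : ∀ x y, B (Φ x) (Φ y) = B' (Φ' x) (Φ' y))
    (hnd : ∀ x, (∀ y, B (Φ x) (Φ y) = 0) → Φ x = 0)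
    (hnd' : ∀ x, (∀ y, B' (Φ' x) (Φ' y) = 0) → Φ' x = 0)
    (hne : ∃ x, Φ x ≠ 0)
    (hdim : Module.finrank F V = Module.finrank F V')
    (hnull : Module.finrank F (LinearMap.ker N) = Module.finrank F (LinearMap.ker N')) :
    ∃ (X : Submodule F V) (X' : Submodule F V') (hX : ∀ u ∈ X, N u ∈ X)
      (hX' : ∀ u ∈ X', N' u ∈ X'),
      InvPack (B.restrict X) (N.restrict hX) ∧ InvPack (B'.restrict X') (N'.restrict hX') ∧
      Module.finrank F X = Module.finrank F X' ∧ Module.finrank F X < Module.finrank F V ∧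
      Module.finrank F (LinearMap.ker (N.restrict hX))
        = Module.finrank F (LinearMap.ker (N'.restrict hX')) ∧
      (∀ w, w ∈ X ↔ ∀ x, B (Φ x) w = 0) ∧ (∀ w, w ∈ X' ↔ ∀ x, B' (Φ' x) w = 0) ∧
      (∀ T2 : X ≃ₗ[F] X', (∀ w, T2 (N.restrict hX w) = N'.restrict hX' (T2 w)) →
        (∀ u w : X, B' (T2 u : V') (T2 w : V') = B (u : V) (w : V)) →
        ∃ T : V ≃ₗ[F] V', (∀ v, T (N v) = N' (T v)) ∧ ∀ u w, B' (T u) (T w) = B u w) := by
  have hU : ∀ u ∈ LinearMap.range Φ, N u ∈ LinearMap.range Φ := by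
    rintro _ ⟨x, rfl⟩
    exact ⟨s x, hs x⟩
  have hU' : ∀ u ∈ LinearMap.range Φ', N' u ∈ LinearMap.range Φ' := by
    rintro _ ⟨x, rfl⟩
    exact ⟨s x, hs' x⟩
  obtain ⟨T1, hT1, hT1i⟩ := gram_equiv B B' N N' s Φ Φ' hs hs' hiso hnd hnd' hU hU'
  obtain ⟨X, hX, hc, hmemX, hPX⟩ := hP.orth (LinearMap.range Φ) hU (by
    rintro _ ⟨x, rfl⟩ h
    exact hnd x (fun y => h _ (LinearMap.mem_range_self Φ y)))
  obtain ⟨X', hX', hc', hmemX', hPX'⟩ := hP'.orth (LinearMap.range Φ') hU' (by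
    rintro _ ⟨x, rfl⟩ h
    exact hnd' x (fun y => h _ (LinearMap.mem_range_self Φ' y)))
  have hd1 := Submodule.finrank_add_eq_of_isCompl hc
  have hd2 := Submodule.finrank_add_eq_of_isCompl hc'
  have hd3 := T1.finrank_eq
  have hpos : 0 < Module.finrank F (LinearMap.range Φ) := by
    obtain ⟨x, hx⟩ := hne
    apply Module.finrank_pos_iff_exists_ne_zero.2
    exact ⟨⟨Φ x, LinearMap.mem_range_self Φ x⟩, fun h => hx (congrArg Subtype.val h)⟩
  have hk1 := kappa_isCompl N _ X hU hX hc 1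
  have hk2 := kappa_isCompl N' _ X' hU' hX' hc' 1
  have hk3 := kappa_conj (N.restrict hU) (N'.restrict hU') T1 hT1 1
  rw [pow_one, pow_one, pow_one] at hk1 hk2
  rw [pow_one, pow_one] at hk3
  refine ⟨X, X', hX, hX', hPX, hPX', by omega, by omega, by omega, ?_, ?_, ?_⟩
  · intro w
    rw [hmemX]
    constructor
    · intro h x
      exact h _ (LinearMap.mem_range_self Φ x)
    · rintro h _ ⟨x, rfl⟩
      exact h x
  · intro w
    rw [hmemX']
    constructor
    · intro h x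
      exact h _ (LinearMap.mem_range_self Φ' x)
    · rintro h _ ⟨x, rfl⟩
      exact h x
  · intro T2 h2 i2
    exact iso_glue B B' N N' _ X _ X' hc hc' hU hX hU' hX'
      (fun u hu w hw => ⟨(hmemX w).1 hw u hu, by rw [hP.skew, (hmemX w).1 hw u hu, neg_zero]⟩)
      (fun u hu w hw => ⟨(hmemX' w).1 hw u hu, by rw [hP'.skew, (hmemX' w).1 hw u hu, neg_zero]⟩)
      T1 T2 hT1 h2 hT1i i2

section
variable {F : Type u} [Field F] {V : Type u} [AddCommGroup V] [Module F V]
  {B : LinearMap.BilinForm F V} {N : V →ₗ[F] V}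

noncomputable def phiA (N : V →ₗ[F] V) (v : V) : (F × F) →ₗ[F] V :=
  (LinearMap.fst F F F).smulRight v + (LinearMap.snd F F F).smulRight (N v)

theorem phiA_apply (N : V →ₗ[F] V) (v : V) (x : F × F) :
    phiA N v x = x.1 • v + x.2 • N v := rfl

noncomputable def sA (F : Type u) [Field F] : (F × F) →ₗ[F] (F × F) :=
  LinearMap.prod 0 (LinearMap.fst F F F)

theorem sA_apply (x : F × F) : sA F x = (0, x.1) := rfl

theorem phiA_s (hP : InvPack B N) (v : V) (x : F × F) :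
    phiA N v (sA F x) = N (phiA N v x) := by
  rw [phiA_apply, phiA_apply, sA_apply, map_add, map_smul, map_smul, hP.sq, smul_zero, add_zero,
    zero_smul, zero_add]

theorem phiA_gram (hP : InvPack B N) (v : V) (hv : B v (N v) = 1) (x y : F × F) :
    B (phiA N v x) (phiA N v y) = x.1 * y.2 + x.2 * y.1 := by
  have h1 : B (N v) v = 1 := by rw [hP.adj, hv]
  have h2 : B (N v) (N v) = 0 := hP.alt _
  have h3 : B v v = 0 := hP.alt _
  rw [phiA_apply, phiA_apply]
  simp only [map_add, map_smul, LinearMap.add_apply, LinearMap.smul_apply, smul_eq_mul, h1, h2,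
    h3, hv]
  ring

theorem phiA_nd (hP : InvPack B N) (v : V) (hv : B v (N v) = 1) (x : F × F)
    (h : ∀ y, B (phiA N v x) (phiA N v y) = 0) : phiA N v x = 0 := by
  have h1 := h (0, 1)
  have h2 := h (1, 0)
  rw [phiA_gram hP v hv] at h1 h2
  simp only [mul_one, mul_zero, add_zero, zero_add] at h1 h2
  rw [phiA_apply, h1, h2, zero_smul, zero_smul, add_zero]

noncomputable def phiB (N : V →ₗ[F] V) (u v : V) : ((F × F) × (F × F)) →ₗ[F] V :=
  ((LinearMap.fst F F F).smulRight u + (LinearMap.snd F F F).smulRight v).coprod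
    ((LinearMap.fst F F F).smulRight (N u) + (LinearMap.snd F F F).smulRight (N v))

theorem phiB_apply (N : V →ₗ[F] V) (u v : V) (x : (F × F) × (F × F)) :
    phiB N u v x = (x.1.1 • u + x.1.2 • v) + (x.2.1 • N u + x.2.2 • N v) := rfl

noncomputable def sB (F : Type u) [Field F] : ((F × F) × (F × F)) →ₗ[F] ((F × F) × (F × F)) :=
  LinearMap.prod 0 (LinearMap.fst F (F × F) (F × F))

theorem sB_apply (x : (F × F) × (F × F)) : sB F x = (0, x.1) := rfl

theorem phiB_s (hP : InvPack B N) (u v : V) (x : (F × F) × (F × F)) :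
    phiB N u v (sB F x) = N (phiB N u v x) := by
  rw [phiB_apply, phiB_apply, sB_apply]
  simp only [map_add, map_smul, hP.sq, smul_zero, add_zero, Prod.fst_zero, Prod.snd_zero,
    zero_smul, zero_add]

theorem phiB_gram [CharP F 2] (hP : InvPack B N) (u v : V) (huv : B u v = 0)
    (h1 : B u (N v) = 1) (hu : B u (N u) = 0) (hv : B v (N v) = 0)
    (x y : (F × F) × (F × F)) :
    B (phiB N u v x) (phiB N u v y)
      = x.1.1 * y.2.2 + x.1.2 * y.2.1 + x.2.1 * y.1.2 + x.2.2 * y.1.1 := by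
  have a1 : B u u = 0 := hP.alt _
  have a2 : B v u = 0 := by rw [hP.symm, huv]
  have a3 : B v v = 0 := hP.alt _
  have a4 : B v (N u) = 1 := by rw [← hP.adj, hP.symm, h1]
  have a5 : B (N u) u = 0 := by rw [hP.adj, hu]
  have a6 : B (N u) v = 1 := by rw [hP.adj, h1]
  have a7 : B (N u) (N u) = 0 := hP.alt _
  have a8 : B (N u) (N v) = 0 := by rw [hP.adj, hP.sq, map_zero]
  have a9 : B (N v) u = 1 := by rw [hP.adj, a4]
  have a10 : B (N v) v = 0 := by rw [hP.adj, hv]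
  have a11 : B (N v) (N u) = 0 := by rw [hP.adj, hP.sq, map_zero]
  have a12 : B (N v) (N v) = 0 := hP.alt _
  rw [phiB_apply, phiB_apply]
  simp only [map_add, map_smul, LinearMap.add_apply, LinearMap.smul_apply, smul_eq_mul, a1, a2,
    a3, a4, a5, a6, a7, a8, a9, a10, a11, a12, huv, h1, hu, hv]
  ring

theorem phiB_nd [CharP F 2] (hP : InvPack B N) (u v : V) (huv : B u v = 0)
    (h1 : B u (N v) = 1) (hu : B u (N u) = 0) (hv : B v (N v) = 0)
    (x : (F × F) × (F × F))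
    (h : ∀ y, B (phiB N u v x) (phiB N u v y) = 0) : phiB N u v x = 0 := by
  have e1 := h ((0, 0), (0, 1))
  have e2 := h ((0, 0), (1, 0))
  have e3 := h ((0, 1), (0, 0))
  have e4 := h ((1, 0), (0, 0))
  rw [phiB_gram hP u v huv h1 hu hv] at e1 e2 e3 e4
  simp only [mul_one, mul_zero, add_zero, zero_add] at e1 e2 e3 e4
  rw [phiB_apply, e1, e2, e3, e4, zero_smul, zero_smul, zero_smul, zero_smul, add_zero, add_zero]

theorem typeB_exists [CharP F 2] (hP : InvPack B N) (x : V) (hx : N x ≠ 0) :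
    ∃ y, B x y = 0 ∧ B x (N y) = 1 := by
  have h1 : ∃ y₀, B (N x) y₀ ≠ 0 := by
    by_contra hcon
    push Not at hcon
    exact hx (hP.nd _ hcon)
  obtain ⟨y₀, hy₀⟩ := h1
  have hy1 : B x (N ((B (N x) y₀)⁻¹ • y₀)) = 1 := by
    rw [map_smul, map_smul, smul_eq_mul, ← hP.adj, inv_mul_cancel₀ hy₀]
  obtain ⟨y₁, hy₁⟩ : ∃ y₁, B x (N y₁) = 1 := ⟨_, hy1⟩
  refine ⟨y₁ + B x y₁ • N y₁, ?_, ?_⟩
  · rw [map_add, map_smul, smul_eq_mul, hy₁, mul_one]
    exact CharTwo.add_self_eq_zero _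
  · rw [map_add, map_smul, hP.sq, smul_zero, add_zero, hy₁]

end

end Cfsg.Agent.Helper15
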