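import Mathlib
import Cfsg.Agent.Helper15.Inv2A

set_option autoImplicit false

namespace Cfsg.Agent.Helper15

universe u

theorem nonalt_exists {F : Type u} [Field F] [Fintype F] [CharP F 2] {V : Type u}
    [AddCommGroup V] [Module F V] [FiniteDimensional F V]
    {B : LinearMap.BilinForm F V} {N : V →ₗ[F] V} (hP : InvPack B N)
    (hna : ¬ ∀ v, B v (N v) = 0) :
    ∃ v, B v (N v) = 1 ∧ ((∃ w, B v w = 0 ∧ B (N v) w = 0 ∧ B w (N w) ≠ 0) ∨
      (∀ w, B v w = 0 → B (N v) w = 0 → N w = 0)) := by
  classical
  push Not at hna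
  obtain ⟨v₀, hv₀⟩ := hna
  obtain ⟨r, hr⟩ := FiniteField.isSquare_of_char_two (ringChar.eq F 2) (B v₀ (N v₀))
  have hr0 : r ≠ 0 := by
    rintro rfl
    rw [mul_zero] at hr
    exact hv₀ hr
  obtain ⟨v, hv⟩ : ∃ v, B v (N v) = 1 := by
    refine ⟨r⁻¹ • v₀, ?_⟩
    simp only [map_smul, LinearMap.smul_apply, smul_eq_mul, hr]
    field_simp
  obtain ⟨X, hX, hc, hmemX, hPX⟩ := hP.orth (LinearMap.range (phiA N v))
    (by rintro _ ⟨x, rfl⟩; exact ⟨sA F x, phiA_s hP v x⟩)
    (by
      rintro _ ⟨x, rfl⟩ h
      exact phiA_nd hP v hv x (fun y => h _ (LinearMap.mem_range_self _ y)))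
  have hmemv : ∀ w, w ∈ X ↔ (B v w = 0 ∧ B (N v) w = 0) := by
    intro w
    rw [hmemX]
    constructor
    · intro h
      have e1 := h (phiA N v (1, 0)) (LinearMap.mem_range_self _ _)
      have e2 := h (phiA N v (0, 1)) (LinearMap.mem_range_self _ _)
      rw [phiA_apply] at e1 e2
      simp only [one_smul, zero_smul, add_zero, zero_add] at e1 e2
      exact ⟨e1, e2⟩
    · rintro ⟨e1, e2⟩ _ ⟨x, rfl⟩
      rw [phiA_apply]
      simp only [map_add, map_smul, LinearMap.add_apply, LinearMap.smul_apply, e1, e2, smul_zero,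
        add_zero]
  by_cases hA : ∃ w, B v w = 0 ∧ B (N v) w = 0 ∧ B w (N w) ≠ 0
  · exact ⟨v, hv, Or.inl hA⟩
  · by_cases hB : ∀ w, B v w = 0 → B (N v) w = 0 → N w = 0
    · exact ⟨v, hv, Or.inr hB⟩
    · push Not at hA hB
      obtain ⟨x, hx1, hx2, hx3⟩ := hB
      have hxX : x ∈ X := (hmemv x).2 ⟨hx1, hx2⟩
      have hx3' : (N.restrict hX) ⟨x, hxX⟩ ≠ 0 := fun h => hx3 (congrArg Subtype.val h)
      obtain ⟨y, hy1, hy2⟩ := typeB_exists hPX ⟨x, hxX⟩ hx3'
      have hy1' : B x y.1 = 0 := hy1
      have hy2' : B x (N y.1) = 1 := hy2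
      obtain ⟨hvy, hNvy⟩ := (hmemv y.1).1 y.2
      have hxNx : B x (N x) = 0 := hA x hx1 hx2
      have hyNy : B y.1 (N y.1) = 0 := hA y.1 hvy hNvy
      have b1 : B v (N x) = 0 := by rw [← hP.adj, hx2]
      have b2 : B x (N v) = 0 := by rw [hP.symm, hx2]
      have b3 : B x v = 0 := by rw [hP.symm, hx1]
      have b4 : B (N v) v = 1 := by rw [hP.adj, hv]
      have b5 : B (N x) v = 0 := by rw [hP.adj, b2]
      have b6 : B (N x) y.1 = 1 := by rw [hP.adj, hy2']
      have b7 : B v (N y.1) = 0 := by rw [← hP.adj, hNvy]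
      have b8 : B y.1 (N v) = 0 := by rw [hP.symm, hNvy]
      refine ⟨v + x, ?_, Or.inl ⟨v + y.1, ?_, ?_, ?_⟩⟩
      · simp only [map_add, LinearMap.add_apply, hv, b1, b2, hxNx, add_zero]
      · simp only [map_add, LinearMap.add_apply, hP.alt, hvy, b3, hy1', add_zero]
      · simp only [map_add, LinearMap.add_apply, b4, hNvy, b5, b6, add_zero, zero_add]
        exact CharTwo.add_self_eq_zero 1
      · simp only [map_add, LinearMap.add_apply, hv, b7, b8, hyNy, add_zero]
        exact one_ne_zero

theorem inv_conj_aux {F : Type u} [Field F] [Fintype F] [CharP F 2] :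
    ∀ (n : ℕ) (V V' : Type u) [AddCommGroup V] [Module F V] [FiniteDimensional F V]
      [AddCommGroup V'] [Module F V'] [FiniteDimensional F V']
      (B : LinearMap.BilinForm F V) (B' : LinearMap.BilinForm F V')
      (N : V →ₗ[F] V) (N' : V' →ₗ[F] V'),
      InvPack B N → InvPack B' N' → Module.finrank F V = n → Module.finrank F V' = n →
      Module.finrank F (LinearMap.ker N) = Module.finrank F (LinearMap.ker N') →
      ((∀ v, B v (N v) = 0) ↔ (∀ v, B' v (N' v) = 0)) →
      ∃ T : V ≃ₗ[F] V', (∀ v, T (N v) = N' (T v)) ∧ ∀ u w, B' (T u) (T w) = B u w := by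
  intro n
  induction n using Nat.strong_induction_on with
  | _ n ih =>
    intro V V' _ _ _ _ _ _ B B' N N' hP hP' hn hn' hnull hiff
    by_cases halt : ∀ v, B v (N v) = 0
    · have halt' := hiff.1 halt
      by_cases hN : N = 0
      · have hN' : N' = 0 := by
          apply LinearMap.ker_eq_top.1
          apply Submodule.eq_top_of_finrank_eq
          rw [← hnull, hN, LinearMap.ker_zero, finrank_top, hn, hn']
        obtain ⟨T, -, hT⟩ := sp_conj_aux (F := F) 1 (by rw [Nat.cast_one]; exact one_ne_zero)
          n V V' B B' 1 1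
          ⟨hP.alt, hP.nd, fun u w => rfl, pow_one 1, le_refl 1⟩
          ⟨hP'.alt, hP'.nd, fun u w => rfl, pow_one 1, le_refl 1⟩ hn
          (by rw [LinearMap.charpoly_one, LinearMap.charpoly_one, hn, hn'])
        refine ⟨T, ?_, hT⟩
        intro v
        rw [hN, hN', LinearMap.zero_apply, LinearMap.zero_apply, map_zero]
      · have hN' : N' ≠ 0 := by
          intro h0
          apply hN
          apply LinearMap.ker_eq_top.1
          apply Submodule.eq_top_of_finrank_eq
          rw [hnull, h0, LinearMap.ker_zero, finrank_top, hn, hn']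
        obtain ⟨x, hx⟩ : ∃ x, N x ≠ 0 := by
          by_contra hcon
          push Not at hcon
          exact hN (LinearMap.ext hcon)
        obtain ⟨x', hx'⟩ : ∃ x', N' x' ≠ 0 := by
          by_contra hcon
          push Not at hcon
          exact hN' (LinearMap.ext hcon)
        obtain ⟨y, hy1, hy2⟩ := typeB_exists hP x hx
        obtain ⟨y', hy1', hy2'⟩ := typeB_exists hP' x' hx'
        obtain ⟨X, X', hX, hX', hPX, hPX', hd, hlt, hnu, -, -, hglue⟩ :=
          inv_peel B B' N N' hP hP' (sB F) (phiB N x y) (phiB N' x' y')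
            (phiB_s hP x y) (phiB_s hP' x' y')
            (fun a b => by
              rw [phiB_gram hP x y hy1 hy2 (halt x) (halt y),
                phiB_gram hP' x' y' hy1' hy2' (halt' x') (halt' y')])
            (phiB_nd hP x y hy1 hy2 (halt x) (halt y))
            (phiB_nd hP' x' y' hy1' hy2' (halt' x') (halt' y'))
            ⟨((1, 0), (0, 0)), by
              rw [phiB_apply]
              simp only [one_smul, zero_smul, add_zero]
              intro h0
              rw [h0, map_zero] at hx
              exact hx rfl⟩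
            (by rw [hn, hn']) hnull
        obtain ⟨T2, hT2, hT2i⟩ := ih (Module.finrank F X) (by rw [← hn]; exact hlt) X X'
          (B.restrict X) (B'.restrict X') (N.restrict hX) (N'.restrict hX') hPX hPX' rfl
          hd.symm hnu ⟨fun _ w => halt' w.1, fun _ w => halt w.1⟩
        exact hglue T2 hT2 hT2i
    · have halt' : ¬ ∀ v, B' v (N' v) = 0 := fun h => halt (hiff.2 h)
      obtain ⟨v, hv, hcase⟩ := nonalt_exists hP halt
      obtain ⟨v', hv', hcase'⟩ := nonalt_exists hP' halt'
      obtain ⟨X, X', hX, hX', hPX, hPX', hd, hlt, hnu, hmem, hmem', hglue⟩ :=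
        inv_peel B B' N N' hP hP' (sA F) (phiA N v) (phiA N' v')
          (phiA_s hP v) (phiA_s hP' v')
          (fun a b => by rw [phiA_gram hP v hv, phiA_gram hP' v' hv'])
          (phiA_nd hP v hv) (phiA_nd hP' v' hv')
          ⟨(1, 0), by
            rw [phiA_apply]
            simp only [one_smul, zero_smul, add_zero]
            intro h0
            rw [h0, map_zero, map_zero] at hv
            exact zero_ne_one hv⟩
          (by rw [hn, hn']) hnull
      have hmemv : ∀ w, (B v w = 0 ∧ B (N v) w = 0) → w ∈ X := by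
        rintro w ⟨e1, e2⟩
        rw [hmem]
        intro x
        rw [phiA_apply]
        simp only [map_add, map_smul, LinearMap.add_apply, LinearMap.smul_apply, e1, e2,
          smul_zero, add_zero]
      have hmemv2 : ∀ w, w ∈ X → (B v w = 0 ∧ B (N v) w = 0) := by
        intro w hw
        rw [hmem] at hw
        have e1 := hw (1, 0)
        have e2 := hw (0, 1)
        rw [phiA_apply] at e1 e2
        simp only [one_smul, zero_smul, add_zero, zero_add] at e1 e2
        exact ⟨e1, e2⟩
      have hmemv' : ∀ w, (B' v' w = 0 ∧ B' (N' v') w = 0) → w ∈ X' := by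
        rintro w ⟨e1, e2⟩
        rw [hmem']
        intro x
        rw [phiA_apply]
        simp only [map_add, map_smul, LinearMap.add_apply, LinearMap.smul_apply, e1, e2,
          smul_zero, add_zero]
      have hmemv2' : ∀ w, w ∈ X' → (B' v' w = 0 ∧ B' (N' v') w = 0) := by
        intro w hw
        rw [hmem'] at hw
        have e1 := hw (1, 0)
        have e2 := hw (0, 1)
        rw [phiA_apply] at e1 e2
        simp only [one_smul, zero_smul, add_zero, zero_add] at e1 e2
        exact ⟨e1, e2⟩
      have hzero : ∀ (h0 : N.restrict hX = 0) (h0' : N'.restrict hX' = 0),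
          ((∀ w : X, (B.restrict X) w ((N.restrict hX) w) = 0) ↔
            (∀ w : X', (B'.restrict X') w ((N'.restrict hX') w) = 0)) := by
        intro h0 h0'
        constructor
        · intro _ w
          rw [h0', LinearMap.zero_apply, map_zero]
        · intro _ w
          rw [h0, LinearMap.zero_apply, map_zero]
      have hiffX : (∀ w : X, (B.restrict X) w ((N.restrict hX) w) = 0) ↔
          (∀ w : X', (B'.restrict X') w ((N'.restrict hX') w) = 0) := by
        rcases hcase with ⟨w, hw1, hw2, hw3⟩ | hβ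
        · rcases hcase' with ⟨w', hw1', hw2', hw3'⟩ | hβ'
          · constructor
            · intro h
              exact absurd (h ⟨w, hmemv w ⟨hw1, hw2⟩⟩) hw3
            · intro h
              exact absurd (h ⟨w', hmemv' w' ⟨hw1', hw2'⟩⟩) hw3'
          · have h0' : N'.restrict hX' = 0 := LinearMap.ext (fun w => Subtype.ext
              (hβ' w.1 (hmemv2' w.1 w.2).1 (hmemv2' w.1 w.2).2))
            have h0 : N.restrict hX = 0 := by
              apply LinearMap.ker_eq_top.1
              apply Submodule.eq_top_of_finrank_eq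
              rw [hnu, h0', LinearMap.ker_zero, finrank_top, hd]
            exact hzero h0 h0'
        · have h0 : N.restrict hX = 0 := LinearMap.ext (fun w => Subtype.ext
            (hβ w.1 (hmemv2 w.1 w.2).1 (hmemv2 w.1 w.2).2))
          have h0' : N'.restrict hX' = 0 := by
            apply LinearMap.ker_eq_top.1
            apply Submodule.eq_top_of_finrank_eq
            rw [← hnu, h0, LinearMap.ker_zero, finrank_top, hd]
          exact hzero h0 h0'
      obtain ⟨T2, hT2, hT2i⟩ := ih (Module.finrank F X) (by rw [← hn]; exact hlt) X X'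
        (B.restrict X) (B'.restrict X') (N.restrict hX) (N'.restrict hX') hPX hPX' rfl
        hd.symm hnu hiffX
      exact hglue T2 hT2 hT2i

end Cfsg.Agent.Helper15
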