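import Mathlib
import Cfsg.Agent.Helper15.RegUnip

set_option autoImplicit false

namespace Cfsg.Agent.Helper15

theorem cyclic_nilpotent_indep {F V : Type*} [Field F] [AddCommGroup V] [Module F V]
    (f : V →ₗ[F] V) (n : ℕ) (hnil : f ^ n = 0) (v : V) (hv : (f ^ (n - 1)) v ≠ 0) :
    LinearIndependent F (fun i : Fin n => (f ^ (i : ℕ)) v) := by
  rw [Fintype.linearIndependent_iff]
  intro a ha
  have key : ∀ k : ℕ, ∀ i : Fin n, (i : ℕ) = k → a i = 0 := by
    intro k
    induction k using Nat.strong_induction_on with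
    | _ k ih =>
      intro i hik
      have h1 := congrArg (f ^ (n - 1 - k)) ha
      rw [map_sum, map_zero, Finset.sum_eq_single i] at h1
      · rw [map_smul, ← Module.End.mul_apply, ← pow_add] at h1
        have h2 : n - 1 - k + (i : ℕ) = n - 1 := by
          have := i.2
          omega
        rw [h2] at h1
        exact (smul_eq_zero.1 h1).resolve_right hv
      · intro j _ hji
        rcases lt_or_gt_of_ne (Fin.val_ne_of_ne hji) with hlt | hgt
        · rw [ih j (by omega) j rfl, zero_smul, map_zero]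
        · rw [map_smul, ← Module.End.mul_apply, ← pow_add]
          have h3 : f ^ (n - 1 - k + (j : ℕ)) = 0 := by
            obtain ⟨d, hd⟩ : ∃ d, n - 1 - k + (j : ℕ) = n + d :=
              ⟨n - 1 - k + (j : ℕ) - n, by have := i.2; omega⟩
            rw [hd, pow_add, hnil, zero_mul]
          rw [h3, LinearMap.zero_apply, smul_zero]
      · intro h
        exact absurd (Finset.mem_univ i) h
  intro i
  exact key i i rfl

theorem cyclic_nilpotent_basis {F V : Type*} [Field F] [AddCommGroup V] [Module F V]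
    [FiniteDimensional F V] (f : V →ₗ[F] V) (n : ℕ) (hn : 1 ≤ n) (hfin : Module.finrank F V = n)
    (hnil : f ^ n = 0) (v : V) (hv : (f ^ (n - 1)) v ≠ 0) :
    ∃ b : Module.Basis (Fin n) F V, ∀ i : Fin n, b i = (f ^ (i : ℕ)) v := by
  have hne : Nonempty (Fin n) := ⟨⟨0, hn⟩⟩
  have hli := cyclic_nilpotent_indep f n hnil v hv
  refine ⟨basisOfLinearIndependentOfCardEqFinrank hli (by rw [Fintype.card_fin, hfin]), ?_⟩
  intro i
  rw [coe_basisOfLinearIndependentOfCardEqFinrank]

theorem cyclic_nilpotent_conj {F V : Type*} [Field F] [AddCommGroup V] [Module F V]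
    [FiniteDimensional F V] (f f' : V →ₗ[F] V) (n : ℕ) (hn : 1 ≤ n) (hfin : Module.finrank F V = n)
    (hnil : f ^ n = 0) (hnil' : f' ^ n = 0) (v v' : V) (hv : (f ^ (n - 1)) v ≠ 0)
    (hv' : (f' ^ (n - 1)) v' ≠ 0) :
    ∃ g : V ≃ₗ[F] V, ∀ x, g (f x) = f' (g x) := by
  obtain ⟨b, hb⟩ := cyclic_nilpotent_basis f n hn hfin hnil v hv
  obtain ⟨b', hb'⟩ := cyclic_nilpotent_basis f' n hn hfin hnil' v' hv'
  refine ⟨b.equiv b' (Equiv.refl _), ?_⟩
  have hg : ∀ i, b.equiv b' (Equiv.refl _) (b i) = b' i := fun i => by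
    rw [Module.Basis.equiv_apply]
    rfl
  have hext : ((b.equiv b' (Equiv.refl _) : V ≃ₗ[F] V) : V →ₗ[F] V) ∘ₗ f
      = f' ∘ₗ ((b.equiv b' (Equiv.refl _) : V ≃ₗ[F] V) : V →ₗ[F] V) := by
    apply b.ext
    intro i
    show b.equiv b' (Equiv.refl _) (f (b i)) = f' (b.equiv b' (Equiv.refl _) (b i))
    rw [hg, hb, hb', ← Module.End.mul_apply, ← Module.End.mul_apply, ← pow_succ', ← pow_succ']
    by_cases hi : (i : ℕ) + 1 < n
    · have h1 : (f ^ ((i : ℕ) + 1)) v = b ⟨(i : ℕ) + 1, hi⟩ := (hb ⟨(i : ℕ) + 1, hi⟩).symm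
      have h2 : (f' ^ ((i : ℕ) + 1)) v' = b' ⟨(i : ℕ) + 1, hi⟩ := (hb' ⟨(i : ℕ) + 1, hi⟩).symm
      rw [h1, h2, hg]
    · have h1 : (i : ℕ) + 1 = n := by
        have := i.2
        omega
      rw [h1, hnil, hnil', LinearMap.zero_apply, LinearMap.zero_apply, map_zero]
  intro x
  exact congrArg (fun φ => φ x) hext

theorem cyclic_nilpotent_comm_det {F V : Type*} [Field F] [AddCommGroup V] [Module F V]
    [FiniteDimensional F V] (f : V →ₗ[F] V) (n : ℕ) (hn : 1 ≤ n)
    (hfin : Module.finrank F V = n) (hnil : f ^ n = 0) (v : V) (hv : (f ^ (n - 1)) v ≠ 0)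
    (c : V →ₗ[F] V) (hc : c * f = f * c) :
    ∃ a : F, LinearMap.det c = a ^ n := by
  classical
  obtain ⟨b, hb⟩ := cyclic_nilpotent_basis f n hn hfin hnil v hv
  let α : Fin n → F := fun i => b.repr (c v) i
  have hcv : c v = ∑ i, α i • (f ^ (i : ℕ)) v := by
    conv_lhs => rw [← b.sum_repr (c v)]
    refine Finset.sum_congr rfl fun i _ => ?_
    rw [hb]
  have hcomm : ∀ j : ℕ, c * f ^ j = f ^ j * c := fun j => (Commute.pow_right hc j)
  have hcP : c = ∑ i, α i • f ^ (i : ℕ) := by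
    apply b.ext
    intro j
    rw [hb, ← Module.End.mul_apply, hcomm, Module.End.mul_apply, hcv, map_sum, LinearMap.sum_apply]
    refine Finset.sum_congr rfl fun i _ => ?_
    rw [map_smul, LinearMap.smul_apply, ← Module.End.mul_apply, ← Module.End.mul_apply, ← pow_add,
      ← pow_add, add_comm]
  let i₀ : Fin n := ⟨0, hn⟩
  let r : V →ₗ[F] V := ∑ i ∈ Finset.univ.erase i₀, α i • f ^ ((i : ℕ) - 1)
  have hD : c = α i₀ • 1 + f * r := by
    rw [hcP, ← Finset.add_sum_erase _ _ (Finset.mem_univ i₀)]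
    congr 1
    rw [Finset.mul_sum]
    refine Finset.sum_congr rfl fun i hi => ?_
    have hi0 : (i : ℕ) ≠ 0 := by
      intro h0
      exact (Finset.mem_erase.1 hi).1 (Fin.ext h0)
    rw [mul_smul_comm, ← pow_succ']
    congr 2
    omega
  have hfr : Commute f r := by
    apply Commute.sum_right
    intro i _
    exact Commute.smul_right (Commute.pow_right (Commute.refl f) _) _
  have hnilD : (-(f * r)) ^ n = 0 := by
    rw [neg_pow, hfr.mul_pow, hnil, zero_mul, mul_zero]
  refine ⟨α i₀, ?_⟩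
  have h1 := LinearMap.eval_charpoly (-(f * r)) (α i₀)
  rw [IsNilpotent.charpoly_eq_X_pow_finrank ⟨n, hnilD⟩, Polynomial.eval_pow, Polynomial.eval_X,
    hfin] at h1
  rw [h1]
  congr 1
  rw [hD, sub_neg_eq_add, Algebra.algebraMap_eq_smul_one]

theorem regunip_exists_cyclic {F : Type*} [Field F] {n : ℕ} (hn : 1 ≤ n)
    (M : Matrix (Fin n) (Fin n) F) (hreg : (M - 1).rank = n - 1) :
    ∃ v : Fin n → F, ((Matrix.mulVecLin (M - 1)) ^ (n - 1)) v ≠ 0 := by
  by_contra hcon
  push Not at hcon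
  have h1 : LinearMap.ker ((Matrix.mulVecLin (M - 1)) ^ (n - 1)) = ⊤ := by
    rw [LinearMap.ker_eq_top]
    exact LinearMap.ext hcon
  have h2 := finrank_ker_pow_le (Matrix.mulVecLin (M - 1)) (n - 1)
  have h3 := finrank_ker_mulVecLin_le_one (M - 1) hreg
  rw [h1, finrank_top, Module.finrank_fin_fun] at h2
  have h4 : (n - 1) * Module.finrank F (LinearMap.ker (Matrix.mulVecLin (M - 1))) ≤ (n - 1) * 1 :=
    Nat.mul_le_mul_left _ h3
  omega

theorem regunip_conj {F : Type*} [Field F] {n : ℕ} (hn : 1 ≤ n) (M M' : Matrix (Fin n) (Fin n) F)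
    (hnil : (M - 1) ^ n = 0) (hreg : (M - 1).rank = n - 1) (hnil' : (M' - 1) ^ n = 0)
    (hreg' : (M' - 1).rank = n - 1) :
    ∃ P : GL (Fin n) F, (P : Matrix (Fin n) (Fin n) F) * M = M' * (P : Matrix (Fin n) (Fin n) F) := by
  obtain ⟨v, hv⟩ := regunip_exists_cyclic hn M hreg
  obtain ⟨v', hv'⟩ := regunip_exists_cyclic hn M' hreg'
  have hf : (Matrix.mulVecLin (M - 1)) ^ n = 0 := by
    rw [← mulVecLin_pow', hnil]
    exact Matrix.mulVecLin_zero
  have hf' : (Matrix.mulVecLin (M' - 1)) ^ n = 0 := by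
    rw [← mulVecLin_pow', hnil']
    exact Matrix.mulVecLin_zero
  obtain ⟨g, hg⟩ := cyclic_nilpotent_conj (Matrix.mulVecLin (M - 1)) (Matrix.mulVecLin (M' - 1)) n hn
    (Module.finrank_fin_fun F) hf hf' v v' hv hv'
  have hmul1 : LinearMap.toMatrix' (g : (Fin n → F) →ₗ[F] (Fin n → F))
      * LinearMap.toMatrix' (g.symm : (Fin n → F) →ₗ[F] (Fin n → F)) = 1 := by
    rw [← LinearMap.toMatrix'_comp, LinearEquiv.comp_coe, LinearEquiv.symm_trans_self,
      LinearEquiv.refl_toLinearMap, LinearMap.toMatrix'_id]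
  have hmul2 : LinearMap.toMatrix' (g.symm : (Fin n → F) →ₗ[F] (Fin n → F))
      * LinearMap.toMatrix' (g : (Fin n → F) →ₗ[F] (Fin n → F)) = 1 := by
    rw [← LinearMap.toMatrix'_comp, LinearEquiv.comp_coe, LinearEquiv.self_trans_symm,
      LinearEquiv.refl_toLinearMap, LinearMap.toMatrix'_id]
  refine ⟨⟨LinearMap.toMatrix' (g : (Fin n → F) →ₗ[F] (Fin n → F)),
    LinearMap.toMatrix' (g.symm : (Fin n → F) →ₗ[F] (Fin n → F)), hmul1, hmul2⟩, ?_⟩
  show LinearMap.toMatrix' (g : (Fin n → F) →ₗ[F] (Fin n → F)) * M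
    = M' * LinearMap.toMatrix' (g : (Fin n → F) →ₗ[F] (Fin n → F))
  have h1 : LinearMap.toMatrix' (g : (Fin n → F) →ₗ[F] (Fin n → F)) * (M - 1)
      = (M' - 1) * LinearMap.toMatrix' (g : (Fin n → F) →ₗ[F] (Fin n → F)) := by
    apply Matrix.mulVec_injective
    funext x
    rw [← Matrix.mulVec_mulVec, ← Matrix.mulVec_mulVec, LinearMap.toMatrix'_mulVec,
      LinearMap.toMatrix'_mulVec]
    exact hg x
  rw [mul_sub, sub_mul, mul_one, one_mul] at h1
  exact sub_left_injective h1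

theorem regunip_comm_det {F : Type*} [Field F] {n : ℕ} (hn : 1 ≤ n) (M : Matrix (Fin n) (Fin n) F)
    (hnil : (M - 1) ^ n = 0) (hreg : (M - 1).rank = n - 1) (c : Matrix (Fin n) (Fin n) F)
    (hc : c * M = M * c) : ∃ a : F, c.det = a ^ n := by
  obtain ⟨v, hv⟩ := regunip_exists_cyclic hn M hreg
  have hf : (Matrix.mulVecLin (M - 1)) ^ n = 0 := by
    rw [← mulVecLin_pow', hnil]
    exact Matrix.mulVecLin_zero
  have hc' : Matrix.mulVecLin c * Matrix.mulVecLin (M - 1) = Matrix.mulVecLin (M - 1) * Matrix.mulVecLin c := by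
    rw [Module.End.mul_eq_comp, Module.End.mul_eq_comp, ← Matrix.mulVecLin_mul, ← Matrix.mulVecLin_mul,
      mul_sub, sub_mul, mul_one, one_mul, hc]
  obtain ⟨a, ha⟩ := cyclic_nilpotent_comm_det (Matrix.mulVecLin (M - 1)) n hn
    (Module.finrank_fin_fun F) hf v hv (Matrix.mulVecLin c) hc'
  refine ⟨a, ?_⟩
  rw [← ha, ← Matrix.toLin'_apply', LinearMap.det_toLin']

/-- The lower shift matrix: `e_j ↦ e_{j+1}`. -/
def shiftMat (n : ℕ) (F : Type*) [Field F] : Matrix (Fin n) (Fin n) F :=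
  Matrix.of fun i j => if (j : ℕ) + 1 = (i : ℕ) then 1 else 0

theorem shiftMat_apply (n : ℕ) (F : Type*) [Field F] (i j : Fin n) :
    shiftMat n F i j = if (j : ℕ) + 1 = (i : ℕ) then 1 else 0 := rfl

theorem shiftMat_pow (n : ℕ) (F : Type*) [Field F] (k : ℕ) (i j : Fin n) :
    (shiftMat n F ^ k) i j = if (j : ℕ) + k = (i : ℕ) then 1 else 0 := by
  induction k generalizing i j with
  | zero =>
    rw [pow_zero, Matrix.one_apply, add_zero]
    by_cases h : i = j
    · rw [if_pos h, if_pos (by rw [h])]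
    · rw [if_neg h, if_neg (fun h' => h (Fin.ext h'.symm))]
  | succ k ih =>
    rw [pow_succ, Matrix.mul_apply]
    by_cases hj : (j : ℕ) + 1 < n
    · rw [Finset.sum_eq_single (⟨(j : ℕ) + 1, hj⟩ : Fin n)]
      · rw [ih, shiftMat_apply, if_pos rfl, mul_one]
        congr 1
        apply propext
        constructor <;> intro h <;> simp only at h ⊢ <;> omega
      · intro l _ hl
        rw [shiftMat_apply, if_neg (fun h' => hl (Fin.ext h'.symm)), mul_zero]
      · intro h
        exact absurd (Finset.mem_univ _) h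
    · rw [if_neg (by have := i.2; omega)]
      refine Finset.sum_eq_zero fun l _ => ?_
      rw [shiftMat_apply, if_neg (by have := l.2; omega), mul_zero]

theorem shiftMat_pow_self (n : ℕ) (F : Type*) [Field F] : shiftMat n F ^ n = 0 := by
  ext i j
  rw [shiftMat_pow, if_neg (by have := i.2; omega)]
  rfl

theorem shiftMat_rank (n : ℕ) (F : Type*) [Field F] (hn : 1 ≤ n) : (shiftMat n F).rank = n - 1 := by
  classical
  have h1 := LinearMap.finrank_range_add_finrank_ker (Matrix.mulVecLin (shiftMat n F))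
  rw [Module.finrank_fin_fun] at h1
  have h2 : (shiftMat n F).rank = Module.finrank F (LinearMap.range (Matrix.mulVecLin (shiftMat n F))) := rfl
  have hker : LinearMap.ker (Matrix.mulVecLin (shiftMat n F))
      = Submodule.span F {(Pi.single (⟨n - 1, by omega⟩ : Fin n) (1 : F) : Fin n → F)} := by
    apply le_antisymm
    · intro x hx
      rw [LinearMap.mem_ker] at hx
      rw [Submodule.mem_span_singleton]
      refine ⟨x ⟨n - 1, by omega⟩, ?_⟩
      funext j
      rw [Pi.smul_apply, smul_eq_mul]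
      by_cases hj : j = ⟨n - 1, by omega⟩
      · rw [hj, Pi.single_eq_same, mul_one]
      · rw [Pi.single_eq_of_ne hj, mul_zero]
        have hj' : (j : ℕ) + 1 < n := by
          have := j.2
          have : (j : ℕ) ≠ n - 1 := fun h => hj (Fin.ext h)
          omega
        have h3 := congrFun hx ⟨(j : ℕ) + 1, hj'⟩
        rw [Matrix.mulVecLin_apply, Matrix.mulVec, dotProduct, Pi.zero_apply,
          Finset.sum_eq_single j] at h3
        · rw [shiftMat_apply, if_pos rfl, one_mul] at h3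
          exact h3.symm
        · intro l _ hl
          rw [shiftMat_apply, if_neg (fun h' => hl (Fin.ext (by simpa using h'))), zero_mul]
        · intro h
          exact absurd (Finset.mem_univ _) h
    · rw [Submodule.span_singleton_le_iff_mem, LinearMap.mem_ker, Matrix.mulVecLin_apply,
        Matrix.mulVec_single_one]
      funext i
      rw [Matrix.col_apply, shiftMat_apply, if_neg (by have := i.2; simp only; omega)]
      rfl
  have hne : (Pi.single (⟨n - 1, by omega⟩ : Fin n) (1 : F) : Fin n → F) ≠ 0 := by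
    intro h0
    have := congrFun h0 ⟨n - 1, by omega⟩
    rw [Pi.single_eq_same, Pi.zero_apply] at this
    exact one_ne_zero this
  rw [hker, finrank_span_singleton hne] at h1
  omega

theorem shiftMat_det (n : ℕ) (F : Type*) [Field F] : (1 + shiftMat n F).det = 1 := by
  have htri : (1 + shiftMat n F).IsLowerTriangular := by
    intro i j hij
    have hij' : (i : ℕ) < (j : ℕ) := hij
    rw [Matrix.add_apply, Matrix.one_apply_ne (fun h => by rw [h] at hij'; omega), shiftMat_apply,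
      if_neg (by omega), add_zero]
  rw [Matrix.det_of_isLowerTriangular _ htri]
  refine Finset.prod_eq_one fun i _ => ?_
  rw [Matrix.add_apply, Matrix.one_apply_eq, shiftMat_apply, if_neg (by omega), add_zero]

theorem regunip_conj_invariant {F : Type*} [Field F] {n : ℕ} (g : GL (Fin n) F)
    (M : Matrix (Fin n) (Fin n) F) (hnil : (M - 1) ^ n = 0) (hreg : (M - 1).rank = n - 1) :
    ((g : Matrix (Fin n) (Fin n) F) * M * ((g⁻¹ : GL (Fin n) F) : Matrix (Fin n) (Fin n) F) - 1) ^ n = 0 ∧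
    ((g : Matrix (Fin n) (Fin n) F) * M * ((g⁻¹ : GL (Fin n) F) : Matrix (Fin n) (Fin n) F) - 1).rank = n - 1 := by
  have h1 : (g : Matrix (Fin n) (Fin n) F) * M * ((g⁻¹ : GL (Fin n) F) : Matrix (Fin n) (Fin n) F) - 1
      = (g : Matrix (Fin n) (Fin n) F) * (M - 1) * ((g⁻¹ : GL (Fin n) F) : Matrix (Fin n) (Fin n) F) := by
    rw [mul_sub, sub_mul, mul_one, ← Units.val_mul, mul_inv_cancel, Units.val_one]
  rw [h1]
  constructor
  · rw [Units.conj_pow, hnil, mul_zero, zero_mul]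
  · have hu : IsUnit (g : Matrix (Fin n) (Fin n) F).det := (Matrix.isUnit_iff_isUnit_det _).1 g.isUnit
    have hu' : IsUnit ((g⁻¹ : GL (Fin n) F) : Matrix (Fin n) (Fin n) F).det :=
      (Matrix.isUnit_iff_isUnit_det _).1 (g⁻¹).isUnit
    rw [Matrix.rank_mul_eq_left_of_isUnit_det _ _ hu', Matrix.rank_mul_eq_right_of_isUnit_det _ _ hu,
      hreg]

theorem sl_isConj_iff {F : Type*} [Field F] {n : ℕ} (u u' : Matrix.SpecialLinearGroup (Fin n) F) :
    IsConj u u' ↔ ∃ h : GL (Fin n) F, Matrix.GeneralLinearGroup.det h = 1 ∧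
      h * Matrix.SpecialLinearGroup.toGL u * h⁻¹ = Matrix.SpecialLinearGroup.toGL u' := by
  rw [isConj_iff]
  constructor
  · rintro ⟨c, hc⟩
    refine ⟨Matrix.SpecialLinearGroup.toGL c, ?_, ?_⟩
    · apply Units.ext
      exact c.2
    · rw [← map_inv, ← map_mul, ← map_mul, hc]
  · rintro ⟨h, hdet, hh⟩
    have hdet' : (h : Matrix (Fin n) (Fin n) F).det = 1 := congrArg Units.val hdet
    let s : Matrix.SpecialLinearGroup (Fin n) F := ⟨(h : Matrix (Fin n) (Fin n) F), hdet'⟩
    have h1 : Matrix.SpecialLinearGroup.toGL s = h := Units.ext rfl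
    refine ⟨s, ?_⟩
    apply Matrix.SpecialLinearGroup.toGL_injective
    rw [map_mul, map_mul, map_inv, h1]
    exact hh

theorem sl_regular_unipotent_class_count {F : Type*} [Field F] [Fintype F] {q : ℕ}
    (hF : Fintype.card F = q) {n : ℕ} (hn : 1 ≤ n) :
    Nat.card {C : ConjClasses (Matrix.SpecialLinearGroup (Fin n) F) //
      ∃ u : Matrix.SpecialLinearGroup (Fin n) F, ConjClasses.mk u = C ∧
        ((u : Matrix (Fin n) (Fin n) F) - 1) ^ n = 0 ∧
        ((u : Matrix (Fin n) (Fin n) F) - 1).rank = n - 1} = Nat.gcd n (q - 1) := by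
  classical
  have hne : Nonempty (Fin n) := ⟨⟨0, hn⟩⟩
  have hM₀det : (1 + shiftMat n F).det = 1 := shiftMat_det n F
  have hM₀nil : ((1 + shiftMat n F) - 1) ^ n = 0 := by
    rw [add_sub_cancel_left]
    exact shiftMat_pow_self n F
  have hM₀reg : ((1 + shiftMat n F) - 1).rank = n - 1 := by
    rw [add_sub_cancel_left]
    exact shiftMat_rank n F hn
  let M₀g : GL (Fin n) F :=
    Matrix.GeneralLinearGroup.mkOfDetNeZero (1 + shiftMat n F) (by rw [hM₀det]; exact one_ne_zero)
  have hM₀g : (M₀g : Matrix (Fin n) (Fin n) F) = 1 + shiftMat n F := rfl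
  have hM₀gdet : Matrix.GeneralLinearGroup.det M₀g = 1 := Units.ext hM₀det
  choose D hD using (Matrix.GeneralLinearGroup.det_surjective (n := Fin n) (R := F))
  have hUdet : ∀ d : Fˣ, Matrix.GeneralLinearGroup.det (D d * M₀g * (D d)⁻¹) = 1 := by
    intro d
    rw [map_mul, map_mul, map_inv, hM₀gdet, mul_one, mul_inv_cancel]
  let U : Fˣ → Matrix.SpecialLinearGroup (Fin n) F := fun d =>
    ⟨((D d * M₀g * (D d)⁻¹ : GL (Fin n) F) : Matrix (Fin n) (Fin n) F), congrArg Units.val (hUdet d)⟩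
  have hU : ∀ d, Matrix.SpecialLinearGroup.toGL (U d) = D d * M₀g * (D d)⁻¹ := fun d => Units.ext rfl
  have hURU : ∀ d, ((U d : Matrix (Fin n) (Fin n) F) - 1) ^ n = 0 ∧
      ((U d : Matrix (Fin n) (Fin n) F) - 1).rank = n - 1 := by
    intro d
    exact regunip_conj_invariant (D d) (1 + shiftMat n F) hM₀nil hM₀reg
  have hA : ∀ u : Matrix.SpecialLinearGroup (Fin n) F,
      ((u : Matrix (Fin n) (Fin n) F) - 1) ^ n = 0 →
      ((u : Matrix (Fin n) (Fin n) F) - 1).rank = n - 1 → ∃ d, IsConj (U d) u := by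
    intro u hnil hreg
    obtain ⟨P, hP⟩ := regunip_conj hn (1 + shiftMat n F) (u : Matrix (Fin n) (Fin n) F)
      hM₀nil hM₀reg hnil hreg
    have hP' : P * M₀g = Matrix.SpecialLinearGroup.toGL u * P := Units.ext hP
    refine ⟨Matrix.GeneralLinearGroup.det P, ?_⟩
    rw [sl_isConj_iff]
    refine ⟨P * (D (Matrix.GeneralLinearGroup.det P))⁻¹, ?_, ?_⟩
    · rw [map_mul, map_inv, hD, mul_inv_cancel]
    · rw [hU]
      have h1 : P * M₀g * P⁻¹ = Matrix.SpecialLinearGroup.toGL u := by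
        rw [hP', mul_inv_cancel_right]
      rw [← h1]
      group
  have hB : ∀ d d' : Fˣ, IsConj (U d) (U d') ↔ d⁻¹ * d' ∈ (powMonoidHom n : Fˣ →* Fˣ).range := by
    intro d d'
    rw [sl_isConj_iff, hU, hU]
    constructor
    · rintro ⟨h, hdet, hh⟩
      have e1 : ((D d')⁻¹ * h * D d) * M₀g * ((D d')⁻¹ * h * D d)⁻¹
          = (D d')⁻¹ * (h * (D d * M₀g * (D d)⁻¹) * h⁻¹) * D d' := by group
      rw [hh] at e1
      have e2 : ((D d')⁻¹ * h * D d) * M₀g * ((D d')⁻¹ * h * D d)⁻¹ = M₀g := by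
        rw [e1]
        group
      have hk : ((D d')⁻¹ * h * D d) * M₀g = M₀g * ((D d')⁻¹ * h * D d) := mul_inv_eq_iff_eq_mul.1 e2
      obtain ⟨a, ha⟩ := regunip_comm_det hn (1 + shiftMat n F) hM₀nil hM₀reg
        (((D d')⁻¹ * h * D d : GL (Fin n) F) : Matrix (Fin n) (Fin n) F) (congrArg Units.val hk)
      have hdk : Matrix.GeneralLinearGroup.det ((D d')⁻¹ * h * D d) = d'⁻¹ * d := by
        rw [map_mul, map_mul, map_inv, hD, hD, hdet, mul_one]
      have hval : ((d'⁻¹ * d : Fˣ) : F) = a ^ n := by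
        rw [← hdk]
        exact ha
      have ha0 : a ≠ 0 := by
        rintro rfl
        rw [zero_pow (by omega)] at hval
        exact (d'⁻¹ * d).ne_zero hval
      refine ⟨(Units.mk0 a ha0)⁻¹, ?_⟩
      rw [powMonoidHom_apply, inv_pow]
      have h3 : (Units.mk0 a ha0) ^ n = d'⁻¹ * d := by
        apply Units.ext
        rw [Units.val_pow_eq_pow_val, Units.val_mk0, hval]
      rw [h3, mul_inv_rev, inv_inv]
    · rintro ⟨a, ha⟩
      rw [powMonoidHom_apply] at ha
      have hs : Matrix.GeneralLinearGroup.scalar (Fin n) a⁻¹ * M₀g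
          * (Matrix.GeneralLinearGroup.scalar (Fin n) a⁻¹)⁻¹ = M₀g := by
        rw [Matrix.GeneralLinearGroup.scalar_commute, mul_inv_cancel_right]
      refine ⟨D d' * Matrix.GeneralLinearGroup.scalar (Fin n) a⁻¹ * (D d)⁻¹, ?_, ?_⟩
      · rw [map_mul, map_mul, hD, Matrix.GeneralLinearGroup.det_scalar, Fintype.card_fin,
          map_inv Matrix.GeneralLinearGroup.det (D d), hD, inv_pow, ha, mul_inv_rev, inv_inv,
          mul_inv_cancel_left, mul_inv_cancel]
      · calc D d' * Matrix.GeneralLinearGroup.scalar (Fin n) a⁻¹ * (D d)⁻¹ * (D d * M₀g * (D d)⁻¹)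
              * (D d' * Matrix.GeneralLinearGroup.scalar (Fin n) a⁻¹ * (D d)⁻¹)⁻¹
            = D d' * (Matrix.GeneralLinearGroup.scalar (Fin n) a⁻¹ * M₀g
              * (Matrix.GeneralLinearGroup.scalar (Fin n) a⁻¹)⁻¹) * (D d')⁻¹ := by group
          _ = D d' * M₀g * (D d')⁻¹ := by rw [hs]
  let Φ : Fˣ → {C : ConjClasses (Matrix.SpecialLinearGroup (Fin n) F) //
      ∃ u : Matrix.SpecialLinearGroup (Fin n) F, ConjClasses.mk u = C ∧
        ((u : Matrix (Fin n) (Fin n) F) - 1) ^ n = 0 ∧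
        ((u : Matrix (Fin n) (Fin n) F) - 1).rank = n - 1} :=
    fun d => ⟨ConjClasses.mk (U d), U d, rfl, (hURU d).1, (hURU d).2⟩
  have hΦ : ∀ d d', Φ d = Φ d' ↔ d⁻¹ * d' ∈ (powMonoidHom n : Fˣ →* Fˣ).range := by
    intro d d'
    rw [Subtype.ext_iff]
    show ConjClasses.mk (U d) = ConjClasses.mk (U d') ↔ _
    rw [ConjClasses.mk_eq_mk_iff_isConj, hB]
  let Ψ : Fˣ ⧸ (powMonoidHom n : Fˣ →* Fˣ).range → {C : ConjClasses (Matrix.SpecialLinearGroup (Fin n) F) //
      ∃ u : Matrix.SpecialLinearGroup (Fin n) F, ConjClasses.mk u = C ∧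
        ((u : Matrix (Fin n) (Fin n) F) - 1) ^ n = 0 ∧
        ((u : Matrix (Fin n) (Fin n) F) - 1).rank = n - 1} :=
    Quotient.lift Φ (fun d d' hdd => (hΦ d d').2 (QuotientGroup.leftRel_apply.1 hdd))
  have hΨ : Function.Bijective Ψ := by
    constructor
    · intro x y
      refine Quotient.inductionOn₂ x y ?_
      intro d d' h
      exact Quotient.sound (QuotientGroup.leftRel_apply.2 ((hΦ d d').1 h))
    · rintro ⟨C, u, rfl, hnil, hreg⟩
      obtain ⟨d, hd⟩ := hA u hnil hreg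
      exact ⟨Quotient.mk _ d, Subtype.ext (ConjClasses.mk_eq_mk_iff_isConj.2 hd)⟩
  rw [← Nat.card_congr (Equiv.ofBijective Ψ hΨ), ← Subgroup.index_eq_card,
    IsCyclic.index_powMonoidHom_range, Nat.card_units, Nat.card_eq_fintype_card, hF, Nat.gcd_comm]

end Cfsg.Agent.Helper15
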