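import Mathlib

set_option autoImplicit false

namespace Cfsg.Agent.Helper15
open Polynomial DirectSum

theorem det_one_add_comp {F : Type*} [Field F] {N R : Type*} [AddCommGroup N] [Module F N]
    [FiniteDimensional F N] [AddCommGroup R] [Module F R] [FiniteDimensional F R]
    (ι : R →ₗ[F] N) (π : N →ₗ[F] R) (h : π ∘ₗ ι = LinearMap.id) (f : R →ₗ[F] R) :
    LinearMap.det (LinearMap.id + ι ∘ₗ (f - LinearMap.id) ∘ₗ π) = LinearMap.det f := by
  classical
  let bN := Module.finBasis F N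
  let bR := Module.finBasis F R
  rw [← LinearMap.det_toMatrix bN, ← LinearMap.det_toMatrix bR f]
  have h1 : LinearMap.toMatrix bN bN (LinearMap.id + ι ∘ₗ (f - LinearMap.id) ∘ₗ π)
      = 1 + LinearMap.toMatrix bR bN (ι ∘ₗ (f - LinearMap.id)) * LinearMap.toMatrix bN bR π := by
    rw [map_add, LinearMap.toMatrix_id, ← LinearMap.toMatrix_comp, LinearMap.comp_assoc]
  rw [h1, Matrix.det_one_add_mul_comm, ← LinearMap.toMatrix_comp, ← LinearMap.comp_assoc, h,
    LinearMap.id_comp, map_sub, LinearMap.toMatrix_id, add_sub_cancel]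

theorem exists_commuting_det {F : Type*} [Field F] [Fintype F] {p : ℕ} [Fact p.Prime] [CharP F p]
    {V : Type*} [AddCommGroup V] [Module F V] [FiniteDimensional F V] [Nontrivial V]
    (φ : V →ₗ[F] V) (k : ℕ) (hk : k.Coprime p) (hφ : φ ^ k = 1) (a : F) :
    ∃ c : V →ₗ[F] V, c ∘ₗ φ = φ ∘ₗ c ∧ LinearMap.det c = a := by
  classical
  have htors : Module.IsTorsion F[X] (Module.AEval' φ) :=
    Module.AEval.isTorsion_of_finiteDimensional F V φ
  obtain ⟨ι, _, P, hP, e, ⟨ψ⟩⟩ := Module.equiv_directSum_of_isTorsion htors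
  obtain ⟨v, hv⟩ := exists_ne (0 : V)
  have hz : ψ (Module.AEval'.of φ v) ≠ 0 := by
    intro h0
    apply hv
    have := ψ.injective (h0.trans (map_zero ψ).symm)
    exact (Module.AEval'.of φ).injective (this.trans (map_zero _).symm)
  have hex : ∃ i, (ψ (Module.AEval'.of φ v)) i ≠ 0 := by
    by_contra hcon
    push Not at hcon
    apply hz
    ext i
    exact hcon i
  obtain ⟨i₀, hi₀⟩ := hex
  -- linear maps
  let ιL : (F[X] ⧸ Submodule.span F[X] {P i₀ ^ e i₀}) →ₗ[F] V :=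
    ((Module.AEval'.of φ).symm : Module.AEval' φ →ₗ[F] V) ∘ₗ
      ((ψ.symm : (⨁ i, F[X] ⧸ Submodule.span F[X] {P i ^ e i}) →ₗ[F[X]] Module.AEval' φ).restrictScalars F) ∘ₗ
      (DirectSum.lof F ι (fun i => F[X] ⧸ Submodule.span F[X] {P i ^ e i}) i₀)
  let πL : V →ₗ[F] (F[X] ⧸ Submodule.span F[X] {P i₀ ^ e i₀}) :=
    (DirectSum.component F ι (fun i => F[X] ⧸ Submodule.span F[X] {P i ^ e i}) i₀) ∘ₗ
      ((ψ : Module.AEval' φ →ₗ[F[X]] (⨁ i, F[X] ⧸ Submodule.span F[X] {P i ^ e i})).restrictScalars F) ∘ₗ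
      (Module.AEval'.of φ : V →ₗ[F] Module.AEval' φ)
  have hπι : πL ∘ₗ ιL = LinearMap.id := by
    refine LinearMap.ext fun b => ?_
    show (DirectSum.component F ι (fun i => F[X] ⧸ Submodule.span F[X] {P i ^ e i}) i₀)
      (ψ (Module.AEval'.of φ ((Module.AEval'.of φ).symm (ψ.symm
        (DirectSum.lof F ι (fun i => F[X] ⧸ Submodule.span F[X] {P i ^ e i}) i₀ b))))) = b
    rw [LinearEquiv.apply_symm_apply, LinearEquiv.apply_symm_apply, DirectSum.component.lof_self]
  have hπφ : ∀ x, πL (φ x) = (X : F[X]) • πL x := by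
    intro x
    show (ψ (Module.AEval'.of φ (φ x))) i₀ = (X : F[X]) • (ψ (Module.AEval'.of φ x)) i₀
    rw [← Module.AEval'.X_smul_of, map_smul, DirectSum.smul_apply]
  have hιX : ∀ b, ιL ((X : F[X]) • b) = φ (ιL b) := by
    intro b
    show (Module.AEval'.of φ).symm (ψ.symm (DirectSum.lof F ι
        (fun i => F[X] ⧸ Submodule.span F[X] {P i ^ e i}) i₀ ((X : F[X]) • b)))
      = φ ((Module.AEval'.of φ).symm (ψ.symm (DirectSum.lof F ι
        (fun i => F[X] ⧸ Submodule.span F[X] {P i ^ e i}) i₀ b)))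
    rw [← Module.AEval'.of_symm_X_smul, ← map_smul ψ.symm]
    congr 2
    exact DirectSum.of_smul _ _ _ _
  have hkill : ∀ x, (X ^ k - 1 : F[X]) • πL x = 0 := by
    intro x
    have h1 : (X ^ k - 1 : F[X]) • Module.AEval'.of φ x = 0 := by
      rw [← Module.AEval.of_aeval_smul]
      have : (aeval φ) (X ^ k - 1 : F[X]) = 0 := by
        rw [map_sub, map_pow, aeval_X, map_one, hφ, sub_self]
      rw [this, zero_smul, map_zero]
    show (X ^ k - 1 : F[X]) • (ψ (Module.AEval'.of φ x)) i₀ = 0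
    rw [← DirectSum.smul_apply, ← map_smul, h1, map_zero]
    rfl
  have hone : ∀ g : F[X], g • (1 : F[X] ⧸ Submodule.span F[X] {P i₀ ^ e i₀})
      = Ideal.Quotient.mk (Submodule.span F[X] {P i₀ ^ e i₀}) g := by
    intro g
    have : g • (Ideal.Quotient.mk (Submodule.span F[X] {P i₀ ^ e i₀}) (1 : F[X]))
        = Ideal.Quotient.mk (Submodule.span F[X] {P i₀ ^ e i₀}) (g * 1) := rfl
    rw [mul_one] at this
    exact this
  have hdvd : P i₀ ^ e i₀ ∣ X ^ k - 1 := by
    have h1 := hkill (ιL 1)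
    have h2 : πL (ιL 1) = 1 := by
      have := congrArg (fun f => f 1) hπι
      exact this
    rw [h2, hone, Ideal.Quotient.eq_zero_iff_mem] at h1
    exact Ideal.mem_span_singleton.1 h1
  have hkF : (k : F) ≠ 0 := by
    intro h0
    have hpk : p ∣ k := (CharP.cast_eq_zero_iff F p k).1 h0
    have hp : p.Prime := Fact.out
    exact (Nat.Prime.coprime_iff_not_dvd hp).1 hk.symm hpk
  have hsq : Squarefree (X ^ k - 1 : F[X]) := by
    have := (separable_X_pow_sub_C (1 : F) hkF one_ne_zero).squarefree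
    rwa [map_one] at this
  have he1 : e i₀ = 1 := by
    have hne0 : e i₀ ≠ 0 := by
      intro h0
      apply hi₀
      obtain ⟨g, hg⟩ := Ideal.Quotient.mk_surjective ((ψ (Module.AEval'.of φ v)) i₀)
      rw [← hg, Ideal.Quotient.eq_zero_iff_mem, h0, pow_zero]
      exact Ideal.mem_span_singleton.2 (one_dvd _)
    have hlt : e i₀ < 2 := by
      by_contra hge
      push Not at hge
      have h1 : P i₀ * P i₀ ∣ X ^ k - 1 := by
        refine dvd_trans ?_ hdvd
        rw [← pow_two]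
        exact pow_dvd_pow _ hge
      exact (hP i₀).not_isUnit (hsq _ h1)
    omega
  have hmax : Ideal.IsMaximal (Submodule.span F[X] {P i₀ ^ e i₀} : Ideal F[X]) := by
    rw [he1, pow_one]
    exact PrincipalIdealRing.isMaximal_of_irreducible (hP i₀)
  have hιinj : Function.Injective ιL := by
    intro b b' hbb
    have := congrArg πL hbb
    have h1 : ∀ b, πL (ιL b) = b := fun b => congrArg (fun f => f b) hπι
    rwa [h1, h1] at this
  have hfd : FiniteDimensional F (F[X] ⧸ Submodule.span F[X] {P i₀ ^ e i₀}) :=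
    FiniteDimensional.of_injective ιL hιinj
  have hfin : Finite (F[X] ⧸ Submodule.span F[X] {P i₀ ^ e i₀}) := Module.finite_of_finite F
  letI : Field (F[X] ⧸ Submodule.span F[X] {P i₀ ^ e i₀}) :=
    Ideal.Quotient.field (Submodule.span F[X] {P i₀ ^ e i₀} : Ideal F[X])
  obtain ⟨r, hr⟩ := FiniteField.norm_surjective F (F[X] ⧸ Submodule.span F[X] {P i₀ ^ e i₀}) a
  let f : (F[X] ⧸ Submodule.span F[X] {P i₀ ^ e i₀}) →ₗ[F] (F[X] ⧸ Submodule.span F[X] {P i₀ ^ e i₀}) :=
    Algebra.lmul F (F[X] ⧸ Submodule.span F[X] {P i₀ ^ e i₀}) r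
  have hf : ∀ b, f b = r * b := fun b => rfl
  have hdetf : LinearMap.det f = a := by
    rw [← hr, Algebra.norm_apply]
  have hXsmul : ∀ (b : F[X] ⧸ Submodule.span F[X] {P i₀ ^ e i₀}),
      (X : F[X]) • b = Ideal.Quotient.mk (Submodule.span F[X] {P i₀ ^ e i₀}) X * b := by
    intro b
    obtain ⟨b, rfl⟩ := Ideal.Quotient.mk_surjective b
    rfl
  refine ⟨LinearMap.id + ιL ∘ₗ (f - LinearMap.id) ∘ₗ πL, ?_, ?_⟩
  · refine LinearMap.ext fun x => ?_
    show φ x + ιL (f (πL (φ x)) - πL (φ x)) = φ (x + ιL (f (πL x) - πL x))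
    rw [map_add, ← hιX, hπφ, smul_sub, hf, hf, hXsmul, hXsmul]
    congr 3
    ring
  · rw [det_one_add_comp ιL πL hπι f, hdetf]

theorem sl_conj_of_semisimple {F : Type*} [Field F] [Fintype F] {p : ℕ} [Fact p.Prime] [CharP F p]
    {n : ℕ} (x g : GL (Fin n) F) (hx : (orderOf x).Coprime p) :
    ∃ h : GL (Fin n) F, (h : Matrix (Fin n) (Fin n) F).det = 1 ∧ h * x * h⁻¹ = g * x * g⁻¹ := by
  classical
  rcases Nat.eq_zero_or_pos n with rfl | hn
  · exact ⟨g, Matrix.det_isEmpty, rfl⟩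
  · haveI : Nonempty (Fin n) := ⟨⟨0, hn⟩⟩
    haveI : Nontrivial (Fin n → F) := Function.nontrivial
    have hpow : (Matrix.toLin' (x : Matrix (Fin n) (Fin n) F)) ^ (orderOf x) = 1 := by
      rw [← Matrix.toLin'_pow, ← Units.val_pow_eq_pow_val, pow_orderOf_eq_one, Units.val_one,
        Matrix.toLin'_one]
      rfl
    obtain ⟨c, hc, hdet⟩ := exists_commuting_det (Matrix.toLin' (x : Matrix (Fin n) (Fin n) F))
      (orderOf x) hx hpow ((g : Matrix (Fin n) (Fin n) F).det)
    have hCdet : (LinearMap.toMatrix' c).det = (g : Matrix (Fin n) (Fin n) F).det := by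
      rw [LinearMap.det_toMatrix']
      exact hdet
    have hCx : LinearMap.toMatrix' c * (x : Matrix (Fin n) (Fin n) F)
        = (x : Matrix (Fin n) (Fin n) F) * LinearMap.toMatrix' c := by
      have := congrArg LinearMap.toMatrix' hc
      rwa [LinearMap.toMatrix'_comp, LinearMap.toMatrix'_comp, LinearMap.toMatrix'_toLin'] at this
    have hg0 : (g : Matrix (Fin n) (Fin n) F).det ≠ 0 :=
      ((Matrix.isUnit_iff_isUnit_det _).1 g.isUnit).ne_zero
    have hCunit : (LinearMap.toMatrix' c).det ≠ 0 := by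
      rw [hCdet]
      exact hg0
    let Cg : GL (Fin n) F := Matrix.GeneralLinearGroup.mkOfDetNeZero (LinearMap.toMatrix' c) hCunit
    have hCg : (Cg : Matrix (Fin n) (Fin n) F) = LinearMap.toMatrix' c := rfl
    have hcomm : Cg * x = x * Cg := by
      apply Units.ext
      rw [Units.val_mul, Units.val_mul, hCg]
      exact hCx
    refine ⟨g * Cg⁻¹, ?_, ?_⟩
    · have h1 : ((g * Cg⁻¹ : GL (Fin n) F) : Matrix (Fin n) (Fin n) F) * (Cg : Matrix (Fin n) (Fin n) F)
          = (g : Matrix (Fin n) (Fin n) F) := by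
        rw [← Units.val_mul, inv_mul_cancel_right]
      have h2 := congrArg Matrix.det h1
      rw [Matrix.det_mul, hCg, hCdet] at h2
      exact mul_right_cancel₀ hg0 (h2.trans (one_mul _).symm)
    · have h3 : Cg⁻¹ * x * Cg = x := by
        rw [mul_assoc, ← hcomm, ← mul_assoc, inv_mul_cancel, one_mul]
      calc g * Cg⁻¹ * x * (g * Cg⁻¹)⁻¹ = g * (Cg⁻¹ * x * Cg) * g⁻¹ := by group
        _ = g * x * g⁻¹ := by rw [h3]

end Cfsg.Agent.Helper15
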