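import Mathlib
import Cfsg.Agent.Helper15.SemiConj1
import Cfsg.Agent.Helper15.RegUnipClass
import Cfsg.Agent.Helper15.SemiDet

set_option autoImplicit false

namespace Cfsg.Agent.Helper15
open Polynomial

universe u

theorem adjoin_root_data {F : Type u} [Field F] [Fintype F] (π : F[X])
    [Module.Finite F (AdjoinRoot π)] (hm : π.Monic)
    (hπ : Irreducible π) (h0 : π.coeff 0 ≠ 0) :
    ∃ m : ℕ, (m : F) ≠ 0 ∧ (Algebra.lmul F (AdjoinRoot π) (AdjoinRoot.root π)) ^ m = 1 ∧
      (Algebra.lmul F (AdjoinRoot π) (AdjoinRoot.root π)).charpoly = π := by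
  haveI : Fact (Irreducible π) := ⟨hπ⟩
  have hπ0 : π ≠ 0 := hm.ne_zero
  haveI : Finite (AdjoinRoot π) := Finite.of_equiv (Fin π.natDegree → F)
    (AdjoinRoot.powerBasis hπ0).basis.equivFun.symm.toEquiv
  have hroot : AdjoinRoot.root π ≠ 0 := by
    intro h
    have h1 := AdjoinRoot.eval₂_root π
    rw [h, Polynomial.eval₂_at_zero] at h1
    exact h0 ((map_eq_zero (AdjoinRoot.of π)).1 h1)
  have hcard : Nat.card (AdjoinRoot π) = Fintype.card F ^ π.natDegree := by
    rw [Nat.card_congr (AdjoinRoot.powerBasis hπ0).basis.equivFun.toEquiv, Nat.card_fun,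
      Nat.card_eq_fintype_card, Nat.card_eq_fintype_card, Fintype.card_fin,
      AdjoinRoot.powerBasis_dim]
  have hd : 0 < π.natDegree := hπ.natDegree_pos
  refine ⟨Nat.card (AdjoinRoot π) - 1, ?_, ?_, ?_⟩
  · have h1 : 1 ≤ Nat.card (AdjoinRoot π) := Nat.card_pos
    rw [Nat.cast_sub h1, hcard, Nat.cast_pow, FiniteField.cast_card_eq_zero, zero_pow hd.ne',
      Nat.cast_one, zero_sub]
    exact neg_ne_zero.2 one_ne_zero
  · rw [← map_pow]
    have h2 : (AdjoinRoot.root π) ^ (Nat.card (AdjoinRoot π) - 1) = 1 := by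
      have h3 := pow_card_eq_one' (G := (AdjoinRoot π)ˣ) (x := Units.mk0 _ hroot)
      rw [Nat.card_units] at h3
      have h4 := congrArg Units.val h3
      rwa [Units.val_pow_eq_pow_val, Units.val_mk0, Units.val_one] at h4
    rw [h2, map_one]
  · have h5 := _root_.charpoly_leftMulMatrix (AdjoinRoot.powerBasis hπ0)
    rw [AdjoinRoot.minpoly_powerBasis_gen_of_monic hm, Algebra.leftMulMatrix_apply,
      LinearMap.charpoly_toMatrix] at h5
    exact h5

theorem exists_semi_of_poly {F : Type u} [Field F] [Fintype F] :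
    ∀ (n : ℕ) (f : F[X]), f.Monic → f.natDegree = n → f.coeff 0 ≠ 0 →
      ∃ (V : Type u) (_ : AddCommGroup V) (_ : Module F V) (_ : FiniteDimensional F V)
        (g : V →ₗ[F] V) (m : ℕ), (m : F) ≠ 0 ∧ g ^ m = 1 ∧ g.charpoly = f := by
  intro n
  induction n using Nat.strong_induction_on with
  | _ n ih =>
    intro f hf hdeg h0
    rcases Nat.eq_zero_or_pos n with hn0 | hpos
    · have hf1 : f = 1 := Polynomial.eq_one_of_monic_natDegree_zero hf (hdeg.trans hn0)
      refine ⟨PUnit, inferInstance, inferInstance, inferInstance, 1, 1, ?_, ?_, ?_⟩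
      · rw [Nat.cast_one]
        exact one_ne_zero
      · rw [pow_one]
      · rw [hf1]
        apply Polynomial.eq_one_of_monic_natDegree_zero (LinearMap.charpoly_monic _)
        rw [LinearMap.charpoly_natDegree]
        exact Module.finrank_zero_of_subsingleton
    · have hnu : ¬ IsUnit f := Polynomial.not_isUnit_of_natDegree_pos f (by omega)
      obtain ⟨π, hπm, hπ, r, hr⟩ := Polynomial.exists_monic_irreducible_factor f hnu
      have hrm : r.Monic := Polynomial.Monic.of_mul_monic_left hπm (hr ▸ hf)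
      have hc0 : π.coeff 0 * r.coeff 0 ≠ 0 := by
        rw [← Polynomial.mul_coeff_zero, ← hr]
        exact h0
      have hπ0 : π.coeff 0 ≠ 0 := left_ne_zero_of_mul hc0
      have hr0 : r.coeff 0 ≠ 0 := right_ne_zero_of_mul hc0
      have hdegr : r.natDegree < n := by
        have h1 : f.natDegree = π.natDegree + r.natDegree := by
          rw [hr, Polynomial.Monic.natDegree_mul hπm hrm]
        have h2 := hπ.natDegree_pos
        omega
      obtain ⟨V2, _, _, _, g2, m2, hm2, hg2, hχ2⟩ := ih r.natDegree hdegr r hrm rfl hr0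
      haveI : Fact (Irreducible π) := ⟨hπ⟩
      haveI : FiniteDimensional F (AdjoinRoot π) := hπm.finite_adjoinRoot
      obtain ⟨m1, hm1, hg1, hχ1⟩ := adjoin_root_data π hπm hπ hπ0
      refine ⟨AdjoinRoot π × V2, inferInstance, inferInstance, inferInstance,
        (Algebra.lmul F (AdjoinRoot π) (AdjoinRoot.root π)).prodMap g2, m1 * m2, ?_, ?_, ?_⟩
      · rw [Nat.cast_mul]
        exact mul_ne_zero hm1 hm2
      · have key : ∀ k : ℕ, ((Algebra.lmul F (AdjoinRoot π) (AdjoinRoot.root π)).prodMap g2) ^ k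
            = ((Algebra.lmul F (AdjoinRoot π) (AdjoinRoot.root π)) ^ k).prodMap (g2 ^ k) := by
          intro k
          induction k with
          | zero => rw [pow_zero, pow_zero, pow_zero, LinearMap.prodMap_one]
          | succ k ihk => rw [pow_succ, ihk, LinearMap.prodMap_mul, pow_succ, pow_succ]
        rw [key, pow_mul, hg1, one_pow, mul_comm, pow_mul, hg2, one_pow, LinearMap.prodMap_one]
      · rw [LinearMap.charpoly_prodMap, hχ1, hχ2, hr]

theorem exists_semi_matrix {F : Type u} [Field F] [Fintype F] (n : ℕ) (f : F[X]) (hf : f.Monic)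
    (hdeg : f.natDegree = n) (h0 : f.coeff 0 ≠ 0) :
    ∃ (A : Matrix (Fin n) (Fin n) F) (m : ℕ), (m : F) ≠ 0 ∧ A ^ m = 1 ∧ A.charpoly = f := by
  obtain ⟨V, _, _, _, g, m, hm, hg, hχ⟩ := exists_semi_of_poly n f hf hdeg h0
  have hfin : Module.finrank F V = n := by
    rw [← LinearMap.charpoly_natDegree g, hχ, hdeg]
  refine ⟨LinearMap.toMatrixAlgEquiv (Module.finBasisOfFinrankEq F V hfin) g, m, hm, ?_, ?_⟩
  · rw [← map_pow, hg, map_one]
  · rw [← hχ]
    exact LinearMap.charpoly_toMatrix g (Module.finBasisOfFinrankEq F V hfin)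

noncomputable def polyOf {F : Type u} [Field F] {n : ℕ} (a : Fin n → F) : F[X] :=
  X ^ n + ∑ i : Fin n, C (a i) * X ^ (i : ℕ)

theorem polyOf_monic {F : Type u} [Field F] {n : ℕ} (a : Fin n → F) : (polyOf a).Monic :=
  Polynomial.monic_X_pow_add (Polynomial.degree_sum_fin_lt a)

theorem polyOf_natDegree {F : Type u} [Field F] {n : ℕ} (a : Fin n → F) :
    (polyOf a).natDegree = n := by
  unfold polyOf
  rw [Polynomial.natDegree_add_eq_left_of_degree_lt, natDegree_X_pow]
  rw [degree_X_pow]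
  exact degree_sum_fin_lt a

theorem polyOf_coeff {F : Type u} [Field F] {n : ℕ} (a : Fin n → F) (i : Fin n) :
    (polyOf a).coeff i = a i := by
  unfold polyOf
  rw [coeff_add, coeff_X_pow, if_neg (by omega), zero_add, finsetSum_coeff,
    Finset.sum_eq_single i]
  · rw [coeff_C_mul, coeff_X_pow, if_pos rfl, mul_one]
  · intro j _ hj
    rw [coeff_C_mul, coeff_X_pow, if_neg (fun h => hj (Fin.ext h.symm)), mul_zero]
  · intro h
    exact absurd (Finset.mem_univ i) h

theorem monic_ext_low {F : Type u} [Field F] {n : ℕ} (f g : F[X]) (hf : f.Monic) (hg : g.Monic)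
    (hfd : f.natDegree = n) (hgd : g.natDegree = n)
    (h : ∀ i : Fin n, f.coeff i = g.coeff i) : f = g := by
  ext i
  rcases lt_trichotomy i n with hi | hi | hi
  · exact h ⟨i, hi⟩
  · have h1 := hf.coeff_natDegree
    have h2 := hg.coeff_natDegree
    rw [hfd] at h1
    rw [hgd] at h2
    rw [hi, h1, h2]
  · rw [coeff_eq_zero_of_natDegree_lt (hfd ▸ hi), coeff_eq_zero_of_natDegree_lt (hgd ▸ hi)]

theorem card_fun_ne {F : Type u} [Field F] [Fintype F] {q : ℕ} (hq : Fintype.card F = q) (n : ℕ)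
    (hn : 1 ≤ n) :
    Nat.card {a : Fin n → F // a ⟨0, hn⟩ ≠ 0} = (q - 1) * q ^ (n - 1) := by
  obtain ⟨k, rfl⟩ : ∃ k, n = k + 1 := ⟨n - 1, by omega⟩
  have e : {a : Fin (k + 1) → F // a ⟨0, hn⟩ ≠ 0} ≃ {x : F // x ≠ 0} × (Fin k → F) :=
    { toFun := fun a => (⟨a.1 0, a.2⟩, Fin.tail a.1)
      invFun := fun p => ⟨Fin.cons p.1.1 p.2, by
        show Fin.cons (α := fun _ => F) p.1.1 p.2 0 ≠ 0
        rw [Fin.cons_zero]
        exact p.1.2⟩
      left_inv := fun a => Subtype.ext (Fin.cons_self_tail a.1)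
      right_inv := fun p => Prod.ext (Subtype.ext (by
        show Fin.cons (α := fun _ => F) p.1.1 p.2 0 = p.1.1
        rw [Fin.cons_zero])) (by
        show Fin.tail (Fin.cons (α := fun _ => F) p.1.1 p.2) = p.2
        rw [Fin.tail_cons]) }
  rw [Nat.card_congr e, Nat.card_prod, Nat.card_congr (unitsEquivNeZero (G₀ := F)).symm,
    Nat.card_units F, Nat.card_fun, Nat.card_eq_fintype_card, Nat.card_eq_fintype_card,
    Fintype.card_fin, hq, Nat.add_sub_cancel]

theorem card_fun_eq {F : Type u} [Field F] [Fintype F] {q : ℕ} (hq : Fintype.card F = q) (n : ℕ)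
    (hn : 1 ≤ n) (c : F) :
    Nat.card {a : Fin n → F // a ⟨0, hn⟩ = c} = q ^ (n - 1) := by
  obtain ⟨k, rfl⟩ : ∃ k, n = k + 1 := ⟨n - 1, by omega⟩
  have e : {a : Fin (k + 1) → F // a ⟨0, hn⟩ = c} ≃ (Fin k → F) :=
    { toFun := fun a => Fin.tail a.1
      invFun := fun t => ⟨Fin.cons c t, by
        show Fin.cons (α := fun _ => F) c t 0 = c
        rw [Fin.cons_zero]⟩
      left_inv := fun a => Subtype.ext (by
        have h1 : a.1 0 = c := a.2
        show Fin.cons c (Fin.tail a.1) = a.1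
        have h2 := Fin.cons_self_tail a.1
        rw [h1] at h2
        exact h2)
      right_inv := fun t => Fin.tail_cons _ _ }
  rw [Nat.card_congr e, Nat.card_fun, Nat.card_eq_fintype_card, Nat.card_eq_fintype_card,
    Fintype.card_fin, hq, Nat.add_sub_cancel]

theorem cast_ne_zero_of_coprime {F : Type u} [Field F] (p : ℕ) [Fact p.Prime] [CharP F p]
    (a b : ℕ) (ha : a.Coprime p) (hb : b.Coprime p) : ((a * b : ℕ) : F) ≠ 0 := by
  have hp : p.Prime := Fact.out
  intro h0
  rw [CharP.cast_eq_zero_iff F p] at h0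
  rcases (Nat.Prime.dvd_mul hp).1 h0 with h1 | h1
  · have h2 := Nat.dvd_gcd h1 (dvd_refl p)
    rw [Nat.Coprime] at ha
    rw [ha] at h2
    exact hp.not_dvd_one h2
  · have h2 := Nat.dvd_gcd h1 (dvd_refl p)
    rw [Nat.Coprime] at hb
    rw [hb] at h2
    exact hp.not_dvd_one h2

theorem coprime_of_dvd_cast_ne_zero {F : Type u} [Field F] (p : ℕ) [Fact p.Prime] [CharP F p]
    (k m : ℕ) (hm : (m : F) ≠ 0) (hk : k ∣ m) : k.Coprime p := by
  have hp : p.Prime := Fact.out
  exact Nat.Coprime.symm ((Nat.Prime.coprime_iff_not_dvd hp).2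
    (fun hd => hm ((CharP.cast_eq_zero_iff F p m).2 (dvd_trans hd hk))))

theorem gl_charpoly_coeff_zero_ne {F : Type u} [Field F] {n : ℕ} (g : GL (Fin n) F) :
    (g : Matrix (Fin n) (Fin n) F).charpoly.coeff 0 ≠ 0 := by
  intro h
  have h1 := Matrix.det_eq_sign_charpoly_coeff (g : Matrix (Fin n) (Fin n) F)
  rw [h, mul_zero] at h1
  exact ((Matrix.isUnit_iff_isUnit_det _).1 g.isUnit).ne_zero h1

theorem gl_isConj_of_charpoly {F : Type u} [Field F] (p : ℕ) [Fact p.Prime] [CharP F p] {n : ℕ}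
    (g g' : GL (Fin n) F) (hg : (orderOf g).Coprime p) (hg' : (orderOf g').Coprime p)
    (hχ : (g : Matrix (Fin n) (Fin n) F).charpoly = (g' : Matrix (Fin n) (Fin n) F).charpoly) :
    IsConj g g' := by
  have hm := cast_ne_zero_of_coprime (F := F) p _ _ hg hg'
  have hA : (g : Matrix (Fin n) (Fin n) F) ^ (orderOf g * orderOf g') = 1 := by
    rw [← Units.val_pow_eq_pow_val, pow_mul, pow_orderOf_eq_one, one_pow, Units.val_one]
  have hB : (g' : Matrix (Fin n) (Fin n) F) ^ (orderOf g * orderOf g') = 1 := by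
    rw [← Units.val_pow_eq_pow_val, mul_comm, pow_mul, pow_orderOf_eq_one, one_pow, Units.val_one]
  obtain ⟨P, P', hPP', hP'P, hPA⟩ := gl_conj_of_charpoly (orderOf g * orderOf g') hm _ _ hA hB hχ
  exact isConj_iff.2 ⟨⟨P, P', hPP', hP'P⟩, mul_inv_eq_iff_eq_mul.2 (Units.ext hPA)⟩

theorem gl_of_pow_one {F : Type u} [Field F] (p : ℕ) [Fact p.Prime] [CharP F p] {n : ℕ}
    (A : Matrix (Fin n) (Fin n) F) (m : ℕ) (hm : (m : F) ≠ 0) (hA : A ^ m = 1) :
    ∃ g : GL (Fin n) F, (g : Matrix (Fin n) (Fin n) F) = A ∧ (orderOf g).Coprime p := by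
  have hm0 : m ≠ 0 := by
    rintro rfl
    exact hm Nat.cast_zero
  have h1 : A * A ^ (m - 1) = 1 := by
    rw [← pow_succ', Nat.sub_add_cancel (Nat.pos_of_ne_zero hm0)]
    exact hA
  have h2 : A ^ (m - 1) * A = 1 := by
    rw [← pow_succ, Nat.sub_add_cancel (Nat.pos_of_ne_zero hm0)]
    exact hA
  refine ⟨⟨A, A ^ (m - 1), h1, h2⟩, rfl, ?_⟩
  apply coprime_of_dvd_cast_ne_zero (F := F) p _ m hm
  apply orderOf_dvd_of_pow_eq_one
  apply Units.ext
  rw [Units.val_pow_eq_pow_val, Units.val_one]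
  exact hA

theorem gl_charpoly_of_isConj {F : Type u} [Field F] {n : ℕ} {g g' : GL (Fin n) F}
    (h : IsConj g g') :
    (g : Matrix (Fin n) (Fin n) F).charpoly = (g' : Matrix (Fin n) (Fin n) F).charpoly := by
  obtain ⟨c, hc⟩ := isConj_iff.1 h
  rw [← hc, Units.val_mul, Units.val_mul, Matrix.coe_units_inv, Matrix.charpoly_units_conj]

theorem gl_semisimple_class_count {F : Type u} [Field F] [Fintype F] {q : ℕ}
    (hq : Fintype.card F = q) (p : ℕ) [Fact p.Prime] [CharP F p] (n : ℕ) (hn : 1 ≤ n) :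
    Nat.card {c : ConjClasses (GL (Fin n) F) //
      ∃ g : GL (Fin n) F, ConjClasses.mk g = c ∧ (orderOf g).Coprime p}
      = (q - 1) * q ^ (n - 1) := by
  classical
  rw [← card_fun_ne hq n hn]
  let Φ : {c : ConjClasses (GL (Fin n) F) //
      ∃ g : GL (Fin n) F, ConjClasses.mk g = c ∧ (orderOf g).Coprime p} →
      {a : Fin n → F // a ⟨0, hn⟩ ≠ 0} :=
    fun c => ⟨fun i => ((Classical.choose c.2 : GL (Fin n) F) :
      Matrix (Fin n) (Fin n) F).charpoly.coeff i, gl_charpoly_coeff_zero_ne _⟩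
  apply Nat.card_congr
  refine Equiv.ofBijective Φ ⟨?_, ?_⟩
  · intro c c' hcc
    have h1 := Classical.choose_spec c.2
    have h2 := Classical.choose_spec c'.2
    have hχ : ((Classical.choose c.2 : GL (Fin n) F) : Matrix (Fin n) (Fin n) F).charpoly
        = ((Classical.choose c'.2 : GL (Fin n) F) : Matrix (Fin n) (Fin n) F).charpoly := by
      apply monic_ext_low _ _ (Matrix.charpoly_monic _) (Matrix.charpoly_monic _)
        (by rw [Matrix.charpoly_natDegree_eq_dim, Fintype.card_fin])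
        (by rw [Matrix.charpoly_natDegree_eq_dim, Fintype.card_fin])
      intro i
      exact congrFun (congrArg Subtype.val hcc) i
    have hconj := gl_isConj_of_charpoly p _ _ h1.2 h2.2 hχ
    apply Subtype.ext
    rw [← h1.1, ← h2.1]
    exact ConjClasses.mk_eq_mk_iff_isConj.2 hconj
  · intro a
    obtain ⟨A, m, hm, hA, hχ⟩ := exists_semi_matrix n (polyOf a.1) (polyOf_monic _)
      (polyOf_natDegree _) (by
        have h1 := polyOf_coeff a.1 ⟨0, hn⟩
        have h2 : (polyOf a.1).coeff 0 = a.1 ⟨0, hn⟩ := h1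
        rw [h2]
        exact a.2)
    obtain ⟨g, hgA, hgo⟩ := gl_of_pow_one p A m hm hA
    refine ⟨⟨ConjClasses.mk g, g, rfl, hgo⟩, ?_⟩
    have h1 := Classical.choose_spec (⟨g, rfl, hgo⟩ :
      ∃ g' : GL (Fin n) F, ConjClasses.mk g' = ConjClasses.mk g ∧ (orderOf g').Coprime p)
    have hconj := ConjClasses.mk_eq_mk_iff_isConj.1 h1.1
    apply Subtype.ext
    funext i
    show ((Classical.choose (⟨g, rfl, hgo⟩ :
      ∃ g' : GL (Fin n) F, ConjClasses.mk g' = ConjClasses.mk g ∧ (orderOf g').Coprime p) :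
        GL (Fin n) F) : Matrix (Fin n) (Fin n) F).charpoly.coeff i = a.1 i
    rw [gl_charpoly_of_isConj hconj, hgA, hχ, polyOf_coeff]

theorem sl_isConj_of_charpoly {F : Type u} [Field F] [Fintype F] (p : ℕ) [Fact p.Prime]
    [CharP F p] {n : ℕ} (g h : Matrix.SpecialLinearGroup (Fin n) F)
    (hg : (orderOf g).Coprime p) (hh : (orderOf h).Coprime p)
    (hc : (g : Matrix (Fin n) (Fin n) F).charpoly = (h : Matrix (Fin n) (Fin n) F).charpoly) :
    IsConj g h := by
  classical
  rw [sl_isConj_iff]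
  have hm := cast_ne_zero_of_coprime (F := F) p _ _ hg hh
  have hA : (g : Matrix (Fin n) (Fin n) F) ^ (orderOf g * orderOf h) = 1 := by
    rw [← Matrix.SpecialLinearGroup.coe_pow, pow_mul, pow_orderOf_eq_one, one_pow,
      Matrix.SpecialLinearGroup.coe_one]
  have hB : (h : Matrix (Fin n) (Fin n) F) ^ (orderOf g * orderOf h) = 1 := by
    rw [← Matrix.SpecialLinearGroup.coe_pow, mul_comm, pow_mul, pow_orderOf_eq_one, one_pow,
      Matrix.SpecialLinearGroup.coe_one]
  obtain ⟨P, P', hPP', hP'P, hPA⟩ := gl_conj_of_charpoly (orderOf g * orderOf h) hm _ _ hA hB hc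
  have hx : (orderOf (Matrix.SpecialLinearGroup.toGL g)).Coprime p := by
    rw [orderOf_injective Matrix.SpecialLinearGroup.toGL
      Matrix.SpecialLinearGroup.toGL_injective g]
    exact hg
  obtain ⟨k, hk, hkc⟩ := sl_conj_of_semisimple
    (Matrix.SpecialLinearGroup.toGL g) (⟨P, P', hPP', hP'P⟩ : GL (Fin n) F) hx
  refine ⟨k, Units.ext hk, ?_⟩
  rw [hkc]
  apply mul_inv_eq_iff_eq_mul.2
  apply Units.ext
  exact hPA

theorem sl_charpoly_coeff_zero {F : Type u} [Field F] {n : ℕ}
    (g : Matrix.SpecialLinearGroup (Fin n) F) :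
    (g : Matrix (Fin n) (Fin n) F).charpoly.coeff 0 = (-1) ^ n := by
  have h1 := Matrix.det_eq_sign_charpoly_coeff (g : Matrix (Fin n) (Fin n) F)
  rw [g.2, Fintype.card_fin] at h1
  have h2 : ((-1 : F) ^ n) * ((-1) ^ n) = 1 := by
    rw [← mul_pow, neg_one_mul, neg_neg, one_pow]
  calc (g : Matrix (Fin n) (Fin n) F).charpoly.coeff 0
      = ((-1 : F) ^ n) * ((-1) ^ n) * (g : Matrix (Fin n) (Fin n) F).charpoly.coeff 0 := by
        rw [h2, one_mul]
    _ = (-1) ^ n := by rw [mul_assoc, ← h1, mul_one]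

theorem sl_semisimple_class_count {F : Type u} [Field F] [Fintype F] {q : ℕ}
    (hq : Fintype.card F = q) (p : ℕ) [Fact p.Prime] [CharP F p] (n : ℕ) (hn : 1 ≤ n) :
    Nat.card {c : ConjClasses (Matrix.SpecialLinearGroup (Fin n) F) //
      ∃ g : Matrix.SpecialLinearGroup (Fin n) F, ConjClasses.mk g = c ∧ (orderOf g).Coprime p}
      = q ^ (n - 1) := by
  classical
  rw [← card_fun_eq hq n hn ((-1) ^ n)]
  let Φ : {c : ConjClasses (Matrix.SpecialLinearGroup (Fin n) F) //
      ∃ g : Matrix.SpecialLinearGroup (Fin n) F, ConjClasses.mk g = c ∧ (orderOf g).Coprime p} →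
      {a : Fin n → F // a ⟨0, hn⟩ = (-1) ^ n} :=
    fun c => ⟨fun i => ((Classical.choose c.2 : Matrix.SpecialLinearGroup (Fin n) F) :
      Matrix (Fin n) (Fin n) F).charpoly.coeff i, sl_charpoly_coeff_zero _⟩
  apply Nat.card_congr
  refine Equiv.ofBijective Φ ⟨?_, ?_⟩
  · intro c c' hcc
    have h1 := Classical.choose_spec c.2
    have h2 := Classical.choose_spec c'.2
    have hχ : ((Classical.choose c.2 : Matrix.SpecialLinearGroup (Fin n) F) :
          Matrix (Fin n) (Fin n) F).charpoly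
        = ((Classical.choose c'.2 : Matrix.SpecialLinearGroup (Fin n) F) :
          Matrix (Fin n) (Fin n) F).charpoly := by
      apply monic_ext_low _ _ (Matrix.charpoly_monic _) (Matrix.charpoly_monic _)
        (by rw [Matrix.charpoly_natDegree_eq_dim, Fintype.card_fin])
        (by rw [Matrix.charpoly_natDegree_eq_dim, Fintype.card_fin])
      intro i
      exact congrFun (congrArg Subtype.val hcc) i
    have hconj := sl_isConj_of_charpoly p _ _ h1.2 h2.2 hχ
    apply Subtype.ext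
    rw [← h1.1, ← h2.1]
    exact ConjClasses.mk_eq_mk_iff_isConj.2 hconj
  · intro a
    have ha0 : (polyOf a.1).coeff 0 = (-1) ^ n := by
      have h1 := polyOf_coeff a.1 ⟨0, hn⟩
      have h2 : (polyOf a.1).coeff 0 = a.1 ⟨0, hn⟩ := h1
      rw [h2]
      exact a.2
    have hne : ((-1 : F) ^ n) ≠ 0 := pow_ne_zero _ (neg_ne_zero.2 one_ne_zero)
    obtain ⟨A, m, hm, hA, hχ⟩ := exists_semi_matrix n (polyOf a.1) (polyOf_monic _)
      (polyOf_natDegree _) (by rw [ha0]; exact hne)
    have hdet : A.det = 1 := by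
      rw [Matrix.det_eq_sign_charpoly_coeff, hχ, ha0, Fintype.card_fin, ← mul_pow, neg_one_mul,
        neg_neg, one_pow]
    obtain ⟨s, hs⟩ : ∃ s : Matrix.SpecialLinearGroup (Fin n) F,
        (s : Matrix (Fin n) (Fin n) F) = A := ⟨⟨A, hdet⟩, rfl⟩
    have hgo : (orderOf s).Coprime p := by
      apply coprime_of_dvd_cast_ne_zero (F := F) p _ m hm
      apply orderOf_dvd_of_pow_eq_one
      apply Subtype.ext
      rw [Matrix.SpecialLinearGroup.coe_pow, Matrix.SpecialLinearGroup.coe_one, hs]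
      exact hA
    refine ⟨⟨ConjClasses.mk s, s, rfl, hgo⟩, ?_⟩
    have h1 := Classical.choose_spec (⟨s, rfl, hgo⟩ :
      ∃ g' : Matrix.SpecialLinearGroup (Fin n) F,
        ConjClasses.mk g' = ConjClasses.mk s ∧ (orderOf g').Coprime p)
    have hconj := ConjClasses.mk_eq_mk_iff_isConj.1 h1.1
    have hconj' := MonoidHom.map_isConj Matrix.SpecialLinearGroup.toGL hconj
    have hχ' := gl_charpoly_of_isConj hconj'
    apply Subtype.ext
    funext i
    show ((Classical.choose (⟨s, rfl, hgo⟩ :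
      ∃ g' : Matrix.SpecialLinearGroup (Fin n) F,
        ConjClasses.mk g' = ConjClasses.mk s ∧ (orderOf g').Coprime p) :
          Matrix.SpecialLinearGroup (Fin n) F) :
        Matrix (Fin n) (Fin n) F).charpoly.coeff i = a.1 i
    have hχ'' : ((Classical.choose (⟨s, rfl, hgo⟩ :
      ∃ g' : Matrix.SpecialLinearGroup (Fin n) F,
        ConjClasses.mk g' = ConjClasses.mk s ∧ (orderOf g').Coprime p) :
          Matrix.SpecialLinearGroup (Fin n) F) :
        Matrix (Fin n) (Fin n) F).charpoly = (s : Matrix (Fin n) (Fin n) F).charpoly := hχ'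
    rw [hχ'', hs, hχ, polyOf_coeff]

end Cfsg.Agent.Helper15
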