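import Mathlib
import Cfsg.Agent.Helper15.SpSemi3
import Cfsg.Agent.Helper15.SemiCount1

set_option autoImplicit false

namespace Cfsg.Agent.Helper15
open Polynomial Matrix

universe u

noncomputable def spFormS (m : ℕ) (F : Type*) [Field F] :
    LinearMap.BilinForm F (Fin m ⊕ Fin m → F) :=
  Matrix.toBilin' (Matrix.J (Fin m) F)

theorem spFormS_apply {F : Type*} [Field F] (m : ℕ) (u v : Fin m ⊕ Fin m → F) :
    spFormS m F u v = u ⬝ᵥ (Matrix.J (Fin m) F).mulVec v :=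
  Matrix.toBilin'_apply' _ _ _

theorem spFormS_alt {F : Type*} [Field F] (m : ℕ) (v : Fin m ⊕ Fin m → F) :
    spFormS m F v v = 0 := by
  rw [spFormS_apply]
  unfold Matrix.J
  rw [Matrix.fromBlocks_mulVec, dotProduct, Fintype.sum_sum_type]
  simp only [Sum.elim_inl, Sum.elim_inr, Matrix.zero_mulVec, Matrix.neg_mulVec,
    Matrix.one_mulVec, zero_add, add_zero, Pi.neg_apply, Function.comp_apply]
  rw [← Finset.sum_add_distrib]
  apply Finset.sum_eq_zero
  intro i _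
  ring

theorem spFormS_nondeg {F : Type*} [Field F] (m : ℕ) : (spFormS m F).Nondegenerate :=
  LinearMap.BilinForm.nondegenerate_toBilin'_of_det_ne_zero' _
    (Matrix.isUnit_det_J (Fin m) F).ne_zero

theorem transpose_J_mul_applyS {F : Type*} [Field F] (m : ℕ)
    (A : Matrix (Fin m ⊕ Fin m) (Fin m ⊕ Fin m) F) (k l : Fin m ⊕ Fin m) :
    (A.transpose * Matrix.J (Fin m) F * A) k l
      = spFormS m F (fun i => A i k) (fun i => A i l) := by
  rw [spFormS_apply, Matrix.mul_assoc]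
  rfl

theorem mem_sp_iff_colsS {F : Type*} [Field F] (m : ℕ)
    (A : Matrix (Fin m ⊕ Fin m) (Fin m ⊕ Fin m) F) :
    A ∈ Matrix.symplecticGroup (Fin m) F ↔
      ∀ k l, spFormS m F (fun i => A i k) (fun i => A i l) = Matrix.J (Fin m) F k l := by
  rw [SymplecticGroup.mem_iff']
  constructor
  · intro h k l
    rw [← transpose_J_mul_applyS, h]
  · intro h
    ext k l
    rw [transpose_J_mul_applyS, h]

theorem sp_form_invS {F : Type*} [Field F] (m : ℕ) (g : Matrix.symplecticGroup (Fin m) F)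
    (x y : Fin m ⊕ Fin m → F) :
    spFormS m F ((g : Matrix (Fin m ⊕ Fin m) (Fin m ⊕ Fin m) F).mulVec x)
      ((g : Matrix (Fin m ⊕ Fin m) (Fin m ⊕ Fin m) F).mulVec y) = spFormS m F x y := by
  have hJ := SymplecticGroup.mem_iff'.1 g.2
  rw [spFormS_apply, spFormS_apply, Matrix.mulVec_mulVec, ← Matrix.vecMul_transpose,
    ← Matrix.dotProduct_mulVec, Matrix.mulVec_mulVec, ← Matrix.mul_assoc, hJ]


theorem sp_conj_of_charpoly {F : Type u} [Field F] [Fintype F] (p : ℕ) [Fact p.Prime] [CharP F p]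
    (n : ℕ) (g h : Matrix.symplecticGroup (Fin n) F) (hg : (orderOf g).Coprime p)
    (hh : (orderOf h).Coprime p)
    (hc : (g : Matrix (Fin n ⊕ Fin n) (Fin n ⊕ Fin n) F).charpoly
      = (h : Matrix (Fin n ⊕ Fin n) (Fin n ⊕ Fin n) F).charpoly) : IsConj g h := by
  classical
  have hm := cast_ne_zero_of_coprime (F := F) p _ _ hg hh
  have hm1 : 1 ≤ orderOf g * orderOf h := by
    rcases Nat.eq_zero_or_pos (orderOf g * orderOf h) with h0 | h0
    · exfalso
      apply hm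
      rw [h0, Nat.cast_zero]
    · exact h0
  have hA : (g : Matrix (Fin n ⊕ Fin n) (Fin n ⊕ Fin n) F) ^ (orderOf g * orderOf h) = 1 := by
    rw [← SubmonoidClass.coe_pow, pow_mul, pow_orderOf_eq_one, one_pow]
    rfl
  have hB : (h : Matrix (Fin n ⊕ Fin n) (Fin n ⊕ Fin n) F) ^ (orderOf g * orderOf h) = 1 := by
    rw [← SubmonoidClass.coe_pow, mul_comm, pow_mul, pow_orderOf_eq_one, one_pow]
    rfl
  have hPg : IsoPack (spFormS n F)
      (Matrix.toLin' (g : Matrix (Fin n ⊕ Fin n) (Fin n ⊕ Fin n) F)) (orderOf g * orderOf h) := by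
    refine ⟨spFormS_alt n, (spFormS_nondeg n).1, fun u w => ?_, ?_, hm1⟩
    · rw [Matrix.toLin'_apply, Matrix.toLin'_apply]
      exact sp_form_invS n g u w
    · rw [← Matrix.toLin'_pow, hA, Matrix.toLin'_one]
      rfl
  have hPh : IsoPack (spFormS n F)
      (Matrix.toLin' (h : Matrix (Fin n ⊕ Fin n) (Fin n ⊕ Fin n) F)) (orderOf g * orderOf h) := by
    refine ⟨spFormS_alt n, (spFormS_nondeg n).1, fun u w => ?_, ?_, hm1⟩
    · rw [Matrix.toLin'_apply, Matrix.toLin'_apply]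
      exact sp_form_invS n h u w
    · rw [← Matrix.toLin'_pow, hB, Matrix.toLin'_one]
      rfl
  obtain ⟨T, hT, hTi⟩ := sp_conj_aux (orderOf g * orderOf h) hm
    (Module.finrank F (Fin n ⊕ Fin n → F)) (Fin n ⊕ Fin n → F) (Fin n ⊕ Fin n → F)
    (spFormS n F) (spFormS n F) _ _ hPg hPh rfl
    (by rw [Matrix.charpoly_toLin', Matrix.charpoly_toLin', hc])
  have hcol : ∀ k : Fin n ⊕ Fin n,
      (fun i => LinearMap.toMatrix' T.toLinearMap i k) = T (Pi.single k 1) := by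
    intro k
    funext i
    rw [LinearMap.toMatrix'_apply]
    rfl
  have hcol1 : ∀ k : Fin n ⊕ Fin n,
      (fun i => (1 : Matrix (Fin n ⊕ Fin n) (Fin n ⊕ Fin n) F) i k) = Pi.single k 1 := by
    intro k
    funext i
    rw [Matrix.one_apply, Pi.single_apply]
  have hPmem : LinearMap.toMatrix' T.toLinearMap ∈ Matrix.symplecticGroup (Fin n) F := by
    rw [mem_sp_iff_colsS]
    intro k l
    rw [hcol, hcol, hTi]
    have h1 := (mem_sp_iff_colsS n (1 : Matrix (Fin n ⊕ Fin n) (Fin n ⊕ Fin n) F)).1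
      (one_mem _) k l
    rw [hcol1, hcol1] at h1
    exact h1
  have hPA : LinearMap.toMatrix' T.toLinearMap * (g : Matrix (Fin n ⊕ Fin n) (Fin n ⊕ Fin n) F)
      = (h : Matrix (Fin n ⊕ Fin n) (Fin n ⊕ Fin n) F) * LinearMap.toMatrix' T.toLinearMap := by
    have h1 : T.toLinearMap ∘ₗ Matrix.toLin' (g : Matrix (Fin n ⊕ Fin n) (Fin n ⊕ Fin n) F)
        = Matrix.toLin' (h : Matrix (Fin n ⊕ Fin n) (Fin n ⊕ Fin n) F) ∘ₗ T.toLinearMap :=
      LinearMap.ext hT
    have h2 := congrArg LinearMap.toMatrix' h1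
    rwa [LinearMap.toMatrix'_comp, LinearMap.toMatrix'_comp, LinearMap.toMatrix'_toLin',
      LinearMap.toMatrix'_toLin'] at h2
  refine isConj_iff.2 ⟨⟨_, hPmem⟩, mul_inv_eq_iff_eq_mul.2 ?_⟩
  apply Subtype.ext
  exact hPA

theorem sp_conj_iff_matrix_conj {F : Type u} [Field F] [Fintype F] {p : ℕ} [Fact p.Prime]
    [CharP F p] {m : ℕ} (A B : Matrix.symplecticGroup (Fin m) F) (hA : (orderOf A).Coprime p) :
    IsConj A B ↔ IsConj (A : Matrix (Fin m ⊕ Fin m) (Fin m ⊕ Fin m) F)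
      (B : Matrix (Fin m ⊕ Fin m) (Fin m ⊕ Fin m) F) := by
  classical
  constructor
  · intro h
    obtain ⟨c, hc⟩ := isConj_iff.1 h
    have h1 : (c : Matrix (Fin m ⊕ Fin m) (Fin m ⊕ Fin m) F)
        * ((c⁻¹ : Matrix.symplecticGroup (Fin m) F) : Matrix (Fin m ⊕ Fin m) (Fin m ⊕ Fin m) F)
        = 1 := by
      rw [← Submonoid.coe_mul, mul_inv_cancel]
      rfl
    have h2 : ((c⁻¹ : Matrix.symplecticGroup (Fin m) F) : Matrix (Fin m ⊕ Fin m) (Fin m ⊕ Fin m) F)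
        * (c : Matrix (Fin m ⊕ Fin m) (Fin m ⊕ Fin m) F) = 1 := by
      rw [← Submonoid.coe_mul, inv_mul_cancel]
      rfl
    refine ⟨⟨_, _, h1, h2⟩, ?_⟩
    have h3 : c * A = B * c := mul_inv_eq_iff_eq_mul.1 hc
    exact congrArg Subtype.val h3
  · rintro ⟨c, hc⟩
    have hc' : (c : Matrix (Fin m ⊕ Fin m) (Fin m ⊕ Fin m) F)
        * (A : Matrix (Fin m ⊕ Fin m) (Fin m ⊕ Fin m) F)
        = (B : Matrix (Fin m ⊕ Fin m) (Fin m ⊕ Fin m) F)
          * (c : Matrix (Fin m ⊕ Fin m) (Fin m ⊕ Fin m) F) := hc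
    have hBeq : (B : Matrix (Fin m ⊕ Fin m) (Fin m ⊕ Fin m) F)
        = (c : Matrix (Fin m ⊕ Fin m) (Fin m ⊕ Fin m) F)
          * (A : Matrix (Fin m ⊕ Fin m) (Fin m ⊕ Fin m) F)
          * ((c⁻¹ : (Matrix (Fin m ⊕ Fin m) (Fin m ⊕ Fin m) F)ˣ) :
            Matrix (Fin m ⊕ Fin m) (Fin m ⊕ Fin m) F) := by
      rw [hc', mul_assoc, Units.mul_inv, mul_one]
    have hχ : (A : Matrix (Fin m ⊕ Fin m) (Fin m ⊕ Fin m) F).charpoly
        = (B : Matrix (Fin m ⊕ Fin m) (Fin m ⊕ Fin m) F).charpoly := by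
      rw [hBeq, Matrix.coe_units_inv, Matrix.charpoly_units_conj]
    have hBo : (orderOf B).Coprime p := by
      apply Nat.Coprime.coprime_dvd_left _ hA
      apply orderOf_dvd_of_pow_eq_one
      apply Subtype.ext
      rw [SubmonoidClass.coe_pow, hBeq, Units.conj_pow, ← SubmonoidClass.coe_pow,
        pow_orderOf_eq_one]
      show (c : Matrix (Fin m ⊕ Fin m) (Fin m ⊕ Fin m) F) * 1 * _ = 1
      rw [mul_one, Units.mul_inv]
    exact sp_conj_of_charpoly p m A B hA hBo hχ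

end Cfsg.Agent.Helper15
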