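import Mathlib
import Cfsg.Agent.Helper15.Inv2B
import Cfsg.Agent.Helper15.SpSemi4
import Cfsg.Agent.S2167

set_option autoImplicit false

namespace Cfsg.Agent.Helper15
open Matrix

universe u

theorem sp_conj_of_equiv {F : Type u} [Field F] (n : ℕ)
    (g h : Matrix.symplecticGroup (Fin n) F)
    (T : (Fin n ⊕ Fin n → F) ≃ₗ[F] (Fin n ⊕ Fin n → F))
    (hT : ∀ v, T (Matrix.toLin' (g : Matrix (Fin n ⊕ Fin n) (Fin n ⊕ Fin n) F) v)
      = Matrix.toLin' (h : Matrix (Fin n ⊕ Fin n) (Fin n ⊕ Fin n) F) (T v))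
    (hTi : ∀ u w, spFormS n F (T u) (T w) = spFormS n F u w) : IsConj g h := by
  classical
  have hcol : ∀ k : Fin n ⊕ Fin n,
      (fun i => LinearMap.toMatrix' T.toLinearMap i k) = T (Pi.single k 1) := by
    intro k
    funext i
    rw [LinearMap.toMatrix'_apply]
    rfl
  have hcol1 : ∀ k : Fin n ⊕ Fin n,
      (fun i => (1 : Matrix (Fin n ⊕ Fin n) (Fin n ⊕ Fin n) F) i k) = Pi.single k 1 := by
    intro k
    funext i
    rw [Matrix.one_apply, Pi.single_apply]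
  have hPmem : LinearMap.toMatrix' T.toLinearMap ∈ Matrix.symplecticGroup (Fin n) F := by
    rw [mem_sp_iff_colsS]
    intro k l
    rw [hcol, hcol, hTi]
    have h1 := (mem_sp_iff_colsS n (1 : Matrix (Fin n ⊕ Fin n) (Fin n ⊕ Fin n) F)).1
      (one_mem _) k l
    rw [hcol1, hcol1] at h1
    exact h1
  have hPA : LinearMap.toMatrix' T.toLinearMap * (g : Matrix (Fin n ⊕ Fin n) (Fin n ⊕ Fin n) F)
      = (h : Matrix (Fin n ⊕ Fin n) (Fin n ⊕ Fin n) F) * LinearMap.toMatrix' T.toLinearMap := by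
    have h1 : T.toLinearMap ∘ₗ Matrix.toLin' (g : Matrix (Fin n ⊕ Fin n) (Fin n ⊕ Fin n) F)
        = Matrix.toLin' (h : Matrix (Fin n ⊕ Fin n) (Fin n ⊕ Fin n) F) ∘ₗ T.toLinearMap :=
      LinearMap.ext hT
    have h2 := congrArg LinearMap.toMatrix' h1
    rwa [LinearMap.toMatrix'_comp, LinearMap.toMatrix'_comp, LinearMap.toMatrix'_toLin',
      LinearMap.toMatrix'_toLin'] at h2
  refine isConj_iff.2 ⟨⟨_, hPmem⟩, mul_inv_eq_iff_eq_mul.2 ?_⟩
  apply Subtype.ext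
  exact hPA

theorem sp_alt_even_rank {F : Type u} [Field F] {m : ℕ}
    (A : Matrix (Fin m ⊕ Fin m) (Fin m ⊕ Fin m) F)
    (h : ∀ v, spFormS m F v (Matrix.toLin' (A - 1) v) = 0) : Even (A - 1).rank := by
  have hev := Cfsg.Agent.S2167.even_rank_of_alt (Matrix.J (Fin m) F * (A - 1)) (fun v => by
    have := h v
    rw [spFormS_apply, Matrix.toLin'_apply, Matrix.mulVec_mulVec] at this
    exact this)
  rwa [Matrix.rank_mul_eq_right_of_isUnit_det _ _ (Matrix.isUnit_det_J (Fin m) F)] at hev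

theorem sp_beta_eq {F : Type u} [Field F] {m : ℕ}
    (A : Matrix (Fin m ⊕ Fin m) (Fin m ⊕ Fin m) F) (v : Fin m ⊕ Fin m → F) :
    spFormS m F v (Matrix.toLin' (A - 1) v)
      = v ⬝ᵥ (Matrix.J (Fin m) F).mulVec (A.mulVec v) := by
  rw [Matrix.toLin'_apply, Matrix.sub_mulVec, Matrix.one_mulVec, map_sub, spFormS_alt, sub_zero,
    spFormS_apply]

theorem sp_val_sq {F : Type u} [Field F] {m : ℕ} (a : Matrix.symplecticGroup (Fin m) F)
    (ha : orderOf a = 2) :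
    (a : Matrix (Fin m ⊕ Fin m) (Fin m ⊕ Fin m) F) * (a : Matrix (Fin m ⊕ Fin m) (Fin m ⊕ Fin m) F)
      = 1 := by
  have h1 : (a : Matrix (Fin m ⊕ Fin m) (Fin m ⊕ Fin m) F) ^ 2 = 1 := by
    rw [← SubmonoidClass.coe_pow, ← ha, pow_orderOf_eq_one]
    rfl
  rwa [pow_two] at h1

theorem sp_inv_pack {F : Type u} [Field F] [CharP F 2] {m : ℕ}
    (a : Matrix.symplecticGroup (Fin m) F)
    (hA : (a : Matrix (Fin m ⊕ Fin m) (Fin m ⊕ Fin m) F)
      * (a : Matrix (Fin m ⊕ Fin m) (Fin m ⊕ Fin m) F) = 1) :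
    InvPack (spFormS m F)
      (Matrix.toLin' ((a : Matrix (Fin m ⊕ Fin m) (Fin m ⊕ Fin m) F) - 1)) := by
  have h2 : (2 : F) = 0 := CharTwo.two_eq_zero
  have hsq : ((a : Matrix (Fin m ⊕ Fin m) (Fin m ⊕ Fin m) F) - 1)
      * ((a : Matrix (Fin m ⊕ Fin m) (Fin m ⊕ Fin m) F) - 1) = 0 := by
    have e1 : ((a : Matrix (Fin m ⊕ Fin m) (Fin m ⊕ Fin m) F) - 1)
        * ((a : Matrix (Fin m ⊕ Fin m) (Fin m ⊕ Fin m) F) - 1)
        = (a : Matrix (Fin m ⊕ Fin m) (Fin m ⊕ Fin m) F)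
          * (a : Matrix (Fin m ⊕ Fin m) (Fin m ⊕ Fin m) F) + 1
          - (2 : F) • (a : Matrix (Fin m ⊕ Fin m) (Fin m ⊕ Fin m) F) := by
      rw [two_smul]
      noncomm_ring
    have e2 : (1 : Matrix (Fin m ⊕ Fin m) (Fin m ⊕ Fin m) F) + 1
        = (2 : F) • (1 : Matrix (Fin m ⊕ Fin m) (Fin m ⊕ Fin m) F) := (two_smul F _).symm
    rw [e1, hA, h2, zero_smul, sub_zero, e2, h2, zero_smul]
  refine ⟨spFormS_alt m, (spFormS_nondeg m).1, fun u => ?_, fun u w => ?_⟩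
  · rw [← LinearMap.comp_apply, ← Matrix.toLin'_mul, hsq, map_zero, LinearMap.zero_apply]
  · rw [Matrix.toLin'_apply, Matrix.toLin'_apply, Matrix.sub_mulVec, Matrix.sub_mulVec,
      Matrix.one_mulVec, Matrix.one_mulVec, map_sub, LinearMap.sub_apply, map_sub]
    congr 1
    have := sp_form_invS m a u ((a : Matrix (Fin m ⊕ Fin m) (Fin m ⊕ Fin m) F).mulVec w)
    rw [Matrix.mulVec_mulVec, hA, Matrix.one_mulVec] at this
    exact this

theorem sp_inv_conj_of {F : Type u} [Field F] [Fintype F] [CharP F 2] {m : ℕ}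
    (a b : Matrix.symplecticGroup (Fin m) F)
    (hA : (a : Matrix (Fin m ⊕ Fin m) (Fin m ⊕ Fin m) F)
      * (a : Matrix (Fin m ⊕ Fin m) (Fin m ⊕ Fin m) F) = 1)
    (hB : (b : Matrix (Fin m ⊕ Fin m) (Fin m ⊕ Fin m) F)
      * (b : Matrix (Fin m ⊕ Fin m) (Fin m ⊕ Fin m) F) = 1)
    (hrank : ((a : Matrix (Fin m ⊕ Fin m) (Fin m ⊕ Fin m) F) - 1).rank
      = ((b : Matrix (Fin m ⊕ Fin m) (Fin m ⊕ Fin m) F) - 1).rank)
    (hiff : (∀ v, spFormS m F v
        (Matrix.toLin' ((a : Matrix (Fin m ⊕ Fin m) (Fin m ⊕ Fin m) F) - 1) v) = 0) ↔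
      (∀ v, spFormS m F v
        (Matrix.toLin' ((b : Matrix (Fin m ⊕ Fin m) (Fin m ⊕ Fin m) F) - 1) v) = 0)) :
    IsConj a b := by
  have hPa := sp_inv_pack a hA
  have hPb := sp_inv_pack b hB
  have hnull : Module.finrank F (LinearMap.ker
        (Matrix.toLin' ((a : Matrix (Fin m ⊕ Fin m) (Fin m ⊕ Fin m) F) - 1)))
      = Module.finrank F (LinearMap.ker
        (Matrix.toLin' ((b : Matrix (Fin m ⊕ Fin m) (Fin m ⊕ Fin m) F) - 1))) := by
    have e1 := LinearMap.finrank_range_add_finrank_ker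
      (Matrix.toLin' ((a : Matrix (Fin m ⊕ Fin m) (Fin m ⊕ Fin m) F) - 1))
    have e2 := LinearMap.finrank_range_add_finrank_ker
      (Matrix.toLin' ((b : Matrix (Fin m ⊕ Fin m) (Fin m ⊕ Fin m) F) - 1))
    have r1 : ((a : Matrix (Fin m ⊕ Fin m) (Fin m ⊕ Fin m) F) - 1).rank
        = Module.finrank F (LinearMap.range
          (Matrix.toLin' ((a : Matrix (Fin m ⊕ Fin m) (Fin m ⊕ Fin m) F) - 1))) := rfl
    have r2 : ((b : Matrix (Fin m ⊕ Fin m) (Fin m ⊕ Fin m) F) - 1).rank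
        = Module.finrank F (LinearMap.range
          (Matrix.toLin' ((b : Matrix (Fin m ⊕ Fin m) (Fin m ⊕ Fin m) F) - 1))) := rfl
    omega
  obtain ⟨T, hT, hTi⟩ := inv_conj_aux (Module.finrank F (Fin m ⊕ Fin m → F))
    (Fin m ⊕ Fin m → F) (Fin m ⊕ Fin m → F) (spFormS m F) (spFormS m F) _ _ hPa hPb rfl rfl
    hnull hiff
  refine sp_conj_of_equiv m a b T (fun v => ?_) hTi
  have h1 := hT v
  rw [Matrix.toLin'_apply, Matrix.toLin'_apply, Matrix.sub_mulVec, Matrix.sub_mulVec,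
    Matrix.one_mulVec, Matrix.one_mulVec, map_sub] at h1
  rw [Matrix.toLin'_apply, Matrix.toLin'_apply]
  exact sub_left_inj.1 h1

theorem sp_inv_conj_iff {F : Type u} [Field F] [Fintype F] [CharP F 2] {m : ℕ}
    (a b : Matrix.symplecticGroup (Fin m) F) (ha : orderOf a = 2) (hb : orderOf b = 2) :
    IsConj a b ↔
      (((a : Matrix (Fin m ⊕ Fin m) (Fin m ⊕ Fin m) F) - 1).rank
          = ((b : Matrix (Fin m ⊕ Fin m) (Fin m ⊕ Fin m) F) - 1).rank ∧
        (Even ((a : Matrix (Fin m ⊕ Fin m) (Fin m ⊕ Fin m) F) - 1).rank →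
          Nat.card {v : Fin m ⊕ Fin m → F // v ⬝ᵥ (Matrix.J (Fin m) F).mulVec
            ((a : Matrix (Fin m ⊕ Fin m) (Fin m ⊕ Fin m) F).mulVec v) = 0}
          = Nat.card {v : Fin m ⊕ Fin m → F // v ⬝ᵥ (Matrix.J (Fin m) F).mulVec
            ((b : Matrix (Fin m ⊕ Fin m) (Fin m ⊕ Fin m) F).mulVec v) = 0})) := by
  classical
  have hA := sp_val_sq a ha
  have hB := sp_val_sq b hb
  constructor
  · intro hconj
    obtain ⟨c, hc⟩ := isConj_iff.1 hconj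
    have hcm : (c : Matrix (Fin m ⊕ Fin m) (Fin m ⊕ Fin m) F)
        * (a : Matrix (Fin m ⊕ Fin m) (Fin m ⊕ Fin m) F)
        = (b : Matrix (Fin m ⊕ Fin m) (Fin m ⊕ Fin m) F)
          * (c : Matrix (Fin m ⊕ Fin m) (Fin m ⊕ Fin m) F) :=
      congrArg Subtype.val (mul_inv_eq_iff_eq_mul.1 hc)
    have hcu : IsUnit (c : Matrix (Fin m ⊕ Fin m) (Fin m ⊕ Fin m) F).det :=
      SymplecticGroup.symplectic_det c.2
    have hrank : ((a : Matrix (Fin m ⊕ Fin m) (Fin m ⊕ Fin m) F) - 1).rank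
        = ((b : Matrix (Fin m ⊕ Fin m) (Fin m ⊕ Fin m) F) - 1).rank := by
      have e : (c : Matrix (Fin m ⊕ Fin m) (Fin m ⊕ Fin m) F)
          * ((a : Matrix (Fin m ⊕ Fin m) (Fin m ⊕ Fin m) F) - 1)
          = ((b : Matrix (Fin m ⊕ Fin m) (Fin m ⊕ Fin m) F) - 1)
            * (c : Matrix (Fin m ⊕ Fin m) (Fin m ⊕ Fin m) F) := by
        rw [mul_sub, sub_mul, hcm, mul_one, one_mul]
      rw [← Matrix.rank_mul_eq_right_of_isUnit_det
        (c : Matrix (Fin m ⊕ Fin m) (Fin m ⊕ Fin m) F) _ hcu, e,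
        Matrix.rank_mul_eq_left_of_isUnit_det
        (c : Matrix (Fin m ⊕ Fin m) (Fin m ⊕ Fin m) F) _ hcu]
    refine ⟨hrank, fun _ => ?_⟩
    have hci1 : ((c⁻¹ : Matrix.symplecticGroup (Fin m) F) :
        Matrix (Fin m ⊕ Fin m) (Fin m ⊕ Fin m) F)
        * (c : Matrix (Fin m ⊕ Fin m) (Fin m ⊕ Fin m) F) = 1 :=
      congrArg Subtype.val (inv_mul_cancel c)
    have hci2 : (c : Matrix (Fin m ⊕ Fin m) (Fin m ⊕ Fin m) F)
        * ((c⁻¹ : Matrix.symplecticGroup (Fin m) F) :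
          Matrix (Fin m ⊕ Fin m) (Fin m ⊕ Fin m) F) = 1 :=
      congrArg Subtype.val (mul_inv_cancel c)
    apply Nat.card_congr
    refine Equiv.subtypeEquiv
      ⟨(c : Matrix (Fin m ⊕ Fin m) (Fin m ⊕ Fin m) F).mulVec,
        ((c⁻¹ : Matrix.symplecticGroup (Fin m) F) :
          Matrix (Fin m ⊕ Fin m) (Fin m ⊕ Fin m) F).mulVec,
        fun v => by rw [Matrix.mulVec_mulVec, hci1, Matrix.one_mulVec],
        fun v => by rw [Matrix.mulVec_mulVec, hci2, Matrix.one_mulVec]⟩ (fun v => ?_)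
    show _ ↔ ((c : Matrix (Fin m ⊕ Fin m) (Fin m ⊕ Fin m) F).mulVec v) ⬝ᵥ
      (Matrix.J (Fin m) F).mulVec ((b : Matrix (Fin m ⊕ Fin m) (Fin m ⊕ Fin m) F).mulVec
        ((c : Matrix (Fin m ⊕ Fin m) (Fin m ⊕ Fin m) F).mulVec v)) = 0
    have key : ((c : Matrix (Fin m ⊕ Fin m) (Fin m ⊕ Fin m) F).mulVec v) ⬝ᵥ
        (Matrix.J (Fin m) F).mulVec ((b : Matrix (Fin m ⊕ Fin m) (Fin m ⊕ Fin m) F).mulVec
          ((c : Matrix (Fin m ⊕ Fin m) (Fin m ⊕ Fin m) F).mulVec v))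
        = v ⬝ᵥ (Matrix.J (Fin m) F).mulVec
          ((a : Matrix (Fin m ⊕ Fin m) (Fin m ⊕ Fin m) F).mulVec v) := by
      rw [Matrix.mulVec_mulVec v (b : Matrix (Fin m ⊕ Fin m) (Fin m ⊕ Fin m) F)
        (c : Matrix (Fin m ⊕ Fin m) (Fin m ⊕ Fin m) F), ← hcm, ← Matrix.mulVec_mulVec]
      exact (spFormS_apply m _ _).symm.trans ((sp_form_invS m c v _).trans (spFormS_apply m _ _))
    rw [key]
  · rintro ⟨hrank, hcard⟩
    apply sp_inv_conj_of a b hA hB hrank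
    by_cases hev : Even ((a : Matrix (Fin m ⊕ Fin m) (Fin m ⊕ Fin m) F) - 1).rank
    · have hc := hcard hev
      constructor
      · intro h
        by_contra hcon
        push Not at hcon
        obtain ⟨v₀, hv₀⟩ := hcon
        have c1 : Nat.card {v : Fin m ⊕ Fin m → F // v ⬝ᵥ (Matrix.J (Fin m) F).mulVec
            ((a : Matrix (Fin m ⊕ Fin m) (Fin m ⊕ Fin m) F).mulVec v) = 0}
            = Nat.card (Fin m ⊕ Fin m → F) :=
          Nat.card_congr (Equiv.subtypeUnivEquiv (fun v => by rw [← sp_beta_eq]; exact h v))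
        have c2 : Nat.card {v : Fin m ⊕ Fin m → F // v ⬝ᵥ (Matrix.J (Fin m) F).mulVec
            ((b : Matrix (Fin m ⊕ Fin m) (Fin m ⊕ Fin m) F).mulVec v) = 0}
            < Nat.card (Fin m ⊕ Fin m → F) :=
          Finite.card_subtype_lt (x := v₀) (by rw [← sp_beta_eq]; exact hv₀)
        omega
      · intro h
        by_contra hcon
        push Not at hcon
        obtain ⟨v₀, hv₀⟩ := hcon
        have c1 : Nat.card {v : Fin m ⊕ Fin m → F // v ⬝ᵥ (Matrix.J (Fin m) F).mulVec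
            ((b : Matrix (Fin m ⊕ Fin m) (Fin m ⊕ Fin m) F).mulVec v) = 0}
            = Nat.card (Fin m ⊕ Fin m → F) :=
          Nat.card_congr (Equiv.subtypeUnivEquiv (fun v => by rw [← sp_beta_eq]; exact h v))
        have c2 : Nat.card {v : Fin m ⊕ Fin m → F // v ⬝ᵥ (Matrix.J (Fin m) F).mulVec
            ((a : Matrix (Fin m ⊕ Fin m) (Fin m ⊕ Fin m) F).mulVec v) = 0}
            < Nat.card (Fin m ⊕ Fin m → F) :=
          Finite.card_subtype_lt (x := v₀) (by rw [← sp_beta_eq]; exact hv₀)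
        omega
    · constructor
      · intro h
        exact absurd (sp_alt_even_rank _ h) hev
      · intro h
        exact absurd (hrank ▸ sp_alt_even_rank _ h) hev

end Cfsg.Agent.Helper15
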