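import Mathlib
import Cfsg.Agent.Helper15.Inv2C
import Cfsg.Agent.Helper15.SympBasis

set_option autoImplicit false

namespace Cfsg.Agent.Helper15
open Matrix

universe u

section
variable {F : Type u} [Field F]

noncomputable def prodForm {V₁ V₂ : Type u} [AddCommGroup V₁] [Module F V₁] [AddCommGroup V₂]
    [Module F V₂] (B₁ : LinearMap.BilinForm F V₁) (B₂ : LinearMap.BilinForm F V₂) :
    LinearMap.BilinForm F (V₁ × V₂) :=
  B₁.compl₁₂ (LinearMap.fst F V₁ V₂) (LinearMap.fst F V₁ V₂)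
    + B₂.compl₁₂ (LinearMap.snd F V₁ V₂) (LinearMap.snd F V₁ V₂)

theorem prodForm_apply {V₁ V₂ : Type u} [AddCommGroup V₁] [Module F V₁] [AddCommGroup V₂]
    [Module F V₂] (B₁ : LinearMap.BilinForm F V₁) (B₂ : LinearMap.BilinForm F V₂)
    (x y : V₁ × V₂) : prodForm B₁ B₂ x y = B₁ x.1 y.1 + B₂ x.2 y.2 := rfl

theorem InvPack.prod {V₁ V₂ : Type u} [AddCommGroup V₁] [Module F V₁] [AddCommGroup V₂]
    [Module F V₂] {B₁ : LinearMap.BilinForm F V₁} {B₂ : LinearMap.BilinForm F V₂}
    {N₁ : V₁ →ₗ[F] V₁} {N₂ : V₂ →ₗ[F] V₂} (h₁ : InvPack B₁ N₁) (h₂ : InvPack B₂ N₂) :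
    InvPack (prodForm B₁ B₂) (N₁.prodMap N₂) := by
  refine ⟨fun u => ?_, fun u hu => ?_, fun u => ?_, fun u w => ?_⟩
  · rw [prodForm_apply, h₁.alt, h₂.alt, add_zero]
  · apply Prod.ext
    · apply h₁.nd
      intro w
      have := hu (w, 0)
      rw [prodForm_apply] at this
      simpa using this
    · apply h₂.nd
      intro w
      have := hu (0, w)
      rw [prodForm_apply] at this
      simpa using this
  · rw [LinearMap.prodMap_apply, LinearMap.prodMap_apply, h₁.sq, h₂.sq]
    rfl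
  · rw [prodForm_apply, prodForm_apply, LinearMap.prodMap_apply, LinearMap.prodMap_apply,
      h₁.adj, h₂.adj]

theorem prod_alt_iff {V₁ V₂ : Type u} [AddCommGroup V₁] [Module F V₁] [AddCommGroup V₂]
    [Module F V₂] (B₁ : LinearMap.BilinForm F V₁) (B₂ : LinearMap.BilinForm F V₂)
    (N₁ : V₁ →ₗ[F] V₁) (N₂ : V₂ →ₗ[F] V₂) :
    (∀ x, prodForm B₁ B₂ x (N₁.prodMap N₂ x) = 0) ↔
      ((∀ x, B₁ x (N₁ x) = 0) ∧ (∀ x, B₂ x (N₂ x) = 0)) := by
  constructor
  · intro h
    constructor
    · intro x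
      have := h (x, 0)
      rw [prodForm_apply, LinearMap.prodMap_apply] at this
      simpa using this
    · intro x
      have := h (0, x)
      rw [prodForm_apply, LinearMap.prodMap_apply] at this
      simpa using this
  · rintro ⟨h1, h2⟩ x
    rw [prodForm_apply, LinearMap.prodMap_apply, h1, h2, add_zero]

noncomputable def hypF (F : Type u) [Field F] : LinearMap.BilinForm F (F × F) :=
  LinearMap.mk₂ F (fun x y => x.1 * y.2 + x.2 * y.1)
    (by intro a b c; simp only [Prod.fst_add, Prod.snd_add]; ring)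
    (by intro c a b; simp only [Prod.smul_fst, Prod.smul_snd, smul_eq_mul]; ring)
    (by intro a b c; simp only [Prod.fst_add, Prod.snd_add]; ring)
    (by intro c a b; simp only [Prod.smul_fst, Prod.smul_snd, smul_eq_mul]; ring)

theorem hypF_apply (x y : F × F) : hypF F x y = x.1 * y.2 + x.2 * y.1 := rfl

theorem packW1 [CharP F 2] : InvPack (hypF F) (sA F) := by
  have h2 : (2 : F) = 0 := CharTwo.two_eq_zero
  refine ⟨fun u => ?_, fun u hu => ?_, fun u => ?_, fun u w => ?_⟩
  · rw [hypF_apply]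
    linear_combination (u.1 * u.2) * h2
  · have e1 := hu (0, 1)
    have e2 := hu (1, 0)
    rw [hypF_apply] at e1 e2
    simp only [mul_one, mul_zero, add_zero, zero_add] at e1 e2
    exact Prod.ext e1 e2
  · rw [sA_apply, sA_apply]
    rfl
  · rw [hypF_apply, hypF_apply, sA_apply, sA_apply]
    simp only [zero_mul, mul_zero, add_zero, zero_add]

theorem packW1_nonalt : ¬ ∀ v, hypF F v (sA F v) = 0 := by
  intro h
  have := h (1, 0)
  rw [hypF_apply, sA_apply] at this
  simp only [mul_one, mul_zero, add_zero] at this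
  exact one_ne_zero this

theorem packW1_ker : Module.finrank F (LinearMap.ker (sA F)) = 1 := by
  have h1 : LinearMap.ker (sA F) = LinearMap.range (LinearMap.inr F F F) := by
    ext x
    rw [LinearMap.mem_ker, sA_apply, LinearMap.mem_range]
    constructor
    · intro h
      have h0 : x.1 = 0 := congrArg Prod.snd h
      exact ⟨x.2, Prod.ext h0.symm rfl⟩
    · rintro ⟨b, rfl⟩
      rfl
  rw [h1, LinearMap.finrank_range_of_inj LinearMap.inr_injective, Module.finrank_self]

noncomputable def formV2 (F : Type u) [Field F] : LinearMap.BilinForm F ((F × F) × (F × F)) :=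
  LinearMap.mk₂ F (fun x y => x.1.1 * y.2.2 + x.1.2 * y.2.1 + x.2.1 * y.1.2 + x.2.2 * y.1.1)
    (by intro a b c; simp only [Prod.fst_add, Prod.snd_add]; ring)
    (by intro c a b; simp only [Prod.smul_fst, Prod.smul_snd, smul_eq_mul]; ring)
    (by intro a b c; simp only [Prod.fst_add, Prod.snd_add]; ring)
    (by intro c a b; simp only [Prod.smul_fst, Prod.smul_snd, smul_eq_mul]; ring)

theorem formV2_apply (x y : (F × F) × (F × F)) :
    formV2 F x y = x.1.1 * y.2.2 + x.1.2 * y.2.1 + x.2.1 * y.1.2 + x.2.2 * y.1.1 := rfl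

theorem packV2 [CharP F 2] : InvPack (formV2 F) (sB F) := by
  have h2 : (2 : F) = 0 := CharTwo.two_eq_zero
  refine ⟨fun u => ?_, fun u hu => ?_, fun u => ?_, fun u w => ?_⟩
  · rw [formV2_apply]
    linear_combination (u.1.1 * u.2.2 + u.1.2 * u.2.1) * h2
  · have e1 := hu ((0, 0), (0, 1))
    have e2 := hu ((0, 0), (1, 0))
    have e3 := hu ((0, 1), (0, 0))
    have e4 := hu ((1, 0), (0, 0))
    rw [formV2_apply] at e1 e2 e3 e4
    simp only [mul_one, mul_zero, add_zero, zero_add] at e1 e2 e3 e4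
    exact Prod.ext (Prod.ext e1 e2) (Prod.ext e3 e4)
  · rw [sB_apply, sB_apply]
    rfl
  · rw [formV2_apply, formV2_apply, sB_apply, sB_apply]
    simp only [Prod.fst_zero, Prod.snd_zero, zero_mul, mul_zero, add_zero, zero_add]

theorem packV2_alt [CharP F 2] : ∀ v, formV2 F v (sB F v) = 0 := by
  have h2 : (2 : F) = 0 := CharTwo.two_eq_zero
  intro v
  rw [formV2_apply, sB_apply]
  simp only [Prod.fst_zero, Prod.snd_zero, mul_zero, add_zero]
  linear_combination (v.1.1 * v.1.2) * h2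

theorem packV2_ker : Module.finrank F (LinearMap.ker (sB F)) = 2 := by
  have h1 : LinearMap.ker (sB F) = LinearMap.range (LinearMap.inr F (F × F) (F × F)) := by
    ext x
    rw [LinearMap.mem_ker, sB_apply, LinearMap.mem_range]
    constructor
    · intro h
      have h0 : x.1 = 0 := congrArg Prod.snd h
      exact ⟨x.2, Prod.ext h0.symm rfl⟩
    · rintro ⟨b, rfl⟩
      rfl
  rw [h1, LinearMap.finrank_range_of_inj LinearMap.inr_injective, Module.finrank_prod,
    Module.finrank_self]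

end

theorem modelA {F : Type u} [Field F] [CharP F 2] (s : ℕ) (hs : 1 ≤ s) :
    ∃ (V : Type u) (_ : AddCommGroup V) (_ : Module F V) (_ : FiniteDimensional F V)
      (B : LinearMap.BilinForm F V) (N : V →ₗ[F] V), InvPack B N ∧
      Module.finrank F V = 2 * s ∧ Module.finrank F (LinearMap.ker N) = s ∧
      ¬ ∀ v, B v (N v) = 0 := by
  induction s, hs using Nat.le_induction with
  | base =>
    exact ⟨F × F, inferInstance, inferInstance, inferInstance, hypF F, sA F, packW1,
      by rw [Module.finrank_prod, Module.finrank_self], packW1_ker, packW1_nonalt⟩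
  | succ s hs ih =>
    obtain ⟨V, i1, i2, i3, B, N, hP, hd, hk, hna⟩ := ih
    refine ⟨(F × F) × V, inferInstance, inferInstance, inferInstance, prodForm (hypF F) B,
      (sA F).prodMap N, packW1.prod hP, ?_, ?_, ?_⟩
    · rw [Module.finrank_prod, Module.finrank_prod, Module.finrank_self, hd]
      ring
    · rw [finrank_ker_prodMap, packW1_ker, hk]
      ring
    · rw [prod_alt_iff]
      exact fun h => hna h.2

theorem modelB {F : Type u} [Field F] [CharP F 2] (k : ℕ) :
    ∃ (V : Type u) (_ : AddCommGroup V) (_ : Module F V) (_ : FiniteDimensional F V)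
      (B : LinearMap.BilinForm F V) (N : V →ₗ[F] V), InvPack B N ∧
      Module.finrank F V = 4 * k ∧ Module.finrank F (LinearMap.ker N) = 2 * k ∧
      ∀ v, B v (N v) = 0 := by
  induction k with
  | zero =>
    refine ⟨PUnit, inferInstance, inferInstance, inferInstance, 0, 0,
      ⟨fun u => rfl, fun u _ => Subsingleton.elim _ _, fun u => rfl, fun u w => rfl⟩, ?_, ?_,
      fun v => rfl⟩
    · exact Module.finrank_zero_of_subsingleton
    · exact Module.finrank_zero_of_subsingleton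
  | succ k ih =>
    obtain ⟨V, i1, i2, i3, B, N, hP, hd, hk, ha⟩ := ih
    refine ⟨((F × F) × (F × F)) × V, inferInstance, inferInstance, inferInstance,
      prodForm (formV2 F) B, (sB F).prodMap N, packV2.prod hP, ?_, ?_, ?_⟩
    · rw [Module.finrank_prod, Module.finrank_prod, Module.finrank_prod, Module.finrank_self, hd]
      ring
    · rw [finrank_ker_prodMap, packV2_ker, hk]
      ring
    · rw [prod_alt_iff]
      exact ⟨packV2_alt, ha⟩

theorem pack_pad {F : Type u} [Field F] {V : Type u} [AddCommGroup V] [Module F V]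
    [FiniteDimensional F V] {B : LinearMap.BilinForm F V} {N : V →ₗ[F] V} (hP : InvPack B N)
    (j : ℕ) :
    InvPack (prodForm B (spFormS j F))
        (N.prodMap (0 : (Fin j ⊕ Fin j → F) →ₗ[F] (Fin j ⊕ Fin j → F))) ∧
      Module.finrank F (V × (Fin j ⊕ Fin j → F)) = Module.finrank F V + 2 * j ∧
      Module.finrank F (LinearMap.ker
          (N.prodMap (0 : (Fin j ⊕ Fin j → F) →ₗ[F] (Fin j ⊕ Fin j → F))))
        = Module.finrank F (LinearMap.ker N) + 2 * j ∧
      ((∀ x, prodForm B (spFormS j F) x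
          (N.prodMap (0 : (Fin j ⊕ Fin j → F) →ₗ[F] (Fin j ⊕ Fin j → F)) x) = 0) ↔
        ∀ x, B x (N x) = 0) := by
  have hfin : Module.finrank F (Fin j ⊕ Fin j → F) = 2 * j := by
    rw [Module.finrank_fintype_fun_eq_card, Fintype.card_sum, Fintype.card_fin]
    ring
  have hP0 : InvPack (spFormS j F) (0 : (Fin j ⊕ Fin j → F) →ₗ[F] (Fin j ⊕ Fin j → F)) :=
    ⟨spFormS_alt j, (spFormS_nondeg j).1, fun u => rfl, fun u w => by
      rw [LinearMap.zero_apply, LinearMap.zero_apply, map_zero, LinearMap.zero_apply, map_zero]⟩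
  refine ⟨hP.prod hP0, ?_, ?_, ?_⟩
  · rw [Module.finrank_prod, hfin]
  · rw [finrank_ker_prodMap, LinearMap.ker_zero, finrank_top, hfin]
  · rw [prod_alt_iff]
    constructor
    · exact fun h => h.1
    · intro h
      exact ⟨h, fun x => by rw [LinearMap.zero_apply, map_zero]⟩

theorem pack_to_sp {F : Type u} [Field F] [CharP F 2] {V : Type u} [AddCommGroup V]
    [Module F V] [FiniteDimensional F V] {B : LinearMap.BilinForm F V} {N : V →ₗ[F] V}
    (hP : InvPack B N) (m : ℕ) (hV : Module.finrank F V = 2 * m) :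
    ∃ a : Matrix.symplecticGroup (Fin m) F,
      (a : Matrix (Fin m ⊕ Fin m) (Fin m ⊕ Fin m) F)
        * (a : Matrix (Fin m ⊕ Fin m) (Fin m ⊕ Fin m) F) = 1 ∧
      Module.finrank F (LinearMap.ker
        (Matrix.toLin' ((a : Matrix (Fin m ⊕ Fin m) (Fin m ⊕ Fin m) F) - 1)))
        = Module.finrank F (LinearMap.ker N) ∧
      ((∀ v, spFormS m F v
        (Matrix.toLin' ((a : Matrix (Fin m ⊕ Fin m) (Fin m ⊕ Fin m) F) - 1) v) = 0) ↔
        ∀ v, B v (N v) = 0) := by
  classical
  have h2 : (2 : F) = 0 := CharTwo.two_eq_zero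
  obtain ⟨e, he⟩ := exists_symp_equiv B hP.alt hP.nd hV
  have he' : ∀ v w, spFormS m F (e v) (e w) = B v w := fun v w => by rw [spFormS_apply, he]
  obtain ⟨M, hM⟩ : ∃ M : (Fin m ⊕ Fin m → F) →ₗ[F] (Fin m ⊕ Fin m → F),
      ∀ v, M (e v) = e (N v) := by
    refine ⟨e.conj N, fun v => ?_⟩
    rw [LinearEquiv.conj_apply]
    simp
  have hMsq : M * M = 0 := by
    apply LinearMap.ext
    intro x
    obtain ⟨v, rfl⟩ := e.surjective x
    rw [Module.End.mul_apply, hM, hM, hP.sq, map_zero]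
    rfl
  have hMadj : ∀ u w, spFormS m F (M u) w = spFormS m F u (M w) := by
    intro u w
    obtain ⟨u, rfl⟩ := e.surjective u
    obtain ⟨w, rfl⟩ := e.surjective w
    rw [hM, hM, he', he', hP.adj]
  have hiso : ∀ u w, spFormS m F (u + M u) (w + M w) = spFormS m F u w := by
    intro u w
    have e1 : spFormS m F (M u) (M w) = 0 := by
      rw [hMadj, ← Module.End.mul_apply, hMsq, LinearMap.zero_apply, map_zero]
    have e2 := hMadj u w
    simp only [map_add, LinearMap.add_apply]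
    rw [e1, e2]
    linear_combination (spFormS m F u (M w)) * h2
  have hcol : ∀ k : Fin m ⊕ Fin m,
      (fun i => LinearMap.toMatrix' (1 + M) i k) = Pi.single k 1 + M (Pi.single k 1) := by
    intro k
    funext i
    rw [LinearMap.toMatrix'_apply]
    rfl
  have hcol1 : ∀ k : Fin m ⊕ Fin m,
      (fun i => (1 : Matrix (Fin m ⊕ Fin m) (Fin m ⊕ Fin m) F) i k) = Pi.single k 1 := by
    intro k
    funext i
    rw [Matrix.one_apply, Pi.single_apply]
  have hmem : LinearMap.toMatrix' (1 + M) ∈ Matrix.symplecticGroup (Fin m) F := by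
    rw [mem_sp_iff_colsS]
    intro k l
    rw [hcol, hcol, hiso]
    have h1 := (mem_sp_iff_colsS m (1 : Matrix (Fin m ⊕ Fin m) (Fin m ⊕ Fin m) F)).1
      (one_mem _) k l
    rw [hcol1, hcol1] at h1
    exact h1
  have hA1 : LinearMap.toMatrix' (1 + M) - 1 = LinearMap.toMatrix' M := by
    rw [map_add, LinearMap.toMatrix'_one, add_sub_cancel_left]
  have hlin : Matrix.toLin' (LinearMap.toMatrix' (1 + M) - 1) = M := by
    rw [hA1, Matrix.toLin'_toMatrix']
  refine ⟨⟨_, hmem⟩, ?_, ?_, ?_⟩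
  · show LinearMap.toMatrix' (1 + M) * LinearMap.toMatrix' (1 + M) = 1
    rw [← LinearMap.toMatrix'_mul]
    have e3 : (1 + M) * (1 + M) = 1 + (2 : F) • M + M * M := by
      rw [two_smul]
      noncomm_ring
    rw [e3, hMsq, h2, zero_smul, add_zero, add_zero, LinearMap.toMatrix'_one]
  · show Module.finrank F (LinearMap.ker (Matrix.toLin' (LinearMap.toMatrix' (1 + M) - 1))) = _
    rw [hlin]
    have h3 := kappa_conj N M e (fun v => (hM v).symm) 1
    rw [pow_one, pow_one] at h3
    exact h3.symm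
  · show (∀ v, spFormS m F v (Matrix.toLin' (LinearMap.toMatrix' (1 + M) - 1) v) = 0) ↔ _
    rw [hlin]
    constructor
    · intro h v
      rw [← he', ← hM]
      exact h (e v)
    · intro h x
      obtain ⟨v, rfl⟩ := e.surjective x
      rw [hM, he']
      exact h v

theorem sp_rank_of_ker {F : Type u} [Field F] {m : ℕ}
    (A : Matrix (Fin m ⊕ Fin m) (Fin m ⊕ Fin m) F) :
    (A - 1).rank + Module.finrank F (LinearMap.ker (Matrix.toLin' (A - 1))) = 2 * m := by
  have e1 := LinearMap.finrank_range_add_finrank_ker (Matrix.toLin' (A - 1))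
  have r1 : (A - 1).rank = Module.finrank F (LinearMap.range (Matrix.toLin' (A - 1))) := rfl
  rw [Module.finrank_fintype_fun_eq_card, Fintype.card_sum, Fintype.card_fin] at e1
  omega

theorem sp_inv_exA {F : Type u} [Field F] [CharP F 2] (m s : ℕ) (hs : 1 ≤ s) (hsm : s ≤ m) :
    ∃ a : Matrix.symplecticGroup (Fin m) F,
      (a : Matrix (Fin m ⊕ Fin m) (Fin m ⊕ Fin m) F)
        * (a : Matrix (Fin m ⊕ Fin m) (Fin m ⊕ Fin m) F) = 1 ∧
      ((a : Matrix (Fin m ⊕ Fin m) (Fin m ⊕ Fin m) F) - 1).rank = s ∧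
      ¬ (∀ v, spFormS m F v
        (Matrix.toLin' ((a : Matrix (Fin m ⊕ Fin m) (Fin m ⊕ Fin m) F) - 1) v) = 0) := by
  obtain ⟨V, i1, i2, i3, B, N, hP, hd, hk, hna⟩ := modelA (F := F) s hs
  obtain ⟨hP2, hd2, hk2, ha2⟩ := pack_pad hP (m - s)
  obtain ⟨a, ha1, ha3, ha4⟩ := pack_to_sp hP2 m (by rw [hd2, hd]; omega)
  refine ⟨a, ha1, ?_, ?_⟩
  · have := sp_rank_of_ker (a : Matrix (Fin m ⊕ Fin m) (Fin m ⊕ Fin m) F)
    rw [ha3, hk2, hk] at this
    omega
  · rw [ha4, ha2]
    exact hna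

theorem sp_inv_exB {F : Type u} [Field F] [CharP F 2] (m k : ℕ) (hkm : 2 * k ≤ m) :
    ∃ a : Matrix.symplecticGroup (Fin m) F,
      (a : Matrix (Fin m ⊕ Fin m) (Fin m ⊕ Fin m) F)
        * (a : Matrix (Fin m ⊕ Fin m) (Fin m ⊕ Fin m) F) = 1 ∧
      ((a : Matrix (Fin m ⊕ Fin m) (Fin m ⊕ Fin m) F) - 1).rank = 2 * k ∧
      (∀ v, spFormS m F v
        (Matrix.toLin' ((a : Matrix (Fin m ⊕ Fin m) (Fin m ⊕ Fin m) F) - 1) v) = 0) := by
  obtain ⟨V, i1, i2, i3, B, N, hP, hd, hk, hna⟩ := modelB (F := F) k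
  obtain ⟨hP2, hd2, hk2, ha2⟩ := pack_pad hP (m - 2 * k)
  obtain ⟨a, ha1, ha3, ha4⟩ := pack_to_sp hP2 m (by rw [hd2, hd]; omega)
  refine ⟨a, ha1, ?_, ?_⟩
  · have := sp_rank_of_ker (a : Matrix (Fin m ⊕ Fin m) (Fin m ⊕ Fin m) F)
    rw [ha3, hk2, hk] at this
    omega
  · rw [ha4, ha2]
    exact hna

end Cfsg.Agent.Helper15
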