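import Mathlib
import Cfsg.Agent.Helper15.Inv2D

set_option autoImplicit false

namespace Cfsg.Agent.Helper15
open Matrix

universe u

theorem sp_conj_invariants {F : Type u} [Field F] {m : ℕ}
    (a b : Matrix.symplecticGroup (Fin m) F) (h : IsConj a b) :
    ((a : Matrix (Fin m ⊕ Fin m) (Fin m ⊕ Fin m) F) - 1).rank
        = ((b : Matrix (Fin m ⊕ Fin m) (Fin m ⊕ Fin m) F) - 1).rank ∧
      ((∀ v, spFormS m F v
        (Matrix.toLin' ((a : Matrix (Fin m ⊕ Fin m) (Fin m ⊕ Fin m) F) - 1) v) = 0) ↔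
      (∀ v, spFormS m F v
        (Matrix.toLin' ((b : Matrix (Fin m ⊕ Fin m) (Fin m ⊕ Fin m) F) - 1) v) = 0)) := by
  classical
  obtain ⟨c, hc⟩ := isConj_iff.1 h
  have hcm : (c : Matrix (Fin m ⊕ Fin m) (Fin m ⊕ Fin m) F)
      * (a : Matrix (Fin m ⊕ Fin m) (Fin m ⊕ Fin m) F)
      = (b : Matrix (Fin m ⊕ Fin m) (Fin m ⊕ Fin m) F)
        * (c : Matrix (Fin m ⊕ Fin m) (Fin m ⊕ Fin m) F) :=
    congrArg Subtype.val (mul_inv_eq_iff_eq_mul.1 hc)
  have hcu : IsUnit (c : Matrix (Fin m ⊕ Fin m) (Fin m ⊕ Fin m) F).det :=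
    SymplecticGroup.symplectic_det c.2
  have e : (c : Matrix (Fin m ⊕ Fin m) (Fin m ⊕ Fin m) F)
      * ((a : Matrix (Fin m ⊕ Fin m) (Fin m ⊕ Fin m) F) - 1)
      = ((b : Matrix (Fin m ⊕ Fin m) (Fin m ⊕ Fin m) F) - 1)
        * (c : Matrix (Fin m ⊕ Fin m) (Fin m ⊕ Fin m) F) := by
    rw [mul_sub, sub_mul, hcm, mul_one, one_mul]
  have hci2 : (c : Matrix (Fin m ⊕ Fin m) (Fin m ⊕ Fin m) F)
      * ((c⁻¹ : Matrix.symplecticGroup (Fin m) F) :
        Matrix (Fin m ⊕ Fin m) (Fin m ⊕ Fin m) F) = 1 :=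
    congrArg Subtype.val (mul_inv_cancel c)
  have key : ∀ v, spFormS m F ((c : Matrix (Fin m ⊕ Fin m) (Fin m ⊕ Fin m) F).mulVec v)
      (Matrix.toLin' ((b : Matrix (Fin m ⊕ Fin m) (Fin m ⊕ Fin m) F) - 1)
        ((c : Matrix (Fin m ⊕ Fin m) (Fin m ⊕ Fin m) F).mulVec v))
      = spFormS m F v
        (Matrix.toLin' ((a : Matrix (Fin m ⊕ Fin m) (Fin m ⊕ Fin m) F) - 1) v) := by
    intro v
    rw [Matrix.toLin'_apply, Matrix.toLin'_apply, Matrix.mulVec_mulVec, ← e,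
      ← Matrix.mulVec_mulVec, sp_form_invS]
  refine ⟨?_, ?_, ?_⟩
  · rw [← Matrix.rank_mul_eq_right_of_isUnit_det
      (c : Matrix (Fin m ⊕ Fin m) (Fin m ⊕ Fin m) F) _ hcu, e,
      Matrix.rank_mul_eq_left_of_isUnit_det
      (c : Matrix (Fin m ⊕ Fin m) (Fin m ⊕ Fin m) F) _ hcu]
  · intro h w
    have := key (((c⁻¹ : Matrix.symplecticGroup (Fin m) F) :
        Matrix (Fin m ⊕ Fin m) (Fin m ⊕ Fin m) F).mulVec w)
    rw [Matrix.mulVec_mulVec, hci2, Matrix.one_mulVec] at this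
    rw [this]
    exact h _
  · intro h v
    rw [← key]
    exact h _

theorem sp_char2_inv_class_count {F : Type u} [Field F] [Fintype F] [CharP F 2] (m : ℕ) :
    Nat.card {C : ConjClasses (Matrix.symplecticGroup (Fin m) F) //
      ∃ g : Matrix.symplecticGroup (Fin m) F, ConjClasses.mk g = C ∧ orderOf g = 2}
      = m + m / 2 := by
  classical
  have exA := fun (i : Fin m) => sp_inv_exA (F := F) m (i.val + 1) (by omega)
    (by have := i.2; omega)
  have exB := fun (j : Fin (m / 2)) => sp_inv_exB (F := F) m (j.val + 1)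
    (by have := j.2; omega)
  choose rA hA1 hA2 hA3 using exA
  choose rB hB1 hB2 hB3 using exB
  have hord : ∀ a : Matrix.symplecticGroup (Fin m) F,
      (a : Matrix (Fin m ⊕ Fin m) (Fin m ⊕ Fin m) F)
        * (a : Matrix (Fin m ⊕ Fin m) (Fin m ⊕ Fin m) F) = 1 →
      ((a : Matrix (Fin m ⊕ Fin m) (Fin m ⊕ Fin m) F) - 1).rank ≠ 0 → orderOf a = 2 := by
    intro a h1 h2
    rw [orderOf_eq_prime_iff]
    constructor
    · apply Subtype.ext
      rw [SubmonoidClass.coe_pow, pow_two]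
      exact h1
    · rintro rfl
      apply h2
      have e0 : ((1 : Matrix.symplecticGroup (Fin m) F) :
          Matrix (Fin m ⊕ Fin m) (Fin m ⊕ Fin m) F) - 1 = 0 := sub_self 1
      rw [e0, Matrix.rank_zero]
  obtain ⟨ΨA, hΨA⟩ : ∃ ΨA : Fin m → {C : ConjClasses (Matrix.symplecticGroup (Fin m) F) //
      ∃ g : Matrix.symplecticGroup (Fin m) F, ConjClasses.mk g = C ∧ orderOf g = 2},
      ∀ i, (ΨA i).1 = ConjClasses.mk (rA i) :=
    ⟨fun i => ⟨ConjClasses.mk (rA i), rA i, rfl, hord _ (hA1 i) (by rw [hA2 i]; omega)⟩,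
      fun i => rfl⟩
  obtain ⟨ΨB, hΨB⟩ : ∃ ΨB : Fin (m / 2) → {C : ConjClasses (Matrix.symplecticGroup (Fin m) F) //
      ∃ g : Matrix.symplecticGroup (Fin m) F, ConjClasses.mk g = C ∧ orderOf g = 2},
      ∀ j, (ΨB j).1 = ConjClasses.mk (rB j) :=
    ⟨fun j => ⟨ConjClasses.mk (rB j), rB j, rfl, hord _ (hB1 j) (by rw [hB2 j]; omega)⟩,
      fun j => rfl⟩
  have hinj : Function.Injective (Sum.elim ΨA ΨB) := by
    rintro (i | j) (i' | j') h
    · have h1 : (ΨA i).1 = (ΨA i').1 := congrArg Subtype.val h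
      rw [hΨA, hΨA] at h1
      have h2 := (sp_conj_invariants _ _ (ConjClasses.mk_eq_mk_iff_isConj.1 h1)).1
      rw [hA2, hA2] at h2
      congr 1
      exact Fin.ext (by omega)
    · exfalso
      have h1 : (ΨA i).1 = (ΨB j').1 := congrArg Subtype.val h
      rw [hΨA, hΨB] at h1
      have h2 := (sp_conj_invariants _ _ (ConjClasses.mk_eq_mk_iff_isConj.1 h1)).2
      exact hA3 i (h2.2 (hB3 j'))
    · exfalso
      have h1 : (ΨB j).1 = (ΨA i').1 := congrArg Subtype.val h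
      rw [hΨA, hΨB] at h1
      have h2 := (sp_conj_invariants _ _ (ConjClasses.mk_eq_mk_iff_isConj.1 h1)).2
      exact hA3 i' (h2.1 (hB3 j))
    · have h1 : (ΨB j).1 = (ΨB j').1 := congrArg Subtype.val h
      rw [hΨB, hΨB] at h1
      have h2 := (sp_conj_invariants _ _ (ConjClasses.mk_eq_mk_iff_isConj.1 h1)).1
      rw [hB2, hB2] at h2
      congr 1
      exact Fin.ext (by omega)
  have hsurj : Function.Surjective (Sum.elim ΨA ΨB) := by
    rintro ⟨C, g, rfl, hg⟩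
    have hG := sp_val_sq g hg
    have hr1 : 1 ≤ ((g : Matrix (Fin m ⊕ Fin m) (Fin m ⊕ Fin m) F) - 1).rank := by
      by_contra hcon
      have h0 : ((g : Matrix (Fin m ⊕ Fin m) (Fin m ⊕ Fin m) F) - 1).rank = 0 := by omega
      have r1 : ((g : Matrix (Fin m ⊕ Fin m) (Fin m ⊕ Fin m) F) - 1).rank
          = Module.finrank F (LinearMap.range
            (Matrix.toLin' ((g : Matrix (Fin m ⊕ Fin m) (Fin m ⊕ Fin m) F) - 1))) := rfl
      rw [r1, Submodule.finrank_eq_zero, LinearMap.range_eq_bot] at h0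
      have h3 : (g : Matrix (Fin m ⊕ Fin m) (Fin m ⊕ Fin m) F) - 1 = 0 :=
        Matrix.toLin'.injective (by rw [h0, map_zero])
      have h4 : g = 1 := Subtype.ext (sub_eq_zero.1 h3)
      rw [h4, orderOf_one] at hg
      exact absurd hg (by norm_num)
    have hr2 : ((g : Matrix (Fin m ⊕ Fin m) (Fin m ⊕ Fin m) F) - 1).rank ≤ m := by
      have hP := sp_inv_pack g hG
      have hle : LinearMap.range
            (Matrix.toLin' ((g : Matrix (Fin m ⊕ Fin m) (Fin m ⊕ Fin m) F) - 1))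
          ≤ LinearMap.ker
            (Matrix.toLin' ((g : Matrix (Fin m ⊕ Fin m) (Fin m ⊕ Fin m) F) - 1)) := by
        rintro _ ⟨x, rfl⟩
        rw [LinearMap.mem_ker]
        exact hP.sq x
      have h1 := Submodule.finrank_mono hle
      have h2 := sp_rank_of_ker (g : Matrix (Fin m ⊕ Fin m) (Fin m ⊕ Fin m) F)
      have r1 : ((g : Matrix (Fin m ⊕ Fin m) (Fin m ⊕ Fin m) F) - 1).rank
          = Module.finrank F (LinearMap.range
            (Matrix.toLin' ((g : Matrix (Fin m ⊕ Fin m) (Fin m ⊕ Fin m) F) - 1))) := rfl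
      omega
    by_cases halt : ∀ v, spFormS m F v
        (Matrix.toLin' ((g : Matrix (Fin m ⊕ Fin m) (Fin m ⊕ Fin m) F) - 1) v) = 0
    · obtain ⟨k, hk⟩ := sp_alt_even_rank (g : Matrix (Fin m ⊕ Fin m) (Fin m ⊕ Fin m) F) halt
      have hkm : k - 1 < m / 2 := by omega
      refine ⟨Sum.inr ⟨k - 1, hkm⟩, ?_⟩
      apply Subtype.ext
      rw [Sum.elim_inr, hΨB]
      apply ConjClasses.mk_eq_mk_iff_isConj.2
      apply sp_inv_conj_of _ _ (hB1 _) hG
      · rw [hB2, hk]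
        show 2 * (k - 1 + 1) = k + k
        omega
      · exact ⟨fun _ => halt, fun _ => hB3 _⟩
    · have hsm : ((g : Matrix (Fin m ⊕ Fin m) (Fin m ⊕ Fin m) F) - 1).rank - 1 < m := by omega
      refine ⟨Sum.inl ⟨((g : Matrix (Fin m ⊕ Fin m) (Fin m ⊕ Fin m) F) - 1).rank - 1, hsm⟩, ?_⟩
      apply Subtype.ext
      rw [Sum.elim_inl, hΨA]
      apply ConjClasses.mk_eq_mk_iff_isConj.2
      apply sp_inv_conj_of _ _ (hA1 _) hG
      · rw [hA2]
        show ((g : Matrix (Fin m ⊕ Fin m) (Fin m ⊕ Fin m) F) - 1).rank - 1 + 1 = _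
        omega
      · exact ⟨fun h => absurd h (hA3 _), fun h => absurd h halt⟩
  rw [Nat.card_congr (Equiv.ofBijective _ ⟨hinj, hsurj⟩).symm, Nat.card_eq_fintype_card,
    Fintype.card_sum, Fintype.card_fin, Fintype.card_fin]

end Cfsg.Agent.Helper15
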