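import Mathlib
import Cfsg.Prelude.Def_RootSubgroups
import Cfsg.Agent.Helper2.SLGen
import Cfsg.Agent.Helper15.SUGen1

set_option autoImplicit false

namespace Cfsg.Agent.Helper15

open scoped MatrixGroups

/-- `t = 1 + u φ` with `φ u = 0` and `u, φ ≠ 0`. -/
def IsTv {F : Type*} [Field F] {N : ℕ} (t : Matrix.SpecialLinearGroup (Fin N) F) : Prop :=
  ∃ u φ : Fin N → F, u ≠ 0 ∧ φ ≠ 0 ∧ φ ⬝ᵥ u = 0 ∧
    (t : Matrix (Fin N) (Fin N) F) = 1 + Matrix.vecMulVec u φ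

theorem single_eq_vecMulVec {F : Type*} [Field F] {N : ℕ} (i j : Fin N) (c : F) :
    Matrix.single i j c = Matrix.vecMulVec (c • (Pi.single i 1 : Fin N → F)) (Pi.single j 1) := by
  rw [Matrix.smul_vecMulVec, ← Matrix.single_eq_single_vecMulVec_single, Matrix.smul_single,
    smul_eq_mul, mul_one]

theorem vmv_mul {F : Type*} [Field F] {N : ℕ} (u φ v ψ : Fin N → F) :
    Matrix.vecMulVec u φ * Matrix.vecMulVec v ψ = (φ ⬝ᵥ v) • Matrix.vecMulVec u ψ := by
  rw [Matrix.vecMulVec_mul_vecMulVec, Matrix.vecMulVec_smul]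

theorem sl_coe_inv_mul {F : Type*} [Field F] {N : ℕ} (g : Matrix.SpecialLinearGroup (Fin N) F) :
    ((g⁻¹ : Matrix.SpecialLinearGroup (Fin N) F) : Matrix (Fin N) (Fin N) F)
      * (g : Matrix (Fin N) (Fin N) F) = 1 := by
  rw [← Matrix.SpecialLinearGroup.coe_mul, inv_mul_cancel, Matrix.SpecialLinearGroup.coe_one]

theorem sl_coe_mul_inv {F : Type*} [Field F] {N : ℕ} (g : Matrix.SpecialLinearGroup (Fin N) F) :
    (g : Matrix (Fin N) (Fin N) F)
      * ((g⁻¹ : Matrix.SpecialLinearGroup (Fin N) F) : Matrix (Fin N) (Fin N) F) = 1 := by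
  rw [← Matrix.SpecialLinearGroup.coe_mul, mul_inv_cancel, Matrix.SpecialLinearGroup.coe_one]

theorem isTv_conj {F : Type*} [Field F] {N : ℕ} (g t : Matrix.SpecialLinearGroup (Fin N) F)
    (ht : IsTv t) : IsTv (g * t * g⁻¹) := by
  obtain ⟨u, φ, hu, hφ, hφu, htm⟩ := ht
  have hgg := sl_coe_mul_inv g
  have hgg' := sl_coe_inv_mul g
  refine ⟨(g : Matrix (Fin N) (Fin N) F).mulVec u,
    Matrix.vecMul φ ((g⁻¹ : Matrix.SpecialLinearGroup (Fin N) F) : Matrix (Fin N) (Fin N) F),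
    ?_, ?_, ?_, ?_⟩
  · intro h0
    apply hu
    have h1 := congrArg (((g⁻¹ : Matrix.SpecialLinearGroup (Fin N) F)
      : Matrix (Fin N) (Fin N) F).mulVec) h0
    rw [Matrix.mulVec_mulVec, hgg', Matrix.one_mulVec, Matrix.mulVec_zero] at h1
    exact h1
  · intro h0
    apply hφ
    have h1 := congrArg (fun x => Matrix.vecMul x (g : Matrix (Fin N) (Fin N) F)) h0
    simp only [Matrix.vecMul_vecMul, hgg', Matrix.vecMul_one, Matrix.zero_vecMul] at h1
    exact h1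
  · rw [← Matrix.dotProduct_mulVec, Matrix.mulVec_mulVec, hgg', Matrix.one_mulVec]
    exact hφu
  · rw [Matrix.SpecialLinearGroup.coe_mul, Matrix.SpecialLinearGroup.coe_mul, htm, Matrix.mul_add,
      Matrix.add_mul, Matrix.mul_one, hgg, Matrix.mul_vecMulVec, Matrix.vecMulVec_mul]

theorem two_eq_zero_of_charP (F : Type*) [Field F] [CharP F 2] : (2 : F) = 0 := by
  have := CharP.cast_eq_zero F 2
  exact_mod_cast this

theorem isTv_sq {F : Type*} [Field F] [CharP F 2] {N : ℕ}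
    (t : Matrix.SpecialLinearGroup (Fin N) F) (ht : IsTv t) : t * t = 1 := by
  obtain ⟨u, φ, hu, hφ, hφu, htm⟩ := ht
  have h2 := two_eq_zero_of_charP F
  apply Subtype.ext
  rw [Matrix.SpecialLinearGroup.coe_mul, htm, Matrix.SpecialLinearGroup.coe_one]
  have hXX : Matrix.vecMulVec u φ * Matrix.vecMulVec u φ = 0 := by
    rw [vmv_mul, hφu, zero_smul]
  calc (1 + Matrix.vecMulVec u φ) * (1 + Matrix.vecMulVec u φ)
      = 1 + (2 : F) • Matrix.vecMulVec u φ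
        + Matrix.vecMulVec u φ * Matrix.vecMulVec u φ := by
        simp only [mul_add, add_mul, mul_one, one_mul, two_smul]
        abel
    _ = 1 := by rw [hXX, h2, zero_smul, add_zero, add_zero]

theorem isTv_ne_one {F : Type*} [Field F] {N : ℕ}
    (t : Matrix.SpecialLinearGroup (Fin N) F) (ht : IsTv t) : t ≠ 1 := by
  obtain ⟨u, φ, hu, hφ, hφu, htm⟩ := ht
  rintro rfl
  rw [Matrix.SpecialLinearGroup.coe_one] at htm
  have h1 : Matrix.vecMulVec u φ = 0 := by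
    have h3 := congrArg (fun M => M - 1) htm
    simp only [sub_self, add_sub_cancel_left] at h3
    exact h3.symm
  exact Matrix.vecMulVec_ne_zero hu hφ h1

theorem orderOf_four_of_isTv_sq {F : Type*} [Field F] [CharP F 2] {N : ℕ}
    (g : Matrix.SpecialLinearGroup (Fin N) F) (h : IsTv (g ^ 2)) : orderOf g = 4 := by
  have h1 : ¬ g ^ 2 ^ 1 = 1 := by
    rw [pow_one]
    exact isTv_ne_one _ h
  have h2 : g ^ 2 ^ (1 + 1) = 1 := by
    have h3 := isTv_sq _ h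
    rw [← pow_add] at h3
    exact h3
  exact orderOf_eq_prime_pow h1 h2

/-- The commuting case. -/
theorem tv_pair_comm {F : Type*} [Field F] {N : ℕ}
    (a b : Matrix.SpecialLinearGroup (Fin N) F) (u φ v ψ : Fin N → F)
    (ha : (a : Matrix (Fin N) (Fin N) F) = 1 + Matrix.vecMulVec u φ)
    (hb : (b : Matrix (Fin N) (Fin N) F) = 1 + Matrix.vecMulVec v ψ)
    (h1 : φ ⬝ᵥ v = 0) (h2 : ψ ⬝ᵥ u = 0) : a * b = b * a := by
  apply Subtype.ext
  rw [Matrix.SpecialLinearGroup.coe_mul, Matrix.SpecialLinearGroup.coe_mul, ha, hb]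
  simp only [mul_add, add_mul, mul_one, one_mul, vmv_mul, h1, h2, zero_smul]
  abel

/-- The order four case. -/
theorem tv_pair_four {F : Type*} [Field F] [CharP F 2] {N : ℕ}
    (a b : Matrix.SpecialLinearGroup (Fin N) F) (u φ v ψ : Fin N → F)
    (hu : u ≠ 0) (hψ : ψ ≠ 0) (hφu : φ ⬝ᵥ u = 0) (hψv : ψ ⬝ᵥ v = 0)
    (ha : (a : Matrix (Fin N) (Fin N) F) = 1 + Matrix.vecMulVec u φ)
    (hb : (b : Matrix (Fin N) (Fin N) F) = 1 + Matrix.vecMulVec v ψ)
    (h1 : φ ⬝ᵥ v ≠ 0) (h2 : ψ ⬝ᵥ u = 0) : IsTv ((a * b) ^ 2) := by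
  have h2F := two_eq_zero_of_charP F
  obtain ⟨τ, hτ⟩ : ∃ τ : F, τ = φ ⬝ᵥ v := ⟨_, rfl⟩
  obtain ⟨X, hX⟩ : ∃ X : Matrix (Fin N) (Fin N) F, X = Matrix.vecMulVec u φ := ⟨_, rfl⟩
  obtain ⟨Y, hY⟩ : ∃ Y : Matrix (Fin N) (Fin N) F, Y = Matrix.vecMulVec v ψ := ⟨_, rfl⟩
  obtain ⟨U, hU⟩ : ∃ U : Matrix (Fin N) (Fin N) F, U = Matrix.vecMulVec u ψ := ⟨_, rfl⟩
  have hXX : X * X = 0 := by rw [hX, vmv_mul, hφu, zero_smul]
  have hXY : X * Y = τ • U := by rw [hX, hY, vmv_mul, ← hτ, hU]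
  have hXU : X * U = 0 := by rw [hX, hU, vmv_mul, hφu, zero_smul]
  have hYX : Y * X = 0 := by rw [hX, hY, vmv_mul, h2, zero_smul]
  have hYY : Y * Y = 0 := by rw [hY, vmv_mul, hψv, zero_smul]
  have hYU : Y * U = 0 := by rw [hY, hU, vmv_mul, h2, zero_smul]
  have hUX : U * X = 0 := by rw [hX, hU, vmv_mul, h2, zero_smul]
  have hUY : U * Y = 0 := by rw [hY, hU, vmv_mul, hψv, zero_smul]
  have hUU : U * U = 0 := by rw [hU, vmv_mul, h2, zero_smul]
  have hab : ((a * b : Matrix.SpecialLinearGroup (Fin N) F) : Matrix (Fin N) (Fin N) F)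
      = 1 + X + Y + τ • U := by
    rw [Matrix.SpecialLinearGroup.coe_mul, ha, hb, ← hX, ← hY, mul_add, add_mul, one_mul,
      mul_one, add_mul, one_mul, hXY]
    abel
  refine ⟨τ • u, ψ, ?_, hψ, ?_, ?_⟩
  · intro h0
    rcases smul_eq_zero.1 h0 with h3 | h3
    · exact h1 (hτ ▸ h3)
    · exact hu h3
  · rw [dotProduct_smul, h2, smul_zero]
  · rw [pow_two, Matrix.SpecialLinearGroup.coe_mul, hab, Matrix.smul_vecMulVec, ← hU]
    calc (1 + X + Y + τ • U) * (1 + X + Y + τ • U)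
        = 1 + τ • U + (2 : F) • (X + Y + τ • U) := by
          simp only [mul_add, add_mul, mul_one, one_mul, Matrix.smul_mul, Matrix.mul_smul, hXX,
            hXY, hXU, hYX, hYY, hYU, hUX, hUY, hUU, smul_zero, add_zero]
          module
      _ = 1 + τ • U := by rw [h2F, zero_smul, add_zero]

/-- The cube is trivial when both pairings equal one. -/
theorem tv_pair_cube {F : Type*} [Field F] [CharP F 2] {N : ℕ}
    (a b : Matrix.SpecialLinearGroup (Fin N) F) (u φ v ψ : Fin N → F)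
    (hφu : φ ⬝ᵥ u = 0) (hψv : ψ ⬝ᵥ v = 0)
    (ha : (a : Matrix (Fin N) (Fin N) F) = 1 + Matrix.vecMulVec u φ)
    (hb : (b : Matrix (Fin N) (Fin N) F) = 1 + Matrix.vecMulVec v ψ)
    (h1 : φ ⬝ᵥ v = 1) (h2 : ψ ⬝ᵥ u = 1) : (a * b) ^ 3 = 1 := by
  have h2F := two_eq_zero_of_charP F
  obtain ⟨X, hX⟩ : ∃ X : Matrix (Fin N) (Fin N) F, X = Matrix.vecMulVec u φ := ⟨_, rfl⟩
  obtain ⟨Y, hY⟩ : ∃ Y : Matrix (Fin N) (Fin N) F, Y = Matrix.vecMulVec v ψ := ⟨_, rfl⟩
  obtain ⟨U, hU⟩ : ∃ U : Matrix (Fin N) (Fin N) F, U = Matrix.vecMulVec u ψ := ⟨_, rfl⟩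
  obtain ⟨W, hW⟩ : ∃ W : Matrix (Fin N) (Fin N) F, W = Matrix.vecMulVec v φ := ⟨_, rfl⟩
  have hXX : X * X = 0 := by rw [hX, vmv_mul, hφu, zero_smul]
  have hXY : X * Y = U := by rw [hX, hY, vmv_mul, h1, one_smul, hU]
  have hXU : X * U = 0 := by rw [hX, hU, vmv_mul, hφu, zero_smul]
  have hYX : Y * X = W := by rw [hX, hY, vmv_mul, h2, one_smul, hW]
  have hYY : Y * Y = 0 := by rw [hY, vmv_mul, hψv, zero_smul]
  have hYU : Y * U = Y := by rw [hY, hU, vmv_mul, h2, one_smul]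
  have hUX : U * X = X := by rw [hX, hU, vmv_mul, h2, one_smul]
  have hUY : U * Y = 0 := by rw [hY, hU, vmv_mul, hψv, zero_smul]
  have hUU : U * U = U := by rw [hU, vmv_mul, h2, one_smul]
  have hWX : W * X = 0 := by rw [hX, hW, vmv_mul, hφu, zero_smul]
  have hWY : W * Y = Y := by rw [hY, hW, vmv_mul, h1, one_smul]
  have hWU : W * U = 0 := by rw [hW, hU, vmv_mul, hφu, zero_smul]
  have hab : ((a * b : Matrix.SpecialLinearGroup (Fin N) F) : Matrix (Fin N) (Fin N) F)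
      = 1 + X + Y + U := by
    rw [Matrix.SpecialLinearGroup.coe_mul, ha, hb, ← hX, ← hY, mul_add, add_mul, one_mul,
      mul_one, add_mul, one_mul, hXY]
    abel
  have hG2 : (1 + X + Y + U) * (1 + X + Y + U) = 1 + X + Y + W := by
    calc (1 + X + Y + U) * (1 + X + Y + U)
        = 1 + X + Y + W + (2 : F) • (X + Y + (2 : F) • U) := by
          simp only [mul_add, add_mul, mul_one, one_mul, hXX, hXY, hXU, hYX, hYY, hYU, hUX,
            hUY, hUU, add_zero]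
          module
      _ = 1 + X + Y + W := by rw [h2F, zero_smul, add_zero]
  have hG3 : (1 + X + Y + W) * (1 + X + Y + U) = 1 := by
    calc (1 + X + Y + W) * (1 + X + Y + U)
        = 1 + (2 : F) • (X + (2 : F) • Y + U + W) := by
          simp only [mul_add, add_mul, mul_one, one_mul, hXX, hXY, hXU, hYX, hYY, hYU, hWX,
            hWY, hWU, add_zero]
          module
      _ = 1 := by rw [h2F, zero_smul, add_zero]
  apply Subtype.ext
  rw [pow_succ, pow_two, Matrix.SpecialLinearGroup.coe_mul, Matrix.SpecialLinearGroup.coe_mul,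
    hab, hG2, hG3, Matrix.SpecialLinearGroup.coe_one]

end Cfsg.Agent.Helper15
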