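import Mathlib
import Cfsg.Agent.Helper15.SLRootInv
import Cfsg.Agent.Helper15.TransvCent

set_option autoImplicit false

namespace Cfsg.Agent.Helper15

open scoped MatrixGroups

theorem fixed_of_commute_tv {F : Type*} [Field F] [CharP F 2] {N : ℕ}
    (Z : Matrix (Fin N) (Fin N) F) (hZZ : Z * Z = 1) (u φ x : Fin N → F) (hu : u ≠ 0)
    (hφx : φ ⬝ᵥ x ≠ 0)
    (hcomm : (1 + Matrix.vecMulVec u φ) * Z = Z * (1 + Matrix.vecMulVec u φ)) :
    Z.mulVec u = u := by
  have h2F := two_eq_zero_of_charP F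
  have hXZ : Matrix.vecMulVec u φ * Z = Z * Matrix.vecMulVec u φ := by
    rw [add_mul, mul_add, one_mul, mul_one] at hcomm
    exact add_left_cancel hcomm
  rw [Matrix.vecMulVec_mul, Matrix.mul_vecMulVec] at hXZ
  have hZu' : ((Matrix.vecMul φ Z) ⬝ᵥ x) • u = (φ ⬝ᵥ x) • Z.mulVec u := by
    have h3 := congrArg (fun M => M.mulVec x) hXZ
    simp only [Matrix.vecMulVec_mulVec, op_smul_eq_smul] at h3
    exact h3
  obtain ⟨l, hl⟩ : ∃ l : F, Z.mulVec u = l • u :=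
    ⟨(φ ⬝ᵥ x)⁻¹ * ((Matrix.vecMul φ Z) ⬝ᵥ x), by
      rw [mul_smul, hZu', smul_smul, inv_mul_cancel₀ hφx, one_smul]⟩
  have h5 : Z.mulVec (Z.mulVec u) = u := by
    rw [Matrix.mulVec_mulVec, hZZ, Matrix.one_mulVec]
  rw [hl, Matrix.mulVec_smul, hl, smul_smul] at h5
  have h6 : l * l = 1 := by
    have h7 : (l * l - 1) • u = 0 := by rw [sub_smul, h5, one_smul, sub_self]
    rcases smul_eq_zero.1 h7 with h8 | h8
    · exact sub_eq_zero.1 h8
    · exact absurd h8 hu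
  have h9 : (l + 1) ^ 2 = 0 := by linear_combination h6 + (l + 1) * h2F
  have h10 : l + 1 = 0 := by
    rcases pow_eq_zero_iff (two_ne_zero) |>.1 h9 with h
    exact h
  have h11 : l = 1 := by linear_combination h10 - h2F
  rw [hl, h11, one_smul]

/-- The odd order case. -/
theorem tv_pair_odd {F : Type*} [Field F] [Fintype F] [CharP F 2] {N : ℕ}
    (a b : Matrix.SpecialLinearGroup (Fin N) F) (u φ v ψ : Fin N → F)
    (hu : u ≠ 0) (hv : v ≠ 0) (hφu : φ ⬝ᵥ u = 0) (hψv : ψ ⬝ᵥ v = 0)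
    (ha : (a : Matrix (Fin N) (Fin N) F) = 1 + Matrix.vecMulVec u φ)
    (hb : (b : Matrix (Fin N) (Fin N) F) = 1 + Matrix.vecMulVec v ψ)
    (haa : a * a = 1) (hbb : b * b = 1)
    (h1 : φ ⬝ᵥ v ≠ 0) (h2 : ψ ⬝ᵥ u ≠ 0) : Odd (orderOf (a * b)) := by
  classical
  by_contra hodd
  rw [Nat.not_odd_iff_even] at hodd
  obtain ⟨j, hj⟩ := hodd
  obtain ⟨g, hg⟩ : ∃ g, g = a * b := ⟨_, rfl⟩
  rw [← hg] at hj
  have hpos : 0 < orderOf g := orderOf_pos g
  have hj0 : j ≠ 0 := by omega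
  obtain ⟨z, hz⟩ : ∃ z, z = g ^ j := ⟨_, rfl⟩
  have hz1 : z ≠ 1 := by
    rw [hz]
    exact pow_ne_one_of_lt_orderOf hj0 (by omega)
  have hz2 : z * z = 1 := by rw [hz, ← pow_add, ← hj, pow_orderOf_eq_one]
  have hzinv : z⁻¹ = z := inv_eq_of_mul_eq_one_right hz2
  have hainv : a⁻¹ = a := inv_eq_of_mul_eq_one_right haa
  have hbinv : b⁻¹ = b := inv_eq_of_mul_eq_one_right hbb
  have hga : a * g * a⁻¹ = g⁻¹ := by
    rw [hainv]
    apply eq_inv_of_mul_eq_one_left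
    rw [hg]
    simp only [mul_assoc]
    rw [← mul_assoc a a, haa, one_mul, ← mul_assoc a a, haa, one_mul, hbb]
  have hgb : b * g * b⁻¹ = g⁻¹ := by
    rw [hbinv]
    apply eq_inv_of_mul_eq_one_left
    rw [hg]
    simp only [mul_assoc]
    rw [← mul_assoc b b, hbb, one_mul, ← mul_assoc a a, haa, one_mul, hbb]
  have hza : a * z = z * a := by
    have h3 : a * z * a⁻¹ = z := by rw [hz, ← conj_pow, hga, inv_pow, ← hz, hzinv]
    exact mul_inv_eq_iff_eq_mul.1 h3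
  have hzb : b * z = z * b := by
    have h3 : b * z * b⁻¹ = z := by rw [hz, ← conj_pow, hgb, inv_pow, ← hz, hzinv]
    exact mul_inv_eq_iff_eq_mul.1 h3
  obtain ⟨Z, hZ⟩ : ∃ Z : Matrix (Fin N) (Fin N) F, Z = (z : Matrix (Fin N) (Fin N) F) :=
    ⟨_, rfl⟩
  have hZZ : Z * Z = 1 := by
    rw [hZ, ← Matrix.SpecialLinearGroup.coe_mul, hz2, Matrix.SpecialLinearGroup.coe_one]
  have hZA : (1 + Matrix.vecMulVec u φ) * Z = Z * (1 + Matrix.vecMulVec u φ) := by
    rw [← ha, hZ, ← Matrix.SpecialLinearGroup.coe_mul, hza, Matrix.SpecialLinearGroup.coe_mul]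
  have hZB : (1 + Matrix.vecMulVec v ψ) * Z = Z * (1 + Matrix.vecMulVec v ψ) := by
    rw [← hb, hZ, ← Matrix.SpecialLinearGroup.coe_mul, hzb, Matrix.SpecialLinearGroup.coe_mul]
  have hZu := fixed_of_commute_tv Z hZZ u φ v hu h1 hZA
  have hZv := fixed_of_commute_tv Z hZZ v ψ u hv h2 hZB
  have hfixW : ∀ w : Fin N → F, φ ⬝ᵥ w = 0 → ψ ⬝ᵥ w = 0 → Z.mulVec w = w := by
    intro w hw1 hw2
    have hA : (a : Matrix (Fin N) (Fin N) F).mulVec w = w := by
      rw [ha, Matrix.add_mulVec, Matrix.one_mulVec, Matrix.vecMulVec_mulVec, hw1,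
        op_smul_eq_smul, zero_smul, add_zero]
    have hB : (b : Matrix (Fin N) (Fin N) F).mulVec w = w := by
      rw [hb, Matrix.add_mulVec, Matrix.one_mulVec, Matrix.vecMulVec_mulVec, hw2,
        op_smul_eq_smul, zero_smul, add_zero]
    have hG : (g : Matrix (Fin N) (Fin N) F).mulVec w = w := by
      rw [hg, Matrix.SpecialLinearGroup.coe_mul, ← Matrix.mulVec_mulVec, hB, hA]
    have hpow : ∀ k : ℕ, ((g ^ k : Matrix.SpecialLinearGroup (Fin N) F)
        : Matrix (Fin N) (Fin N) F).mulVec w = w := by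
      intro k
      induction k with
      | zero => rw [pow_zero, Matrix.SpecialLinearGroup.coe_one, Matrix.one_mulVec]
      | succ k ih =>
        rw [pow_succ, Matrix.SpecialLinearGroup.coe_mul, ← Matrix.mulVec_mulVec, hG, ih]
    rw [hZ, hz]
    exact hpow j
  apply hz1
  apply Subtype.ext
  rw [Matrix.SpecialLinearGroup.coe_one, ← hZ]
  apply mat_ext_mulVec
  intro x
  rw [Matrix.one_mulVec]
  obtain ⟨s, hs⟩ : ∃ s : F, s = (ψ ⬝ᵥ u)⁻¹ * (ψ ⬝ᵥ x) := ⟨_, rfl⟩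
  obtain ⟨t, ht⟩ : ∃ t : F, t = (φ ⬝ᵥ v)⁻¹ * (φ ⬝ᵥ x) := ⟨_, rfl⟩
  have hw1 : φ ⬝ᵥ (x - s • u - t • v) = 0 := by
    rw [dotProduct_sub, dotProduct_sub, dotProduct_smul, dotProduct_smul, hφu, smul_zero,
      sub_zero, ht, smul_eq_mul, mul_right_comm, inv_mul_cancel₀ h1, one_mul, sub_self]
  have hw2 : ψ ⬝ᵥ (x - s • u - t • v) = 0 := by
    rw [dotProduct_sub, dotProduct_sub, dotProduct_smul, dotProduct_smul, hψv, smul_zero,
      sub_zero, hs, smul_eq_mul, mul_right_comm, inv_mul_cancel₀ h2, one_mul, sub_self]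
  have hx : x = (x - s • u - t • v) + s • u + t • v := by abel
  calc Z.mulVec x = Z.mulVec ((x - s • u - t • v) + s • u + t • v) := by rw [← hx]
    _ = (x - s • u - t • v) + s • u + t • v := by
      rw [Matrix.mulVec_add, Matrix.mulVec_add, Matrix.mulVec_smul, Matrix.mulVec_smul,
        hfixW _ hw1 hw2, hZu, hZv]
    _ = x := hx.symm

/-- The three cases for a pair of transvections in characteristic two. -/
theorem tv_pair {F : Type*} [Field F] [Fintype F] [CharP F 2] {N : ℕ}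
    (a b : Matrix.SpecialLinearGroup (Fin N) F) (ha : IsTv a) (hb : IsTv b) :
    a * b = b * a ∨ (orderOf (a * b) = 4 ∧ IsTv ((a * b) ^ 2)) ∨
      (Odd (orderOf (a * b)) ∧ (Fintype.card F = 2 → (a * b) ^ 3 = 1)) := by
  classical
  have haa := isTv_sq a ha
  have hbb := isTv_sq b hb
  obtain ⟨u, φ, hu, hφ, hφu, ham⟩ := ha
  obtain ⟨v, ψ, hv, hψ, hψv, hbm⟩ := hb
  by_cases h1 : φ ⬝ᵥ v = 0
  · by_cases h2 : ψ ⬝ᵥ u = 0
    · exact Or.inl (tv_pair_comm a b u φ v ψ ham hbm h1 h2)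
    · right
      left
      have h3 := tv_pair_four b a v ψ u φ hv hφ hψv hφu hbm ham h2 h1
      have h4 : (a * b) ^ 2 = a * (b * a) ^ 2 * a⁻¹ := by
        rw [pow_two, pow_two]
        group
      have h5 : IsTv ((a * b) ^ 2) := by
        rw [h4]
        exact isTv_conj a _ h3
      exact ⟨orderOf_four_of_isTv_sq _ h5, h5⟩
  · by_cases h2 : ψ ⬝ᵥ u = 0
    · right
      left
      have h5 := tv_pair_four a b u φ v ψ hu hψ hφu hψv ham hbm h1 h2
      exact ⟨orderOf_four_of_isTv_sq _ h5, h5⟩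
    · right
      right
      refine ⟨tv_pair_odd a b u φ v ψ hu hv hφu hψv ham hbm haa hbb h1 h2, ?_⟩
      intro hF
      haveI : Subsingleton Fˣ := Fintype.card_le_one_iff_subsingleton.1 (by
        rw [Fintype.card_units, hF])
      have hone : ∀ x : F, x ≠ 0 → x = 1 := by
        intro x hx
        exact congrArg Units.val (Subsingleton.elim (Units.mk0 x hx) 1)
      exact tv_pair_cube a b u φ v ψ hφu hψv ham hbm (hone _ h1) (hone _ h2)

end Cfsg.Agent.Helper15
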