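import Mathlib
import Cfsg.Agent.Helper15.SLRootInv2

set_option autoImplicit false

namespace Cfsg.Agent.Helper15

open scoped MatrixGroups

theorem isTv_elem {F : Type*} [Field F] {N : ℕ} {i j : Fin N} (hij : i ≠ j) (c : F)
    (hc : c ≠ 0) : IsTv (Matrix.SpecialLinearGroup.transvection hij c) := by
  classical
  refine ⟨c • (Pi.single i 1 : Fin N → F), Pi.single j 1, ?_, ?_, ?_, ?_⟩
  · intro h
    have h1 := congrFun h i
    rw [Pi.smul_apply, Pi.single_eq_same, smul_eq_mul, mul_one, Pi.zero_apply] at h1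
    exact hc h1
  · intro h
    have h1 := congrFun h j
    rw [Pi.single_eq_same, Pi.zero_apply] at h1
    exact one_ne_zero h1
  · rw [dotProduct_smul, dotProduct_single_one, Pi.single_eq_of_ne hij, smul_zero]
  · show ((Matrix.SpecialLinearGroup.transvection hij c : Matrix.SpecialLinearGroup (Fin N) F)
      : Matrix (Fin N) (Fin N) F) = _
    rw [Matrix.SpecialLinearGroup.transvection_coe, single_eq_vecMulVec]

theorem fin_zero_ne_one (n : ℕ) : (0 : Fin (n + 3)) ≠ 1 := by
  intro h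
  have h1 := congrArg Fin.val h
  simp at h1

theorem isTv_to_std {F : Type*} [Field F] (n : ℕ)
    (t : Matrix.SpecialLinearGroup (Fin (n + 3)) F) (ht : IsTv t) :
    ∃ h : Matrix.SpecialLinearGroup (Fin (n + 3)) F,
      h⁻¹ * t * h = Matrix.SpecialLinearGroup.transvection (fin_zero_ne_one n) 1 := by
  classical
  obtain ⟨u, φ, hu, hφ, hφu, htm⟩ := ht
  have h01 := fin_zero_ne_one n
  obtain ⟨k, hk⟩ : ∃ k : Fin (n + 3), k = Fin.last (n + 2) := ⟨_, rfl⟩
  have hk0 : k ≠ 0 := by
    intro h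
    have h1 := congrArg Fin.val h
    rw [hk] at h1
    simp at h1
  have hk1 : k ≠ 1 := by
    intro h
    have h1 := congrArg Fin.val h
    rw [hk] at h1
    simp at h1
  have he0 : (Pi.single 0 1 : Fin (n + 3) → F) ≠ 0 := by
    intro h
    have h1 := congrFun h 0
    rw [Pi.single_eq_same, Pi.zero_apply] at h1
    exact one_ne_zero h1
  have he1 : (Pi.single 1 1 : Fin (n + 3) → F) ≠ 0 := by
    intro h
    have h1 := congrFun h 1
    rw [Pi.single_eq_same, Pi.zero_apply] at h1
    exact one_ne_zero h1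
  have h10 : (Pi.single 1 1 : Fin (n + 3) → F) ⬝ᵥ (Pi.single 0 1 : Fin (n + 3) → F) = 0 := by
    rw [dotProduct_single_one, Pi.single_eq_of_ne h01]
  obtain ⟨g, hg1, hg2⟩ := exists_gl_pair (Pi.single 0 1 : Fin (n + 3) → F) (Pi.single 1 1) u φ
    he0 he1 h10 hu hφ hφu
  have hdet0 : (g : Matrix (Fin (n + 3)) (Fin (n + 3)) F).det ≠ 0 :=
    ((Matrix.isUnit_iff_isUnit_det _).1 g.isUnit).ne_zero
  obtain ⟨d, hd⟩ : ∃ d : Fin (n + 3) → F, d = fun i =>
      if i = k then ((g : Matrix (Fin (n + 3)) (Fin (n + 3)) F).det)⁻¹ else 1 := ⟨_, rfl⟩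
  have hd0 : d 0 = 1 := by rw [hd]; exact if_neg (Ne.symm hk0)
  have hd1 : d 1 = 1 := by rw [hd]; exact if_neg (Ne.symm hk1)
  have hdetd : (Matrix.diagonal d).det = ((g : Matrix (Fin (n + 3)) (Fin (n + 3)) F).det)⁻¹ := by
    rw [Matrix.det_diagonal, Finset.prod_eq_single k]
    · rw [hd]
      exact if_pos rfl
    · intro i _ hi
      rw [hd]
      exact if_neg hi
    · intro h
      exact absurd (Finset.mem_univ _) h
  have hdetH : ((g : Matrix (Fin (n + 3)) (Fin (n + 3)) F) * Matrix.diagonal d).det = 1 := by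
    rw [Matrix.det_mul, hdetd, mul_inv_cancel₀ hdet0]
  have hvd : Matrix.vecMul (Pi.single 1 1 : Fin (n + 3) → F) (Matrix.diagonal d)
      = Pi.single 1 1 := by
    funext x
    rw [Matrix.vecMul_diagonal]
    by_cases hx : x = 1
    · rw [hx, hd1, mul_one]
    · rw [Pi.single_eq_of_ne hx, zero_mul]
  have hdv : (Matrix.diagonal d).mulVec (Pi.single 0 1 : Fin (n + 3) → F) = Pi.single 0 1 := by
    funext x
    rw [Matrix.mulVec_diagonal]
    by_cases hx : x = 0
    · rw [hx, hd0, one_mul]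
    · rw [Pi.single_eq_of_ne hx, mul_zero]
  obtain ⟨H, hH⟩ : ∃ H : Matrix.SpecialLinearGroup (Fin (n + 3)) F,
      (H : Matrix (Fin (n + 3)) (Fin (n + 3)) F)
        = (g : Matrix (Fin (n + 3)) (Fin (n + 3)) F) * Matrix.diagonal d :=
    ⟨⟨_, hdetH⟩, rfl⟩
  refine ⟨H, ?_⟩
  have hclaim : t * H = H * Matrix.SpecialLinearGroup.transvection h01 1 := by
    apply Subtype.ext
    rw [Matrix.SpecialLinearGroup.coe_mul, Matrix.SpecialLinearGroup.coe_mul, htm, hH,
      Matrix.SpecialLinearGroup.transvection_coe, single_eq_vecMulVec, one_smul]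
    rw [add_mul, one_mul, mul_add, mul_one, ← mul_assoc (Matrix.vecMulVec u φ),
      Matrix.vecMulVec_mul, hg2, Matrix.vecMulVec_mul, hvd, mul_assoc, Matrix.mul_vecMulVec,
      hdv, Matrix.mul_vecMulVec, hg1]
  rw [mul_assoc, hclaim, inv_mul_cancel_left]

theorem sl_tv_set_eq {F : Type*} [Field F] (n : ℕ) :
    {t : Matrix.SpecialLinearGroup (Fin (n + 3)) F | ∃ c : F, c ≠ 0 ∧
        ∃ g : Matrix.SpecialLinearGroup (Fin (n + 3)) F,
          ((g⁻¹ * t * g : Matrix.SpecialLinearGroup (Fin (n + 3)) F) :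
            Matrix (Fin (n + 3)) (Fin (n + 3)) F) = Matrix.transvection 0 1 c}
      = {t | IsTv t} := by
  ext t
  constructor
  · rintro ⟨c, hc, g, hg⟩
    have h1 : g⁻¹ * t * g = Matrix.SpecialLinearGroup.transvection (fin_zero_ne_one n) c :=
      Subtype.ext hg
    have h2 := isTv_conj g _ (h1 ▸ isTv_elem (fin_zero_ne_one n) c hc)
    have h3 : g * (g⁻¹ * t * g) * g⁻¹ = t := by group
    rw [h3] at h2
    exact h2
  · intro ht
    obtain ⟨h, hh⟩ := isTv_to_std n t ht
    exact ⟨1, one_ne_zero, h, by rw [hh]; rfl⟩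

theorem sl_tv_root_involution_class (F : Type*) [Field F] [Fintype F] [CharP F 2] (n : ℕ) :
    Cfsg.IsRootInvolutionClass {t : Matrix.SpecialLinearGroup (Fin (n + 3)) F | ∃ c : F, c ≠ 0 ∧
        ∃ g : Matrix.SpecialLinearGroup (Fin (n + 3)) F,
          ((g⁻¹ * t * g : Matrix.SpecialLinearGroup (Fin (n + 3)) F) :
            Matrix (Fin (n + 3)) (Fin (n + 3)) F) = Matrix.transvection 0 1 c} ∧
    (Fintype.card F = 2 → Cfsg.IsThreeFourPlusTranspositionSet
      {t : Matrix.SpecialLinearGroup (Fin (n + 3)) F | ∃ c : F, c ≠ 0 ∧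
        ∃ g : Matrix.SpecialLinearGroup (Fin (n + 3)) F,
          ((g⁻¹ * t * g : Matrix.SpecialLinearGroup (Fin (n + 3)) F) :
            Matrix (Fin (n + 3)) (Fin (n + 3)) F) = Matrix.transvection 0 1 c}) := by
  classical
  rw [sl_tv_set_eq]
  have hset : Cfsg.IsRootInvolutionSet
      {t : Matrix.SpecialLinearGroup (Fin (n + 3)) F | IsTv t} := by
    refine ⟨?_, ?_, ?_, ?_⟩
    · intro d hd
      exact orderOf_eq_prime (by rw [pow_two]; exact isTv_sq d hd) (isTv_ne_one d hd)
    · rw [eq_top_iff]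
      intro A _
      refine Cfsg.Agent.Helper2.transvection_induction
        (fun A => A ∈ Subgroup.closure {t : Matrix.SpecialLinearGroup (Fin (n + 3)) F | IsTv t})
        ?_ (fun _ _ => mul_mem) A
      intro i j hij c
      by_cases hc : c = 0
      · rw [hc, Matrix.SpecialLinearGroup.transvection_coeff_zero]
        exact one_mem _
      · exact Subgroup.subset_closure (isTv_elem hij c hc)
    · intro d hd g
      exact isTv_conj g d hd
    · intro a ha b hb
      rcases tv_pair a b ha hb with h | ⟨h4, hT⟩ | ⟨hodd, -⟩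
      · exact Or.inl h
      · exact Or.inr (Or.inr ⟨h4, hT⟩)
      · exact Or.inr (Or.inl hodd)
  refine ⟨⟨hset, ?_, ?_⟩, ?_⟩
  · exact ⟨_, isTv_elem (fin_zero_ne_one n) 1 one_ne_zero⟩
  · intro a ha b hb
    obtain ⟨h, hh⟩ := isTv_to_std n a ha
    obtain ⟨k, hk⟩ := isTv_to_std n b hb
    refine ⟨k * h⁻¹, ?_⟩
    have h1 : b = k * (h⁻¹ * a * h) * k⁻¹ := by
      rw [hh, ← hk]
      group
    rw [h1]
    group
  · intro hF
    refine ⟨hset, ?_⟩
    intro a ha b hb hodd
    rcases tv_pair a b ha hb with h | ⟨h4, hT⟩ | ⟨-, h3⟩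
    · have h2 : (a * b) ^ 2 = 1 := by
        rw [pow_two]
        calc a * b * (a * b) = a * (b * a) * b := by group
          _ = a * (a * b) * b := by rw [h]
          _ = (a * a) * (b * b) := by group
          _ = 1 := by rw [isTv_sq a ha, isTv_sq b hb, mul_one]
      have hdvd := orderOf_dvd_of_pow_eq_one h2
      left
      rcases (Nat.dvd_prime Nat.prime_two).1 hdvd with h1 | h1
      · exact h1
      · rw [h1] at hodd
        exact absurd hodd (by decide)
    · rw [h4] at hodd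
      exact absurd hodd (by decide)
    · have hdvd := orderOf_dvd_of_pow_eq_one (h3 hF)
      exact (Nat.dvd_prime Nat.prime_three).1 hdvd

end Cfsg.Agent.Helper15
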