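import Mathlib
import Cfsg.Prelude.Def_RootSubgroups
import Cfsg.Agent.Helper15.SLRootInv3
import Cfsg.Agent.Helper15.TransvCent

set_option autoImplicit false

namespace Cfsg.Agent.Helper15

open scoped MatrixGroups

/-- The set of all `1 + c u φ`. -/
def tvSet {k : Type*} [Field k] {N : ℕ} (u φ : Fin N → k) :
    Set (Matrix.SpecialLinearGroup (Fin N) k) :=
  {t | ∃ c : k, (t : Matrix (Fin N) (Fin N) k) = 1 + c • Matrix.vecMulVec u φ}

/-- The group generated by all `1 + c u φ`. -/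
def tvGrp {k : Type*} [Field k] {N : ℕ} (u φ : Fin N → k) :
    Subgroup (Matrix.SpecialLinearGroup (Fin N) k) :=
  Subgroup.closure (tvSet u φ)

theorem tv_det {k : Type*} [Field k] {N : ℕ} (u φ : Fin N → k) (h : φ ⬝ᵥ u = 0) (c : k) :
    (1 + c • Matrix.vecMulVec u φ).det = 1 := by
  rw [← Matrix.smul_vecMulVec, Matrix.vecMulVec_eq (Fin 1),
    Matrix.det_one_add_replicateCol_mul_replicateRow, dotProduct_smul, h, smul_zero, add_zero]

/-- The element `1 + c u φ`. -/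
def tvEl {k : Type*} [Field k] {N : ℕ} (u φ : Fin N → k) (h : φ ⬝ᵥ u = 0) (c : k) :
    Matrix.SpecialLinearGroup (Fin N) k :=
  ⟨1 + c • Matrix.vecMulVec u φ, tv_det u φ h c⟩

theorem tvEl_coe {k : Type*} [Field k] {N : ℕ} (u φ : Fin N → k) (h : φ ⬝ᵥ u = 0) (c : k) :
    ((tvEl u φ h c : Matrix.SpecialLinearGroup (Fin N) k) : Matrix (Fin N) (Fin N) k)
      = 1 + c • Matrix.vecMulVec u φ := rfl

theorem tvEl_mem_set {k : Type*} [Field k] {N : ℕ} (u φ : Fin N → k) (h : φ ⬝ᵥ u = 0) (c : k) :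
    tvEl u φ h c ∈ tvSet u φ := ⟨c, rfl⟩

theorem tvEl_mul {k : Type*} [Field k] {N : ℕ} (u φ : Fin N → k) (h : φ ⬝ᵥ u = 0) (c d : k) :
    tvEl u φ h c * tvEl u φ h d = tvEl u φ h (c + d) := by
  apply Subtype.ext
  rw [Matrix.SpecialLinearGroup.coe_mul, tvEl_coe, tvEl_coe, tvEl_coe]
  have hXX : Matrix.vecMulVec u φ * Matrix.vecMulVec u φ = 0 := by rw [vmv_mul, h, zero_smul]
  simp only [mul_add, add_mul, mul_one, one_mul, Matrix.smul_mul, Matrix.mul_smul, hXX,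
    smul_zero, add_zero]
  module

theorem tvEl_zero {k : Type*} [Field k] {N : ℕ} (u φ : Fin N → k) (h : φ ⬝ᵥ u = 0) :
    tvEl u φ h 0 = 1 := by
  apply Subtype.ext
  rw [tvEl_coe, zero_smul, add_zero, Matrix.SpecialLinearGroup.coe_one]

theorem tvEl_inv {k : Type*} [Field k] {N : ℕ} (u φ : Fin N → k) (h : φ ⬝ᵥ u = 0) (c : k) :
    (tvEl u φ h c)⁻¹ = tvEl u φ h (-c) :=
  inv_eq_of_mul_eq_one_right (by rw [tvEl_mul, add_neg_cancel, tvEl_zero])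

theorem mem_tvSet_iff {k : Type*} [Field k] {N : ℕ} (u φ : Fin N → k) (h : φ ⬝ᵥ u = 0)
    (t : Matrix.SpecialLinearGroup (Fin N) k) : t ∈ tvSet u φ ↔ ∃ c, t = tvEl u φ h c := by
  constructor
  · rintro ⟨c, hc⟩
    exact ⟨c, Subtype.ext hc⟩
  · rintro ⟨c, rfl⟩
    exact ⟨c, rfl⟩

theorem mem_tvGrp_iff {k : Type*} [Field k] {N : ℕ} (u φ : Fin N → k) (h : φ ⬝ᵥ u = 0)
    (t : Matrix.SpecialLinearGroup (Fin N) k) : t ∈ tvGrp u φ ↔ ∃ c, t = tvEl u φ h c := by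
  constructor
  · intro ht
    refine Subgroup.closure_induction (p := fun x _ => ∃ c, x = tvEl u φ h c) ?_ ?_ ?_ ?_ ht
    · intro x hx
      exact (mem_tvSet_iff u φ h x).1 hx
    · exact ⟨0, (tvEl_zero u φ h).symm⟩
    · rintro x y _ _ ⟨c, rfl⟩ ⟨d, rfl⟩
      exact ⟨c + d, tvEl_mul u φ h c d⟩
    · rintro x _ ⟨c, rfl⟩
      exact ⟨-c, tvEl_inv u φ h c⟩
  · rintro ⟨c, rfl⟩
    exact Subgroup.subset_closure (tvEl_mem_set u φ h c)

theorem tvEl_mem {k : Type*} [Field k] {N : ℕ} (u φ : Fin N → k) (h : φ ⬝ᵥ u = 0) (c : k) :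
    tvEl u φ h c ∈ tvGrp u φ := (mem_tvGrp_iff u φ h _).2 ⟨c, rfl⟩

theorem tvSet_smul {k : Type*} [Field k] {N : ℕ} (u φ : Fin N → k) (a b : k) (ha : a ≠ 0)
    (hb : b ≠ 0) : tvSet (a • u) (b • φ) = tvSet u φ := by
  ext t
  constructor
  · rintro ⟨c, hc⟩
    refine ⟨c * a * b, ?_⟩
    rw [hc, Matrix.smul_vecMulVec, Matrix.vecMulVec_smul, smul_smul, smul_smul]
  · rintro ⟨c, hc⟩
    refine ⟨c * a⁻¹ * b⁻¹, ?_⟩
    rw [hc, Matrix.smul_vecMulVec, Matrix.vecMulVec_smul, smul_smul, smul_smul]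
    congr 2
    field_simp

theorem tvGrp_smul {k : Type*} [Field k] {N : ℕ} (u φ : Fin N → k) (a b : k) (ha : a ≠ 0)
    (hb : b ≠ 0) : tvGrp (a • u) (b • φ) = tvGrp u φ := by
  unfold tvGrp
  rw [tvSet_smul u φ a b ha hb]

theorem tvSet_conj {k : Type*} [Field k] {N : ℕ} (u φ : Fin N → k)
    (g : Matrix.SpecialLinearGroup (Fin N) k) :
    (fun t => g * t * g⁻¹) '' tvSet u φ
      = tvSet ((g : Matrix (Fin N) (Fin N) k).mulVec u)
          (Matrix.vecMul φ ((g⁻¹ : Matrix.SpecialLinearGroup (Fin N) k)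
            : Matrix (Fin N) (Fin N) k)) := by
  ext x
  constructor
  · rintro ⟨t, ⟨c, hc⟩, rfl⟩
    refine ⟨c, ?_⟩
    show ((g * t * g⁻¹ : Matrix.SpecialLinearGroup (Fin N) k) : Matrix (Fin N) (Fin N) k) = _
    rw [Matrix.SpecialLinearGroup.coe_mul, Matrix.SpecialLinearGroup.coe_mul, hc, Matrix.mul_add,
      Matrix.add_mul, Matrix.mul_one, sl_coe_mul_inv, Matrix.mul_smul, Matrix.smul_mul,
      Matrix.mul_vecMulVec, Matrix.vecMulVec_mul]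
  · rintro ⟨c, hc⟩
    refine ⟨g⁻¹ * x * g, ⟨c, ?_⟩, ?_⟩
    · rw [Matrix.SpecialLinearGroup.coe_mul, Matrix.SpecialLinearGroup.coe_mul, hc, Matrix.mul_add,
        Matrix.add_mul, Matrix.mul_one, sl_coe_inv_mul, Matrix.mul_smul, Matrix.smul_mul,
        Matrix.mul_vecMulVec, Matrix.vecMulVec_mul, Matrix.mulVec_mulVec, sl_coe_inv_mul,
        Matrix.one_mulVec, Matrix.vecMul_vecMul, sl_coe_inv_mul, Matrix.vecMul_one]
    · show g * (g⁻¹ * x * g) * g⁻¹ = x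
      group

theorem tvGrp_conj {k : Type*} [Field k] {N : ℕ} (u φ : Fin N → k)
    (g : Matrix.SpecialLinearGroup (Fin N) k) :
    Cfsg.conjBy (tvGrp u φ) g
      = tvGrp ((g : Matrix (Fin N) (Fin N) k).mulVec u)
          (Matrix.vecMul φ ((g⁻¹ : Matrix.SpecialLinearGroup (Fin N) k)
            : Matrix (Fin N) (Fin N) k)) := by
  unfold tvGrp
  show (Subgroup.closure (tvSet u φ)).map (MulAut.conj g).toMonoidHom = _
  rw [MonoidHom.map_closure]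
  congr 1
  exact tvSet_conj u φ g

theorem sl_mulVec_ne_zero {k : Type*} [Field k] {N : ℕ}
    (g : Matrix.SpecialLinearGroup (Fin N) k) (u : Fin N → k) (hu : u ≠ 0) :
    (g : Matrix (Fin N) (Fin N) k).mulVec u ≠ 0 := by
  intro h0
  apply hu
  have h1 := congrArg (((g⁻¹ : Matrix.SpecialLinearGroup (Fin N) k)
    : Matrix (Fin N) (Fin N) k).mulVec) h0
  rw [Matrix.mulVec_mulVec, sl_coe_inv_mul, Matrix.one_mulVec, Matrix.mulVec_zero] at h1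
  exact h1

theorem sl_vecMul_ne_zero {k : Type*} [Field k] {N : ℕ}
    (g : Matrix.SpecialLinearGroup (Fin N) k) (φ : Fin N → k) (hφ : φ ≠ 0) :
    Matrix.vecMul φ (g : Matrix (Fin N) (Fin N) k) ≠ 0 := by
  intro h0
  apply hφ
  have h1 := congrArg (fun x => Matrix.vecMul x ((g⁻¹ : Matrix.SpecialLinearGroup (Fin N) k)
    : Matrix (Fin N) (Fin N) k)) h0
  simp only [Matrix.vecMul_vecMul, sl_coe_mul_inv, Matrix.vecMul_one, Matrix.zero_vecMul] at h1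
  exact h1

theorem tvEl_mulVec {k : Type*} [Field k] {N : ℕ} (u φ : Fin N → k) (h : φ ⬝ᵥ u = 0) (c : k)
    (x : Fin N → k) :
    ((tvEl u φ h c : Matrix.SpecialLinearGroup (Fin N) k) : Matrix (Fin N) (Fin N) k).mulVec x
      = x + (c * (φ ⬝ᵥ x)) • u := by
  rw [tvEl_coe, Matrix.add_mulVec, Matrix.one_mulVec, Matrix.smul_mulVec, Matrix.vecMulVec_mulVec,
    op_smul_eq_smul, smul_smul]

theorem tvEl_vecMul {k : Type*} [Field k] {N : ℕ} (u φ : Fin N → k) (h : φ ⬝ᵥ u = 0) (c : k)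
    (y : Fin N → k) :
    Matrix.vecMul y
        ((tvEl u φ h c : Matrix.SpecialLinearGroup (Fin N) k) : Matrix (Fin N) (Fin N) k)
      = y + (c * (y ⬝ᵥ u)) • φ := by
  rw [tvEl_coe, Matrix.vecMul_add, Matrix.vecMul_one, Matrix.vecMul_smul, Matrix.vecMul_vecMulVec,
    smul_smul]

theorem tvEl_ne_one {k : Type*} [Field k] {N : ℕ} (u φ : Fin N → k) (h : φ ⬝ᵥ u = 0)
    (hu : u ≠ 0) (hφ : φ ≠ 0) (c : k) (hc : c ≠ 0) : tvEl u φ h c ≠ 1 := by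
  intro h1
  have h2 := congrArg Subtype.val h1
  rw [tvEl_coe] at h2
  have h3 : c • Matrix.vecMulVec u φ = 0 := by
    have h4 : (1 : Matrix (Fin N) (Fin N) k) + c • Matrix.vecMulVec u φ = 1 + 0 := by
      rw [add_zero]
      exact h2
    exact add_left_cancel h4
  rcases smul_eq_zero.1 h3 with h5 | h5
  · exact hc h5
  · rcases Matrix.vecMulVec_eq_zero.1 h5 with h6 | h6
    · exact hu h6
    · exact hφ h6

theorem tvEl_comm_of {k : Type*} [Field k] {N : ℕ} (u φ v ψ : Fin N → k) (h1 : φ ⬝ᵥ u = 0)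
    (h2 : ψ ⬝ᵥ v = 0) (t1 : φ ⬝ᵥ v = 0) (t2 : ψ ⬝ᵥ u = 0) (s r : k) :
    tvEl u φ h1 s * tvEl v ψ h2 r = tvEl v ψ h2 r * tvEl u φ h1 s := by
  apply Subtype.ext
  rw [Matrix.SpecialLinearGroup.coe_mul, Matrix.SpecialLinearGroup.coe_mul, tvEl_coe, tvEl_coe]
  have hXY : Matrix.vecMulVec u φ * Matrix.vecMulVec v ψ = 0 := by rw [vmv_mul, t1, zero_smul]
  have hYX : Matrix.vecMulVec v ψ * Matrix.vecMulVec u φ = 0 := by rw [vmv_mul, t2, zero_smul]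
  simp only [mul_add, add_mul, mul_one, one_mul, Matrix.smul_mul, Matrix.mul_smul, hXY, hYX,
    smul_zero, add_zero]
  abel

theorem tvGrp_commute {k : Type*} [Field k] {N : ℕ} (u φ v ψ : Fin N → k) (h1 : φ ⬝ᵥ u = 0)
    (h2 : ψ ⬝ᵥ v = 0) (t1 : φ ⬝ᵥ v = 0) (t2 : ψ ⬝ᵥ u = 0) :
    ∀ a ∈ tvGrp u φ, ∀ b ∈ tvGrp v ψ, a * b = b * a := by
  intro a ha b hb
  obtain ⟨s, rfl⟩ := (mem_tvGrp_iff u φ h1 a).1 ha
  obtain ⟨r, rfl⟩ := (mem_tvGrp_iff v ψ h2 b).1 hb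
  exact tvEl_comm_of u φ v ψ h1 h2 t1 t2 s r

theorem tvGrp_comm_bot {k : Type*} [Field k] {N : ℕ} (u φ v ψ : Fin N → k) (h1 : φ ⬝ᵥ u = 0)
    (h2 : ψ ⬝ᵥ v = 0) (t1 : φ ⬝ᵥ v = 0) (t2 : ψ ⬝ᵥ u = 0) :
    ⁅tvGrp u φ, tvGrp v ψ⁆ = ⊥ := by
  rw [Subgroup.commutator_eq_bot_iff_le_centralizer]
  intro a ha
  rw [Subgroup.mem_centralizer_iff]
  intro b hb
  exact (tvGrp_commute u φ v ψ h1 h2 t1 t2 a ha b hb).symm

theorem tvGrp_isMulCommutative {k : Type*} [Field k] {N : ℕ} (u φ : Fin N → k)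
    (h : φ ⬝ᵥ u = 0) : IsMulCommutative (tvGrp u φ) := by
  refine ⟨⟨?_⟩⟩
  rintro ⟨a, ha⟩ ⟨b, hb⟩
  apply Subtype.ext
  exact tvGrp_commute u φ u φ h h h h a ha b hb

theorem tvGrp_nilpotent {k : Type*} [Field k] {N : ℕ} (u φ : Fin N → k)
    (h : φ ⬝ᵥ u = 0) : Group.IsNilpotent (tvGrp u φ) :=
  ⟨⟨1, Subgroup.upperCentralSeries_one_eq_top_iff.2 (tvGrp_isMulCommutative u φ h)⟩⟩

theorem tvGrp_ne_bot {k : Type*} [Field k] {N : ℕ} (u φ : Fin N → k)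
    (h : φ ⬝ᵥ u = 0) (hu : u ≠ 0) (hφ : φ ≠ 0) : tvGrp u φ ≠ ⊥ := by
  intro hb
  have h1 := tvEl_mem u φ h 1
  rw [hb, Subgroup.mem_bot] at h1
  exact tvEl_ne_one u φ h hu hφ 1 one_ne_zero h1

theorem tvGrp_eq_prop {k : Type*} [Field k] {N : ℕ} (u φ u' φ' : Fin N → k)
    (h : φ ⬝ᵥ u = 0) (h' : φ' ⬝ᵥ u' = 0) (hφ' : φ' ≠ 0) (heq : tvGrp u φ = tvGrp u' φ') :
    ∃ l : k, u' = l • u := by
  have hm : tvEl u' φ' h' 1 ∈ tvGrp u φ := by
    rw [heq]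
    exact tvEl_mem u' φ' h' 1
  obtain ⟨c, hc⟩ := (mem_tvGrp_iff u φ h _).1 hm
  have hc' := congrArg Subtype.val hc
  rw [tvEl_coe, tvEl_coe, one_smul] at hc'
  have hX : Matrix.vecMulVec u' φ' = c • Matrix.vecMulVec u φ := add_left_cancel hc'
  obtain ⟨j, hj⟩ : ∃ j, φ' j ≠ 0 := by
    by_contra hcon
    push Not at hcon
    exact hφ' (funext hcon)
  refine ⟨c * φ j / φ' j, ?_⟩
  funext i
  have h1 := congrFun (congrFun hX i) j
  rw [Matrix.vecMulVec_apply, Matrix.smul_apply, Matrix.vecMulVec_apply, smul_eq_mul] at h1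
  rw [Pi.smul_apply, smul_eq_mul]
  field_simp
  linear_combination h1

end Cfsg.Agent.Helper15
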