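import Mathlib
import Cfsg.Prelude.Def_RootSubgroups
import Cfsg.Agent.Helper15.SLRoot1

set_option autoImplicit false

namespace Cfsg.Agent.Helper15

open scoped MatrixGroups
open scoped commutatorElement

theorem tv_rank_one_cond {k : Type*} [Field k] {N : ℕ} (u φ v ψ : Fin N → k)
    (h1 : φ ⬝ᵥ u = 0) (h2 : ψ ⬝ᵥ v = 0) (hv : v ≠ 0) (hψ : ψ ≠ 0)
    (t1 : φ ⬝ᵥ v ≠ 0) (t2 : ψ ⬝ᵥ u ≠ 0) :
    Cfsg.RankOneCondition (tvGrp u φ) (tvGrp v ψ) := by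
  intro a ha ha1
  obtain ⟨s, rfl⟩ := (mem_tvGrp_iff u φ h1 a).1 ha
  have hs : s ≠ 0 := by
    rintro rfl
    exact ha1 (tvEl_zero u φ h1)
  have hne : s * (φ ⬝ᵥ v) * (ψ ⬝ᵥ u) ≠ 0 := mul_ne_zero (mul_ne_zero hs t1) t2
  obtain ⟨r, hr⟩ : ∃ r : k, r = (s * (φ ⬝ᵥ v) * (ψ ⬝ᵥ u))⁻¹ := ⟨_, rfl⟩
  have hr0 : r ≠ 0 := by
    rw [hr]
    exact inv_ne_zero hne
  have hr1 : s * (φ ⬝ᵥ v) * (ψ ⬝ᵥ u) * r = 1 := by
    rw [hr]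
    exact mul_inv_cancel₀ hne
  refine ⟨tvEl v ψ h2 r, tvEl_mem v ψ h2 r, tvEl_ne_one v ψ h2 hv hψ r hr0, ?_⟩
  rw [tvGrp_conj, tvGrp_conj, inv_inv, inv_inv, tvEl_inv, tvEl_inv, tvEl_mulVec, tvEl_vecMul,
    tvEl_mulVec, tvEl_vecMul]
  have e5 : v + (-s * (φ ⬝ᵥ v)) • u
      = (-(s * (φ ⬝ᵥ v))) • (u + (-r * (ψ ⬝ᵥ u)) • v) := by
    funext i
    simp only [Pi.add_apply, Pi.smul_apply, smul_eq_mul]
    linear_combination (-(v i)) * hr1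
  have e6 : ψ + (s * (ψ ⬝ᵥ u)) • φ
      = (s * (ψ ⬝ᵥ u)) • (φ + (r * (φ ⬝ᵥ v)) • ψ) := by
    funext i
    simp only [Pi.add_apply, Pi.smul_apply, smul_eq_mul]
    linear_combination (-(ψ i)) * hr1
  rw [e5, e6, tvGrp_smul _ _ _ _ (neg_ne_zero.2 (mul_ne_zero hs t1)) (mul_ne_zero hs t2)]

theorem tv_rank_one_pair {k : Type*} [Field k] {N : ℕ} (u φ v ψ : Fin N → k)
    (hu : u ≠ 0) (hφ : φ ≠ 0) (hv : v ≠ 0) (hψ : ψ ≠ 0)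
    (h1 : φ ⬝ᵥ u = 0) (h2 : ψ ⬝ᵥ v = 0)
    (t1 : φ ⬝ᵥ v ≠ 0) (t2 : ψ ⬝ᵥ u ≠ 0) :
    Cfsg.IsRankOnePair (tvGrp u φ) (tvGrp v ψ) := by
  refine ⟨?_, tvGrp_nilpotent u φ h1, tvGrp_nilpotent v ψ h2,
    tv_rank_one_cond u φ v ψ h1 h2 hv hψ t1 t2, tv_rank_one_cond v ψ u φ h2 h1 hu hφ t2 t1⟩
  intro heq
  obtain ⟨l, hl⟩ := tvGrp_eq_prop u φ v ψ h1 h2 hψ heq
  apply t1
  rw [hl, dotProduct_smul, h1, smul_zero]

theorem tv_rank_one_cond_imp {k : Type*} [Field k] {N : ℕ} (u φ v ψ : Fin N → k)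
    (hu : u ≠ 0) (hφ : φ ≠ 0) (hψ : ψ ≠ 0)
    (h1 : φ ⬝ᵥ u = 0) (h2 : ψ ⬝ᵥ v = 0) (hne : tvGrp u φ ≠ tvGrp v ψ)
    (hc : Cfsg.RankOneCondition (tvGrp u φ) (tvGrp v ψ)) : ψ ⬝ᵥ u ≠ 0 := by
  intro t2
  obtain ⟨b, hb, hb1, hconj⟩ := hc (tvEl u φ h1 1) (tvEl_mem u φ h1 1)
    (tvEl_ne_one u φ h1 hu hφ 1 one_ne_zero)
  obtain ⟨r, rfl⟩ := (mem_tvGrp_iff v ψ h2 b).1 hb
  rw [tvGrp_conj, tvGrp_conj, inv_inv, inv_inv, tvEl_inv, tvEl_inv, tvEl_mulVec, tvEl_vecMul,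
    tvEl_mulVec, tvEl_vecMul, t2, mul_zero, mul_zero, zero_smul, zero_smul, add_zero,
    add_zero] at hconj
  have ha : (φ + (r * (φ ⬝ᵥ v)) • ψ) ⬝ᵥ u = 0 := by
    rw [add_dotProduct, smul_dotProduct, h1, t2, smul_zero, add_zero]
  have hb' : ψ ⬝ᵥ (v + (-1 * (φ ⬝ᵥ v)) • u) = 0 := by
    rw [dotProduct_add, dotProduct_smul, h2, t2, smul_zero, add_zero]
  obtain ⟨l, hl⟩ := tvGrp_eq_prop _ _ _ _ ha hb' hψ hconj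
  have t1 : φ ⬝ᵥ v = 0 := by
    have h3 := congrArg (fun x => φ ⬝ᵥ x) hl
    simp only [dotProduct_add, dotProduct_smul, h1, smul_zero, add_zero] at h3
    exact h3
  rw [t1, mul_zero, mul_zero, zero_smul, zero_smul, add_zero, add_zero] at hconj
  exact hne hconj

theorem tv_rank_one_imp {k : Type*} [Field k] {N : ℕ} (u φ v ψ : Fin N → k)
    (hu : u ≠ 0) (hφ : φ ≠ 0) (hv : v ≠ 0) (hψ : ψ ≠ 0)
    (h1 : φ ⬝ᵥ u = 0) (h2 : ψ ⬝ᵥ v = 0)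
    (hp : Cfsg.IsRankOnePair (tvGrp u φ) (tvGrp v ψ)) : φ ⬝ᵥ v ≠ 0 ∧ ψ ⬝ᵥ u ≠ 0 :=
  ⟨tv_rank_one_cond_imp v ψ u φ hv hψ hφ h2 h1 hp.ne.symm hp.cond_right,
    tv_rank_one_cond_imp u φ v ψ hu hφ hψ h1 h2 hp.ne hp.cond_left⟩

theorem tv_comm_case_aux {k : Type*} [Field k] {N : ℕ}
    (S : Set (Subgroup (Matrix.SpecialLinearGroup (Fin N) k)))
    (u φ v ψ w χ : Fin N → k) (h1 : φ ⬝ᵥ u = 0) (h2 : ψ ⬝ᵥ v = 0) (h3 : χ ⬝ᵥ w = 0)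
    (κ : k) (hκ : κ ≠ 0) (hS : tvGrp w χ ∈ S)
    (hcomm : ∀ s r, tvEl u φ h1 s * tvEl v ψ h2 r * (tvEl u φ h1 s)⁻¹ * (tvEl v ψ h2 r)⁻¹
      = tvEl w χ h3 (s * r * κ))
    (hc1 : ∀ a ∈ tvGrp w χ, ∀ b ∈ tvGrp u φ, a * b = b * a)
    (hc2 : ∀ a ∈ tvGrp w χ, ∀ b ∈ tvGrp v ψ, a * b = b * a) :
    Cfsg.RootCommutatorCase S (tvGrp u φ) (tvGrp v ψ) := by
  have hcomm_eq : ⁅tvGrp u φ, tvGrp v ψ⁆ = tvGrp w χ := by
    apply le_antisymm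
    · rw [Subgroup.commutator_le]
      intro a ha b hb
      obtain ⟨s, rfl⟩ := (mem_tvGrp_iff u φ h1 a).1 ha
      obtain ⟨r, rfl⟩ := (mem_tvGrp_iff v ψ h2 b).1 hb
      rw [commutatorElement_def, hcomm]
      exact tvEl_mem w χ h3 _
    · intro x hx
      obtain ⟨c, rfl⟩ := (mem_tvGrp_iff w χ h3 x).1 hx
      have hx' : tvEl w χ h3 c = ⁅tvEl u φ h1 1, tvEl v ψ h2 (c / κ)⁆ := by
        rw [commutatorElement_def, hcomm]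
        congr 1
        field_simp
      rw [hx']
      exact Subgroup.commutator_mem_commutator (tvEl_mem u φ h1 1) (tvEl_mem v ψ h2 _)
  refine ⟨by rw [hcomm_eq]; exact hS, ?_, ?_, ?_⟩
  · intro c hc x hx
    rw [hcomm_eq] at hc
    have hle : tvGrp u φ ⊔ tvGrp v ψ ≤ Subgroup.centralizer {c} := by
      refine sup_le ?_ ?_
      · intro b hb
        rw [Subgroup.mem_centralizer_iff]
        intro y hy
        rw [Set.mem_singleton_iff] at hy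
        rw [hy]
        exact hc1 c hc b hb
      · intro b hb
        rw [Subgroup.mem_centralizer_iff]
        intro y hy
        rw [Set.mem_singleton_iff] at hy
        rw [hy]
        exact hc2 c hc b hb
    have h4 := hle hx
    rw [Subgroup.mem_centralizer_iff] at h4
    exact h4 c rfl
  · intro a ha ha1
    obtain ⟨s, rfl⟩ := (mem_tvGrp_iff u φ h1 a).1 ha
    have hs : s ≠ 0 := by
      rintro rfl
      exact ha1 (tvEl_zero u φ h1)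
    rw [hcomm_eq]
    show Subgroup.closure _ = Subgroup.closure (tvSet w χ)
    congr 1
    ext x
    constructor
    · rintro ⟨b, hb, rfl⟩
      obtain ⟨r, rfl⟩ := (mem_tvGrp_iff v ψ h2 b).1 hb
      show tvEl u φ h1 s * tvEl v ψ h2 r * (tvEl u φ h1 s)⁻¹ * (tvEl v ψ h2 r)⁻¹ ∈ tvSet w χ
      rw [hcomm]
      exact tvEl_mem_set w χ h3 _
    · intro hx
      obtain ⟨c, rfl⟩ := (mem_tvSet_iff w χ h3 x).1 hx
      refine ⟨tvEl v ψ h2 (c / (s * κ)), tvEl_mem v ψ h2 _, ?_⟩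
      show tvEl u φ h1 s * tvEl v ψ h2 (c / (s * κ)) * (tvEl u φ h1 s)⁻¹
        * (tvEl v ψ h2 (c / (s * κ)))⁻¹ = tvEl w χ h3 c
      rw [hcomm]
      congr 1
      field_simp
  · intro b hb hb1
    obtain ⟨r, rfl⟩ := (mem_tvGrp_iff v ψ h2 b).1 hb
    have hr : r ≠ 0 := by
      rintro rfl
      exact hb1 (tvEl_zero v ψ h2)
    rw [hcomm_eq]
    show Subgroup.closure _ = Subgroup.closure (tvSet w χ)
    congr 1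
    ext x
    constructor
    · rintro ⟨a, ha, rfl⟩
      obtain ⟨s, rfl⟩ := (mem_tvGrp_iff u φ h1 a).1 ha
      show tvEl u φ h1 s * tvEl v ψ h2 r * (tvEl u φ h1 s)⁻¹ * (tvEl v ψ h2 r)⁻¹ ∈ tvSet w χ
      rw [hcomm]
      exact tvEl_mem_set w χ h3 _
    · intro hx
      obtain ⟨c, rfl⟩ := (mem_tvSet_iff w χ h3 x).1 hx
      refine ⟨tvEl u φ h1 (c / (r * κ)), tvEl_mem u φ h1 _, ?_⟩
      show tvEl u φ h1 (c / (r * κ)) * tvEl v ψ h2 r * (tvEl u φ h1 (c / (r * κ)))⁻¹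
        * (tvEl v ψ h2 r)⁻¹ = tvEl w χ h3 c
      rw [hcomm]
      congr 1
      field_simp

theorem tv_commutator1 {k : Type*} [Field k] {N : ℕ} (u φ v ψ : Fin N → k)
    (h1 : φ ⬝ᵥ u = 0) (h2 : ψ ⬝ᵥ v = 0) (t2 : ψ ⬝ᵥ u = 0) (s r : k) :
    tvEl u φ h1 s * tvEl v ψ h2 r * (tvEl u φ h1 s)⁻¹ * (tvEl v ψ h2 r)⁻¹
      = tvEl u ψ t2 (s * r * (φ ⬝ᵥ v)) := by
  rw [mul_inv_eq_iff_eq_mul, mul_inv_eq_iff_eq_mul]
  apply Subtype.ext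
  simp only [Matrix.SpecialLinearGroup.coe_mul, tvEl_coe]
  have hXY : Matrix.vecMulVec u φ * Matrix.vecMulVec v ψ = (φ ⬝ᵥ v) • Matrix.vecMulVec u ψ :=
    vmv_mul u φ v ψ
  have hYX : Matrix.vecMulVec v ψ * Matrix.vecMulVec u φ = 0 := by rw [vmv_mul, t2, zero_smul]
  have hZY : Matrix.vecMulVec u ψ * Matrix.vecMulVec v ψ = 0 := by rw [vmv_mul, h2, zero_smul]
  have hZX : Matrix.vecMulVec u ψ * Matrix.vecMulVec u φ = 0 := by rw [vmv_mul, t2, zero_smul]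
  simp only [mul_add, add_mul, mul_one, one_mul, Matrix.smul_mul, Matrix.mul_smul, hXY, hYX, hZY,
    hZX, smul_zero, add_zero]
  module

theorem tv_commutator2 {k : Type*} [Field k] {N : ℕ} (u φ v ψ : Fin N → k)
    (h1 : φ ⬝ᵥ u = 0) (h2 : ψ ⬝ᵥ v = 0) (t1 : φ ⬝ᵥ v = 0) (s r : k) :
    tvEl u φ h1 s * tvEl v ψ h2 r * (tvEl u φ h1 s)⁻¹ * (tvEl v ψ h2 r)⁻¹
      = tvEl v φ t1 (s * r * (-(ψ ⬝ᵥ u))) := by
  rw [mul_inv_eq_iff_eq_mul, mul_inv_eq_iff_eq_mul]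
  apply Subtype.ext
  simp only [Matrix.SpecialLinearGroup.coe_mul, tvEl_coe]
  have hXY : Matrix.vecMulVec u φ * Matrix.vecMulVec v ψ = 0 := by rw [vmv_mul, t1, zero_smul]
  have hYX : Matrix.vecMulVec v ψ * Matrix.vecMulVec u φ = (ψ ⬝ᵥ u) • Matrix.vecMulVec v φ :=
    vmv_mul v ψ u φ
  have hWY : Matrix.vecMulVec v φ * Matrix.vecMulVec v ψ = 0 := by rw [vmv_mul, t1, zero_smul]
  have hWX : Matrix.vecMulVec v φ * Matrix.vecMulVec u φ = 0 := by rw [vmv_mul, h1, zero_smul]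
  simp only [mul_add, add_mul, mul_one, one_mul, Matrix.smul_mul, Matrix.mul_smul, hXY, hYX, hWY,
    hWX, smul_zero, add_zero]
  module

theorem tv_comm_case1 {k : Type*} [Field k] {N : ℕ}
    (S : Set (Subgroup (Matrix.SpecialLinearGroup (Fin N) k)))
    (u φ v ψ : Fin N → k) (h1 : φ ⬝ᵥ u = 0) (h2 : ψ ⬝ᵥ v = 0)
    (t1 : φ ⬝ᵥ v ≠ 0) (t2 : ψ ⬝ᵥ u = 0) (hS : tvGrp u ψ ∈ S) :
    Cfsg.RootCommutatorCase S (tvGrp u φ) (tvGrp v ψ) :=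
  tv_comm_case_aux S u φ v ψ u ψ h1 h2 t2 (φ ⬝ᵥ v) t1 hS
    (tv_commutator1 u φ v ψ h1 h2 t2)
    (tvGrp_commute u ψ u φ t2 h1 t2 h1)
    (tvGrp_commute u ψ v ψ t2 h2 h2 t2)

theorem tv_comm_case2 {k : Type*} [Field k] {N : ℕ}
    (S : Set (Subgroup (Matrix.SpecialLinearGroup (Fin N) k)))
    (u φ v ψ : Fin N → k) (h1 : φ ⬝ᵥ u = 0) (h2 : ψ ⬝ᵥ v = 0)
    (t1 : φ ⬝ᵥ v = 0) (t2 : ψ ⬝ᵥ u ≠ 0) (hS : tvGrp v φ ∈ S) :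
    Cfsg.RootCommutatorCase S (tvGrp u φ) (tvGrp v ψ) :=
  tv_comm_case_aux S u φ v ψ v φ h1 h2 t1 (-(ψ ⬝ᵥ u)) (neg_ne_zero.2 t2) hS
    (tv_commutator2 u φ v ψ h1 h2 t1)
    (tvGrp_commute v φ u φ t1 h1 h1 t1)
    (tvGrp_commute v φ v ψ t1 h2 t1 h2)

end Cfsg.Agent.Helper15
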