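import Mathlib
import Cfsg.Prelude.Def_RootSubgroups
import Cfsg.Agent.Helper15.SLRoot2

set_option autoImplicit false

namespace Cfsg.Agent.Helper15

open scoped MatrixGroups

theorem transvection_def' {k : Type*} [Field k] {ι : Type*} [DecidableEq ι] (i j : ι) (c : k) :
    Matrix.transvection i j c = 1 + Matrix.single i j c := rfl

theorem fin2_zero_ne_one : (0 : Fin 2) ≠ 1 := by decide

theorem fin2_one_ne_zero : (1 : Fin 2) ≠ 0 := by decide

theorem tvPhi_det {k : Type*} [Field k] {N : ℕ} (P : Matrix (Fin N) (Fin 2) k)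
    (Q : Matrix (Fin 2) (Fin N) k) (hQP : Q * P = 1)
    (M : Matrix.SpecialLinearGroup (Fin 2) k) :
    (1 + P * ((M : Matrix (Fin 2) (Fin 2) k) - 1) * Q).det = 1 := by
  rw [Matrix.mul_assoc, Matrix.det_one_add_mul_comm, Matrix.mul_assoc, hQP, Matrix.mul_one,
    add_sub_cancel]
  exact M.2

/-- The homomorphism `M ↦ 1 + P (M - 1) Q` for `Q P = 1`. -/
def tvPhi {k : Type*} [Field k] {N : ℕ} (P : Matrix (Fin N) (Fin 2) k)
    (Q : Matrix (Fin 2) (Fin N) k) (hQP : Q * P = 1) :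
    Matrix.SpecialLinearGroup (Fin 2) k →* Matrix.SpecialLinearGroup (Fin N) k where
  toFun M := ⟨1 + P * ((M : Matrix (Fin 2) (Fin 2) k) - 1) * Q, tvPhi_det P Q hQP M⟩
  map_one' := by
    apply Subtype.ext
    show 1 + P * (((1 : Matrix.SpecialLinearGroup (Fin 2) k) : Matrix (Fin 2) (Fin 2) k) - 1) * Q
      = ((1 : Matrix.SpecialLinearGroup (Fin N) k) : Matrix (Fin N) (Fin N) k)
    rw [Matrix.SpecialLinearGroup.coe_one, sub_self, Matrix.mul_zero, Matrix.zero_mul, add_zero,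
      Matrix.SpecialLinearGroup.coe_one]
  map_mul' := by
    intro A B
    apply Subtype.ext
    show 1 + P * (((A * B : Matrix.SpecialLinearGroup (Fin 2) k) : Matrix (Fin 2) (Fin 2) k) - 1)
        * Q
      = (1 + P * ((A : Matrix (Fin 2) (Fin 2) k) - 1) * Q)
        * (1 + P * ((B : Matrix (Fin 2) (Fin 2) k) - 1) * Q)
    rw [Matrix.SpecialLinearGroup.coe_mul]
    have h : P * ((A : Matrix (Fin 2) (Fin 2) k) - 1) * Q
        * (P * ((B : Matrix (Fin 2) (Fin 2) k) - 1) * Q)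
        = P * (((A : Matrix (Fin 2) (Fin 2) k) - 1) * ((B : Matrix (Fin 2) (Fin 2) k) - 1)) * Q := by
      calc P * ((A : Matrix (Fin 2) (Fin 2) k) - 1) * Q
            * (P * ((B : Matrix (Fin 2) (Fin 2) k) - 1) * Q)
          = P * (((A : Matrix (Fin 2) (Fin 2) k) - 1) * (Q * P)
            * ((B : Matrix (Fin 2) (Fin 2) k) - 1)) * Q := by
            simp only [Matrix.mul_assoc]
        _ = _ := by rw [hQP, Matrix.mul_one]
    have e : (A : Matrix (Fin 2) (Fin 2) k) * (B : Matrix (Fin 2) (Fin 2) k) - 1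
        = ((A : Matrix (Fin 2) (Fin 2) k) - 1) + ((B : Matrix (Fin 2) (Fin 2) k) - 1)
          + ((A : Matrix (Fin 2) (Fin 2) k) - 1) * ((B : Matrix (Fin 2) (Fin 2) k) - 1) := by
      noncomm_ring
    rw [e, mul_add, add_mul, one_mul, mul_one, add_mul, one_mul, h, Matrix.mul_add,
      Matrix.mul_add, Matrix.add_mul, Matrix.add_mul]
    abel

theorem tvPhi_coe {k : Type*} [Field k] {N : ℕ} (P : Matrix (Fin N) (Fin 2) k)
    (Q : Matrix (Fin 2) (Fin N) k) (hQP : Q * P = 1)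
    (M : Matrix.SpecialLinearGroup (Fin 2) k) :
    ((tvPhi P Q hQP M : Matrix.SpecialLinearGroup (Fin N) k) : Matrix (Fin N) (Fin N) k)
      = 1 + P * ((M : Matrix (Fin 2) (Fin 2) k) - 1) * Q := rfl

theorem tvPhi_ker {k : Type*} [Field k] {N : ℕ} (P : Matrix (Fin N) (Fin 2) k)
    (Q : Matrix (Fin 2) (Fin N) k) (hQP : Q * P = 1) :
    (tvPhi P Q hQP).ker ≤ Subgroup.center (Matrix.SpecialLinearGroup (Fin 2) k) := by
  intro M hM
  rw [MonoidHom.mem_ker] at hM
  have h0 := congrArg Subtype.val hM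
  rw [tvPhi_coe] at h0
  have h1 : P * ((M : Matrix (Fin 2) (Fin 2) k) - 1) * Q = 0 := by
    have h4 : (1 : Matrix (Fin N) (Fin N) k) + P * ((M : Matrix (Fin 2) (Fin 2) k) - 1) * Q
        = 1 + 0 := by
      rw [add_zero]
      exact h0
    exact add_left_cancel h4
  have h2 : (M : Matrix (Fin 2) (Fin 2) k) - 1 = 0 := by
    calc (M : Matrix (Fin 2) (Fin 2) k) - 1
        = (Q * P) * ((M : Matrix (Fin 2) (Fin 2) k) - 1) * (Q * P) := by
          rw [hQP, Matrix.one_mul, Matrix.mul_one]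
      _ = Q * (P * ((M : Matrix (Fin 2) (Fin 2) k) - 1) * Q) * P := by
          simp only [Matrix.mul_assoc]
      _ = 0 := by rw [h1, Matrix.mul_zero, Matrix.zero_mul]
  have h3 : M = 1 := Subtype.ext (sub_eq_zero.1 h2)
  rw [h3]
  exact Subgroup.one_mem _

theorem upper_set_eq (k : Type*) [Field k] :
    {g : Matrix.SpecialLinearGroup (Fin 2) k | (g : Matrix (Fin 2) (Fin 2) k) 1 0 = 0 ∧
        (g : Matrix (Fin 2) (Fin 2) k) 0 0 = 1 ∧ (g : Matrix (Fin 2) (Fin 2) k) 1 1 = 1}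
      = Set.range (fun c : k => Matrix.SpecialLinearGroup.transvection fin2_zero_ne_one c) := by
  ext g
  constructor
  · rintro ⟨h10, h00, h11⟩
    refine ⟨(g : Matrix (Fin 2) (Fin 2) k) 0 1, ?_⟩
    apply Subtype.ext
    show ((Matrix.SpecialLinearGroup.transvection fin2_zero_ne_one _
      : Matrix.SpecialLinearGroup (Fin 2) k) : Matrix (Fin 2) (Fin 2) k) = _
    rw [Matrix.SpecialLinearGroup.transvection_coe]
    ext i j
    fin_cases i <;> fin_cases j <;>
      simp [Matrix.add_apply, Matrix.one_apply, Matrix.single_apply, h10, h00, h11]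
  · rintro ⟨c, rfl⟩
    show ((Matrix.SpecialLinearGroup.transvection fin2_zero_ne_one c
      : Matrix.SpecialLinearGroup (Fin 2) k) : Matrix (Fin 2) (Fin 2) k) 1 0 = 0 ∧
      ((Matrix.SpecialLinearGroup.transvection fin2_zero_ne_one c
      : Matrix.SpecialLinearGroup (Fin 2) k) : Matrix (Fin 2) (Fin 2) k) 0 0 = 1 ∧
      ((Matrix.SpecialLinearGroup.transvection fin2_zero_ne_one c
      : Matrix.SpecialLinearGroup (Fin 2) k) : Matrix (Fin 2) (Fin 2) k) 1 1 = 1
    rw [Matrix.SpecialLinearGroup.transvection_coe]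
    simp [Matrix.add_apply, Matrix.one_apply, Matrix.single_apply]

theorem lower_set_eq (k : Type*) [Field k] :
    {g : Matrix.SpecialLinearGroup (Fin 2) k | (g : Matrix (Fin 2) (Fin 2) k) 0 1 = 0 ∧
        (g : Matrix (Fin 2) (Fin 2) k) 0 0 = 1 ∧ (g : Matrix (Fin 2) (Fin 2) k) 1 1 = 1}
      = Set.range (fun c : k => Matrix.SpecialLinearGroup.transvection fin2_one_ne_zero c) := by
  ext g
  constructor
  · rintro ⟨h01, h00, h11⟩
    refine ⟨(g : Matrix (Fin 2) (Fin 2) k) 1 0, ?_⟩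
    apply Subtype.ext
    show ((Matrix.SpecialLinearGroup.transvection fin2_one_ne_zero _
      : Matrix.SpecialLinearGroup (Fin 2) k) : Matrix (Fin 2) (Fin 2) k) = _
    rw [Matrix.SpecialLinearGroup.transvection_coe]
    ext i j
    fin_cases i <;> fin_cases j <;>
      simp [Matrix.add_apply, Matrix.one_apply, Matrix.single_apply, h01, h00, h11]
  · rintro ⟨c, rfl⟩
    show ((Matrix.SpecialLinearGroup.transvection fin2_one_ne_zero c
      : Matrix.SpecialLinearGroup (Fin 2) k) : Matrix (Fin 2) (Fin 2) k) 0 1 = 0 ∧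
      ((Matrix.SpecialLinearGroup.transvection fin2_one_ne_zero c
      : Matrix.SpecialLinearGroup (Fin 2) k) : Matrix (Fin 2) (Fin 2) k) 0 0 = 1 ∧
      ((Matrix.SpecialLinearGroup.transvection fin2_one_ne_zero c
      : Matrix.SpecialLinearGroup (Fin 2) k) : Matrix (Fin 2) (Fin 2) k) 1 1 = 1
    rw [Matrix.SpecialLinearGroup.transvection_coe]
    simp [Matrix.add_apply, Matrix.one_apply, Matrix.single_apply]

theorem sl2_upper_lower_top (k : Type*) [Field k] :
    Cfsg.upperUnipotentSL2 k ⊔ Cfsg.lowerUnipotentSL2 k = ⊤ := by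
  rw [eq_top_iff]
  intro g _
  refine Cfsg.Agent.Helper2.transvection_induction
    (fun g => g ∈ Cfsg.upperUnipotentSL2 k ⊔ Cfsg.lowerUnipotentSL2 k) ?_ (fun _ _ => mul_mem) g
  intro i j hij c
  have hU : ∀ c : k, Matrix.SpecialLinearGroup.transvection fin2_zero_ne_one c
      ∈ Cfsg.upperUnipotentSL2 k := by
    intro c
    unfold Cfsg.upperUnipotentSL2
    rw [upper_set_eq]
    exact Subgroup.subset_closure ⟨c, rfl⟩
  have hL : ∀ c : k, Matrix.SpecialLinearGroup.transvection fin2_one_ne_zero c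
      ∈ Cfsg.lowerUnipotentSL2 k := by
    intro c
    unfold Cfsg.lowerUnipotentSL2
    rw [lower_set_eq]
    exact Subgroup.subset_closure ⟨c, rfl⟩
  fin_cases i <;> fin_cases j
  · exact absurd rfl hij
  · exact Subgroup.mem_sup_left (hU c)
  · exact Subgroup.mem_sup_right (hL c)
  · exact absurd rfl hij

theorem tv_psl2_aux {k : Type*} [Field k] {N : ℕ} (u y v x : Fin N → k)
    (hyu : y ⬝ᵥ u = 0) (hxv : x ⬝ᵥ v = 0) (hxu : x ⬝ᵥ u = 1) (hyv : y ⬝ᵥ v = 1) :
    Cfsg.IsPSL2PairOver k (tvGrp u y) (tvGrp v x) := by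
  classical
  obtain ⟨P, hP⟩ : ∃ P : Matrix (Fin N) (Fin 2) k, P = (Matrix.of ![u, v]).transpose := ⟨_, rfl⟩
  obtain ⟨Q, hQ⟩ : ∃ Q : Matrix (Fin 2) (Fin N) k, Q = Matrix.of ![x, y] := ⟨_, rfl⟩
  have hQP : Q * P = 1 := by
    ext a b
    rw [Matrix.mul_apply, hP, hQ]
    fin_cases a <;> fin_cases b
    · simpa [dotProduct] using hxu
    · simpa [dotProduct] using hxv
    · simpa [dotProduct] using hyu
    · simpa [dotProduct] using hyv
  have hform : ∀ D : Matrix (Fin 2) (Fin 2) k, P * D * Q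
      = D 0 0 • Matrix.vecMulVec u x + D 0 1 • Matrix.vecMulVec u y
        + D 1 0 • Matrix.vecMulVec v x + D 1 1 • Matrix.vecMulVec v y := by
    intro D
    ext i j
    rw [hP, hQ]
    simp [Matrix.mul_apply, Fin.sum_univ_two, Matrix.vecMulVec_apply]
    ring
  have hΦU : ∀ c : k, tvPhi P Q hQP (Matrix.SpecialLinearGroup.transvection fin2_zero_ne_one c)
      = tvEl u y hyu c := by
    intro c
    apply Subtype.ext
    rw [tvPhi_coe, tvEl_coe, Matrix.SpecialLinearGroup.transvection_coe,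
      add_sub_cancel_left, hform]
    simp [Matrix.single_apply]
  have hΦL : ∀ c : k, tvPhi P Q hQP (Matrix.SpecialLinearGroup.transvection fin2_one_ne_zero c)
      = tvEl v x hxv c := by
    intro c
    apply Subtype.ext
    rw [tvPhi_coe, tvEl_coe, Matrix.SpecialLinearGroup.transvection_coe,
      add_sub_cancel_left, hform]
    simp [Matrix.single_apply]
  have hupper : (Cfsg.upperUnipotentSL2 k).map (tvPhi P Q hQP) = tvGrp u y := by
    unfold Cfsg.upperUnipotentSL2 tvGrp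
    rw [MonoidHom.map_closure, upper_set_eq]
    congr 1
    ext t
    constructor
    · rintro ⟨g, ⟨c, rfl⟩, rfl⟩
      rw [hΦU]
      exact tvEl_mem_set u y hyu c
    · intro ht
      obtain ⟨c, rfl⟩ := (mem_tvSet_iff u y hyu t).1 ht
      exact ⟨_, ⟨c, rfl⟩, hΦU c⟩
  have hlower : (Cfsg.lowerUnipotentSL2 k).map (tvPhi P Q hQP) = tvGrp v x := by
    unfold Cfsg.lowerUnipotentSL2 tvGrp
    rw [MonoidHom.map_closure, lower_set_eq]
    congr 1
    ext t
    constructor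
    · rintro ⟨g, ⟨c, rfl⟩, rfl⟩
      rw [hΦL]
      exact tvEl_mem_set v x hxv c
    · intro ht
      obtain ⟨c, rfl⟩ := (mem_tvSet_iff v x hxv t).1 ht
      exact ⟨_, ⟨c, rfl⟩, hΦL c⟩
  refine ⟨tvPhi P Q hQP, ?_, tvPhi_ker P Q hQP, hupper, hlower⟩
  rw [MonoidHom.range_eq_map, ← sl2_upper_lower_top k, Subgroup.map_sup, hupper, hlower]

theorem tv_psl2 {k : Type*} [Field k] {N : ℕ} (u φ v ψ : Fin N → k)
    (h1 : φ ⬝ᵥ u = 0) (h2 : ψ ⬝ᵥ v = 0) (t1 : φ ⬝ᵥ v ≠ 0) (t2 : ψ ⬝ᵥ u ≠ 0) :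
    Cfsg.IsPSL2PairOver k (tvGrp u φ) (tvGrp v ψ) := by
  have h := tv_psl2_aux u ((φ ⬝ᵥ v)⁻¹ • φ) v ((ψ ⬝ᵥ u)⁻¹ • ψ)
    (by rw [smul_dotProduct, h1, smul_zero]) (by rw [smul_dotProduct, h2, smul_zero])
    (by rw [smul_dotProduct, smul_eq_mul, inv_mul_cancel₀ t2])
    (by rw [smul_dotProduct, smul_eq_mul, inv_mul_cancel₀ t1])
  have e1 : tvGrp u ((φ ⬝ᵥ v)⁻¹ • φ) = tvGrp u φ := by
    have h3 := tvGrp_smul u φ 1 (φ ⬝ᵥ v)⁻¹ one_ne_zero (inv_ne_zero t1)
    rw [one_smul] at h3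
    exact h3
  have e2 : tvGrp v ((ψ ⬝ᵥ u)⁻¹ • ψ) = tvGrp v ψ := by
    have h3 := tvGrp_smul v ψ 1 (ψ ⬝ᵥ u)⁻¹ one_ne_zero (inv_ne_zero t2)
    rw [one_smul] at h3
    exact h3
  rw [e1, e2] at h
  exact h

end Cfsg.Agent.Helper15
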