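import Mathlib
import Cfsg.Prelude.Def_RootSubgroups
import Cfsg.Agent.Helper15.SLRoot3

set_option autoImplicit false

namespace Cfsg.Agent.Helper15

open scoped MatrixGroups

/-- The family of all transvection groups `T(u, φ)`. -/
def tvFam (k : Type*) [Field k] (n : ℕ) :
    Set (Subgroup (Matrix.SpecialLinearGroup (Fin (n + 3)) k)) :=
  {A | ∃ u φ : Fin (n + 3) → k, u ≠ 0 ∧ φ ≠ 0 ∧ φ ⬝ᵥ u = 0 ∧ A = tvGrp u φ}

theorem pi_single_ne_zero {k : Type*} [Field k] {N : ℕ} (i : Fin N) :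
    (Pi.single i 1 : Fin N → k) ≠ 0 := by
  intro h
  have h1 := congrFun h i
  rw [Pi.single_eq_same, Pi.zero_apply] at h1
  exact one_ne_zero h1

theorem pi_single_dot {k : Type*} [Field k] {N : ℕ} (i j : Fin N) (hij : i ≠ j) :
    (Pi.single j 1 : Fin N → k) ⬝ᵥ (Pi.single i 1 : Fin N → k) = 0 := by
  rw [dotProduct_single_one, Pi.single_eq_of_ne hij]

theorem pi_single_dot_self {k : Type*} [Field k] {N : ℕ} (i : Fin N) :
    (Pi.single i 1 : Fin N → k) ⬝ᵥ (Pi.single i 1 : Fin N → k) = 1 := by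
  rw [dotProduct_single_one, Pi.single_eq_same]

theorem tv_transitive {k : Type*} [Field k] (n : ℕ) (u φ : Fin (n + 3) → k) (hu : u ≠ 0)
    (hφ : φ ≠ 0) (hφu : φ ⬝ᵥ u = 0) :
    ∃ H : Matrix.SpecialLinearGroup (Fin (n + 3)) k,
      (H : Matrix (Fin (n + 3)) (Fin (n + 3)) k).mulVec (Pi.single 0 1) = u ∧
      Matrix.vecMul φ (H : Matrix (Fin (n + 3)) (Fin (n + 3)) k) = Pi.single 1 1 := by
  classical
  have h01 := fin_zero_ne_one n
  obtain ⟨l, hl⟩ : ∃ l : Fin (n + 3), l = Fin.last (n + 2) := ⟨_, rfl⟩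
  have hl0 : l ≠ 0 := by
    intro h
    have h1 := congrArg Fin.val h
    rw [hl] at h1
    simp at h1
  have hl1 : l ≠ 1 := by
    intro h
    have h1 := congrArg Fin.val h
    rw [hl] at h1
    simp at h1
  have h10 : (Pi.single 1 1 : Fin (n + 3) → k) ⬝ᵥ (Pi.single 0 1 : Fin (n + 3) → k) = 0 :=
    pi_single_dot 0 1 h01
  obtain ⟨g, hg1, hg2⟩ := exists_gl_pair (Pi.single 0 1 : Fin (n + 3) → k) (Pi.single 1 1) u φ
    (pi_single_ne_zero 0) (pi_single_ne_zero 1) h10 hu hφ hφu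
  have hdet0 : (g : Matrix (Fin (n + 3)) (Fin (n + 3)) k).det ≠ 0 :=
    ((Matrix.isUnit_iff_isUnit_det _).1 g.isUnit).ne_zero
  obtain ⟨d, hd⟩ : ∃ d : Fin (n + 3) → k, d = fun i =>
      if i = l then ((g : Matrix (Fin (n + 3)) (Fin (n + 3)) k).det)⁻¹ else 1 := ⟨_, rfl⟩
  have hd0 : d 0 = 1 := by rw [hd]; exact if_neg (Ne.symm hl0)
  have hd1 : d 1 = 1 := by rw [hd]; exact if_neg (Ne.symm hl1)
  have hdetd : (Matrix.diagonal d).det = ((g : Matrix (Fin (n + 3)) (Fin (n + 3)) k).det)⁻¹ := by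
    rw [Matrix.det_diagonal, Finset.prod_eq_single l]
    · rw [hd]
      exact if_pos rfl
    · intro i _ hi
      rw [hd]
      exact if_neg hi
    · intro h
      exact absurd (Finset.mem_univ _) h
  have hdetH : ((g : Matrix (Fin (n + 3)) (Fin (n + 3)) k) * Matrix.diagonal d).det = 1 := by
    rw [Matrix.det_mul, hdetd, mul_inv_cancel₀ hdet0]
  have hvd : Matrix.vecMul (Pi.single 1 1 : Fin (n + 3) → k) (Matrix.diagonal d)
      = Pi.single 1 1 := by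
    funext x
    rw [Matrix.vecMul_diagonal]
    by_cases hx : x = 1
    · rw [hx, hd1, mul_one]
    · rw [Pi.single_eq_of_ne hx, zero_mul]
  have hdv : (Matrix.diagonal d).mulVec (Pi.single 0 1 : Fin (n + 3) → k) = Pi.single 0 1 := by
    funext x
    rw [Matrix.mulVec_diagonal]
    by_cases hx : x = 0
    · rw [hx, hd0, one_mul]
    · rw [Pi.single_eq_of_ne hx, mul_zero]
  obtain ⟨H, hH⟩ : ∃ H : Matrix.SpecialLinearGroup (Fin (n + 3)) k,
      (H : Matrix (Fin (n + 3)) (Fin (n + 3)) k)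
        = (g : Matrix (Fin (n + 3)) (Fin (n + 3)) k) * Matrix.diagonal d :=
    ⟨⟨_, hdetH⟩, rfl⟩
  refine ⟨H, ?_, ?_⟩
  · rw [hH, ← Matrix.mulVec_mulVec, hdv, hg1]
  · rw [hH, ← Matrix.vecMul_vecMul, hg2, hvd]

theorem tvFam_conj {k : Type*} [Field k] (n : ℕ) (u φ : Fin (n + 3) → k) (hu : u ≠ 0)
    (hφ : φ ≠ 0) (hφu : φ ⬝ᵥ u = 0) (g : Matrix.SpecialLinearGroup (Fin (n + 3)) k) :
    Cfsg.conjBy (tvGrp u φ) g ∈ tvFam k n := by
  refine ⟨_, _, sl_mulVec_ne_zero g u hu, sl_vecMul_ne_zero g⁻¹ φ hφ, ?_, tvGrp_conj u φ g⟩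
  rw [← Matrix.dotProduct_mulVec, Matrix.mulVec_mulVec, sl_coe_inv_mul, Matrix.one_mulVec]
  exact hφu

theorem base_set_eq {k : Type*} [Field k] (n : ℕ) :
    {t : Matrix.SpecialLinearGroup (Fin (n + 3)) k |
        ∃ c : k, (t : Matrix (Fin (n + 3)) (Fin (n + 3)) k) = Matrix.transvection 0 1 c}
      = tvSet (Pi.single 0 1) (Pi.single 1 1) := by
  ext t
  constructor
  · rintro ⟨c, hc⟩
    refine ⟨c, ?_⟩
    rw [hc, transvection_def', single_eq_vecMulVec, Matrix.smul_vecMulVec]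
  · rintro ⟨c, hc⟩
    refine ⟨c, ?_⟩
    rw [hc, transvection_def', single_eq_vecMulVec, Matrix.smul_vecMulVec]

theorem fam_eq {k : Type*} [Field k] (n : ℕ) :
    {A : Subgroup (Matrix.SpecialLinearGroup (Fin (n + 3)) k) |
        ∃ g : Matrix.SpecialLinearGroup (Fin (n + 3)) k,
          A = Cfsg.conjBy (Subgroup.closure {t : Matrix.SpecialLinearGroup (Fin (n + 3)) k |
            ∃ c : k, (t : Matrix (Fin (n + 3)) (Fin (n + 3)) k) = Matrix.transvection 0 1 c}) g}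
      = tvFam k n := by
  rw [base_set_eq]
  ext A
  constructor
  · rintro ⟨g, rfl⟩
    exact tvFam_conj n _ _ (pi_single_ne_zero 0) (pi_single_ne_zero 1)
      (pi_single_dot 0 1 (fin_zero_ne_one n)) g
  · rintro ⟨u, φ, hu, hφ, h, rfl⟩
    obtain ⟨H, hH1, hH2⟩ := tv_transitive n u φ hu hφ h
    refine ⟨H, ?_⟩
    rw [show Subgroup.closure (tvSet (Pi.single 0 1 : Fin (n + 3) → k) (Pi.single 1 1))
      = tvGrp (Pi.single 0 1) (Pi.single 1 1) from rfl, tvGrp_conj, hH1, ← hH2,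
      Matrix.vecMul_vecMul, sl_coe_mul_inv, Matrix.vecMul_one]

theorem conjBy_conjBy {G : Type*} [Group G] (A : Subgroup G) (g h : G) :
    Cfsg.conjBy (Cfsg.conjBy A g) h = Cfsg.conjBy A (h * g) := by
  show (A.map (MulAut.conj g).toMonoidHom).map (MulAut.conj h).toMonoidHom
    = A.map (MulAut.conj (h * g)).toMonoidHom
  rw [Subgroup.map_map]
  congr 1
  ext x
  simp [mul_assoc]

theorem conjBy_one' {G : Type*} [Group G] (A : Subgroup G) : Cfsg.conjBy A 1 = A := by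
  show A.map (MulAut.conj 1).toMonoidHom = A
  ext x
  simp

theorem conj_class_general {G : Type*} [Group G] (A₀ : Subgroup G) :
    Cfsg.IsConjClassOfSubgroups {A : Subgroup G | ∃ g : G, A = Cfsg.conjBy A₀ g} := by
  refine ⟨⟨A₀, 1, (conjBy_one' A₀).symm⟩, ?_⟩
  rintro A ⟨g₁, rfl⟩ B ⟨g₂, rfl⟩
  refine ⟨g₂ * g₁⁻¹, ?_⟩
  rw [conjBy_conjBy, inv_mul_cancel_right]

theorem tvFam_generates {k : Type*} [Field k] (n : ℕ) : (⨆ A ∈ tvFam k n, A) = ⊤ := by
  classical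
  rw [eq_top_iff]
  intro g _
  refine Cfsg.Agent.Helper2.transvection_induction
    (fun g => g ∈ (⨆ A ∈ tvFam k n, A)) ?_ (fun _ _ => mul_mem) g
  intro i j hij c
  have hmem : tvGrp (Pi.single i 1 : Fin (n + 3) → k) (Pi.single j 1) ∈ tvFam k n :=
    ⟨_, _, pi_single_ne_zero i, pi_single_ne_zero j, pi_single_dot i j hij, rfl⟩
  have hle : tvGrp (Pi.single i 1 : Fin (n + 3) → k) (Pi.single j 1) ≤ ⨆ A ∈ tvFam k n, A :=
    le_biSup (fun A => A) hmem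
  apply hle
  apply Subgroup.subset_closure
  refine ⟨c, ?_⟩
  rw [Matrix.SpecialLinearGroup.transvection_coe, single_eq_vecMulVec, Matrix.smul_vecMulVec]

theorem tvFam_rootSet {k : Type*} [Field k] (n : ℕ) : Cfsg.IsRootSubgroupSet (tvFam k n) := by
  refine ⟨?_, ?_, tvFam_generates n, ?_, ?_⟩
  · rintro A ⟨u, φ, hu, hφ, h, rfl⟩
    exact tvGrp_isMulCommutative u φ h
  · rintro A ⟨u, φ, hu, hφ, h, rfl⟩
    exact tvGrp_ne_bot u φ h hu hφ
  · rintro A ⟨u, φ, hu, hφ, h, rfl⟩ g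
    exact tvFam_conj n u φ hu hφ h g
  · rintro A ⟨u, φ, hu, hφ, h1, rfl⟩ B ⟨v, ψ, hv, hψ, h2, rfl⟩
    by_cases t1 : φ ⬝ᵥ v = 0
    · by_cases t2 : ψ ⬝ᵥ u = 0
      · left
        exact tvGrp_comm_bot u φ v ψ h1 h2 t1 t2
      · right; right
        exact tv_comm_case2 _ u φ v ψ h1 h2 t1 t2 ⟨v, φ, hv, hφ, t1, rfl⟩
    · by_cases t2 : ψ ⬝ᵥ u = 0
      · right; right
        exact tv_comm_case1 _ u φ v ψ h1 h2 t1 t2 ⟨u, ψ, hu, hψ, t2, rfl⟩
      · right; left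
        exact tv_rank_one_pair u φ v ψ hu hφ hv hψ h1 h2 t1 t2

theorem tvFam_kroot {k : Type*} [Field k] (n : ℕ) : Cfsg.IsKRootSubgroupSet k (tvFam k n) := by
  refine ⟨tvFam_rootSet n, ?_⟩
  rintro A ⟨u, φ, hu, hφ, h1, rfl⟩ B ⟨v, ψ, hv, hψ, h2, rfl⟩ hp
  obtain ⟨t1, t2⟩ := tv_rank_one_imp u φ v ψ hu hφ hv hψ h1 h2 hp
  exact tv_psl2 u φ v ψ h1 h2 t1 t2

theorem avoid_two {k : Type*} [Field k] {V : Type*} [Add V] (f g : V → k)
    (hf : ∀ x y, f (x + y) = f x + f y) (hg : ∀ x y, g (x + y) = g x + g y) (x₁ x₂ : V)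
    (h1 : f x₁ ≠ 0) (h2 : g x₂ ≠ 0) : ∃ x, (x = x₁ ∨ x = x₂ ∨ x = x₁ + x₂) ∧ f x ≠ 0 ∧ g x ≠ 0 := by
  by_cases h3 : g x₁ = 0
  · by_cases h4 : f x₂ = 0
    · refine ⟨x₁ + x₂, Or.inr (Or.inr rfl), ?_, ?_⟩
      · rw [hf, h4, add_zero]
        exact h1
      · rw [hg, h3, zero_add]
        exact h2
    · exact ⟨x₂, Or.inr (Or.inl rfl), h4, h2⟩
  · exact ⟨x₁, Or.inl rfl, h1, h3⟩

theorem exists_nonzero_both {k : Type*} [Field k] {N : ℕ} (φ ψ : Fin N → k) (hφ : φ ≠ 0)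
    (hψ : ψ ≠ 0) : ∃ w : Fin N → k, φ ⬝ᵥ w ≠ 0 ∧ ψ ⬝ᵥ w ≠ 0 := by
  classical
  obtain ⟨i, hi⟩ : ∃ i, φ i ≠ 0 := by
    by_contra hcon
    push Not at hcon
    exact hφ (funext hcon)
  obtain ⟨j, hj⟩ : ∃ j, ψ j ≠ 0 := by
    by_contra hcon
    push Not at hcon
    exact hψ (funext hcon)
  obtain ⟨w, -, hw1, hw2⟩ := avoid_two (fun x : Fin N → k => φ ⬝ᵥ x) (fun x => ψ ⬝ᵥ x)
    (fun x y => dotProduct_add _ _ _) (fun x y => dotProduct_add _ _ _)
    (Pi.single i 1) (Pi.single j 1)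
    (by rw [dotProduct_single_one]; exact hi) (by rw [dotProduct_single_one]; exact hj)
  exact ⟨w, hw1, hw2⟩

theorem exists_sep {k : Type*} [Field k] {N : ℕ} (u w φ : Fin N → k) (hu : u ≠ 0)
    (h : φ ⬝ᵥ u = 0) (hw : φ ⬝ᵥ w ≠ 0) : ∃ χ : Fin N → k, χ ⬝ᵥ w = 0 ∧ χ ⬝ᵥ u ≠ 0 := by
  classical
  by_contra hcon
  push Not at hcon
  apply hu
  funext i
  have key : ∀ j, u i * w j = u j * w i := by
    intro j
    have h1 := hcon (w j • Pi.single i 1 - w i • Pi.single j 1) (by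
      rw [sub_dotProduct, smul_dotProduct, smul_dotProduct, single_one_dotProduct,
        single_one_dotProduct, smul_eq_mul, smul_eq_mul]
      ring)
    rw [sub_dotProduct, smul_dotProduct, smul_dotProduct, single_one_dotProduct,
      single_one_dotProduct, smul_eq_mul, smul_eq_mul] at h1
    linear_combination h1
  have h2 : u i * (φ ⬝ᵥ w) = 0 := by
    calc u i * (φ ⬝ᵥ w) = ∑ j, φ j * (u i * w j) := by
          rw [dotProduct, Finset.mul_sum]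
          exact Finset.sum_congr rfl (fun j _ => by ring)
      _ = ∑ j, φ j * (u j * w i) := Finset.sum_congr rfl (fun j _ => by rw [key j])
      _ = (φ ⬝ᵥ u) * w i := by
          rw [dotProduct, Finset.sum_mul]
          exact Finset.sum_congr rfl (fun j _ => by ring)
      _ = 0 := by rw [h, zero_mul]
  rcases mul_eq_zero.1 h2 with h3 | h3
  · exact h3
  · exact absurd h3 hw

theorem tvFam_connected {k : Type*} [Field k] (n : ℕ) :
    Cfsg.IsConnectedFamily (Cfsg.FAdj (tvFam k n)) (tvFam k n) := by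
  rintro A ⟨u, φ, hu, hφ, h1, rfl⟩ B ⟨v, ψ, hv, hψ, h2, rfl⟩
  obtain ⟨w, hw1, hw2⟩ := exists_nonzero_both φ ψ hφ hψ
  obtain ⟨χ₁, hχ₁w, hχ₁u⟩ := exists_sep u w φ hu h1 hw1
  obtain ⟨χ₂, hχ₂w, hχ₂v⟩ := exists_sep v w ψ hv h2 hw2
  obtain ⟨χ, hχ, hχu, hχv⟩ := avoid_two (fun x : Fin (n + 3) → k => x ⬝ᵥ u) (fun x => x ⬝ᵥ v)
    (fun x y => add_dotProduct _ _ _) (fun x y => add_dotProduct _ _ _) χ₁ χ₂ hχ₁u hχ₂v
  have hχw : χ ⬝ᵥ w = 0 := by
    rcases hχ with rfl | rfl | rfl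
    · exact hχ₁w
    · exact hχ₂w
    · rw [add_dotProduct, hχ₁w, hχ₂w, add_zero]
  have hw0 : w ≠ 0 := by
    rintro rfl
    exact hw1 (dotProduct_zero _)
  have hχ0 : χ ≠ 0 := by
    rintro rfl
    exact hχu (zero_dotProduct _)
  have hC : tvGrp w χ ∈ tvFam k n := ⟨w, χ, hw0, hχ0, hχw, rfl⟩
  exact Relation.ReflTransGen.head
    ⟨⟨u, φ, hu, hφ, h1, rfl⟩, hC, tv_rank_one_pair u φ w χ hu hφ hw0 hχ0 h1 hχw hw1 hχu⟩
    (Relation.ReflTransGen.single
      ⟨hC, ⟨v, ψ, hv, hψ, h2, rfl⟩, tv_rank_one_pair w χ v ψ hw0 hχ0 hv hψ hχw h2 hχv hw2⟩)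

theorem fin_ne_02 (n : ℕ) : (0 : Fin (n + 3)) ≠ 2 := by
  intro h
  have h1 := congrArg Fin.val h
  have h2 : ((2 : Fin (n + 3)) : ℕ) = 2 := Fin.val_two
  rw [h2] at h1
  simp at h1

theorem fin_ne_12 (n : ℕ) : (1 : Fin (n + 3)) ≠ 2 := by
  intro h
  have h1 := congrArg Fin.val h
  have h2 : ((2 : Fin (n + 3)) : ℕ) = 2 := Fin.val_two
  have h3 : ((1 : Fin (n + 3)) : ℕ) = 1 := Fin.val_one (n + 1)
  rw [h2, h3] at h1
  omega

theorem tvFam_nondeg {k : Type*} [Field k] (n : ℕ) : Cfsg.IsNondegenerateRootSet (tvFam k n) := by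
  classical
  have h01 := fin_zero_ne_one n
  have h02 := fin_ne_02 n
  have h12 := fin_ne_12 n
  have hmem : ∀ i j : Fin (n + 3), i ≠ j →
      tvGrp (Pi.single i 1 : Fin (n + 3) → k) (Pi.single j 1) ∈ tvFam k n := fun i j hij =>
    ⟨_, _, pi_single_ne_zero i, pi_single_ne_zero j, pi_single_dot i j hij, rfl⟩
  refine ⟨?_, ?_, ?_⟩
  · refine ⟨_, hmem 0 1 h01, _, hmem 2 1 h12.symm, ?_, ?_⟩
    · intro heq
      obtain ⟨l, hl⟩ := tvGrp_eq_prop _ _ _ _ (pi_single_dot 0 1 h01) (pi_single_dot 2 1 h12.symm)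
        (pi_single_ne_zero 1) heq
      have h3 := congrFun hl 2
      rw [Pi.single_eq_same, Pi.smul_apply, Pi.single_eq_of_ne h02.symm, smul_zero] at h3
      exact one_ne_zero h3
    · exact tvGrp_comm_bot _ _ _ _ (pi_single_dot 0 1 h01) (pi_single_dot 2 1 h12.symm)
        (pi_single_dot 2 1 h12.symm) (pi_single_dot 0 1 h01)
  · exact ⟨_, hmem 0 1 h01, _, hmem 1 0 h01.symm,
      tv_rank_one_pair _ _ _ _ (pi_single_ne_zero 0) (pi_single_ne_zero 1) (pi_single_ne_zero 1)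
        (pi_single_ne_zero 0) (pi_single_dot 0 1 h01) (pi_single_dot 1 0 h01.symm)
        (by rw [pi_single_dot_self]; exact one_ne_zero)
        (by rw [pi_single_dot_self]; exact one_ne_zero)⟩
  · exact ⟨_, hmem 0 1 h01, _, hmem 1 2 h12,
      tv_comm_case1 _ _ _ _ _ (pi_single_dot 0 1 h01) (pi_single_dot 1 2 h12)
        (by rw [pi_single_dot_self]; exact one_ne_zero) (pi_single_dot 0 2 h02) (hmem 0 2 h02)⟩

theorem sl_root_subgroup_class (k : Type*) [Field k] (n : ℕ) :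
    Cfsg.IsRootSubgroupClass {A : Subgroup (Matrix.SpecialLinearGroup (Fin (n + 3)) k) |
        ∃ g : Matrix.SpecialLinearGroup (Fin (n + 3)) k,
          A = Cfsg.conjBy (Subgroup.closure {t : Matrix.SpecialLinearGroup (Fin (n + 3)) k |
            ∃ c : k, (t : Matrix (Fin (n + 3)) (Fin (n + 3)) k) = Matrix.transvection 0 1 c}) g} ∧
    Cfsg.IsNondegenerateRootSet {A : Subgroup (Matrix.SpecialLinearGroup (Fin (n + 3)) k) |
        ∃ g : Matrix.SpecialLinearGroup (Fin (n + 3)) k,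
          A = Cfsg.conjBy (Subgroup.closure {t : Matrix.SpecialLinearGroup (Fin (n + 3)) k |
            ∃ c : k, (t : Matrix (Fin (n + 3)) (Fin (n + 3)) k) = Matrix.transvection 0 1 c}) g} ∧
    Cfsg.IsKRootSubgroupSet k {A : Subgroup (Matrix.SpecialLinearGroup (Fin (n + 3)) k) |
        ∃ g : Matrix.SpecialLinearGroup (Fin (n + 3)) k,
          A = Cfsg.conjBy (Subgroup.closure {t : Matrix.SpecialLinearGroup (Fin (n + 3)) k |
            ∃ c : k, (t : Matrix (Fin (n + 3)) (Fin (n + 3)) k) = Matrix.transvection 0 1 c}) g} ∧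
    Cfsg.IsConnectedFamily (Cfsg.FAdj {A : Subgroup (Matrix.SpecialLinearGroup (Fin (n + 3)) k) |
        ∃ g : Matrix.SpecialLinearGroup (Fin (n + 3)) k,
          A = Cfsg.conjBy (Subgroup.closure {t : Matrix.SpecialLinearGroup (Fin (n + 3)) k |
            ∃ c : k, (t : Matrix (Fin (n + 3)) (Fin (n + 3)) k) = Matrix.transvection 0 1 c}) g})
      {A : Subgroup (Matrix.SpecialLinearGroup (Fin (n + 3)) k) |
        ∃ g : Matrix.SpecialLinearGroup (Fin (n + 3)) k,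
          A = Cfsg.conjBy (Subgroup.closure {t : Matrix.SpecialLinearGroup (Fin (n + 3)) k |
            ∃ c : k, (t : Matrix (Fin (n + 3)) (Fin (n + 3)) k) = Matrix.transvection 0 1 c}) g} := by
  have hconj := conj_class_general (Subgroup.closure {t : Matrix.SpecialLinearGroup (Fin (n + 3)) k |
      ∃ c : k, (t : Matrix (Fin (n + 3)) (Fin (n + 3)) k) = Matrix.transvection 0 1 c})
  rw [fam_eq] at hconj ⊢
  exact ⟨⟨tvFam_rootSet n, hconj⟩, tvFam_nondeg n, tvFam_kroot n, tvFam_connected n⟩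

end Cfsg.Agent.Helper15
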