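import Mathlib
import Cfsg.Prelude.Def_RootSubgroups
import Cfsg.Agent.Helper15.SLRoot4

set_option autoImplicit false

namespace Cfsg.Agent.Helper15

open scoped MatrixGroups
open scoped commutatorElement

variable {G : Type*} [Group G]

theorem conjBy_subgroupOf (H A : Subgroup G) (g : ↥H) :
    Cfsg.conjBy (A.subgroupOf H) g = (Cfsg.conjBy A (g : G)).subgroupOf H := by
  ext x
  rw [Subgroup.mem_subgroupOf]
  constructor
  · rintro ⟨y, hy, rfl⟩
    exact ⟨(y : G), Subgroup.mem_subgroupOf.1 hy, rfl⟩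
  · rintro ⟨a, ha, hax⟩
    have hax' : (g : G) * a * (g : G)⁻¹ = x := hax
    have ha' : a = (g : G)⁻¹ * x * g := by
      rw [← hax']
      group
    have haH : a ∈ H := by
      rw [ha']
      exact H.mul_mem (H.mul_mem (H.inv_mem g.2) x.2) g.2
    refine ⟨⟨a, haH⟩, Subgroup.mem_subgroupOf.2 ha, ?_⟩
    apply Subtype.ext
    exact hax

theorem subgroupOf_inj_of_le {H A B : Subgroup G} (hA : A ≤ H) (hB : B ≤ H)
    (h : A.subgroupOf H = B.subgroupOf H) : A = B := by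
  apply le_antisymm
  · intro a ha
    have h1 : (⟨a, hA ha⟩ : ↥H) ∈ A.subgroupOf H := Subgroup.mem_subgroupOf.2 ha
    rw [h] at h1
    exact Subgroup.mem_subgroupOf.1 h1
  · intro a ha
    have h1 : (⟨a, hB ha⟩ : ↥H) ∈ B.subgroupOf H := Subgroup.mem_subgroupOf.2 ha
    rw [← h] at h1
    exact Subgroup.mem_subgroupOf.1 h1

theorem bot_of_subgroupOf_bot {H A : Subgroup G} (hA : A ≤ H) (h : A.subgroupOf H = ⊥) :
    A = ⊥ := by
  rw [Subgroup.eq_bot_iff_forall]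
  intro a ha
  have h1 : (⟨a, hA ha⟩ : ↥H) ∈ A.subgroupOf H := Subgroup.mem_subgroupOf.2 ha
  rw [h, Subgroup.mem_bot] at h1
  exact congrArg Subtype.val h1

theorem exists_ne_one_of_ne_bot {A : Subgroup G} (hA : A ≠ ⊥) : ∃ a ∈ A, a ≠ 1 := by
  by_contra hcon
  push Not at hcon
  exact hA ((Subgroup.eq_bot_iff_forall A).2 hcon)

theorem rankOneCond_subgroupOf {H A B : Subgroup G} (hB : B ≤ H)
    (h : Cfsg.RankOneCondition A B) :
    Cfsg.RankOneCondition (A.subgroupOf H) (B.subgroupOf H) := by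
  intro a ha ha1
  obtain ⟨b, hb, hb1, hconj⟩ := h (a : G) (Subgroup.mem_subgroupOf.1 ha)
    (fun h1 => ha1 (Subtype.ext h1))
  refine ⟨⟨b, hB hb⟩, Subgroup.mem_subgroupOf.2 hb, fun h1 => hb1 (congrArg Subtype.val h1), ?_⟩
  rw [conjBy_subgroupOf, conjBy_subgroupOf]
  show (Cfsg.conjBy A (b⁻¹ : G)).subgroupOf H = (Cfsg.conjBy B ((a : G)⁻¹)).subgroupOf H
  rw [hconj]

theorem isMulComm_subgroupOf {H A : Subgroup G} (hA : ∀ a ∈ A, ∀ b ∈ A, a * b = b * a) :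
    IsMulCommutative (A.subgroupOf H) := by
  refine ⟨⟨?_⟩⟩
  rintro ⟨a, ha⟩ ⟨b, hb⟩
  apply Subtype.ext
  apply Subtype.ext
  exact hA a.1 (Subgroup.mem_subgroupOf.1 ha) b.1 (Subgroup.mem_subgroupOf.1 hb)

theorem nilpotent_of_comm (A : Subgroup G) (h : IsMulCommutative A) : Group.IsNilpotent A :=
  ⟨⟨1, Subgroup.upperCentralSeries_one_eq_top_iff.2 h⟩⟩

theorem rankOne_subgroupOf {H A B : Subgroup G} (hA : A ≤ H) (hB : B ≤ H)
    (hAc : ∀ a ∈ A, ∀ b ∈ A, a * b = b * a) (hBc : ∀ a ∈ B, ∀ b ∈ B, a * b = b * a)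
    (h : Cfsg.IsRankOnePair A B) :
    Cfsg.IsRankOnePair (A.subgroupOf H) (B.subgroupOf H) :=
  ⟨fun heq => h.ne (subgroupOf_inj_of_le hA hB heq),
    nilpotent_of_comm _ (isMulComm_subgroupOf hAc), nilpotent_of_comm _ (isMulComm_subgroupOf hBc),
    rankOneCond_subgroupOf hB h.cond_left, rankOneCond_subgroupOf hA h.cond_right⟩

theorem generates_subgroupOf (S : Set (Subgroup G)) (H : Subgroup G) (hH : H = ⨆ B ∈ S, B) :
    (⨆ A' ∈ (fun A : Subgroup G => A.subgroupOf H) '' S, A') = ⊤ := by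
  have hle : ∀ A ∈ S, A ≤ H := fun A hA => by
    rw [hH]
    exact le_biSup (fun A => A) hA
  have hle2 : H ≤ (⨆ A' ∈ (fun A : Subgroup G => A.subgroupOf H) '' S, A').map H.subtype := by
    rw [hH]
    refine iSup₂_le ?_
    intro A hA
    rw [← hH]
    have h1 : A.subgroupOf H ≤ ⨆ A' ∈ (fun A : Subgroup G => A.subgroupOf H) '' S, A' :=
      le_biSup (fun A' => A') (Set.mem_image_of_mem _ hA)
    intro a ha
    exact ⟨⟨a, hle A hA ha⟩, h1 (Subgroup.mem_subgroupOf.2 ha), rfl⟩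
  rw [eq_top_iff]
  rintro ⟨x, hx⟩ -
  obtain ⟨y, hy, hyx⟩ := hle2 hx
  have hyx' : y = ⟨x, hx⟩ := Subtype.ext hyx
  rw [← hyx']
  exact hy

theorem comm_bot_subgroupOf {H A B : Subgroup G} (h : ∀ a ∈ A, ∀ b ∈ B, a * b = b * a) :
    ⁅A.subgroupOf H, B.subgroupOf H⁆ = ⊥ := by
  rw [Subgroup.commutator_eq_bot_iff_le_centralizer]
  intro a ha
  rw [Subgroup.mem_centralizer_iff]
  intro b hb
  apply Subtype.ext
  exact (h a.1 (Subgroup.mem_subgroupOf.1 ha) b.1 (Subgroup.mem_subgroupOf.1 hb)).symm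

theorem rootSet_subgroupOf (S : Set (Subgroup G)) (H : Subgroup G) (hH : H = ⨆ B ∈ S, B)
    (hcomm : ∀ A ∈ S, ∀ a ∈ A, ∀ b ∈ A, a * b = b * a)
    (hne : ∀ A ∈ S, A ≠ ⊥)
    (hconj : ∀ A ∈ S, ∀ g : G, Cfsg.conjBy A g ∈ S)
    (hpair : ∀ A ∈ S, ∀ B ∈ S, (∀ a ∈ A, ∀ b ∈ B, a * b = b * a) ∨ Cfsg.IsRankOnePair A B) :
    Cfsg.IsRootSubgroupSet ((fun A : Subgroup G => A.subgroupOf H) '' S) := by
  have hle : ∀ A ∈ S, A ≤ H := fun A hA => by
    rw [hH]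
    exact le_biSup (fun A => A) hA
  refine ⟨?_, ?_, generates_subgroupOf S H hH, ?_, ?_⟩
  · rintro _ ⟨A, hA, rfl⟩
    exact isMulComm_subgroupOf (hcomm A hA)
  · rintro _ ⟨A, hA, rfl⟩ hbot
    exact hne A hA (bot_of_subgroupOf_bot (hle A hA) hbot)
  · rintro _ ⟨A, hA, rfl⟩ g
    exact ⟨Cfsg.conjBy A (g : G), hconj A hA g, (conjBy_subgroupOf H A g).symm⟩
  · rintro _ ⟨A, hA, rfl⟩ _ ⟨B, hB, rfl⟩
    rcases hpair A hA B hB with h | h
    · left
      exact comm_bot_subgroupOf h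
    · right; left
      exact rankOne_subgroupOf (hle A hA) (hle B hB) (hcomm A hA) (hcomm B hB) h

theorem degenerate_subgroupOf (S : Set (Subgroup G)) (H : Subgroup G) (hH : H = ⨆ B ∈ S, B)
    (hne : ∀ A ∈ S, A ≠ ⊥)
    (hpair : ∀ A ∈ S, ∀ B ∈ S, (∀ a ∈ A, ∀ b ∈ B, a * b = b * a) ∨
      (∃ a ∈ A, ∃ b ∈ B, (a * b * a⁻¹ * b⁻¹) * a ≠ a * (a * b * a⁻¹ * b⁻¹))) :
    Cfsg.IsDegenerateRootSet ((fun A : Subgroup G => A.subgroupOf H) '' S) := by
  have hle : ∀ A ∈ S, A ≤ H := fun A hA => by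
    rw [hH]
    exact le_biSup (fun A => A) hA
  rintro _ ⟨A, hA, rfl⟩ _ ⟨B, hB, rfl⟩ ⟨hmem, hcent, -, -⟩
  rcases hpair A hA B hB with h | ⟨a, ha, b, hb, hab⟩
  · rw [comm_bot_subgroupOf h] at hmem
    obtain ⟨C, hC, hCbot⟩ := hmem
    exact hne C hC (bot_of_subgroupOf_bot (hle C hC) hCbot)
  · apply hab
    have h1 := hcent ⁅(⟨a, hle A hA ha⟩ : ↥H), ⟨b, hle B hB hb⟩⁆
      (Subgroup.commutator_mem_commutator (Subgroup.mem_subgroupOf.2 ha)
        (Subgroup.mem_subgroupOf.2 hb)) ⟨a, hle A hA ha⟩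
      (Subgroup.mem_sup_left (Subgroup.mem_subgroupOf.2 ha))
    exact congrArg Subtype.val h1

theorem conjBy_of_commute (A : Subgroup G) (g : G) (h : ∀ a ∈ A, g * a = a * g) :
    Cfsg.conjBy A g = A := by
  ext x
  constructor
  · rintro ⟨y, hy, rfl⟩
    show g * y * g⁻¹ ∈ A
    rw [h y hy, mul_inv_cancel_right]
    exact hy
  · intro hx
    refine ⟨x, hx, ?_⟩
    show g * x * g⁻¹ = x
    rw [h x hx, mul_inv_cancel_right]

theorem kroot_subgroupOf (L : Type*) [Field L] (S : Set (Subgroup G)) (H : Subgroup G)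
    (hH : H = ⨆ B ∈ S, B)
    (hroot : Cfsg.IsRootSubgroupSet ((fun A : Subgroup G => A.subgroupOf H) '' S))
    (hne : ∀ A ∈ S, A ≠ ⊥)
    (hpair : ∀ A ∈ S, ∀ B ∈ S, (∀ a ∈ A, ∀ b ∈ B, a * b = b * a) ∨
      ∃ φ : Matrix.SpecialLinearGroup (Fin 2) L →* G,
        φ.ker ≤ Subgroup.center (Matrix.SpecialLinearGroup (Fin 2) L) ∧
        (Cfsg.upperUnipotentSL2 L).map φ = A ∧ (Cfsg.lowerUnipotentSL2 L).map φ = B) :
    Cfsg.IsKRootSubgroupSet L ((fun A : Subgroup G => A.subgroupOf H) '' S) := by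
  have hle : ∀ A ∈ S, A ≤ H := fun A hA => by
    rw [hH]
    exact le_biSup (fun A => A) hA
  refine ⟨hroot, ?_⟩
  rintro _ ⟨A, hA, rfl⟩ _ ⟨B, hB, rfl⟩ hp
  rcases hpair A hA B hB with h | ⟨φ, hker, hU, hL⟩
  · exfalso
    obtain ⟨a, ha, ha1⟩ := exists_ne_one_of_ne_bot (hne A hA)
    obtain ⟨b, hb, hb1, hconj⟩ := hp.cond_left ⟨a, hle A hA ha⟩ (Subgroup.mem_subgroupOf.2 ha)
      (fun h1 => ha1 (congrArg Subtype.val h1))
    apply hp.ne
    have e1 : Cfsg.conjBy (A.subgroupOf H) b⁻¹ = A.subgroupOf H := by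
      apply conjBy_of_commute
      intro x hx
      have h2 : Commute b x := by
        apply Subtype.ext
        exact (h x.1 (Subgroup.mem_subgroupOf.1 hx) b.1 (Subgroup.mem_subgroupOf.1 hb)).symm
      exact h2.inv_left.eq
    have e2 : Cfsg.conjBy (B.subgroupOf H) (⟨a, hle A hA ha⟩ : ↥H)⁻¹ = B.subgroupOf H := by
      apply conjBy_of_commute
      intro x hx
      have h2 : Commute (⟨a, hle A hA ha⟩ : ↥H) x := by
        apply Subtype.ext
        exact h a ha x.1 (Subgroup.mem_subgroupOf.1 hx)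
      exact h2.inv_left.eq
    rw [e1, e2] at hconj
    exact hconj
  · have hrange : ∀ x, φ x ∈ H := by
      intro x
      have h1 : φ x ∈ (⊤ : Subgroup (Matrix.SpecialLinearGroup (Fin 2) L)).map φ :=
        ⟨x, Subgroup.mem_top x, rfl⟩
      rw [← sl2_upper_lower_top L, Subgroup.map_sup, hU, hL] at h1
      exact (sup_le (hle A hA) (hle B hB)) h1
    obtain ⟨φ', hφ'⟩ : ∃ φ' : Matrix.SpecialLinearGroup (Fin 2) L →* ↥H,
        ∀ x, ((φ' x : ↥H) : G) = φ x := ⟨φ.codRestrict H hrange, fun x => rfl⟩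
    have hU' : (Cfsg.upperUnipotentSL2 L).map φ' = A.subgroupOf H := by
      ext x
      rw [Subgroup.mem_subgroupOf, ← hU]
      constructor
      · rintro ⟨u, hu, rfl⟩
        exact ⟨u, hu, (hφ' u).symm⟩
      · rintro ⟨u, hu, hux⟩
        exact ⟨u, hu, Subtype.ext ((hφ' u).trans hux)⟩
    have hL' : (Cfsg.lowerUnipotentSL2 L).map φ' = B.subgroupOf H := by
      ext x
      rw [Subgroup.mem_subgroupOf, ← hL]
      constructor
      · rintro ⟨u, hu, rfl⟩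
        exact ⟨u, hu, (hφ' u).symm⟩
      · rintro ⟨u, hu, hux⟩
        exact ⟨u, hu, Subtype.ext ((hφ' u).trans hux)⟩
    refine ⟨φ', ?_, ?_, hU', hL'⟩
    · rw [MonoidHom.range_eq_map, ← sl2_upper_lower_top L, Subgroup.map_sup, hU', hL']
    · intro M hM
      apply hker
      rw [MonoidHom.mem_ker] at hM ⊢
      rw [← hφ', hM]
      rfl

theorem connected_subgroupOf (S : Set (Subgroup G)) (H : Subgroup G) (hH : H = ⨆ B ∈ S, B)
    (hcomm : ∀ A ∈ S, ∀ a ∈ A, ∀ b ∈ A, a * b = b * a)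
    (hconn : Cfsg.IsConnectedFamily (Cfsg.FAdj S) S) :
    Cfsg.IsConnectedFamily (Cfsg.FAdj ((fun A : Subgroup G => A.subgroupOf H) '' S))
      ((fun A : Subgroup G => A.subgroupOf H) '' S) := by
  have hle : ∀ A ∈ S, A ≤ H := fun A hA => by
    rw [hH]
    exact le_biSup (fun A => A) hA
  rintro _ ⟨A, hA, rfl⟩ _ ⟨B, hB, rfl⟩
  refine Relation.ReflTransGen.lift (fun A : Subgroup G => A.subgroupOf H) ?_ A B (hconn A hA B hB)
  rintro C D ⟨hC, hD, hCD⟩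
  exact ⟨Set.mem_image_of_mem _ hC, Set.mem_image_of_mem _ hD,
    rankOne_subgroupOf (hle C hC) (hle D hD) (hcomm C hC) (hcomm D hD) hCD⟩

theorem conj_of_rankOne {A B : Subgroup G} (hA : A ≠ ⊥) (h : Cfsg.IsRankOnePair A B) :
    ∃ g : G, B = Cfsg.conjBy A g := by
  obtain ⟨a, ha, ha1⟩ := exists_ne_one_of_ne_bot hA
  obtain ⟨b, hb, hb1, hconj⟩ := h.cond_left a ha ha1
  refine ⟨a * b⁻¹, ?_⟩
  rw [← conjBy_conjBy, hconj, conjBy_conjBy, mul_inv_cancel, conjBy_one']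

theorem conjClass_of_connected (S : Set (Subgroup G)) (hne : S.Nonempty)
    (hbot : ∀ A ∈ S, A ≠ ⊥) (hconn : Cfsg.IsConnectedFamily (Cfsg.FAdj S) S) :
    Cfsg.IsConjClassOfSubgroups S := by
  refine ⟨hne, fun A hA B hB => ?_⟩
  have key : ∀ B, Relation.ReflTransGen (Cfsg.FAdj S) A B → ∃ g : G, B = Cfsg.conjBy A g := by
    intro B h
    induction h with
    | refl => exact ⟨1, (conjBy_one' A).symm⟩
    | tail _ hbc ih =>
      obtain ⟨g, hg⟩ := ih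
      obtain ⟨hbS, -, hpair⟩ := hbc
      obtain ⟨g', hg'⟩ := conj_of_rankOne (hbot _ hbS) hpair
      exact ⟨g' * g, by rw [hg', hg, conjBy_conjBy]⟩
  exact key B (hconn A hA B hB)

end Cfsg.Agent.Helper15
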