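import Mathlib
import Cfsg.Prelude.Def_RootSubgroups
import Cfsg.Prelude.Def_ClassicalGeometry
import Cfsg.Agent.Helper6.Siegel
import Cfsg.Agent.Helper15.SURoot1

set_option autoImplicit false

namespace Cfsg.Agent.Helper15

variable {F : Type*} [Field F] {κ : Type} [Fintype κ] [DecidableEq κ]

/-- The polar form of a quadratic form. -/
def opf (Q : QuadraticForm F (κ → F)) (x y : κ → F) : F := QuadraticMap.polar (⇑Q) x y

theorem opf_add_left (Q : QuadraticForm F (κ → F)) (x y z : κ → F) :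
    opf Q (x + y) z = opf Q x z + opf Q y z := QuadraticMap.polar_add_left Q x y z

theorem opf_add_right (Q : QuadraticForm F (κ → F)) (x y z : κ → F) :
    opf Q x (y + z) = opf Q x y + opf Q x z := QuadraticMap.polar_add_right Q x y z

theorem opf_smul_left (Q : QuadraticForm F (κ → F)) (a : F) (x y : κ → F) :
    opf Q (a • x) y = a * opf Q x y := QuadraticMap.polar_smul_left Q a x y

theorem opf_smul_right (Q : QuadraticForm F (κ → F)) (a : F) (x y : κ → F) :
    opf Q x (a • y) = a * opf Q x y := QuadraticMap.polar_smul_right Q a x y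

theorem opf_comm (Q : QuadraticForm F (κ → F)) (x y : κ → F) : opf Q x y = opf Q y x :=
  QuadraticMap.polar_comm Q x y

theorem opf_self (Q : QuadraticForm F (κ → F)) (x : κ → F) (hx : Q x = 0) : opf Q x x = 0 := by
  unfold opf
  rw [QuadraticMap.polar_self, hx, smul_zero]

theorem opf_zero_left (Q : QuadraticForm F (κ → F)) (y : κ → F) : opf Q 0 y = 0 := by
  have h := opf_smul_left Q 0 0 y
  rw [zero_smul, zero_mul] at h
  exact h

theorem opf_zero_right (Q : QuadraticForm F (κ → F)) (y : κ → F) : opf Q y 0 = 0 := by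
  rw [opf_comm, opf_zero_left]

theorem opf_neg_left (Q : QuadraticForm F (κ → F)) (x y : κ → F) :
    opf Q (-x) y = - opf Q x y := by
  have h := opf_smul_left Q (-1) x y
  rw [neg_one_smul, neg_one_mul] at h
  exact h

theorem opf_neg_right (Q : QuadraticForm F (κ → F)) (x y : κ → F) :
    opf Q x (-y) = - opf Q x y := by
  rw [opf_comm, opf_neg_left, opf_comm]

theorem opf_sub_left (Q : QuadraticForm F (κ → F)) (x y z : κ → F) :
    opf Q (x - y) z = opf Q x z - opf Q y z := by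
  rw [sub_eq_add_neg, opf_add_left, opf_neg_left, sub_eq_add_neg]

theorem opf_sub_right (Q : QuadraticForm F (κ → F)) (x y z : κ → F) :
    opf Q x (y - z) = opf Q x y - opf Q x z := by
  rw [sub_eq_add_neg, opf_add_right, opf_neg_right, sub_eq_add_neg]

theorem oQ_add (Q : QuadraticForm F (κ → F)) (x y : κ → F) :
    Q (x + y) = Q x + Q y + opf Q x y := QuadraticMap.map_add Q x y

theorem oQ_smul (Q : QuadraticForm F (κ → F)) (a : F) (x : κ → F) :
    Q (a • x) = a * a * Q x := QuadraticMap.map_smul Q a x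

/-- The action of an isometry on vectors. -/
def oAct {Q : QuadraticForm F (κ → F)} (g : ↥(Cfsg.isometryGroup F ⇑Q)) (v : κ → F) : κ → F :=
  ((g : Matrix.GeneralLinearGroup κ F) : Matrix κ κ F).mulVec v

theorem oAct_mul {Q : QuadraticForm F (κ → F)} (g h : ↥(Cfsg.isometryGroup F ⇑Q)) (v : κ → F) :
    oAct (g * h) v = oAct g (oAct h v) := by
  unfold oAct
  rw [Matrix.mulVec_mulVec]
  rfl

theorem oAct_one {Q : QuadraticForm F (κ → F)} (v : κ → F) :
    oAct (1 : ↥(Cfsg.isometryGroup F ⇑Q)) v = v :=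
  Matrix.one_mulVec v

theorem oAct_inv_cancel {Q : QuadraticForm F (κ → F)} (g : ↥(Cfsg.isometryGroup F ⇑Q))
    (v : κ → F) : oAct g⁻¹ (oAct g v) = v := by
  rw [← oAct_mul, inv_mul_cancel, oAct_one]

theorem oAct_cancel_inv {Q : QuadraticForm F (κ → F)} (g : ↥(Cfsg.isometryGroup F ⇑Q))
    (v : κ → F) : oAct g (oAct g⁻¹ v) = v := by
  rw [← oAct_mul, mul_inv_cancel, oAct_one]

theorem oAct_add {Q : QuadraticForm F (κ → F)} (g : ↥(Cfsg.isometryGroup F ⇑Q))
    (v w : κ → F) : oAct g (v + w) = oAct g v + oAct g w :=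
  Matrix.mulVec_add _ _ _

theorem oAct_smul {Q : QuadraticForm F (κ → F)} (g : ↥(Cfsg.isometryGroup F ⇑Q)) (c : F)
    (v : κ → F) : oAct g (c • v) = c • oAct g v :=
  Matrix.mulVec_smul _ _ _

theorem oAct_sub {Q : QuadraticForm F (κ → F)} (g : ↥(Cfsg.isometryGroup F ⇑Q))
    (v w : κ → F) : oAct g (v - w) = oAct g v - oAct g w :=
  Matrix.mulVec_sub _ _ _

theorem oAct_zero {Q : QuadraticForm F (κ → F)} (g : ↥(Cfsg.isometryGroup F ⇑Q)) :
    oAct g (0 : κ → F) = 0 :=
  Matrix.mulVec_zero _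

theorem o_ext {Q : QuadraticForm F (κ → F)} (g h : ↥(Cfsg.isometryGroup F ⇑Q))
    (H : ∀ v, oAct g v = oAct h v) : g = h := by
  apply Subtype.ext
  apply Units.ext
  apply Matrix.mulVec_injective
  funext v
  exact H v

theorem oAct_Q {Q : QuadraticForm F (κ → F)} (g : ↥(Cfsg.isometryGroup F ⇑Q)) (x : κ → F) :
    Q (oAct g x) = Q x := g.2 x 0

theorem opf_act {Q : QuadraticForm F (κ → F)} (g : ↥(Cfsg.isometryGroup F ⇑Q)) (x y : κ → F) :
    opf Q (oAct g x) (oAct g y) = opf Q x y := by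
  unfold opf QuadraticMap.polar
  rw [← oAct_add, oAct_Q, oAct_Q, oAct_Q]

theorem opf_act_inv {Q : QuadraticForm F (κ → F)} (g : ↥(Cfsg.isometryGroup F ⇑Q))
    (x y : κ → F) : opf Q (oAct g⁻¹ x) y = opf Q x (oAct g y) := by
  rw [← opf_act g, oAct_cancel_inv]

theorem opf_act_inv' {Q : QuadraticForm F (κ → F)} (g : ↥(Cfsg.isometryGroup F ⇑Q))
    (x y : κ → F) : opf Q x (oAct g⁻¹ y) = opf Q (oAct g x) y := by
  rw [← opf_act g, oAct_cancel_inv]

theorem oAct_ne_zero {Q : QuadraticForm F (κ → F)} (g : ↥(Cfsg.isometryGroup F ⇑Q))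
    (v : κ → F) (hv : v ≠ 0) : oAct g v ≠ 0 := by
  intro h
  apply hv
  have h1 := oAct_inv_cancel g v
  rw [h] at h1
  rw [← h1]
  exact oAct_zero _

/-- A totally singular pair of vectors. -/
def IsSingPair (Q : QuadraticForm F (κ → F)) (p r : κ → F) : Prop :=
  Q p = 0 ∧ Q r = 0 ∧ opf Q p r = 0

/-- A pair of vectors spanning a totally singular line. -/
def IsSingLine (Q : QuadraticForm F (κ → F)) (p r : κ → F) : Prop :=
  (∀ a b : F, a • p + b • r = 0 → a = 0 ∧ b = 0) ∧ IsSingPair Q p r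

theorem singPair_symm {Q : QuadraticForm F (κ → F)} {p r : κ → F} (h : IsSingPair Q p r) :
    IsSingPair Q r p := ⟨h.2.1, h.1, by rw [opf_comm]; exact h.2.2⟩

theorem singLine_symm {Q : QuadraticForm F (κ → F)} {p r : κ → F} (h : IsSingLine Q p r) :
    IsSingLine Q r p :=
  ⟨fun a b hab => (h.1 b a (by rw [add_comm]; exact hab)).symm, singPair_symm h.2⟩

theorem singPair_comb {Q : QuadraticForm F (κ → F)} {p r : κ → F} (h : IsSingPair Q p r)
    (a b c d : F) : IsSingPair Q (a • p + b • r) (c • p + d • r) := by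
  obtain ⟨hp, hr, hpr⟩ := h
  have hrp : opf Q r p = 0 := by rw [opf_comm]; exact hpr
  refine ⟨?_, ?_, ?_⟩
  · rw [oQ_add, oQ_smul, oQ_smul, opf_smul_left, opf_smul_right, hp, hr, hpr]
    ring
  · rw [oQ_add, oQ_smul, oQ_smul, opf_smul_left, opf_smul_right, hp, hr, hpr]
    ring
  · simp only [opf_add_left, opf_add_right, opf_smul_left, opf_smul_right, opf_self Q p hp,
      opf_self Q r hr, hpr, hrp]
    ring

theorem singLine_comb {Q : QuadraticForm F (κ → F)} {p r : κ → F} (h : IsSingLine Q p r)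
    (a b c d : F) (hdet : a * d - b * c ≠ 0) : IsSingLine Q (a • p + b • r) (c • p + d • r) := by
  refine ⟨?_, singPair_comb h.2 a b c d⟩
  intro x y hxy
  have h1 : (x * a + y * c) • p + (x * b + y * d) • r = 0 := by
    rw [← hxy]
    module
  obtain ⟨h2, h3⟩ := h.1 _ _ h1
  have hx : (a * d - b * c) * x = 0 := by linear_combination d * h2 - c * h3
  have hy : (a * d - b * c) * y = 0 := by linear_combination a * h3 - b * h2
  exact ⟨(mul_eq_zero.1 hx).resolve_left hdet, (mul_eq_zero.1 hy).resolve_left hdet⟩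

theorem singPair_act {Q : QuadraticForm F (κ → F)} (g : ↥(Cfsg.isometryGroup F ⇑Q))
    {p r : κ → F} (h : IsSingPair Q p r) : IsSingPair Q (oAct g p) (oAct g r) :=
  ⟨by rw [oAct_Q]; exact h.1, by rw [oAct_Q]; exact h.2.1, by rw [opf_act]; exact h.2.2⟩

theorem singLine_act {Q : QuadraticForm F (κ → F)} (g : ↥(Cfsg.isometryGroup F ⇑Q))
    {p r : κ → F} (h : IsSingLine Q p r) : IsSingLine Q (oAct g p) (oAct g r) := by
  refine ⟨?_, singPair_act g h.2⟩
  intro a b hab
  apply h.1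
  have h1 : oAct g⁻¹ (a • oAct g p + b • oAct g r) = 0 := by rw [hab, oAct_zero]
  rw [oAct_add, oAct_smul, oAct_smul, oAct_inv_cancel, oAct_inv_cancel] at h1
  exact h1

theorem sg_exists (Q : QuadraticForm F (κ → F)) (p r : κ → F) (h : IsSingPair Q p r) (c : F) :
    ∃ s : ↥(Cfsg.isometryGroup F ⇑Q),
      ((s : Matrix.GeneralLinearGroup κ F) : Matrix κ κ F) = Cfsg.siegelMatrix ⇑Q p r c := by
  obtain ⟨hu, hv, huv⟩ := h
  have h0 : Cfsg.siegelMatrix ⇑Q p r 0 = 1 := by simp [Cfsg.siegelMatrix]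
  have hmem : (⟨Cfsg.siegelMatrix ⇑Q p r c, Cfsg.siegelMatrix ⇑Q p r (-c),
      by rw [Cfsg.Agent.Helper6.siegelMatrix_mul Q p r hu hv huv, add_neg_cancel, h0],
      by rw [Cfsg.Agent.Helper6.siegelMatrix_mul Q p r hu hv huv, neg_add_cancel, h0]⟩ :
      Matrix.GeneralLinearGroup κ F) ∈ Cfsg.isometryGroup F ⇑Q := by
    rw [Cfsg.Agent.Helper6.isometry_mem_iff]
    intro x
    exact Cfsg.Agent.Helper6.siegelMatrix_preserves Q p r hu hv huv c x
  exact ⟨⟨_, hmem⟩, rfl⟩

open Classical in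
/-- The Siegel transformation `x ↦ x + c (f(p,x) r - f(r,x) p)` (one when undefined). -/
noncomputable def sgEl (Q : QuadraticForm F (κ → F)) (p r : κ → F) (c : F) :
    ↥(Cfsg.isometryGroup F ⇑Q) :=
  if h : IsSingPair Q p r then Classical.choose (sg_exists Q p r h c) else 1

theorem sgEl_coe (Q : QuadraticForm F (κ → F)) (p r : κ → F) (h : IsSingPair Q p r) (c : F) :
    ((sgEl Q p r c : Matrix.GeneralLinearGroup κ F) : Matrix κ κ F)
      = Cfsg.siegelMatrix ⇑Q p r c := by
  unfold sgEl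
  rw [dif_pos h]
  exact Classical.choose_spec (sg_exists Q p r h c)

theorem sgEl_act (Q : QuadraticForm F (κ → F)) (p r : κ → F) (h : IsSingPair Q p r) (c : F)
    (x : κ → F) : oAct (sgEl Q p r c) x = x + c • (opf Q p x • r - opf Q r x • p) := by
  unfold oAct
  rw [sgEl_coe Q p r h, Cfsg.Agent.Helper6.siegelMatrix_mulVec]
  rfl

theorem sgEl_mul (Q : QuadraticForm F (κ → F)) (p r : κ → F) (h : IsSingPair Q p r) (c d : F) :
    sgEl Q p r c * sgEl Q p r d = sgEl Q p r (c + d) := by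
  have hpp : opf Q p p = 0 := opf_self Q p h.1
  have hrr : opf Q r r = 0 := opf_self Q r h.2.1
  have hpr : opf Q p r = 0 := h.2.2
  have hrp : opf Q r p = 0 := by rw [opf_comm]; exact hpr
  apply o_ext
  intro x
  rw [oAct_mul, sgEl_act Q p r h, sgEl_act Q p r h, sgEl_act Q p r h]
  simp only [opf_add_right, opf_sub_right, opf_smul_right, hpp, hrr, hpr, hrp, mul_zero,
    sub_zero, add_zero]
  module

theorem sgEl_zero (Q : QuadraticForm F (κ → F)) (p r : κ → F) (h : IsSingPair Q p r) :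
    sgEl Q p r 0 = 1 := by
  apply o_ext
  intro x
  rw [sgEl_act Q p r h, zero_smul, add_zero, oAct_one]

theorem sgEl_inv (Q : QuadraticForm F (κ → F)) (p r : κ → F) (h : IsSingPair Q p r) (c : F) :
    (sgEl Q p r c)⁻¹ = sgEl Q p r (-c) :=
  inv_eq_of_mul_eq_one_right (by rw [sgEl_mul Q p r h, add_neg_cancel, sgEl_zero Q p r h])

theorem sgEl_conj (Q : QuadraticForm F (κ → F)) (g : ↥(Cfsg.isometryGroup F ⇑Q)) (p r : κ → F)
    (h : IsSingPair Q p r) (c : F) :
    g * sgEl Q p r c * g⁻¹ = sgEl Q (oAct g p) (oAct g r) c := by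
  apply o_ext
  intro x
  rw [oAct_mul, oAct_mul, sgEl_act Q p r h, sgEl_act Q _ _ (singPair_act g h), oAct_add,
    oAct_smul, oAct_sub, oAct_smul, oAct_smul, oAct_cancel_inv, opf_act_inv', opf_act_inv']

theorem sgEl_comb (Q : QuadraticForm F (κ → F)) (p r : κ → F) (h : IsSingPair Q p r)
    (a b c d e : F) :
    sgEl Q (a • p + b • r) (c • p + d • r) e = sgEl Q p r ((a * d - b * c) * e) := by
  apply o_ext
  intro x
  rw [sgEl_act Q _ _ (singPair_comb h a b c d), sgEl_act Q p r h]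
  simp only [opf_add_left, opf_smul_left]
  module

theorem sgEl_swap (Q : QuadraticForm F (κ → F)) (p r : κ → F) (h : IsSingPair Q p r) (c : F) :
    sgEl Q r p c = sgEl Q p r (-c) := by
  apply o_ext
  intro x
  rw [sgEl_act Q _ _ (singPair_symm h), sgEl_act Q p r h]
  module

/-- The set of isometries fixing every vector orthogonal to `p` and `r`. -/
def sgSet (Q : QuadraticForm F (κ → F)) (p r : κ → F) : Set ↥(Cfsg.isometryGroup F ⇑Q) :=
  {σ | ∀ v : κ → F, opf Q v p = 0 → opf Q v r = 0 → oAct σ v = v}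

/-- The Siegel transvection group of the line spanned by `p` and `r`. -/
def sgGrp (Q : QuadraticForm F (κ → F)) (p r : κ → F) : Subgroup ↥(Cfsg.isometryGroup F ⇑Q) :=
  Subgroup.closure (sgSet Q p r)

theorem sgSet_swap (Q : QuadraticForm F (κ → F)) (p r : κ → F) : sgSet Q p r = sgSet Q r p := by
  ext σ
  exact ⟨fun h v h1 h2 => h v h2 h1, fun h v h1 h2 => h v h2 h1⟩

theorem sgGrp_swap (Q : QuadraticForm F (κ → F)) (p r : κ → F) : sgGrp Q p r = sgGrp Q r p := by
  unfold sgGrp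
  rw [sgSet_swap]

theorem sgSet_comb (Q : QuadraticForm F (κ → F)) (p r : κ → F) (a b c d : F)
    (hdet : a * d - b * c ≠ 0) : sgSet Q (a • p + b • r) (c • p + d • r) = sgSet Q p r := by
  ext σ
  constructor
  · intro h v hp hr
    apply h v
    · rw [opf_add_right, opf_smul_right, opf_smul_right, hp, hr, mul_zero, mul_zero, add_zero]
    · rw [opf_add_right, opf_smul_right, opf_smul_right, hp, hr, mul_zero, mul_zero, add_zero]
  · intro h v hp hr
    rw [opf_add_right, opf_smul_right, opf_smul_right] at hp hr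
    have h1 : (a * d - b * c) * opf Q v p = 0 := by linear_combination d * hp - b * hr
    have h2 : (a * d - b * c) * opf Q v r = 0 := by linear_combination a * hr - c * hp
    exact h v ((mul_eq_zero.1 h1).resolve_left hdet) ((mul_eq_zero.1 h2).resolve_left hdet)

theorem sgGrp_comb (Q : QuadraticForm F (κ → F)) (p r : κ → F) (a b c d : F)
    (hdet : a * d - b * c ≠ 0) : sgGrp Q (a • p + b • r) (c • p + d • r) = sgGrp Q p r := by
  unfold sgGrp
  rw [sgSet_comb Q p r a b c d hdet]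

theorem sgSet_conj (Q : QuadraticForm F (κ → F)) (g : ↥(Cfsg.isometryGroup F ⇑Q))
    (p r : κ → F) :
    (fun t => g * t * g⁻¹) '' sgSet Q p r = sgSet Q (oAct g p) (oAct g r) := by
  ext x
  constructor
  · rintro ⟨t, ht, rfl⟩
    intro v hp hr
    rw [oAct_mul, oAct_mul, ht (oAct g⁻¹ v) (by rw [opf_act_inv]; exact hp)
      (by rw [opf_act_inv]; exact hr), oAct_cancel_inv]
  · intro hx
    refine ⟨g⁻¹ * x * g, ?_, by group⟩
    intro v hp hr
    rw [oAct_mul, oAct_mul, hx (oAct g v) (by rw [opf_act]; exact hp)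
      (by rw [opf_act]; exact hr), oAct_inv_cancel]

theorem sgGrp_conj (Q : QuadraticForm F (κ → F)) (g : ↥(Cfsg.isometryGroup F ⇑Q))
    (p r : κ → F) :
    Cfsg.conjBy (sgGrp Q p r) g = sgGrp Q (oAct g p) (oAct g r) := by
  unfold sgGrp
  show (Subgroup.closure (sgSet Q p r)).map (MulAut.conj g).toMonoidHom = _
  rw [MonoidHom.map_closure]
  congr 1
  exact sgSet_conj Q g p r

end Cfsg.Agent.Helper15
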