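import Mathlib
import Cfsg.Agent.Helper15.ORoot1

set_option autoImplicit false

namespace Cfsg.Agent.Helper15

open scoped commutatorElement

variable {F : Type*} [Field F] {κ : Type} [Fintype κ] [DecidableEq κ]

theorem o_dual (Q : QuadraticForm F (κ → F)) (hnd : ∀ x, (∀ y, opf Q y x = 0) → x = 0)
    (w₀ a : κ → F) (h : ∀ c : F, a ≠ c • w₀) : ∃ y, opf Q y w₀ = 0 ∧ opf Q y a = 1 := by
  have key : ∃ y, opf Q y w₀ = 0 ∧ opf Q y a ≠ 0 := by
    by_contra hcon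
    push Not at hcon
    by_cases hw : ∀ y, opf Q y w₀ = 0
    · apply h 0
      rw [zero_smul]
      exact hnd a (fun y => hcon y (hw y))
    · push Not at hw
      obtain ⟨v₀, hv₀⟩ := hw
      apply h ((opf Q v₀ w₀)⁻¹ * opf Q v₀ a)
      apply sub_eq_zero.1
      apply hnd
      intro y
      have h1 := hcon (y - (opf Q y w₀ * (opf Q v₀ w₀)⁻¹) • v₀) (by
        rw [opf_sub_left, opf_smul_left, mul_assoc, inv_mul_cancel₀ hv₀, mul_one, sub_self])
      rw [opf_sub_left, opf_smul_left] at h1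
      rw [opf_sub_right, opf_smul_right]
      linear_combination h1
  obtain ⟨y, hy0, hya⟩ := key
  refine ⟨(opf Q y a)⁻¹ • y, ?_, ?_⟩
  · rw [opf_smul_left, hy0, mul_zero]
  · rw [opf_smul_left, inv_mul_cancel₀ hya]

theorem singLine_dual (Q : QuadraticForm F (κ → F)) (hnd : ∀ x, (∀ y, opf Q y x = 0) → x = 0)
    (p r : κ → F) (h : IsSingLine Q p r) :
    ∃ v₁ v₂, opf Q v₁ p = 1 ∧ opf Q v₁ r = 0 ∧ opf Q v₂ p = 0 ∧ opf Q v₂ r = 1 := by
  obtain ⟨v₁, h1r, h1p⟩ := o_dual Q hnd r p (fun c hc => by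
    have h1 := h.1 1 (-c) (by rw [hc]; module)
    exact one_ne_zero h1.1)
  obtain ⟨v₂, h2p, h2r⟩ := o_dual Q hnd p r (fun c hc => by
    have h1 := h.1 (-c) 1 (by rw [hc]; module)
    exact one_ne_zero h1.2)
  exact ⟨v₁, v₂, h1p, h1r, h2p, h2r⟩

theorem mem_sgSet_iff (Q : QuadraticForm F (κ → F)) (hnd : ∀ x, (∀ y, opf Q y x = 0) → x = 0)
    (p r : κ → F) (h : IsSingLine Q p r) (σ : ↥(Cfsg.isometryGroup F ⇑Q)) :
    σ ∈ sgSet Q p r ↔ ∃ c, σ = sgEl Q p r c := by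
  constructor
  · intro hσ
    obtain ⟨v₁, v₂, h1p, h1r, h2p, h2r⟩ := singLine_dual Q hnd p r h
    have hdec : ∀ v, oAct σ v
        = v + opf Q v p • (oAct σ v₁ - v₁) + opf Q v r • (oAct σ v₂ - v₂) := by
      intro v
      have h0 := hσ (v - opf Q v p • v₁ - opf Q v r • v₂)
        (by rw [opf_sub_left, opf_sub_left, opf_smul_left, opf_smul_left, h1p, h2p]; ring)
        (by rw [opf_sub_left, opf_sub_left, opf_smul_left, opf_smul_left, h1r, h2r]; ring)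
      rw [oAct_sub, oAct_sub, oAct_smul, oAct_smul] at h0
      calc oAct σ v = (oAct σ v - opf Q v p • oAct σ v₁ - opf Q v r • oAct σ v₂)
            + opf Q v p • oAct σ v₁ + opf Q v r • oAct σ v₂ := by module
        _ = (v - opf Q v p • v₁ - opf Q v r • v₂) + opf Q v p • oAct σ v₁
            + opf Q v r • oAct σ v₂ := by rw [h0]
        _ = _ := by module
    have hspan : ∀ d : κ → F, (∀ w, opf Q w p = 0 → opf Q w r = 0 → opf Q w d = 0) →
        d = opf Q v₁ d • p + opf Q v₂ d • r := by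
      intro d hd
      apply sub_eq_zero.1
      apply hnd
      intro y
      have hw := hd (y - opf Q y p • v₁ - opf Q y r • v₂)
        (by rw [opf_sub_left, opf_sub_left, opf_smul_left, opf_smul_left, h1p, h2p]; ring)
        (by rw [opf_sub_left, opf_sub_left, opf_smul_left, opf_smul_left, h1r, h2r]; ring)
      rw [opf_sub_left, opf_sub_left, opf_smul_left, opf_smul_left] at hw
      rw [opf_sub_right, opf_add_right, opf_smul_right, opf_smul_right]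
      linear_combination hw
    have hdiff : ∀ v w, opf Q w p = 0 → opf Q w r = 0 → opf Q w (oAct σ v - v) = 0 := by
      intro v w hwp hwr
      have h1 := opf_act σ w v
      rw [hσ w hwp hwr] at h1
      rw [opf_sub_right, h1, sub_self]
    have hd1 := hspan _ (hdiff v₁)
    have hd2 := hspan _ (hdiff v₂)
    obtain ⟨a₁, ha₁⟩ : ∃ a₁ : F, a₁ = opf Q v₁ (oAct σ v₁ - v₁) := ⟨_, rfl⟩
    obtain ⟨b₁, hb₁⟩ : ∃ b₁ : F, b₁ = opf Q v₂ (oAct σ v₁ - v₁) := ⟨_, rfl⟩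
    obtain ⟨a₂, ha₂⟩ : ∃ a₂ : F, a₂ = opf Q v₁ (oAct σ v₂ - v₂) := ⟨_, rfl⟩
    obtain ⟨b₂, hb₂⟩ : ∃ b₂ : F, b₂ = opf Q v₂ (oAct σ v₂ - v₂) := ⟨_, rfl⟩
    rw [← ha₁, ← hb₁] at hd1
    rw [← ha₂, ← hb₂] at hd2
    have hQl : ∀ (v : κ → F) (a b : F),
        Q (v + (a • p + b • r)) = Q v + a * opf Q v p + b * opf Q v r := by
      intro v a b
      rw [oQ_add, (singPair_comb h.2 a b 0 0).1, opf_add_right, opf_smul_right, opf_smul_right]
      ring
    have e1 : oAct σ v₁ = v₁ + (a₁ • p + b₁ • r) := by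
      rw [← hd1]
      module
    have e2 : oAct σ v₂ = v₂ + (a₂ • p + b₂ • r) := by
      rw [← hd2]
      module
    have q1 := oAct_Q σ v₁
    rw [e1, hQl, h1p, h1r] at q1
    have q2 := oAct_Q σ v₂
    rw [e2, hQl, h2p, h2r] at q2
    have q3 := oAct_Q σ (v₁ + v₂)
    have e3 : oAct σ (v₁ + v₂) = (v₁ + v₂) + ((a₁ + a₂) • p + (b₁ + b₂) • r) := by
      rw [oAct_add, e1, e2]
      module
    rw [e3, hQl, opf_add_left, opf_add_left, h1p, h1r, h2p, h2r] at q3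
    have ha1 : a₁ = 0 := by linear_combination q1
    have hb2 : b₂ = 0 := by linear_combination q2
    have ha2 : a₂ = -b₁ := by linear_combination q3 - q1 - q2
    refine ⟨b₁, o_ext _ _ (fun v => ?_)⟩
    rw [sgEl_act Q p r h.2, hdec v, hd1, hd2, ha1, hb2, ha2, opf_comm Q p v, opf_comm Q r v]
    module
  · rintro ⟨c, rfl⟩ v hvp hvr
    rw [sgEl_act Q p r h.2, opf_comm Q p v, hvp, opf_comm Q r v, hvr, zero_smul, zero_smul,
      sub_zero, smul_zero, add_zero]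

theorem mem_sgGrp_iff (Q : QuadraticForm F (κ → F)) (hnd : ∀ x, (∀ y, opf Q y x = 0) → x = 0)
    (p r : κ → F) (h : IsSingLine Q p r) (g : ↥(Cfsg.isometryGroup F ⇑Q)) :
    g ∈ sgGrp Q p r ↔ ∃ c, g = sgEl Q p r c := by
  constructor
  · intro ht
    refine Subgroup.closure_induction (p := fun x _ => ∃ c, x = sgEl Q p r c) ?_ ?_ ?_ ?_ ht
    · intro x hx
      exact (mem_sgSet_iff Q hnd p r h x).1 hx
    · exact ⟨0, (sgEl_zero Q p r h.2).symm⟩
    · rintro x y _ _ ⟨c, rfl⟩ ⟨d, rfl⟩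
      exact ⟨c + d, sgEl_mul Q p r h.2 c d⟩
    · rintro x _ ⟨c, rfl⟩
      exact ⟨-c, sgEl_inv Q p r h.2 c⟩
  · rintro ⟨c, rfl⟩
    exact Subgroup.subset_closure ((mem_sgSet_iff Q hnd p r h _).2 ⟨c, rfl⟩)

theorem sgEl_mem (Q : QuadraticForm F (κ → F)) (hnd : ∀ x, (∀ y, opf Q y x = 0) → x = 0)
    (p r : κ → F) (h : IsSingLine Q p r) (c : F) : sgEl Q p r c ∈ sgGrp Q p r :=
  (mem_sgGrp_iff Q hnd p r h _).2 ⟨c, rfl⟩

theorem sgEl_ne_one (Q : QuadraticForm F (κ → F)) (hnd : ∀ x, (∀ y, opf Q y x = 0) → x = 0)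
    (p r : κ → F) (h : IsSingLine Q p r) (c : F) (hc : c ≠ 0) : sgEl Q p r c ≠ 1 := by
  intro h1
  obtain ⟨v₁, v₂, h1p, h1r, h2p, h2r⟩ := singLine_dual Q hnd p r h
  have h2 := sgEl_act Q p r h.2 c v₁
  rw [h1, oAct_one, opf_comm Q p v₁, opf_comm Q r v₁, h1p, h1r] at h2
  have h4 : v₁ + 0 = v₁ + c • ((1 : F) • r - (0 : F) • p) := by
    rw [add_zero]
    exact h2
  have h5 : c • ((1 : F) • r - (0 : F) • p) = 0 := (add_left_cancel h4).symm
  have h3 : (0 : F) • p + c • r = 0 := by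
    rw [← h5]
    module
  exact hc (h.1 0 c h3).2

theorem sgGrp_ne_bot (Q : QuadraticForm F (κ → F)) (hnd : ∀ x, (∀ y, opf Q y x = 0) → x = 0)
    (p r : κ → F) (h : IsSingLine Q p r) : sgGrp Q p r ≠ ⊥ := by
  intro hb
  have h1 := sgEl_mem Q hnd p r h 1
  rw [hb, Subgroup.mem_bot] at h1
  exact sgEl_ne_one Q hnd p r h 1 one_ne_zero h1

theorem sgGrp_comm_self (Q : QuadraticForm F (κ → F)) (hnd : ∀ x, (∀ y, opf Q y x = 0) → x = 0)
    (p r : κ → F) (h : IsSingLine Q p r) :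
    ∀ a ∈ sgGrp Q p r, ∀ b ∈ sgGrp Q p r, a * b = b * a := by
  intro a ha b hb
  obtain ⟨c, rfl⟩ := (mem_sgGrp_iff Q hnd p r h a).1 ha
  obtain ⟨d, rfl⟩ := (mem_sgGrp_iff Q hnd p r h b).1 hb
  rw [sgEl_mul Q p r h.2, sgEl_mul Q p r h.2, add_comm]

theorem sgGrp_eq_imp (Q : QuadraticForm F (κ → F)) (hnd : ∀ x, (∀ y, opf Q y x = 0) → x = 0)
    (p r p' r' : κ → F) (h : IsSingLine Q p r) (h' : IsSingLine Q p' r')
    (heq : sgGrp Q p r = sgGrp Q p' r') :
    opf Q p p' = 0 ∧ opf Q p r' = 0 ∧ opf Q r p' = 0 ∧ opf Q r r' = 0 := by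
  have hm : sgEl Q p r 1 ∈ sgGrp Q p' r' := by
    rw [← heq]
    exact sgEl_mem Q hnd p r h 1
  obtain ⟨c, hc⟩ := (mem_sgGrp_iff Q hnd p' r' h' _).1 hm
  have hc0 : c ≠ 0 := by
    rintro rfl
    rw [sgEl_zero Q p' r' h'.2] at hc
    exact sgEl_ne_one Q hnd p r h 1 one_ne_zero hc
  have key : ∀ x, opf Q p x = 0 → opf Q r x = 0 → opf Q p' x = 0 ∧ opf Q r' x = 0 := by
    intro x hpx hrx
    have h1 := congrArg (fun g => oAct g x) hc
    simp only [sgEl_act Q p r h.2, sgEl_act Q p' r' h'.2, hpx, hrx, zero_smul, sub_zero,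
      smul_zero, add_zero] at h1
    have h4 : x + 0 = x + c • (opf Q p' x • r' - opf Q r' x • p') := by
      rw [add_zero]
      exact h1
    have h5 : c • (opf Q p' x • r' - opf Q r' x • p') = 0 := (add_left_cancel h4).symm
    have h2 : (-(c * opf Q r' x)) • p' + (c * opf Q p' x) • r' = 0 := by
      rw [← h5]
      module
    obtain ⟨h6, h7⟩ := h'.1 _ _ h2
    exact ⟨(mul_eq_zero.1 h7).resolve_left hc0,
      (mul_eq_zero.1 (neg_eq_zero.1 h6)).resolve_left hc0⟩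
  have k1 := key p (opf_self Q p h.2.1) (by rw [opf_comm]; exact h.2.2.2)
  have k2 := key r h.2.2.2 (opf_self Q r h.2.2.1)
  exact ⟨by rw [opf_comm]; exact k1.1, by rw [opf_comm]; exact k1.2,
    by rw [opf_comm]; exact k2.1, by rw [opf_comm]; exact k2.2⟩

theorem sgEl_comm_perp (Q : QuadraticForm F (κ → F)) (p r p' r' : κ → F)
    (h : IsSingPair Q p r) (h' : IsSingPair Q p' r') (h1 : opf Q p p' = 0)
    (h2 : opf Q p r' = 0) (h3 : opf Q r p' = 0) (h4 : opf Q r r' = 0) (c d : F) :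
    sgEl Q p r c * sgEl Q p' r' d = sgEl Q p' r' d * sgEl Q p r c := by
  have h1' : opf Q p' p = 0 := by rw [opf_comm]; exact h1
  have h2' : opf Q r' p = 0 := by rw [opf_comm]; exact h2
  have h3' : opf Q p' r = 0 := by rw [opf_comm]; exact h3
  have h4' : opf Q r' r = 0 := by rw [opf_comm]; exact h4
  apply o_ext
  intro x
  simp only [oAct_mul, sgEl_act Q p r h, sgEl_act Q p' r' h', opf_add_right, opf_sub_right,
    opf_smul_right, h1, h2, h3, h4, h1', h2', h3', h4', mul_zero, sub_zero, add_zero]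
  module

theorem sgEl_comm_share (Q : QuadraticForm F (κ → F)) (w r r' : κ → F)
    (h : IsSingPair Q w r) (h' : IsSingPair Q w r') (c d : F) :
    sgEl Q w r c * sgEl Q w r' d = sgEl Q w r' d * sgEl Q w r c := by
  have hww : opf Q w w = 0 := opf_self Q w h.1
  have hrr : opf Q r r = 0 := opf_self Q r h.2.1
  have hrr' : opf Q r' r' = 0 := opf_self Q r' h'.2.1
  have hwr : opf Q w r = 0 := h.2.2
  have hrw : opf Q r w = 0 := by rw [opf_comm]; exact hwr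
  have hwr' : opf Q w r' = 0 := h'.2.2
  have hrw' : opf Q r' w = 0 := by rw [opf_comm]; exact hwr'
  apply o_ext
  intro x
  simp only [oAct_mul, sgEl_act Q w r h, sgEl_act Q w r' h', opf_add_right, opf_sub_right,
    opf_smul_right, hww, hrr, hrr', hwr, hrw, hwr', hrw', opf_comm Q r' r, mul_zero, sub_zero,
    add_zero, zero_sub, mul_neg, neg_zero]
  module

theorem sgGrp_commute_perp (Q : QuadraticForm F (κ → F))
    (hnd : ∀ x, (∀ y, opf Q y x = 0) → x = 0) (p r p' r' : κ → F)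
    (h : IsSingLine Q p r) (h' : IsSingLine Q p' r') (h1 : opf Q p p' = 0)
    (h2 : opf Q p r' = 0) (h3 : opf Q r p' = 0) (h4 : opf Q r r' = 0) :
    ∀ a ∈ sgGrp Q p r, ∀ b ∈ sgGrp Q p' r', a * b = b * a := by
  intro a ha b hb
  obtain ⟨c, rfl⟩ := (mem_sgGrp_iff Q hnd p r h a).1 ha
  obtain ⟨d, rfl⟩ := (mem_sgGrp_iff Q hnd p' r' h' b).1 hb
  exact sgEl_comm_perp Q p r p' r' h.2 h'.2 h1 h2 h3 h4 c d

theorem singLine_rebase (Q : QuadraticForm F (κ → F)) (p r : κ → F) (h : IsSingLine Q p r)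
    (a b : F) (hab : a ≠ 0 ∨ b ≠ 0) :
    ∃ r₁, IsSingLine Q (a • p + b • r) r₁ ∧ sgGrp Q (a • p + b • r) r₁ = sgGrp Q p r := by
  by_cases ha : a = 0
  · have hb : b ≠ 0 := hab.resolve_left (fun h1 => h1 ha)
    have hdet : a * 0 - b * 1 ≠ 0 := by
      rw [ha, zero_mul, zero_sub, mul_one]
      exact neg_ne_zero.2 hb
    exact ⟨(1 : F) • p + (0 : F) • r, singLine_comb h a b 1 0 hdet, sgGrp_comb Q p r a b 1 0 hdet⟩
  · have hdet : a * 1 - b * 0 ≠ 0 := by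
      rw [mul_one, mul_zero, sub_zero]
      exact ha
    exact ⟨(0 : F) • p + (1 : F) • r, singLine_comb h a b 0 1 hdet, sgGrp_comb Q p r a b 0 1 hdet⟩

theorem sgGrp_commute_meet (Q : QuadraticForm F (κ → F))
    (hnd : ∀ x, (∀ y, opf Q y x = 0) → x = 0) (p r p' r' : κ → F)
    (h : IsSingLine Q p r) (h' : IsSingLine Q p' r') (a b c d : F) (hab : a ≠ 0 ∨ b ≠ 0)
    (hw : a • p + b • r = c • p' + d • r') :
    ∀ x ∈ sgGrp Q p r, ∀ y ∈ sgGrp Q p' r', x * y = y * x := by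
  have hcd : c ≠ 0 ∨ d ≠ 0 := by
    by_contra hcon
    push Not at hcon
    rw [hcon.1, hcon.2, zero_smul, zero_smul, add_zero] at hw
    obtain ⟨h1, h2⟩ := h.1 a b hw
    rcases hab with h3 | h3
    · exact h3 h1
    · exact h3 h2
  obtain ⟨r₁, hl1, he1⟩ := singLine_rebase Q p r h a b hab
  obtain ⟨r₂, hl2, he2⟩ := singLine_rebase Q p' r' h' c d hcd
  rw [← hw] at hl2 he2
  intro x hx y hy
  rw [← he1] at hx
  rw [← he2] at hy
  obtain ⟨e, rfl⟩ := (mem_sgGrp_iff Q hnd _ _ hl1 x).1 hx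
  obtain ⟨e', rfl⟩ := (mem_sgGrp_iff Q hnd _ _ hl2 y).1 hy
  exact sgEl_comm_share Q _ r₁ r₂ hl1.2 hl2.2 e e'

end Cfsg.Agent.Helper15
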