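import Mathlib
import Cfsg.Agent.Helper15.ORoot2

set_option autoImplicit false

namespace Cfsg.Agent.Helper15

open scoped commutatorElement

variable {F : Type*} [Field F] {κ : Type} [Fintype κ] [DecidableEq κ]

theorem sg_rankOne_cond_norm (Q : QuadraticForm F (κ → F))
    (hnd : ∀ x, (∀ y, opf Q y x = 0) → x = 0) (p r ps rs : κ → F)
    (h : IsSingLine Q p r) (h' : IsSingLine Q ps rs) (h1 : opf Q p ps = 1)
    (h2 : opf Q p rs = 0) (h3 : opf Q r ps = 0) (h4 : opf Q r rs = 1) :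
    Cfsg.RankOneCondition (sgGrp Q p r) (sgGrp Q ps rs) := by
  intro a ha ha1
  obtain ⟨s, rfl⟩ := (mem_sgGrp_iff Q hnd p r h a).1 ha
  have hs : s ≠ 0 := by
    rintro rfl
    exact ha1 (sgEl_zero Q p r h.2)
  obtain ⟨t, ht⟩ : ∃ t : F, t * s = 1 := ⟨s⁻¹, inv_mul_cancel₀ hs⟩
  have ht0 : t ≠ 0 := by
    rintro rfl
    rw [zero_mul] at ht
    exact zero_ne_one ht
  refine ⟨sgEl Q ps rs (-t), sgEl_mem Q hnd ps rs h' (-t),
    sgEl_ne_one Q hnd ps rs h' (-t) (neg_ne_zero.2 ht0), ?_⟩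
  rw [sgGrp_conj, sgGrp_conj, sgEl_inv Q ps rs h'.2, sgEl_inv Q p r h.2, neg_neg]
  have h1' : opf Q ps p = 1 := by rw [opf_comm]; exact h1
  have h2' : opf Q rs p = 0 := by rw [opf_comm]; exact h2
  have h3' : opf Q ps r = 0 := by rw [opf_comm]; exact h3
  have h4' : opf Q rs r = 1 := by rw [opf_comm]; exact h4
  have e1 : oAct (sgEl Q ps rs t) p
      = (0 : F) • oAct (sgEl Q p r (-s)) ps + t • oAct (sgEl Q p r (-s)) rs := by
    rw [sgEl_act Q ps rs h'.2, sgEl_act Q p r h.2, sgEl_act Q p r h.2, h1', h2', h1, h2, h3, h4]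
    have h5 : p = (t * s) • p := by rw [ht, one_smul]
    calc p + t • ((1 : F) • rs - (0 : F) • ps) = (t * s) • p + t • rs := by
          rw [← h5]
          module
      _ = _ := by module
  have e2 : oAct (sgEl Q ps rs t) r
      = (-t) • oAct (sgEl Q p r (-s)) ps + (0 : F) • oAct (sgEl Q p r (-s)) rs := by
    rw [sgEl_act Q ps rs h'.2, sgEl_act Q p r h.2, sgEl_act Q p r h.2, h3', h4', h1, h2, h3, h4]
    have h5 : r = (t * s) • r := by rw [ht, one_smul]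
    calc r + t • ((0 : F) • rs - (1 : F) • ps) = (t * s) • r + (-t) • ps := by
          rw [← h5]
          module
      _ = _ := by module
  rw [e1, e2]
  refine sgGrp_comb Q _ _ 0 t (-t) 0 ?_
  rw [zero_mul, zero_sub, mul_neg, neg_neg]
  exact mul_ne_zero ht0 ht0

theorem sg_normalize (Q : QuadraticForm F (κ → F)) (p r p' r' : κ → F)
    (h' : IsSingLine Q p' r')
    (hD : opf Q p p' * opf Q r r' - opf Q p r' * opf Q r p' ≠ 0) :
    ∃ ps rs, IsSingLine Q ps rs ∧ sgGrp Q ps rs = sgGrp Q p' r' ∧ opf Q p ps = 1 ∧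
      opf Q p rs = 0 ∧ opf Q r ps = 0 ∧ opf Q r rs = 1 := by
  obtain ⟨α, hα⟩ : ∃ α : F, α = opf Q p p' := ⟨_, rfl⟩
  obtain ⟨β, hβ⟩ : ∃ β : F, β = opf Q p r' := ⟨_, rfl⟩
  obtain ⟨γ, hγ⟩ : ∃ γ : F, γ = opf Q r p' := ⟨_, rfl⟩
  obtain ⟨δ, hδ⟩ : ∃ δ : F, δ = opf Q r r' := ⟨_, rfl⟩
  rw [← hα, ← hβ, ← hγ, ← hδ] at hD
  obtain ⟨i, hi⟩ : ∃ i : F, i * (α * δ - β * γ) = 1 := ⟨_, inv_mul_cancel₀ hD⟩
  have hi0 : i ≠ 0 := by
    rintro rfl
    rw [zero_mul] at hi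
    exact zero_ne_one hi
  have hdet : (i * δ) * (i * α) - (-(i * γ)) * (-(i * β)) ≠ 0 := by
    have e : (i * δ) * (i * α) - (-(i * γ)) * (-(i * β)) = i := by linear_combination i * hi
    rw [e]
    exact hi0
  refine ⟨(i * δ) • p' + (-(i * γ)) • r', (-(i * β)) • p' + (i * α) • r',
    singLine_comb h' _ _ _ _ hdet, sgGrp_comb Q p' r' _ _ _ _ hdet, ?_, ?_, ?_, ?_⟩
  · rw [opf_add_right, opf_smul_right, opf_smul_right, ← hα, ← hβ]
    linear_combination hi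
  · rw [opf_add_right, opf_smul_right, opf_smul_right, ← hα, ← hβ]
    ring
  · rw [opf_add_right, opf_smul_right, opf_smul_right, ← hγ, ← hδ]
    ring
  · rw [opf_add_right, opf_smul_right, opf_smul_right, ← hγ, ← hδ]
    linear_combination hi

theorem sg_rankOne_cond (Q : QuadraticForm F (κ → F))
    (hnd : ∀ x, (∀ y, opf Q y x = 0) → x = 0) (p r p' r' : κ → F)
    (h : IsSingLine Q p r) (h' : IsSingLine Q p' r')
    (hD : opf Q p p' * opf Q r r' - opf Q p r' * opf Q r p' ≠ 0) :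
    Cfsg.RankOneCondition (sgGrp Q p r) (sgGrp Q p' r') := by
  obtain ⟨ps, rs, hl, he, h1, h2, h3, h4⟩ := sg_normalize Q p r p' r' h' hD
  rw [← he]
  exact sg_rankOne_cond_norm Q hnd p r ps rs h hl h1 h2 h3 h4

theorem sgGrp_isMulCommutative (Q : QuadraticForm F (κ → F))
    (hnd : ∀ x, (∀ y, opf Q y x = 0) → x = 0) (p r : κ → F) (h : IsSingLine Q p r) :
    IsMulCommutative (sgGrp Q p r) := by
  refine ⟨⟨?_⟩⟩
  rintro ⟨a, ha⟩ ⟨b, hb⟩
  apply Subtype.ext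
  exact sgGrp_comm_self Q hnd p r h a ha b hb

theorem sg_rankOne_pair (Q : QuadraticForm F (κ → F))
    (hnd : ∀ x, (∀ y, opf Q y x = 0) → x = 0) (p r p' r' : κ → F)
    (h : IsSingLine Q p r) (h' : IsSingLine Q p' r')
    (hD : opf Q p p' * opf Q r r' - opf Q p r' * opf Q r p' ≠ 0) :
    Cfsg.IsRankOnePair (sgGrp Q p r) (sgGrp Q p' r') := by
  refine ⟨?_, nilpotent_of_comm _ (sgGrp_isMulCommutative Q hnd p r h),
    nilpotent_of_comm _ (sgGrp_isMulCommutative Q hnd p' r' h'),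
    sg_rankOne_cond Q hnd p r p' r' h h' hD, sg_rankOne_cond Q hnd p' r' p r h' h ?_⟩
  · intro heq
    obtain ⟨e1, e2, e3, e4⟩ := sgGrp_eq_imp Q hnd p r p' r' h h' heq
    apply hD
    rw [e1, e2, zero_mul, zero_mul, sub_zero]
  · rw [opf_comm Q p' p, opf_comm Q r' r, opf_comm Q p' r, opf_comm Q r' p]
    intro h0
    apply hD
    linear_combination h0

theorem sg_commutator_norm (Q : QuadraticForm F (κ → F)) (p r p' r' : κ → F)
    (h : IsSingPair Q p r) (h' : IsSingPair Q p' r') (hl : IsSingPair Q p r')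
    (h1 : opf Q p p' = 0) (h3 : opf Q r p' = 1) (h4 : opf Q r r' = 0) (c d : F) :
    sgEl Q p r c * sgEl Q p' r' d * (sgEl Q p r c)⁻¹ * (sgEl Q p' r' d)⁻¹
      = sgEl Q p r' (-(c * d)) := by
  have hpp : opf Q p p = 0 := opf_self Q p h.1
  have hrr : opf Q r r = 0 := opf_self Q r h.2.1
  have hpp' : opf Q p' p' = 0 := opf_self Q p' h'.1
  have hrr' : opf Q r' r' = 0 := opf_self Q r' h'.2.1
  have hpr : opf Q p r = 0 := h.2.2
  have hrp : opf Q r p = 0 := by rw [opf_comm]; exact hpr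
  have hpr' : opf Q p' r' = 0 := h'.2.2
  have hrp' : opf Q r' p' = 0 := by rw [opf_comm]; exact hpr'
  have h2 : opf Q p r' = 0 := hl.2.2
  have h1' : opf Q p' p = 0 := by rw [opf_comm]; exact h1
  have h2' : opf Q r' p = 0 := by rw [opf_comm]; exact h2
  have h3' : opf Q p' r = 1 := by rw [opf_comm]; exact h3
  have h4' : opf Q r' r = 0 := by rw [opf_comm]; exact h4
  rw [sgEl_inv Q p r h, sgEl_inv Q p' r' h']
  apply o_ext
  intro x
  simp only [oAct_mul, sgEl_act Q p r h, sgEl_act Q p' r' h', sgEl_act Q p r' hl, opf_add_right,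
    opf_sub_right, opf_smul_right, hpp, hrr, hpp', hrr', hpr, hrp, hpr', hrp', h1, h2, h3, h4,
    h1', h2', h3', h4', mul_zero, mul_one, sub_zero, zero_sub, add_zero, zero_add, mul_neg,
    neg_zero]
  module

theorem sg_commCase_norm (Q : QuadraticForm F (κ → F))
    (hnd : ∀ x, (∀ y, opf Q y x = 0) → x = 0) (p r p' r' : κ → F)
    (h : IsSingLine Q p r) (h' : IsSingLine Q p' r') (hl : IsSingLine Q p r')
    (h1 : opf Q p p' = 0) (h3 : opf Q r p' = 1) (h4 : opf Q r r' = 0) :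
    ⁅sgGrp Q p r, sgGrp Q p' r'⁆ = sgGrp Q p r' ∧
    (∀ c ∈ sgGrp Q p r', ∀ x ∈ sgGrp Q p r ⊔ sgGrp Q p' r', c * x = x * c) ∧
    (∀ a ∈ sgGrp Q p r, a ≠ 1 → Subgroup.closure ((fun b => a * b * a⁻¹ * b⁻¹) ''
      (sgGrp Q p' r' : Set ↥(Cfsg.isometryGroup F ⇑Q))) = sgGrp Q p r') ∧
    (∀ b ∈ sgGrp Q p' r', b ≠ 1 → Subgroup.closure ((fun a => a * b * a⁻¹ * b⁻¹) ''
      (sgGrp Q p r : Set ↥(Cfsg.isometryGroup F ⇑Q))) = sgGrp Q p r') := by
  have hc := sg_commutator_norm Q p r p' r' h.2 h'.2 hl.2 h1 h3 h4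
  refine ⟨?_, ?_, ?_, ?_⟩
  · apply le_antisymm
    · rw [Subgroup.commutator_le]
      intro a ha b hb
      obtain ⟨c, rfl⟩ := (mem_sgGrp_iff Q hnd p r h a).1 ha
      obtain ⟨d, rfl⟩ := (mem_sgGrp_iff Q hnd p' r' h' b).1 hb
      rw [commutatorElement_def, hc]
      exact sgEl_mem Q hnd p r' hl _
    · intro x hx
      obtain ⟨e, rfl⟩ := (mem_sgGrp_iff Q hnd p r' hl x).1 hx
      have h5 := Subgroup.commutator_mem_commutator (sgEl_mem Q hnd p r h 1)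
        (sgEl_mem Q hnd p' r' h' (-e))
      rw [commutatorElement_def, hc, one_mul, neg_neg] at h5
      exact h5
  · intro c hc' x hx
    have hle : sgGrp Q p r ⊔ sgGrp Q p' r'
        ≤ Subgroup.centralizer (sgGrp Q p r' : Set ↥(Cfsg.isometryGroup F ⇑Q)) := by
      refine sup_le ?_ ?_
      · intro a ha
        rw [Subgroup.mem_centralizer_iff]
        intro y hy
        obtain ⟨s, rfl⟩ := (mem_sgGrp_iff Q hnd p r h a).1 ha
        obtain ⟨e, rfl⟩ := (mem_sgGrp_iff Q hnd p r' hl y).1 hy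
        exact sgEl_comm_share Q p r' r hl.2 h.2 e s
      · intro b hb
        rw [Subgroup.mem_centralizer_iff]
        intro y hy
        obtain ⟨s, rfl⟩ := (mem_sgGrp_iff Q hnd p' r' h' b).1 hb
        obtain ⟨e, rfl⟩ := (mem_sgGrp_iff Q hnd p r' hl y).1 hy
        rw [sgEl_swap Q r' p (singPair_symm hl.2) e, sgEl_swap Q r' p' (singPair_symm h'.2) s]
        exact sgEl_comm_share Q r' p p' (singPair_symm hl.2) (singPair_symm h'.2) (-e) (-s)
    exact Subgroup.mem_centralizer_iff.1 (hle hx) c hc'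
  · intro a ha ha1
    obtain ⟨c, rfl⟩ := (mem_sgGrp_iff Q hnd p r h a).1 ha
    have hc0 : c ≠ 0 := by
      rintro rfl
      exact ha1 (sgEl_zero Q p r h.2)
    apply le_antisymm
    · rw [Subgroup.closure_le]
      rintro _ ⟨b, hb, rfl⟩
      obtain ⟨d, rfl⟩ := (mem_sgGrp_iff Q hnd p' r' h' b).1 hb
      show sgEl Q p r c * sgEl Q p' r' d * (sgEl Q p r c)⁻¹ * (sgEl Q p' r' d)⁻¹ ∈ sgGrp Q p r'
      rw [hc]
      exact sgEl_mem Q hnd p r' hl _
    · intro x hx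
      obtain ⟨e, rfl⟩ := (mem_sgGrp_iff Q hnd p r' hl x).1 hx
      apply Subgroup.subset_closure
      refine ⟨sgEl Q p' r' (-(e / c)), sgEl_mem Q hnd p' r' h' _, ?_⟩
      show sgEl Q p r c * sgEl Q p' r' (-(e / c)) * (sgEl Q p r c)⁻¹
        * (sgEl Q p' r' (-(e / c)))⁻¹ = sgEl Q p r' e
      rw [hc]
      congr 1
      field_simp
  · intro b hb hb1
    obtain ⟨d, rfl⟩ := (mem_sgGrp_iff Q hnd p' r' h' b).1 hb
    have hd0 : d ≠ 0 := by
      rintro rfl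
      exact hb1 (sgEl_zero Q p' r' h'.2)
    apply le_antisymm
    · rw [Subgroup.closure_le]
      rintro _ ⟨a, ha, rfl⟩
      obtain ⟨c, rfl⟩ := (mem_sgGrp_iff Q hnd p r h a).1 ha
      show sgEl Q p r c * sgEl Q p' r' d * (sgEl Q p r c)⁻¹ * (sgEl Q p' r' d)⁻¹ ∈ sgGrp Q p r'
      rw [hc]
      exact sgEl_mem Q hnd p r' hl _
    · intro x hx
      obtain ⟨e, rfl⟩ := (mem_sgGrp_iff Q hnd p r' hl x).1 hx
      apply Subgroup.subset_closure
      refine ⟨sgEl Q p r (-(e / d)), sgEl_mem Q hnd p r h _, ?_⟩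
      show sgEl Q p r (-(e / d)) * sgEl Q p' r' d * (sgEl Q p r (-(e / d)))⁻¹
        * (sgEl Q p' r' d)⁻¹ = sgEl Q p r' e
      rw [hc]
      congr 1
      field_simp

/-- The family of Siegel transvection groups of totally singular lines. -/
def sgFam (Q : QuadraticForm F (κ → F)) : Set (Subgroup ↥(Cfsg.isometryGroup F ⇑Q)) :=
  {A | ∃ p r, IsSingLine Q p r ∧ A = sgGrp Q p r}

theorem sg_commCase_core (Q : QuadraticForm F (κ → F))
    (hnd : ∀ x, (∀ y, opf Q y x = 0) → x = 0) (p r p' r' : κ → F)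
    (h : IsSingLine Q p r) (h' : IsSingLine Q p' r') (hγ0 : opf Q r p' ≠ 0)
    (hD : opf Q p p' * opf Q r r' - opf Q p r' * opf Q r p' = 0)
    (hmeet : ∀ a b c d : F, a • p + b • r = c • p' + d • r' → a = 0 ∧ b = 0) :
    Cfsg.RootCommutatorCase (sgFam Q) (sgGrp Q p r) (sgGrp Q p' r') ∧
      ¬ Cfsg.RankOneCondition (sgGrp Q p r) (sgGrp Q p' r') := by
  obtain ⟨α, hα⟩ : ∃ α : F, α = opf Q p p' := ⟨_, rfl⟩
  obtain ⟨β, hβ⟩ : ∃ β : F, β = opf Q p r' := ⟨_, rfl⟩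
  obtain ⟨γ, hγ⟩ : ∃ γ : F, γ = opf Q r p' := ⟨_, rfl⟩
  obtain ⟨δ, hδ⟩ : ∃ δ : F, δ = opf Q r r' := ⟨_, rfl⟩
  rw [← hα, ← hβ, ← hγ, ← hδ] at hD
  rw [← hγ] at hγ0
  obtain ⟨i, hi⟩ : ∃ i : F, i * γ = 1 := ⟨_, inv_mul_cancel₀ hγ0⟩
  have hi0 : i ≠ 0 := by
    rintro rfl
    rw [zero_mul] at hi
    exact zero_ne_one hi
  have hβ' : β = α * δ * i := by linear_combination (-β) * hi - i * hD
  have hdet1 : (1 : F) * 1 - (-(α * i)) * 0 ≠ 0 := by
    rw [mul_zero, sub_zero, mul_one]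
    exact one_ne_zero
  have hdet2 : i * 1 - 0 * (-(δ * i)) ≠ 0 := by
    rw [zero_mul, sub_zero, mul_one]
    exact hi0
  have hl1 := singLine_comb h 1 (-(α * i)) 0 1 hdet1
  have he1 := sgGrp_comb Q p r 1 (-(α * i)) 0 1 hdet1
  have hl2 := singLine_comb h' i 0 (-(δ * i)) 1 hdet2
  have he2 := sgGrp_comb Q p' r' i 0 (-(δ * i)) 1 hdet2
  obtain ⟨p₀, hp₀⟩ : ∃ p₀ : κ → F, p₀ = (1 : F) • p + (-(α * i)) • r := ⟨_, rfl⟩
  obtain ⟨r₀, hr₀⟩ : ∃ r₀ : κ → F, r₀ = (0 : F) • p + (1 : F) • r := ⟨_, rfl⟩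
  obtain ⟨p₁, hp₁⟩ : ∃ p₁ : κ → F, p₁ = i • p' + (0 : F) • r' := ⟨_, rfl⟩
  obtain ⟨r₁, hr₁⟩ : ∃ r₁ : κ → F, r₁ = (-(δ * i)) • p' + (1 : F) • r' := ⟨_, rfl⟩
  rw [← hp₀, ← hr₀] at hl1 he1
  rw [← hp₁, ← hr₁] at hl2 he2
  have k1 : opf Q p₀ p₁ = 0 := by
    rw [hp₀, hp₁]
    simp only [opf_add_left, opf_add_right, opf_smul_left, opf_smul_right, ← hα, ← hβ, ← hγ, ← hδ]
    linear_combination (-(α * i)) * hi
  have k2 : opf Q p₀ r₁ = 0 := by
    rw [hp₀, hr₁]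
    simp only [opf_add_left, opf_add_right, opf_smul_left, opf_smul_right, ← hα, ← hβ, ← hγ, ← hδ]
    rw [hβ']
    linear_combination (α * i * δ) * hi
  have k3 : opf Q r₀ p₁ = 1 := by
    rw [hr₀, hp₁]
    simp only [opf_add_left, opf_add_right, opf_smul_left, opf_smul_right, ← hα, ← hβ, ← hγ, ← hδ]
    linear_combination hi
  have k4 : opf Q r₀ r₁ = 0 := by
    rw [hr₀, hr₁]
    simp only [opf_add_left, opf_add_right, opf_smul_left, opf_smul_right, ← hα, ← hβ, ← hγ, ← hδ]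
    linear_combination (-δ) * hi
  have hl : IsSingLine Q p₀ r₁ := by
    refine ⟨?_, hl1.2.1, hl2.2.2.1, k2⟩
    intro x y hxy
    have e : x • p + (-(x * α * i)) • r = (y * δ * i) • p' + (-y) • r' := by
      have e0 : x • p + (-(x * α * i)) • r - ((y * δ * i) • p' + (-y) • r')
          = x • p₀ + y • r₁ := by
        rw [hp₀, hr₁]
        module
      rw [hxy] at e0
      exact sub_eq_zero.1 e0
    obtain ⟨hx, -⟩ := hmeet _ _ _ _ e
    have e2 : (-(y * δ * i)) • p' + y • r' = 0 := by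
      have e0 : (-(y * δ * i)) • p' + y • r' = x • p₀ + y • r₁ := by
        rw [hx, hr₁]
        module
      rw [e0, hxy]
    exact ⟨hx, (h'.1 _ _ e2).2⟩
  rw [← he1, ← he2]
  obtain ⟨c1, c2, c3, c4⟩ := sg_commCase_norm Q hnd p₀ r₀ p₁ r₁ hl1 hl2 hl k1 k3 k4
  refine ⟨⟨?_, ?_, ?_, ?_⟩, ?_⟩
  · rw [c1]
    exact ⟨p₀, r₁, hl, rfl⟩
  · rw [c1]
    exact c2
  · intro a ha ha1
    rw [c1]
    exact c3 a ha ha1
  · intro b hb hb1
    rw [c1]
    exact c4 b hb hb1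
  · intro hcond
    obtain ⟨b, hb, hb1, hconj⟩ := hcond (sgEl Q p₀ r₀ 1) (sgEl_mem Q hnd p₀ r₀ hl1 1)
      (sgEl_ne_one Q hnd p₀ r₀ hl1 1 one_ne_zero)
    obtain ⟨d, rfl⟩ := (mem_sgGrp_iff Q hnd p₁ r₁ hl2 b).1 hb
    rw [sgGrp_conj, sgGrp_conj] at hconj
    obtain ⟨-, -, e3, -⟩ := sgGrp_eq_imp Q hnd _ _ _ _ (singLine_act _ hl1) (singLine_act _ hl2)
      hconj
    have k1' : opf Q p₁ p₀ = 0 := by rw [opf_comm]; exact k1
    have k2' : opf Q r₁ p₀ = 0 := by rw [opf_comm]; exact k2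
    have k3' : opf Q p₁ r₀ = 1 := by rw [opf_comm]; exact k3
    have k4' : opf Q r₁ r₀ = 0 := by rw [opf_comm]; exact k4
    have s1 : opf Q p₀ p₀ = 0 := opf_self Q p₀ hl1.2.1
    have s2 : opf Q r₀ r₀ = 0 := opf_self Q r₀ hl1.2.2.1
    have s3 : opf Q p₁ p₁ = 0 := opf_self Q p₁ hl2.2.1
    have s4 : opf Q r₁ r₁ = 0 := opf_self Q r₁ hl2.2.2.1
    have s5 : opf Q p₀ r₀ = 0 := hl1.2.2.2
    have s6 : opf Q r₀ p₀ = 0 := by rw [opf_comm]; exact s5
    have s7 : opf Q p₁ r₁ = 0 := hl2.2.2.2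
    have s8 : opf Q r₁ p₁ = 0 := by rw [opf_comm]; exact s7
    rw [sgEl_inv Q p₁ r₁ hl2.2, sgEl_inv Q p₀ r₀ hl1.2, sgEl_act Q p₁ r₁ hl2.2,
      sgEl_act Q p₀ r₀ hl1.2] at e3
    simp only [opf_add_left, opf_add_right, opf_sub_left, opf_sub_right, opf_smul_left,
      opf_smul_right, k1, k2, k3, k4, k1', k2', k3', k4', s1, s2, s3, s4, s5, s6, s7, s8,
      mul_zero, mul_one, sub_zero, zero_sub, add_zero, zero_add, mul_neg, neg_zero, sub_self]
      at e3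
    exact one_ne_zero e3

theorem sg_commCase (Q : QuadraticForm F (κ → F))
    (hnd : ∀ x, (∀ y, opf Q y x = 0) → x = 0) (p r p' r' : κ → F)
    (h : IsSingLine Q p r) (h' : IsSingLine Q p' r')
    (hD : opf Q p p' * opf Q r r' - opf Q p r' * opf Q r p' = 0)
    (hM : ¬ (opf Q p p' = 0 ∧ opf Q p r' = 0 ∧ opf Q r p' = 0 ∧ opf Q r r' = 0))
    (hmeet : ∀ a b c d : F, a • p + b • r = c • p' + d • r' → a = 0 ∧ b = 0) :
    Cfsg.RootCommutatorCase (sgFam Q) (sgGrp Q p r) (sgGrp Q p' r') ∧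
      ¬ Cfsg.RankOneCondition (sgGrp Q p r) (sgGrp Q p' r') := by
  by_cases hγ : opf Q r p' = 0
  · by_cases hα : opf Q p p' = 0
    · by_cases hδ : opf Q r r' = 0
      · have hβ : opf Q p r' ≠ 0 := fun hβ => hM ⟨hα, hβ, hγ, hδ⟩
        rw [sgGrp_swap Q p r, sgGrp_swap Q p' r']
        exact sg_commCase_core Q hnd r p r' p' (singLine_symm h) (singLine_symm h') hβ
          (by linear_combination hD)
          (fun a b c d hab => (hmeet b a d c (by
            rw [add_comm (b • p) (a • r), add_comm (d • p') (c • r')]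
            exact hab)).symm)
      · rw [sgGrp_swap Q p' r']
        exact sg_commCase_core Q hnd p r r' p' h (singLine_symm h') hδ
          (by linear_combination -hD)
          (fun a b c d hab => hmeet a b d c (by
            rw [add_comm (d • p') (c • r')]
            exact hab))
    · rw [sgGrp_swap Q p r]
      exact sg_commCase_core Q hnd r p p' r' (singLine_symm h) h' hα
        (by linear_combination -hD)
        (fun a b c d hab => (hmeet b a c d (by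
          rw [add_comm (b • p) (a • r)]
          exact hab)).symm)
  · exact sg_commCase_core Q hnd p r p' r' h h' hγ hD hmeet

theorem sg_trichotomy (Q : QuadraticForm F (κ → F))
    (hnd : ∀ x, (∀ y, opf Q y x = 0) → x = 0) (p r p' r' : κ → F)
    (h : IsSingLine Q p r) (h' : IsSingLine Q p' r') :
    (∀ a ∈ sgGrp Q p r, ∀ b ∈ sgGrp Q p' r', a * b = b * a) ∨
    (opf Q p p' * opf Q r r' - opf Q p r' * opf Q r p' ≠ 0) ∨
    (Cfsg.RootCommutatorCase (sgFam Q) (sgGrp Q p r) (sgGrp Q p' r') ∧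
      ¬ Cfsg.RankOneCondition (sgGrp Q p r) (sgGrp Q p' r')) := by
  by_cases hD : opf Q p p' * opf Q r r' - opf Q p r' * opf Q r p' = 0
  · by_cases hM : opf Q p p' = 0 ∧ opf Q p r' = 0 ∧ opf Q r p' = 0 ∧ opf Q r r' = 0
    · left
      exact sgGrp_commute_perp Q hnd p r p' r' h h' hM.1 hM.2.1 hM.2.2.1 hM.2.2.2
    · by_cases hmeet : ∀ a b c d : F, a • p + b • r = c • p' + d • r' → a = 0 ∧ b = 0
      · right; right
        exact sg_commCase Q hnd p r p' r' h h' hD hM hmeet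
      · left
        push Not at hmeet
        obtain ⟨a, b, c, d, hw, hab⟩ := hmeet
        refine sgGrp_commute_meet Q hnd p r p' r' h h' a b c d ?_ hw
        by_cases ha : a = 0
        · exact Or.inr (hab ha)
        · exact Or.inl ha
  · right; left
    exact hD

end Cfsg.Agent.Helper15
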