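import Mathlib
import Cfsg.Prelude.Def_RootSubgroups
import Cfsg.Prelude.Def_ClassicalGeometry
import Cfsg.Agent.S0765
import Cfsg.Agent.Helper15.SLRoot4

set_option autoImplicit false

namespace Cfsg.Agent.Helper15

variable {F : Type*} [Field F] {m : ℕ}

/-- The alternating form `f(v, p) = v ⬝ J p`. -/
def spf (v p : Fin m ⊕ Fin m → F) : F :=
  v ⬝ᵥ ((Matrix.J (Fin m) F).mulVec p)

theorem spf_add_left (v w p : Fin m ⊕ Fin m → F) : spf (v + w) p = spf v p + spf w p := by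
  unfold spf
  rw [add_dotProduct]

theorem spf_smul_left (c : F) (v p : Fin m ⊕ Fin m → F) : spf (c • v) p = c * spf v p := by
  unfold spf
  rw [smul_dotProduct, smul_eq_mul]

theorem spf_add_right (v p q : Fin m ⊕ Fin m → F) : spf v (p + q) = spf v p + spf v q := by
  unfold spf
  rw [Matrix.mulVec_add, dotProduct_add]

theorem spf_smul_right (c : F) (v p : Fin m ⊕ Fin m → F) : spf v (c • p) = c * spf v p := by
  unfold spf
  rw [Matrix.mulVec_smul, dotProduct_smul, smul_eq_mul]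

theorem spf_self (p : Fin m ⊕ Fin m → F) : spf p p = 0 :=
  Cfsg.Agent.Helper6.dotProduct_J_mulVec_self m p

theorem spf_swap (p q : Fin m ⊕ Fin m → F) : spf p q = - spf q p := by
  have h := spf_self (p + q)
  rw [spf_add_left, spf_add_right, spf_add_right, spf_self, spf_self] at h
  linear_combination h

theorem spf_zero_left (p : Fin m ⊕ Fin m → F) : spf 0 p = 0 := by
  unfold spf
  rw [zero_dotProduct]

theorem spf_zero_right (p : Fin m ⊕ Fin m → F) : spf p 0 = 0 := by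
  rw [spf_swap, spf_zero_left, neg_zero]

/-- The action of a symplectic matrix on vectors. -/
def spAct (g : ↥(Matrix.symplecticGroup (Fin m) F)) (v : Fin m ⊕ Fin m → F) :
    Fin m ⊕ Fin m → F :=
  (g : Matrix (Fin m ⊕ Fin m) (Fin m ⊕ Fin m) F).mulVec v

theorem spAct_mul (g h : ↥(Matrix.symplecticGroup (Fin m) F)) (v : Fin m ⊕ Fin m → F) :
    spAct (g * h) v = spAct g (spAct h v) := by
  unfold spAct
  rw [Matrix.mulVec_mulVec]
  rfl

theorem spAct_one (v : Fin m ⊕ Fin m → F) :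
    spAct (1 : ↥(Matrix.symplecticGroup (Fin m) F)) v = v :=
  Matrix.one_mulVec v

theorem spAct_inv_cancel (g : ↥(Matrix.symplecticGroup (Fin m) F)) (v : Fin m ⊕ Fin m → F) :
    spAct g⁻¹ (spAct g v) = v := by
  rw [← spAct_mul, inv_mul_cancel, spAct_one]

theorem spAct_cancel_inv (g : ↥(Matrix.symplecticGroup (Fin m) F)) (v : Fin m ⊕ Fin m → F) :
    spAct g (spAct g⁻¹ v) = v := by
  rw [← spAct_mul, mul_inv_cancel, spAct_one]

theorem spAct_add (g : ↥(Matrix.symplecticGroup (Fin m) F)) (v w : Fin m ⊕ Fin m → F) :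
    spAct g (v + w) = spAct g v + spAct g w :=
  Matrix.mulVec_add _ _ _

theorem spAct_smul (g : ↥(Matrix.symplecticGroup (Fin m) F)) (c : F) (v : Fin m ⊕ Fin m → F) :
    spAct g (c • v) = c • spAct g v :=
  Matrix.mulVec_smul _ _ _

theorem sp_ext (g h : ↥(Matrix.symplecticGroup (Fin m) F))
    (H : ∀ v, spAct g v = spAct h v) : g = h := by
  apply Subtype.ext
  apply Matrix.mulVec_injective
  funext v
  exact H v

theorem spf_act (g : ↥(Matrix.symplecticGroup (Fin m) F)) (v w : Fin m ⊕ Fin m → F) :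
    spf (spAct g v) (spAct g w) = spf v w := by
  have h := Cfsg.Agent.Helper5.sp_preserves m g.1 g.2 v w
  rw [Cfsg.Agent.Helper5.sB_apply, Cfsg.Agent.Helper5.sB_apply] at h
  exact h

theorem spf_act_inv (g : ↥(Matrix.symplecticGroup (Fin m) F)) (v w : Fin m ⊕ Fin m → F) :
    spf (spAct g⁻¹ v) w = spf v (spAct g w) := by
  rw [← spf_act g, spAct_cancel_inv]

theorem spAct_ne_zero (g : ↥(Matrix.symplecticGroup (Fin m) F)) (v : Fin m ⊕ Fin m → F)
    (hv : v ≠ 0) : spAct g v ≠ 0 := by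
  intro h
  apply hv
  have h1 := spAct_inv_cancel g v
  rw [h] at h1
  rw [← h1]
  exact Matrix.mulVec_zero _

/-- The symplectic transvection `v ↦ v + c f(v, p) p`. -/
def spEl (p : Fin m ⊕ Fin m → F) (c : F) : ↥(Matrix.symplecticGroup (Fin m) F) :=
  ⟨Cfsg.sympTransvection m p c, Cfsg.Agent.Helper6.sympTransvection_mem m p c⟩

theorem spEl_act (p : Fin m ⊕ Fin m → F) (c : F) (v : Fin m ⊕ Fin m → F) :
    spAct (spEl p c) v = v + (c * spf v p) • p := by
  show (Cfsg.sympTransvection m p c).mulVec v = _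
  unfold Cfsg.sympTransvection spf
  rw [Matrix.add_mulVec, Matrix.one_mulVec, Matrix.smul_mulVec, Matrix.vecMulVec_mulVec,
    op_smul_eq_smul, smul_smul, dotProduct_comm]

theorem spEl_mul (p : Fin m ⊕ Fin m → F) (c d : F) : spEl p c * spEl p d = spEl p (c + d) := by
  apply sp_ext
  intro v
  rw [spAct_mul, spEl_act, spEl_act, spEl_act, spf_add_left, spf_smul_left, spf_self]
  module

theorem spEl_zero (p : Fin m ⊕ Fin m → F) : spEl p 0 = 1 := by
  apply sp_ext
  intro v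
  rw [spEl_act, zero_mul, zero_smul, add_zero, spAct_one]

theorem spEl_inv (p : Fin m ⊕ Fin m → F) (c : F) : (spEl p c)⁻¹ = spEl p (-c) :=
  inv_eq_of_mul_eq_one_right (by rw [spEl_mul, add_neg_cancel, spEl_zero])

/-- The set of symplectic transvections along `p`. -/
def spSet (p : Fin m ⊕ Fin m → F) : Set ↥(Matrix.symplecticGroup (Fin m) F) :=
  {g | ∃ c : F, ∀ v : Fin m ⊕ Fin m → F,
    (g : Matrix (Fin m ⊕ Fin m) (Fin m ⊕ Fin m) F).mulVec v
      = v + (c * (v ⬝ᵥ ((Matrix.J (Fin m) F).mulVec p))) • p}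

/-- The transvection group `T(p)`. -/
def spGrp (p : Fin m ⊕ Fin m → F) : Subgroup ↥(Matrix.symplecticGroup (Fin m) F) :=
  Subgroup.closure (spSet p)

theorem mem_spSet_iff (p : Fin m ⊕ Fin m → F) (g : ↥(Matrix.symplecticGroup (Fin m) F)) :
    g ∈ spSet p ↔ ∃ c, g = spEl p c := by
  constructor
  · rintro ⟨c, hc⟩
    refine ⟨c, sp_ext _ _ (fun v => ?_)⟩
    rw [spEl_act]
    exact hc v
  · rintro ⟨c, rfl⟩
    exact ⟨c, fun v => spEl_act p c v⟩

theorem mem_spGrp_iff (p : Fin m ⊕ Fin m → F) (g : ↥(Matrix.symplecticGroup (Fin m) F)) :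
    g ∈ spGrp p ↔ ∃ c, g = spEl p c := by
  constructor
  · intro ht
    refine Subgroup.closure_induction (p := fun x _ => ∃ c, x = spEl p c) ?_ ?_ ?_ ?_ ht
    · intro x hx
      exact (mem_spSet_iff p x).1 hx
    · exact ⟨0, (spEl_zero p).symm⟩
    · rintro x y _ _ ⟨c, rfl⟩ ⟨d, rfl⟩
      exact ⟨c + d, spEl_mul p c d⟩
    · rintro x _ ⟨c, rfl⟩
      exact ⟨-c, spEl_inv p c⟩
  · rintro ⟨c, rfl⟩
    exact Subgroup.subset_closure ((mem_spSet_iff p _).2 ⟨c, rfl⟩)

theorem spEl_mem (p : Fin m ⊕ Fin m → F) (c : F) : spEl p c ∈ spGrp p :=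
  (mem_spGrp_iff p _).2 ⟨c, rfl⟩

theorem spEl_smul (a : F) (p : Fin m ⊕ Fin m → F) (c : F) :
    spEl (a • p) c = spEl p (c * a * a) := by
  apply sp_ext
  intro v
  rw [spEl_act, spEl_act, spf_smul_right, smul_smul]
  congr 2
  ring

theorem spSet_smul (a : F) (ha : a ≠ 0) (p : Fin m ⊕ Fin m → F) : spSet (a • p) = spSet p := by
  ext g
  rw [mem_spSet_iff, mem_spSet_iff]
  constructor
  · rintro ⟨c, rfl⟩
    exact ⟨c * a * a, spEl_smul a p c⟩
  · rintro ⟨c, rfl⟩
    refine ⟨c / (a * a), ?_⟩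
    rw [spEl_smul]
    congr 1
    field_simp

theorem spGrp_smul (a : F) (ha : a ≠ 0) (p : Fin m ⊕ Fin m → F) : spGrp (a • p) = spGrp p := by
  unfold spGrp
  rw [spSet_smul a ha p]

theorem spEl_conj (g : ↥(Matrix.symplecticGroup (Fin m) F)) (p : Fin m ⊕ Fin m → F) (c : F) :
    g * spEl p c * g⁻¹ = spEl (spAct g p) c := by
  apply sp_ext
  intro v
  rw [spAct_mul, spAct_mul, spEl_act, spEl_act, spAct_add, spAct_smul, spAct_cancel_inv,
    spf_act_inv]

theorem spSet_conj (g : ↥(Matrix.symplecticGroup (Fin m) F)) (p : Fin m ⊕ Fin m → F) :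
    (fun t => g * t * g⁻¹) '' spSet p = spSet (spAct g p) := by
  ext x
  constructor
  · rintro ⟨t, ht, rfl⟩
    obtain ⟨c, rfl⟩ := (mem_spSet_iff p t).1 ht
    exact (mem_spSet_iff _ _).2 ⟨c, spEl_conj g p c⟩
  · intro hx
    obtain ⟨c, rfl⟩ := (mem_spSet_iff _ x).1 hx
    exact ⟨spEl p c, (mem_spSet_iff p _).2 ⟨c, rfl⟩, spEl_conj g p c⟩

theorem spGrp_conj (g : ↥(Matrix.symplecticGroup (Fin m) F)) (p : Fin m ⊕ Fin m → F) :
    Cfsg.conjBy (spGrp p) g = spGrp (spAct g p) := by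
  unfold spGrp
  show (Subgroup.closure (spSet p)).map (MulAut.conj g).toMonoidHom = _
  rw [MonoidHom.map_closure]
  congr 1
  exact spSet_conj g p

theorem spf_nondeg (p : Fin m ⊕ Fin m → F) (hp : p ≠ 0) : ∃ v, spf v p ≠ 0 := by
  classical
  have hJ : (Matrix.J (Fin m) F).mulVec p ≠ 0 := by
    intro h
    apply hp
    have h1 := Cfsg.Agent.Helper6.J_mulVec_J_mulVec m p
    rw [h, Matrix.mulVec_zero] at h1
    exact neg_eq_zero.1 h1.symm
  obtain ⟨i, hi⟩ : ∃ i, (Matrix.J (Fin m) F).mulVec p i ≠ 0 := by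
    by_contra hcon
    push Not at hcon
    exact hJ (funext hcon)
  refine ⟨Pi.single i 1, ?_⟩
  unfold spf
  rw [single_one_dotProduct]
  exact hi

theorem spEl_ne_one (p : Fin m ⊕ Fin m → F) (hp : p ≠ 0) (c : F) (hc : c ≠ 0) :
    spEl p c ≠ 1 := by
  intro h
  obtain ⟨v, hv⟩ := spf_nondeg p hp
  have h1 := spEl_act p c v
  rw [h, spAct_one] at h1
  have h2 : (c * spf v p) • p = 0 := by
    have h3 : v + 0 = v + (c * spf v p) • p := by
      rw [add_zero]
      exact h1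
    exact (add_left_cancel h3).symm
  rcases smul_eq_zero.1 h2 with h4 | h4
  · exact mul_ne_zero hc hv h4
  · exact hp h4

theorem spEl_comm_of (p q : Fin m ⊕ Fin m → F) (h : spf p q = 0) (s r : F) :
    spEl p s * spEl q r = spEl q r * spEl p s := by
  have h' : spf q p = 0 := by rw [spf_swap, h, neg_zero]
  apply sp_ext
  intro v
  rw [spAct_mul, spAct_mul, spEl_act, spEl_act, spEl_act, spEl_act, spf_add_left, spf_add_left,
    spf_smul_left, spf_smul_left, h, h']
  module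

theorem spGrp_commute (p q : Fin m ⊕ Fin m → F) (h : spf p q = 0) :
    ∀ a ∈ spGrp p, ∀ b ∈ spGrp q, a * b = b * a := by
  intro a ha b hb
  obtain ⟨s, rfl⟩ := (mem_spGrp_iff p a).1 ha
  obtain ⟨r, rfl⟩ := (mem_spGrp_iff q b).1 hb
  exact spEl_comm_of p q h s r

theorem spGrp_comm_bot (p q : Fin m ⊕ Fin m → F) (h : spf p q = 0) :
    ⁅spGrp p, spGrp q⁆ = ⊥ := by
  rw [Subgroup.commutator_eq_bot_iff_le_centralizer]
  intro a ha
  rw [Subgroup.mem_centralizer_iff]
  intro b hb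
  exact (spGrp_commute p q h a ha b hb).symm

theorem spGrp_isMulCommutative (p : Fin m ⊕ Fin m → F) : IsMulCommutative (spGrp p) := by
  refine ⟨⟨?_⟩⟩
  rintro ⟨a, ha⟩ ⟨b, hb⟩
  apply Subtype.ext
  exact spGrp_commute p p (spf_self p) a ha b hb

theorem spGrp_nilpotent (p : Fin m ⊕ Fin m → F) : Group.IsNilpotent (spGrp p) :=
  ⟨⟨1, Subgroup.upperCentralSeries_one_eq_top_iff.2 (spGrp_isMulCommutative p)⟩⟩

theorem spGrp_ne_bot (p : Fin m ⊕ Fin m → F) (hp : p ≠ 0) : spGrp p ≠ ⊥ := by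
  intro hb
  have h1 := spEl_mem p 1
  rw [hb, Subgroup.mem_bot] at h1
  exact spEl_ne_one p hp 1 one_ne_zero h1

theorem spGrp_eq_prop (p q : Fin m ⊕ Fin m → F) (hq : q ≠ 0) (heq : spGrp p = spGrp q) :
    ∃ l : F, q = l • p := by
  have hm : spEl q 1 ∈ spGrp p := by
    rw [heq]
    exact spEl_mem q 1
  obtain ⟨c, hc⟩ := (mem_spGrp_iff p _).1 hm
  obtain ⟨v, hv⟩ := spf_nondeg q hq
  have h1 := congrArg (fun g => spAct g v) hc
  simp only [spEl_act, one_mul] at h1
  have h2 : spf v q • q = (c * spf v p) • p := add_left_cancel h1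
  refine ⟨(spf v q)⁻¹ * (c * spf v p), ?_⟩
  rw [← smul_smul, ← h2, smul_smul, inv_mul_cancel₀ hv, one_smul]

theorem spEl_comm_imp (p q : Fin m ⊕ Fin m → F) (hp : p ≠ 0) (s r : F) (hs : s ≠ 0)
    (hr : r ≠ 0) (h : spEl p s * spEl q r = spEl q r * spEl p s) : spf p q = 0 := by
  have h1 := congrArg (fun g => spAct g p) h
  simp only [spAct_mul, spEl_act, spf_self, mul_zero, zero_smul, add_zero, spf_add_left,
    spf_smul_left, zero_add] at h1
  have h2 : (s * (r * spf p q * spf q p)) • p = 0 := by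
    have h3 : p + (r * spf p q) • q + (s * (r * spf p q * spf q p)) • p
        = p + (r * spf p q) • q + 0 := by
      rw [add_zero]
      exact h1
    exact add_left_cancel h3
  rcases smul_eq_zero.1 h2 with h4 | h4
  · rw [spf_swap q p] at h4
    have h5 : s * r * (spf p q * spf p q) = 0 := by linear_combination -h4
    rcases mul_eq_zero.1 h5 with h6 | h6
    · exact absurd h6 (mul_ne_zero hs hr)
    · exact mul_self_eq_zero.1 h6
  · exact absurd h4 hp

end Cfsg.Agent.Helper15
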