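import Mathlib
import Cfsg.Prelude.Def_RootSubgroups
import Cfsg.Prelude.Def_ClassicalGeometry
import Cfsg.Agent.Helper15.SpRoot1

set_option autoImplicit false

namespace Cfsg.Agent.Helper15

open scoped MatrixGroups
open scoped commutatorElement

variable {F : Type*} [Field F] {m : ℕ}

theorem sp_rank_one_cond (p q : Fin m ⊕ Fin m → F) (hq : q ≠ 0) (h : spf p q ≠ 0) :
    Cfsg.RankOneCondition (spGrp p) (spGrp q) := by
  intro a ha ha1
  obtain ⟨s, rfl⟩ := (mem_spGrp_iff p a).1 ha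
  have hs : s ≠ 0 := by
    rintro rfl
    exact ha1 (spEl_zero p)
  have hne : s * (spf p q * spf p q) ≠ 0 := mul_ne_zero hs (mul_ne_zero h h)
  obtain ⟨r, hr⟩ : ∃ r : F, r = -(s * (spf p q * spf p q))⁻¹ := ⟨_, rfl⟩
  have hr0 : r ≠ 0 := by
    rw [hr]
    exact neg_ne_zero.2 (inv_ne_zero hne)
  have hr1 : s * (spf p q * spf p q) * r = -1 := by
    rw [hr, mul_neg, mul_inv_cancel₀ hne]
  refine ⟨spEl q r, spEl_mem q r, spEl_ne_one q hq r hr0, ?_⟩
  rw [spGrp_conj, spGrp_conj, spEl_inv, spEl_inv, spEl_act, spEl_act]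
  have e : q + (-s * spf q p) • p = (s * spf p q) • (p + (-r * spf p q) • q) := by
    rw [spf_swap q p, smul_add, smul_smul]
    have h1 : s * spf p q * (-r * spf p q) = 1 := by linear_combination -hr1
    rw [h1, one_smul, add_comm]
    congr 2
    ring
  rw [e, spGrp_smul _ (mul_ne_zero hs h)]

theorem sp_rank_one_pair (p q : Fin m ⊕ Fin m → F) (hp : p ≠ 0) (hq : q ≠ 0)
    (h : spf p q ≠ 0) : Cfsg.IsRankOnePair (spGrp p) (spGrp q) := by
  have h' : spf q p ≠ 0 := by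
    rw [spf_swap]
    exact neg_ne_zero.2 h
  refine ⟨?_, spGrp_nilpotent p, spGrp_nilpotent q, sp_rank_one_cond p q hq h,
    sp_rank_one_cond q p hp h'⟩
  intro heq
  obtain ⟨l, hl⟩ := spGrp_eq_prop p q hq heq
  apply h
  rw [hl, spf_smul_right, spf_self, mul_zero]

theorem sp_rank_one_imp (p q : Fin m ⊕ Fin m → F) (hp : p ≠ 0)
    (hpair : Cfsg.IsRankOnePair (spGrp p) (spGrp q)) : spf p q ≠ 0 := by
  intro h
  have h' : spf q p = 0 := by rw [spf_swap, h, neg_zero]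
  obtain ⟨b, hb, hb1, hconj⟩ := hpair.cond_left (spEl p 1) (spEl_mem p 1)
    (spEl_ne_one p hp 1 one_ne_zero)
  obtain ⟨r, rfl⟩ := (mem_spGrp_iff q b).1 hb
  rw [spGrp_conj, spGrp_conj, spEl_inv, spEl_inv, spEl_act, spEl_act, h, h', mul_zero, mul_zero,
    zero_smul, zero_smul, add_zero, add_zero] at hconj
  exact hpair.ne hconj

theorem sp_not_comm_case (S : Set (Subgroup ↥(Matrix.symplecticGroup (Fin m) F)))
    (hS : ∀ A ∈ S, A ≠ ⊥) (p q : Fin m ⊕ Fin m → F) (hp : p ≠ 0) :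
    ¬ Cfsg.RootCommutatorCase S (spGrp p) (spGrp q) := by
  rintro ⟨hmem, hcent, -, -⟩
  by_cases h : spf p q = 0
  · exact hS _ hmem (spGrp_comm_bot p q h)
  · have hc := hcent ⁅spEl p 1, spEl q 1⁆
      (Subgroup.commutator_mem_commutator (spEl_mem p 1) (spEl_mem q 1)) (spEl p 1)
      (Subgroup.mem_sup_left (spEl_mem p 1))
    rw [commutatorElement_def] at hc
    have h1 : spEl p 1 * (spEl q 1 * (spEl p 1)⁻¹ * (spEl q 1)⁻¹)
        = (spEl q 1 * (spEl p 1)⁻¹ * (spEl q 1)⁻¹) * spEl p 1 := by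
      have h3 := congrArg (fun x => (spEl p 1)⁻¹ * x) hc
      simp only [mul_assoc, inv_mul_cancel_left] at h3
      simp only [mul_assoc]
      exact h3.symm
    rw [spEl_inv p 1, spEl_conj] at h1
    have h2 := spEl_comm_imp p _ hp 1 (-1) one_ne_zero (neg_ne_zero.2 one_ne_zero) h1
    rw [spEl_act, spf_add_right, spf_self, spf_smul_right, one_mul, zero_add] at h2
    exact h (mul_self_eq_zero.1 h2)

/-- The homomorphism `M ↦ 1 + P (M - 1) Q` for `Q P = 1`, into matrices. -/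
def matPhi {ι : Type*} [Fintype ι] [DecidableEq ι] (P : Matrix ι (Fin 2) F)
    (Q : Matrix (Fin 2) ι F) (hQP : Q * P = 1) :
    Matrix.SpecialLinearGroup (Fin 2) F →* Matrix ι ι F where
  toFun M := 1 + P * ((M : Matrix (Fin 2) (Fin 2) F) - 1) * Q
  map_one' := by
    rw [Matrix.SpecialLinearGroup.coe_one, sub_self, Matrix.mul_zero, Matrix.zero_mul, add_zero]
  map_mul' := by
    intro A B
    rw [Matrix.SpecialLinearGroup.coe_mul]
    have h : P * ((A : Matrix (Fin 2) (Fin 2) F) - 1) * Q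
        * (P * ((B : Matrix (Fin 2) (Fin 2) F) - 1) * Q)
        = P * (((A : Matrix (Fin 2) (Fin 2) F) - 1) * ((B : Matrix (Fin 2) (Fin 2) F) - 1)) * Q := by
      calc P * ((A : Matrix (Fin 2) (Fin 2) F) - 1) * Q
            * (P * ((B : Matrix (Fin 2) (Fin 2) F) - 1) * Q)
          = P * (((A : Matrix (Fin 2) (Fin 2) F) - 1) * (Q * P)
            * ((B : Matrix (Fin 2) (Fin 2) F) - 1)) * Q := by
            simp only [Matrix.mul_assoc]
        _ = _ := by rw [hQP, Matrix.mul_one]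
    have e : (A : Matrix (Fin 2) (Fin 2) F) * (B : Matrix (Fin 2) (Fin 2) F) - 1
        = ((A : Matrix (Fin 2) (Fin 2) F) - 1) + ((B : Matrix (Fin 2) (Fin 2) F) - 1)
          + ((A : Matrix (Fin 2) (Fin 2) F) - 1) * ((B : Matrix (Fin 2) (Fin 2) F) - 1) := by
      noncomm_ring
    rw [e, mul_add, add_mul, one_mul, mul_one, add_mul, one_mul, h, Matrix.mul_add,
      Matrix.mul_add, Matrix.add_mul, Matrix.add_mul]
    abel

theorem matPhi_apply {ι : Type*} [Fintype ι] [DecidableEq ι] (P : Matrix ι (Fin 2) F)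
    (Q : Matrix (Fin 2) ι F) (hQP : Q * P = 1) (M : Matrix.SpecialLinearGroup (Fin 2) F) :
    matPhi P Q hQP M = 1 + P * ((M : Matrix (Fin 2) (Fin 2) F) - 1) * Q := rfl

theorem matPhi_eq_one {ι : Type*} [Fintype ι] [DecidableEq ι] (P : Matrix ι (Fin 2) F)
    (Q : Matrix (Fin 2) ι F) (hQP : Q * P = 1) (M : Matrix.SpecialLinearGroup (Fin 2) F)
    (h0 : matPhi P Q hQP M = 1) : M = 1 := by
  rw [matPhi_apply] at h0
  have h1 : P * ((M : Matrix (Fin 2) (Fin 2) F) - 1) * Q = 0 := by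
    have h4 : (1 : Matrix ι ι F) + P * ((M : Matrix (Fin 2) (Fin 2) F) - 1) * Q = 1 + 0 := by
      rw [add_zero]
      exact h0
    exact add_left_cancel h4
  have h2 : (M : Matrix (Fin 2) (Fin 2) F) - 1 = 0 := by
    calc (M : Matrix (Fin 2) (Fin 2) F) - 1
        = (Q * P) * ((M : Matrix (Fin 2) (Fin 2) F) - 1) * (Q * P) := by
          rw [hQP, Matrix.one_mul, Matrix.mul_one]
      _ = Q * (P * ((M : Matrix (Fin 2) (Fin 2) F) - 1) * Q) * P := by
          simp only [Matrix.mul_assoc]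
      _ = 0 := by rw [h1, Matrix.mul_zero, Matrix.zero_mul]
  exact Subtype.ext (sub_eq_zero.1 h2)

theorem matPQ_one {ι : Type*} [Fintype ι] [DecidableEq ι] (u v x y : ι → F)
    (hxu : x ⬝ᵥ u = 1) (hxv : x ⬝ᵥ v = 0) (hyu : y ⬝ᵥ u = 0) (hyv : y ⬝ᵥ v = 1) :
    (Matrix.of ![x, y] : Matrix (Fin 2) ι F) * (Matrix.of ![u, v]).transpose = 1 := by
  ext a b
  rw [Matrix.mul_apply]
  fin_cases a <;> fin_cases b
  · simpa [dotProduct] using hxu
  · simpa [dotProduct] using hxv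
  · simpa [dotProduct] using hyu
  · simpa [dotProduct] using hyv

theorem matPQ_form {ι : Type*} [Fintype ι] [DecidableEq ι] (u v x y : ι → F)
    (D : Matrix (Fin 2) (Fin 2) F) :
    (Matrix.of ![u, v]).transpose * D * (Matrix.of ![x, y] : Matrix (Fin 2) ι F)
      = D 0 0 • Matrix.vecMulVec u x + D 0 1 • Matrix.vecMulVec u y
        + D 1 0 • Matrix.vecMulVec v x + D 1 1 • Matrix.vecMulVec v y := by
  ext i j
  simp [Matrix.mul_apply, Fin.sum_univ_two, Matrix.vecMulVec_apply]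
  ring

theorem matPhi_upper {ι : Type*} [Fintype ι] [DecidableEq ι] (u v x y : ι → F)
    (hQP : (Matrix.of ![x, y] : Matrix (Fin 2) ι F) * (Matrix.of ![u, v]).transpose = 1) (c : F) :
    matPhi _ _ hQP (Matrix.SpecialLinearGroup.transvection fin2_zero_ne_one c)
      = 1 + c • Matrix.vecMulVec u y := by
  rw [matPhi_apply, Matrix.SpecialLinearGroup.transvection_coe, add_sub_cancel_left, matPQ_form]
  simp [Matrix.single_apply]

theorem matPhi_lower {ι : Type*} [Fintype ι] [DecidableEq ι] (u v x y : ι → F)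
    (hQP : (Matrix.of ![x, y] : Matrix (Fin 2) ι F) * (Matrix.of ![u, v]).transpose = 1) (c : F) :
    matPhi _ _ hQP (Matrix.SpecialLinearGroup.transvection fin2_one_ne_zero c)
      = 1 + c • Matrix.vecMulVec v x := by
  rw [matPhi_apply, Matrix.SpecialLinearGroup.transvection_coe, add_sub_cancel_left, matPQ_form]
  simp [Matrix.single_apply]

theorem sp_psl2 (p q : Fin m ⊕ Fin m → F) (h : spf p q ≠ 0) :
    Cfsg.IsPSL2PairOver F (spGrp p) (spGrp q) := by
  classical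
  have h' : spf q p ≠ 0 := by
    rw [spf_swap]
    exact neg_ne_zero.2 h
  obtain ⟨x, hx⟩ : ∃ x : Fin m ⊕ Fin m → F, x = (spf p q)⁻¹ • (Matrix.J (Fin m) F).mulVec q :=
    ⟨_, rfl⟩
  obtain ⟨y, hy⟩ : ∃ y : Fin m ⊕ Fin m → F, y = (spf q p)⁻¹ • (Matrix.J (Fin m) F).mulVec p :=
    ⟨_, rfl⟩
  have hxu : x ⬝ᵥ p = 1 := by
    rw [hx, smul_dotProduct, dotProduct_comm, smul_eq_mul]
    exact inv_mul_cancel₀ h
  have hxv : x ⬝ᵥ q = 0 := by
    rw [hx, smul_dotProduct, dotProduct_comm, smul_eq_mul]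
    show _ * spf q q = 0
    rw [spf_self, mul_zero]
  have hyu : y ⬝ᵥ p = 0 := by
    rw [hy, smul_dotProduct, dotProduct_comm, smul_eq_mul]
    show _ * spf p p = 0
    rw [spf_self, mul_zero]
  have hyv : y ⬝ᵥ q = 1 := by
    rw [hy, smul_dotProduct, dotProduct_comm, smul_eq_mul]
    exact inv_mul_cancel₀ h'
  have hQP := matPQ_one p q x y hxu hxv hyu hyv
  have hU : ∀ c : F, matPhi _ _ hQP (Matrix.SpecialLinearGroup.transvection fin2_zero_ne_one c)
      = ((spEl p (c * (spf q p)⁻¹) : ↥(Matrix.symplecticGroup (Fin m) F))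
        : Matrix (Fin m ⊕ Fin m) (Fin m ⊕ Fin m) F) := by
    intro c
    rw [matPhi_upper, hy, Matrix.vecMulVec_smul, smul_smul]
    rfl
  have hL : ∀ c : F, matPhi _ _ hQP (Matrix.SpecialLinearGroup.transvection fin2_one_ne_zero c)
      = ((spEl q (c * (spf p q)⁻¹) : ↥(Matrix.symplecticGroup (Fin m) F))
        : Matrix (Fin m ⊕ Fin m) (Fin m ⊕ Fin m) F) := by
    intro c
    rw [matPhi_lower, hx, Matrix.vecMulVec_smul, smul_smul]
    rfl
  have hmem : ∀ M : Matrix.SpecialLinearGroup (Fin 2) F,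
      matPhi _ _ hQP M ∈ Matrix.symplecticGroup (Fin m) F := by
    intro M
    refine Cfsg.Agent.Helper2.transvection_induction
      (fun M => matPhi _ _ hQP M ∈ Matrix.symplecticGroup (Fin m) F) ?_ ?_ M
    · intro i j hij c
      fin_cases i <;> fin_cases j
      · exact absurd rfl hij
      · show matPhi _ _ hQP (Matrix.SpecialLinearGroup.transvection fin2_zero_ne_one c) ∈ _
        rw [hU]
        exact (spEl p _).2
      · show matPhi _ _ hQP (Matrix.SpecialLinearGroup.transvection fin2_one_ne_zero c) ∈ _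
        rw [hL]
        exact (spEl q _).2
      · exact absurd rfl hij
    · intro A B hA hB
      show matPhi _ _ hQP (A * B) ∈ _
      rw [map_mul]
      exact Submonoid.mul_mem _ hA hB
  obtain ⟨Φ, hΦ⟩ : ∃ Φ : Matrix.SpecialLinearGroup (Fin 2) F →*
      ↥(Matrix.symplecticGroup (Fin m) F), ∀ M, ((Φ M : ↥(Matrix.symplecticGroup (Fin m) F))
        : Matrix (Fin m ⊕ Fin m) (Fin m ⊕ Fin m) F) = matPhi _ _ hQP M :=
    ⟨(matPhi _ _ hQP).codRestrict (Matrix.symplecticGroup (Fin m) F) hmem, fun M => rfl⟩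
  have hΦU : ∀ c : F, Φ (Matrix.SpecialLinearGroup.transvection fin2_zero_ne_one c)
      = spEl p (c * (spf q p)⁻¹) := by
    intro c
    apply Subtype.ext
    rw [hΦ, hU]
  have hΦL : ∀ c : F, Φ (Matrix.SpecialLinearGroup.transvection fin2_one_ne_zero c)
      = spEl q (c * (spf p q)⁻¹) := by
    intro c
    apply Subtype.ext
    rw [hΦ, hL]
  have hupper : (Cfsg.upperUnipotentSL2 F).map Φ = spGrp p := by
    unfold Cfsg.upperUnipotentSL2 spGrp
    rw [MonoidHom.map_closure, upper_set_eq]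
    congr 1
    ext t
    constructor
    · rintro ⟨g, ⟨c, rfl⟩, rfl⟩
      rw [hΦU]
      exact (mem_spSet_iff p _).2 ⟨_, rfl⟩
    · intro ht
      obtain ⟨c, rfl⟩ := (mem_spSet_iff p t).1 ht
      refine ⟨_, ⟨c * spf q p, rfl⟩, ?_⟩
      rw [hΦU, mul_assoc, mul_inv_cancel₀ h', mul_one]
  have hlower : (Cfsg.lowerUnipotentSL2 F).map Φ = spGrp q := by
    unfold Cfsg.lowerUnipotentSL2 spGrp
    rw [MonoidHom.map_closure, lower_set_eq]
    congr 1
    ext t
    constructor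
    · rintro ⟨g, ⟨c, rfl⟩, rfl⟩
      rw [hΦL]
      exact (mem_spSet_iff q _).2 ⟨_, rfl⟩
    · intro ht
      obtain ⟨c, rfl⟩ := (mem_spSet_iff q t).1 ht
      refine ⟨_, ⟨c * spf p q, rfl⟩, ?_⟩
      rw [hΦL, mul_assoc, mul_inv_cancel₀ h, mul_one]
  refine ⟨Φ, ?_, ?_, hupper, hlower⟩
  · rw [MonoidHom.range_eq_map, ← sl2_upper_lower_top F, Subgroup.map_sup, hupper, hlower]
  · intro M hM
    rw [MonoidHom.mem_ker] at hM
    have h0 := congrArg Subtype.val hM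
    rw [hΦ] at h0
    have h3 : M = 1 := matPhi_eq_one _ _ hQP M h0
    rw [h3]
    exact Subgroup.one_mem _

theorem sp_trans_aux (p q : Fin m ⊕ Fin m → F) (h : spf p q ≠ 0) :
    ∃ g : ↥(Matrix.symplecticGroup (Fin m) F), spAct g p = q := by
  refine ⟨spEl (q + (-1 : F) • p) (spf p q)⁻¹, ?_⟩
  rw [spEl_act, spf_add_right, spf_smul_right, spf_self, mul_zero, add_zero, inv_mul_cancel₀ h,
    one_smul]
  module

theorem sp_exists_both (p q : Fin m ⊕ Fin m → F) (hp : p ≠ 0) (hq : q ≠ 0) :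
    ∃ w, spf p w ≠ 0 ∧ spf q w ≠ 0 := by
  obtain ⟨v₁, h1⟩ := spf_nondeg p hp
  obtain ⟨v₂, h2⟩ := spf_nondeg q hq
  obtain ⟨w, -, hw1, hw2⟩ := avoid_two (fun x => spf p x) (fun x => spf q x) (spf_add_right p)
    (spf_add_right q) v₁ v₂ (by rw [spf_swap]; exact neg_ne_zero.2 h1)
    (by rw [spf_swap]; exact neg_ne_zero.2 h2)
  exact ⟨w, hw1, hw2⟩

/-- The family of symplectic transvection groups. -/
def spFam (F : Type*) [Field F] (m : ℕ) : Set (Subgroup ↥(Matrix.symplecticGroup (Fin m) F)) :=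
  {A | ∃ p : Fin m ⊕ Fin m → F, p ≠ 0 ∧ A = spGrp p}

theorem spFam_generates : (⨆ A ∈ spFam F m, A) = ⊤ := by
  rw [eq_top_iff, ← Cfsg.Agent.S0765.result m, Subgroup.closure_le]
  rintro A ⟨w, c, hA⟩
  have hAe : A = spEl w c := Subtype.ext hA
  by_cases hw : w = 0
  · have h1 : spEl (0 : Fin m ⊕ Fin m → F) c = 1 :=
      sp_ext _ _ (fun v => by rw [spEl_act, smul_zero, add_zero, spAct_one])
    rw [hAe, hw, h1]
    exact Subgroup.one_mem _
  · have hmem : spGrp w ∈ spFam F m := ⟨w, hw, rfl⟩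
    have hle : spGrp w ≤ ⨆ A ∈ spFam F m, A := le_biSup (fun A => A) hmem
    rw [hAe]
    exact hle (spEl_mem w c)

theorem spFam_rootSet : Cfsg.IsRootSubgroupSet (spFam F m) := by
  refine ⟨?_, ?_, spFam_generates, ?_, ?_⟩
  · rintro A ⟨p, hp, rfl⟩
    exact spGrp_isMulCommutative p
  · rintro A ⟨p, hp, rfl⟩
    exact spGrp_ne_bot p hp
  · rintro A ⟨p, hp, rfl⟩ g
    exact ⟨spAct g p, spAct_ne_zero g p hp, spGrp_conj g p⟩
  · rintro A ⟨p, hp, rfl⟩ B ⟨q, hq, rfl⟩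
    by_cases h : spf p q = 0
    · left
      exact spGrp_comm_bot p q h
    · right; left
      exact sp_rank_one_pair p q hp hq h

theorem spFam_conjClass (hm : 0 < m) : Cfsg.IsConjClassOfSubgroups (spFam F m) := by
  classical
  refine ⟨⟨spGrp (Pi.single (Sum.inl ⟨0, hm⟩) 1), _, ?_, rfl⟩, ?_⟩
  · intro h
    have h1 := congrFun h (Sum.inl ⟨0, hm⟩)
    rw [Pi.single_eq_same, Pi.zero_apply] at h1
    exact one_ne_zero h1
  · rintro A ⟨p, hp, rfl⟩ B ⟨q, hq, rfl⟩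
    obtain ⟨w, hw1, hw2⟩ := sp_exists_both p q hp hq
    obtain ⟨g₁, hg₁⟩ := sp_trans_aux p w hw1
    obtain ⟨g₂, hg₂⟩ := sp_trans_aux w q (by rw [spf_swap]; exact neg_ne_zero.2 hw2)
    refine ⟨g₂ * g₁, ?_⟩
    rw [spGrp_conj, spAct_mul, hg₁, hg₂]

theorem spFam_degenerate : Cfsg.IsDegenerateRootSet (spFam F m) := by
  rintro A ⟨p, hp, rfl⟩ B ⟨q, hq, rfl⟩
  refine sp_not_comm_case _ ?_ p q hp
  rintro A ⟨p, hp, rfl⟩
  exact spGrp_ne_bot p hp

theorem spFam_kroot : Cfsg.IsKRootSubgroupSet F (spFam F m) := by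
  refine ⟨spFam_rootSet, ?_⟩
  rintro A ⟨p, hp, rfl⟩ B ⟨q, hq, rfl⟩ hpair
  exact sp_psl2 p q (sp_rank_one_imp p q hp hpair)

theorem spFam_connected : Cfsg.IsConnectedFamily (Cfsg.FAdj (spFam F m)) (spFam F m) := by
  rintro A ⟨p, hp, rfl⟩ B ⟨q, hq, rfl⟩
  obtain ⟨w, hw1, hw2⟩ := sp_exists_both p q hp hq
  have hw0 : w ≠ 0 := by
    rintro rfl
    exact hw1 (spf_zero_right p)
  have hC : spGrp w ∈ spFam F m := ⟨w, hw0, rfl⟩
  exact Relation.ReflTransGen.head
    ⟨⟨p, hp, rfl⟩, hC, sp_rank_one_pair p w hp hw0 hw1⟩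
    (Relation.ReflTransGen.single
      ⟨hC, ⟨q, hq, rfl⟩, sp_rank_one_pair w q hw0 hq (by rw [spf_swap]; exact neg_ne_zero.2 hw2)⟩)

theorem sp_root_subgroup_class (F : Type*) [Field F] (m : ℕ) :
    Cfsg.IsRootSubgroupClass (spFam F (m + 1)) ∧ Cfsg.IsDegenerateRootSet (spFam F (m + 1)) ∧
    Cfsg.IsKRootSubgroupSet F (spFam F (m + 1)) ∧
    Cfsg.IsConnectedFamily (Cfsg.FAdj (spFam F (m + 1))) (spFam F (m + 1)) :=
  ⟨⟨spFam_rootSet, spFam_conjClass (Nat.succ_pos m)⟩, spFam_degenerate, spFam_kroot,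
    spFam_connected⟩

end Cfsg.Agent.Helper15
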