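import Mathlib
import Cfsg.Agent.Helper15.ORoot3
import Cfsg.Agent.Helper15.SpRoot2

set_option autoImplicit false

namespace Cfsg.Agent.Helper15

open scoped commutatorElement

variable {F : Type*} [Field F]

theorem matPhi_comm {ι : Type*} [Fintype ι] [DecidableEq ι] (P₁ P₂ : Matrix ι (Fin 2) F)
    (Q₁ Q₂ : Matrix (Fin 2) ι F) (h₁ : Q₁ * P₁ = 1) (h₂ : Q₂ * P₂ = 1) (h₁₂ : Q₁ * P₂ = 0)
    (h₂₁ : Q₂ * P₁ = 0) (A B : Matrix.SpecialLinearGroup (Fin 2) F) :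
    matPhi P₁ Q₁ h₁ A * matPhi P₂ Q₂ h₂ B = matPhi P₂ Q₂ h₂ B * matPhi P₁ Q₁ h₁ A := by
  rw [matPhi_apply, matPhi_apply]
  obtain ⟨X, hX⟩ : ∃ X : Matrix ι ι F,
      X = P₁ * ((A : Matrix (Fin 2) (Fin 2) F) - 1) * Q₁ := ⟨_, rfl⟩
  obtain ⟨Y, hY⟩ : ∃ Y : Matrix ι ι F,
      Y = P₂ * ((B : Matrix (Fin 2) (Fin 2) F) - 1) * Q₂ := ⟨_, rfl⟩
  have hXY : X * Y = 0 := by
    rw [hX, hY]
    calc P₁ * ((A : Matrix (Fin 2) (Fin 2) F) - 1) * Q₁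
          * (P₂ * ((B : Matrix (Fin 2) (Fin 2) F) - 1) * Q₂)
        = P₁ * ((A : Matrix (Fin 2) (Fin 2) F) - 1) * (Q₁ * P₂)
          * (((B : Matrix (Fin 2) (Fin 2) F) - 1) * Q₂) := by simp only [Matrix.mul_assoc]
      _ = 0 := by rw [h₁₂, Matrix.mul_zero, Matrix.zero_mul]
  have hYX : Y * X = 0 := by
    rw [hX, hY]
    calc P₂ * ((B : Matrix (Fin 2) (Fin 2) F) - 1) * Q₂
          * (P₁ * ((A : Matrix (Fin 2) (Fin 2) F) - 1) * Q₁)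
        = P₂ * ((B : Matrix (Fin 2) (Fin 2) F) - 1) * (Q₂ * P₁)
          * (((A : Matrix (Fin 2) (Fin 2) F) - 1) * Q₁) := by simp only [Matrix.mul_assoc]
      _ = 0 := by rw [h₂₁, Matrix.mul_zero, Matrix.zero_mul]
  rw [← hX, ← hY]
  calc (1 + X) * (1 + Y) = 1 + X + Y + X * Y := by noncomm_ring
    _ = 1 + Y + X + Y * X := by
        rw [hXY, hYX]
        abel
    _ = (1 + Y) * (1 + X) := by noncomm_ring

/-- The product of two commuting copies of `matPhi`. -/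
def matPhi2 {ι : Type*} [Fintype ι] [DecidableEq ι] (P₁ P₂ : Matrix ι (Fin 2) F)
    (Q₁ Q₂ : Matrix (Fin 2) ι F) (h₁ : Q₁ * P₁ = 1) (h₂ : Q₂ * P₂ = 1) (h₁₂ : Q₁ * P₂ = 0)
    (h₂₁ : Q₂ * P₁ = 0) : Matrix.SpecialLinearGroup (Fin 2) F →* Matrix ι ι F where
  toFun M := matPhi P₁ Q₁ h₁ M * matPhi P₂ Q₂ h₂ M
  map_one' := by rw [map_one, map_one, mul_one]
  map_mul' A B := by
    rw [map_mul, map_mul]
    calc matPhi P₁ Q₁ h₁ A * matPhi P₁ Q₁ h₁ B * (matPhi P₂ Q₂ h₂ A * matPhi P₂ Q₂ h₂ B)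
        = matPhi P₁ Q₁ h₁ A * (matPhi P₁ Q₁ h₁ B * matPhi P₂ Q₂ h₂ A) * matPhi P₂ Q₂ h₂ B := by
          simp only [mul_assoc]
      _ = matPhi P₁ Q₁ h₁ A * (matPhi P₂ Q₂ h₂ A * matPhi P₁ Q₁ h₁ B) * matPhi P₂ Q₂ h₂ B := by
          rw [matPhi_comm P₁ P₂ Q₁ Q₂ h₁ h₂ h₁₂ h₂₁ B A]
      _ = _ := by simp only [mul_assoc]

theorem matPhi2_apply {ι : Type*} [Fintype ι] [DecidableEq ι] (P₁ P₂ : Matrix ι (Fin 2) F)
    (Q₁ Q₂ : Matrix (Fin 2) ι F) (h₁ : Q₁ * P₁ = 1) (h₂ : Q₂ * P₂ = 1) (h₁₂ : Q₁ * P₂ = 0)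
    (h₂₁ : Q₂ * P₁ = 0) (M : Matrix.SpecialLinearGroup (Fin 2) F) :
    matPhi2 P₁ P₂ Q₁ Q₂ h₁ h₂ h₁₂ h₂₁ M = matPhi P₁ Q₁ h₁ M * matPhi P₂ Q₂ h₂ M := rfl

theorem matPhi2_eq_one {ι : Type*} [Fintype ι] [DecidableEq ι] (P₁ P₂ : Matrix ι (Fin 2) F)
    (Q₁ Q₂ : Matrix (Fin 2) ι F) (h₁ : Q₁ * P₁ = 1) (h₂ : Q₂ * P₂ = 1) (h₁₂ : Q₁ * P₂ = 0)
    (h₂₁ : Q₂ * P₁ = 0) (M : Matrix.SpecialLinearGroup (Fin 2) F)
    (h0 : matPhi2 P₁ P₂ Q₁ Q₂ h₁ h₂ h₁₂ h₂₁ M = 1) : M = 1 := by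
  rw [matPhi2_apply, matPhi_apply, matPhi_apply] at h0
  have e1 : (1 + P₂ * ((M : Matrix (Fin 2) (Fin 2) F) - 1) * Q₂) * P₁ = P₁ := by
    rw [Matrix.add_mul, Matrix.one_mul, Matrix.mul_assoc, h₂₁, Matrix.mul_zero, add_zero]
  have e2 : Q₁ * (1 + P₁ * ((M : Matrix (Fin 2) (Fin 2) F) - 1) * Q₁)
      = (M : Matrix (Fin 2) (Fin 2) F) * Q₁ := by
    rw [Matrix.mul_add, Matrix.mul_one, ← Matrix.mul_assoc, ← Matrix.mul_assoc, h₁,
      Matrix.one_mul, Matrix.sub_mul, Matrix.one_mul]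
    abel
  have e3 : (M : Matrix (Fin 2) (Fin 2) F) = 1 := by
    calc (M : Matrix (Fin 2) (Fin 2) F) = (M : Matrix (Fin 2) (Fin 2) F) * (Q₁ * P₁) := by
          rw [h₁, Matrix.mul_one]
      _ = ((M : Matrix (Fin 2) (Fin 2) F) * Q₁) * P₁ := by rw [Matrix.mul_assoc]
      _ = (Q₁ * (1 + P₁ * ((M : Matrix (Fin 2) (Fin 2) F) - 1) * Q₁))
            * ((1 + P₂ * ((M : Matrix (Fin 2) (Fin 2) F) - 1) * Q₂) * P₁) := by rw [e1, e2]
      _ = Q₁ * ((1 + P₁ * ((M : Matrix (Fin 2) (Fin 2) F) - 1) * Q₁)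
            * (1 + P₂ * ((M : Matrix (Fin 2) (Fin 2) F) - 1) * Q₂)) * P₁ := by
          simp only [Matrix.mul_assoc]
      _ = Q₁ * (1 : Matrix ι ι F) * P₁ := by rw [h0]
      _ = 1 := by rw [Matrix.mul_one, h₁]
  exact Subtype.ext e3

theorem matPQ_zero {ι : Type*} [Fintype ι] [DecidableEq ι] (u v x y : ι → F)
    (hxu : x ⬝ᵥ u = 0) (hxv : x ⬝ᵥ v = 0) (hyu : y ⬝ᵥ u = 0) (hyv : y ⬝ᵥ v = 0) :
    (Matrix.of ![x, y] : Matrix (Fin 2) ι F) * (Matrix.of ![u, v]).transpose = 0 := by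
  ext a b
  rw [Matrix.mul_apply]
  fin_cases a <;> fin_cases b
  · simpa [dotProduct] using hxu
  · simpa [dotProduct] using hxv
  · simpa [dotProduct] using hyu
  · simpa [dotProduct] using hyv

theorem matPhi2_upper {ι : Type*} [Fintype ι] [DecidableEq ι] (u₁ v₁ x₁ y₁ u₂ v₂ x₂ y₂ : ι → F)
    (h₁ : (Matrix.of ![x₁, y₁] : Matrix (Fin 2) ι F) * (Matrix.of ![u₁, v₁]).transpose = 1)
    (h₂ : (Matrix.of ![x₂, y₂] : Matrix (Fin 2) ι F) * (Matrix.of ![u₂, v₂]).transpose = 1)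
    (h₁₂ : (Matrix.of ![x₁, y₁] : Matrix (Fin 2) ι F) * (Matrix.of ![u₂, v₂]).transpose = 0)
    (h₂₁ : (Matrix.of ![x₂, y₂] : Matrix (Fin 2) ι F) * (Matrix.of ![u₁, v₁]).transpose = 0)
    (hy : y₁ ⬝ᵥ u₂ = 0) (c : F) :
    matPhi2 _ _ _ _ h₁ h₂ h₁₂ h₂₁ (Matrix.SpecialLinearGroup.transvection fin2_zero_ne_one c)
      = 1 + c • (Matrix.vecMulVec u₁ y₁ + Matrix.vecMulVec u₂ y₂) := by
  rw [matPhi2_apply, matPhi_upper, matPhi_upper]
  have e : Matrix.vecMulVec u₁ y₁ * Matrix.vecMulVec u₂ y₂ = 0 := by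
    simp [Matrix.vecMulVec_mul_vecMulVec, hy]
  simp only [mul_add, add_mul, mul_one, one_mul, Matrix.smul_mul, Matrix.mul_smul, e, smul_zero,
    add_zero]
  module

theorem matPhi2_lower {ι : Type*} [Fintype ι] [DecidableEq ι] (u₁ v₁ x₁ y₁ u₂ v₂ x₂ y₂ : ι → F)
    (h₁ : (Matrix.of ![x₁, y₁] : Matrix (Fin 2) ι F) * (Matrix.of ![u₁, v₁]).transpose = 1)
    (h₂ : (Matrix.of ![x₂, y₂] : Matrix (Fin 2) ι F) * (Matrix.of ![u₂, v₂]).transpose = 1)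
    (h₁₂ : (Matrix.of ![x₁, y₁] : Matrix (Fin 2) ι F) * (Matrix.of ![u₂, v₂]).transpose = 0)
    (h₂₁ : (Matrix.of ![x₂, y₂] : Matrix (Fin 2) ι F) * (Matrix.of ![u₁, v₁]).transpose = 0)
    (hx : x₁ ⬝ᵥ v₂ = 0) (c : F) :
    matPhi2 _ _ _ _ h₁ h₂ h₁₂ h₂₁ (Matrix.SpecialLinearGroup.transvection fin2_one_ne_zero c)
      = 1 + c • (Matrix.vecMulVec v₁ x₁ + Matrix.vecMulVec v₂ x₂) := by
  rw [matPhi2_apply, matPhi_lower, matPhi_lower]
  have e : Matrix.vecMulVec v₁ x₁ * Matrix.vecMulVec v₂ x₂ = 0 := by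
    simp [Matrix.vecMulVec_mul_vecMulVec, hx]
  simp only [mul_add, add_mul, mul_one, one_mul, Matrix.smul_mul, Matrix.mul_smul, e, smul_zero,
    add_zero]
  module

variable {κ : Type} [Fintype κ] [DecidableEq κ]

theorem sg_psl2_norm (Q : QuadraticForm F (κ → F))
    (hnd : ∀ x, (∀ y, opf Q y x = 0) → x = 0) (p r ps rs : κ → F)
    (h : IsSingLine Q p r) (h' : IsSingLine Q ps rs) (h1 : opf Q p ps = 1)
    (h2 : opf Q p rs = 0) (h3 : opf Q r ps = 0) (h4 : opf Q r rs = 1) :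
    ∃ φ : Matrix.SpecialLinearGroup (Fin 2) F →* ↥(Cfsg.isometryGroup F ⇑Q),
      φ.ker ≤ Subgroup.center (Matrix.SpecialLinearGroup (Fin 2) F) ∧
      (Cfsg.upperUnipotentSL2 F).map φ = sgGrp Q p r ∧
      (Cfsg.lowerUnipotentSL2 F).map φ = sgGrp Q ps rs := by
  classical
  have hd : ∀ a b : κ → F, Cfsg.polarVec ⇑Q a ⬝ᵥ b = opf Q a b :=
    fun a b => Cfsg.Agent.Helper6.polarVec_dotProduct Q a b
  have hpp : opf Q p p = 0 := opf_self Q p h.2.1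
  have hrr : opf Q r r = 0 := opf_self Q r h.2.2.1
  have hss : opf Q ps ps = 0 := opf_self Q ps h'.2.1
  have htt : opf Q rs rs = 0 := opf_self Q rs h'.2.2.1
  have hpr : opf Q p r = 0 := h.2.2.2
  have hrp : opf Q r p = 0 := by rw [opf_comm]; exact hpr
  have hst : opf Q ps rs = 0 := h'.2.2.2
  have hts : opf Q rs ps = 0 := by rw [opf_comm]; exact hst
  have h1' : opf Q ps p = 1 := by rw [opf_comm]; exact h1
  have h2' : opf Q rs p = 0 := by rw [opf_comm]; exact h2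
  have h3' : opf Q ps r = 0 := by rw [opf_comm]; exact h3
  have h4' : opf Q rs r = 1 := by rw [opf_comm]; exact h4
  have hQP1 := matPQ_one r ps (Cfsg.polarVec ⇑Q rs) (Cfsg.polarVec ⇑Q p)
    (by rw [hd]; exact h4') (by rw [hd]; exact hts) (by rw [hd]; exact hpr) (by rw [hd]; exact h1)
  have hQP2 := matPQ_one (-p) rs (-Cfsg.polarVec ⇑Q ps) (Cfsg.polarVec ⇑Q r)
    (by rw [neg_dotProduct_neg, hd]; exact h1') (by rw [neg_dotProduct, hd, hst, neg_zero])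
    (by rw [dotProduct_neg, hd, hrp, neg_zero]) (by rw [hd]; exact h4)
  have hQP12 := matPQ_zero (-p) rs (Cfsg.polarVec ⇑Q rs) (Cfsg.polarVec ⇑Q p)
    (by rw [dotProduct_neg, hd, h2', neg_zero]) (by rw [hd]; exact htt)
    (by rw [dotProduct_neg, hd, hpp, neg_zero]) (by rw [hd]; exact h2)
  have hQP21 := matPQ_zero r ps (-Cfsg.polarVec ⇑Q ps) (Cfsg.polarVec ⇑Q r)
    (by rw [neg_dotProduct, hd, h3', neg_zero]) (by rw [neg_dotProduct, hd, hss, neg_zero])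
    (by rw [hd]; exact hrr) (by rw [hd]; exact h3)
  obtain ⟨Φ, hΦ⟩ : ∃ Φ : Matrix.SpecialLinearGroup (Fin 2) F →* Matrix κ κ F,
      Φ = matPhi2 _ _ _ _ hQP1 hQP2 hQP12 hQP21 := ⟨_, rfl⟩
  have hU : ∀ c : F, Φ (Matrix.SpecialLinearGroup.transvection fin2_zero_ne_one c)
      = Cfsg.siegelMatrix ⇑Q p r c := by
    intro c
    rw [hΦ, matPhi2_upper _ _ _ _ _ _ _ _ hQP1 hQP2 hQP12 hQP21
      (by rw [dotProduct_neg, hd, hpp, neg_zero]) c, Matrix.neg_vecMulVec, ← sub_eq_add_neg]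
    rfl
  have hL : ∀ c : F, Φ (Matrix.SpecialLinearGroup.transvection fin2_one_ne_zero c)
      = Cfsg.siegelMatrix ⇑Q rs ps c := by
    intro c
    rw [hΦ, matPhi2_lower _ _ _ _ _ _ _ _ hQP1 hQP2 hQP12 hQP21
      (by rw [hd]; exact htt) c, Matrix.vecMulVec_neg, ← sub_eq_add_neg]
    rfl
  have hmem : ∀ M : Matrix.SpecialLinearGroup (Fin 2) F,
      Φ.toHomUnits M ∈ Cfsg.isometryGroup F ⇑Q := by
    intro M
    refine Cfsg.Agent.Helper2.transvection_induction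
      (fun M => Φ.toHomUnits M ∈ Cfsg.isometryGroup F ⇑Q) ?_ ?_ M
    · intro i j hij c
      fin_cases i <;> fin_cases j
      · exact absurd rfl hij
      · show Φ.toHomUnits (Matrix.SpecialLinearGroup.transvection fin2_zero_ne_one c) ∈ _
        have e : Φ.toHomUnits (Matrix.SpecialLinearGroup.transvection fin2_zero_ne_one c)
            = (sgEl Q p r c : Matrix.GeneralLinearGroup κ F) := by
          apply Units.ext
          rw [MonoidHom.coe_toHomUnits, hU, sgEl_coe Q p r h.2]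
        rw [e]
        exact (sgEl Q p r c).2
      · show Φ.toHomUnits (Matrix.SpecialLinearGroup.transvection fin2_one_ne_zero c) ∈ _
        have e : Φ.toHomUnits (Matrix.SpecialLinearGroup.transvection fin2_one_ne_zero c)
            = (sgEl Q rs ps c : Matrix.GeneralLinearGroup κ F) := by
          apply Units.ext
          rw [MonoidHom.coe_toHomUnits, hL, sgEl_coe Q rs ps (singPair_symm h'.2)]
        rw [e]
        exact (sgEl Q rs ps c).2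
      · exact absurd rfl hij
    · intro A B hA hB
      show Φ.toHomUnits (A * B) ∈ _
      rw [map_mul]
      exact Subgroup.mul_mem _ hA hB
  obtain ⟨Ψ, hΨ⟩ : ∃ Ψ : Matrix.SpecialLinearGroup (Fin 2) F →* ↥(Cfsg.isometryGroup F ⇑Q),
      ∀ M, (((Ψ M : ↥(Cfsg.isometryGroup F ⇑Q)) : Matrix.GeneralLinearGroup κ F)
        : Matrix κ κ F) = Φ M :=
    ⟨Φ.toHomUnits.codRestrict (Cfsg.isometryGroup F ⇑Q) hmem, fun M => rfl⟩
  have hΨU : ∀ c : F, Ψ (Matrix.SpecialLinearGroup.transvection fin2_zero_ne_one c)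
      = sgEl Q p r c := by
    intro c
    apply Subtype.ext
    apply Units.ext
    rw [hΨ, hU, sgEl_coe Q p r h.2]
  have hΨL : ∀ c : F, Ψ (Matrix.SpecialLinearGroup.transvection fin2_one_ne_zero c)
      = sgEl Q rs ps c := by
    intro c
    apply Subtype.ext
    apply Units.ext
    rw [hΨ, hL, sgEl_coe Q rs ps (singPair_symm h'.2)]
  have hupper : (Cfsg.upperUnipotentSL2 F).map Ψ = sgGrp Q p r := by
    unfold Cfsg.upperUnipotentSL2 sgGrp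
    rw [MonoidHom.map_closure, upper_set_eq]
    congr 1
    ext t
    constructor
    · rintro ⟨g, ⟨c, rfl⟩, rfl⟩
      rw [hΨU]
      exact (mem_sgSet_iff Q hnd p r h _).2 ⟨_, rfl⟩
    · intro ht
      obtain ⟨c, rfl⟩ := (mem_sgSet_iff Q hnd p r h t).1 ht
      exact ⟨_, ⟨c, rfl⟩, hΨU c⟩
  have hlower : (Cfsg.lowerUnipotentSL2 F).map Ψ = sgGrp Q ps rs := by
    rw [sgGrp_swap Q ps rs]
    unfold Cfsg.lowerUnipotentSL2 sgGrp
    rw [MonoidHom.map_closure, lower_set_eq]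
    congr 1
    ext t
    constructor
    · rintro ⟨g, ⟨c, rfl⟩, rfl⟩
      rw [hΨL]
      exact (mem_sgSet_iff Q hnd rs ps (singLine_symm h') _).2 ⟨_, rfl⟩
    · intro ht
      obtain ⟨c, rfl⟩ := (mem_sgSet_iff Q hnd rs ps (singLine_symm h') t).1 ht
      exact ⟨_, ⟨c, rfl⟩, hΨL c⟩
  refine ⟨Ψ, ?_, hupper, hlower⟩
  intro M hM
  rw [MonoidHom.mem_ker] at hM
  have h0 : Φ M = 1 := by
    rw [← hΨ, hM]
    rfl
  rw [hΦ] at h0
  have h5 : M = 1 := matPhi2_eq_one _ _ _ _ hQP1 hQP2 hQP12 hQP21 M h0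
  rw [h5]
  exact Subgroup.one_mem _

theorem sg_psl2 (Q : QuadraticForm F (κ → F))
    (hnd : ∀ x, (∀ y, opf Q y x = 0) → x = 0) (p r p' r' : κ → F)
    (h : IsSingLine Q p r) (h' : IsSingLine Q p' r')
    (hD : opf Q p p' * opf Q r r' - opf Q p r' * opf Q r p' ≠ 0) :
    ∃ φ : Matrix.SpecialLinearGroup (Fin 2) F →* ↥(Cfsg.isometryGroup F ⇑Q),
      φ.ker ≤ Subgroup.center (Matrix.SpecialLinearGroup (Fin 2) F) ∧
      (Cfsg.upperUnipotentSL2 F).map φ = sgGrp Q p r ∧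
      (Cfsg.lowerUnipotentSL2 F).map φ = sgGrp Q p' r' := by
  obtain ⟨ps, rs, hl, he, h1, h2, h3, h4⟩ := sg_normalize Q p r p' r' h' hD
  rw [← he]
  exact sg_psl2_norm Q hnd p r ps rs h hl h1 h2 h3 h4

end Cfsg.Agent.Helper15
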