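import Mathlib
import Cfsg.Agent.Helper15.Gram
import Cfsg.Agent.Helper15.Witt
import Cfsg.Agent.Helper15.HypPair

set_option autoImplicit false

namespace Cfsg.Agent.Helper15

theorem quad_eq_of_basis {F V : Type*} [Field F] [AddCommGroup V] [Module F V] {ι : Type*}
    [Fintype ι] (β : Module.Basis ι F V) (Q₁ Q₂ : QuadraticForm F V)
    (h1 : ∀ i, Q₁ (β i) = Q₂ (β i))
    (h2 : ∀ i j, QuadraticMap.polar ⇑Q₁ (β i) (β j) = QuadraticMap.polar ⇑Q₂ (β i) (β j)) :
    ∀ v, Q₁ v = Q₂ v := by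
  have hB : QuadraticMap.polarBilin Q₁ = QuadraticMap.polarBilin Q₂ :=
    LinearMap.BilinForm.ext_basis β h2
  have hpol : ∀ x y, QuadraticMap.polar ⇑Q₁ x y = QuadraticMap.polar ⇑Q₂ x y := fun x y => by
    have h3 := congrArg (fun B : LinearMap.BilinForm F V => B x y) hB
    exact h3
  obtain ⟨d, hd⟩ : ∃ d : V →+ F, ∀ v, d v = Q₁ v - Q₂ v :=
    ⟨AddMonoidHom.mk' (fun v => Q₁ v - Q₂ v) (by
      intro x y
      rw [QuadraticMap.map_add ⇑Q₁, QuadraticMap.map_add ⇑Q₂, hpol]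
      ring), fun v => rfl⟩
  intro v
  have h3 : d v = 0 := by
    rw [← β.sum_repr v, map_sum]
    apply Finset.sum_eq_zero
    intro i _
    rw [hd, QuadraticMap.map_smul, QuadraticMap.map_smul, h1, sub_self]
  rw [hd] at h3
  exact sub_eq_zero.1 h3

theorem exists_quadFormPlus (F : Type*) [Field F] (m : ℕ) :
    ∃ Q : QuadraticForm F (Fin m ⊕ Fin m → F), ∀ v, Q v = Cfsg.quadFormPlus m F v := by
  refine ⟨QuadraticMap.ofPolar (Cfsg.quadFormPlus m F) ?_ ?_ ?_, fun v => rfl⟩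
  · intro a x
    simp only [Cfsg.quadFormPlus, Pi.smul_apply, smul_eq_mul, Finset.mul_sum]
    exact Finset.sum_congr rfl fun i _ => by ring
  · intro x x' y
    rw [polar_quadFormPlus, polar_quadFormPlus, polar_quadFormPlus, add_dotProduct]
  · intro a x y
    rw [polar_quadFormPlus, polar_quadFormPlus, smul_dotProduct]

theorem exists_quadFormMinus (F : Type*) [Field F] (m : ℕ) (a c : F) :
    ∃ Q : QuadraticForm F ((Fin m ⊕ Fin m) ⊕ Fin 2 → F),
      ∀ v, Q v = Cfsg.quadFormMinus m F a c v := by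
  refine ⟨QuadraticMap.ofPolar (Cfsg.quadFormMinus m F a c) ?_ ?_ ?_, fun v => rfl⟩
  · intro r x
    simp only [Cfsg.quadFormMinus, Pi.smul_apply, smul_eq_mul]
    have h1 : ∀ i : Fin m, r * x (Sum.inl (Sum.inl i)) * (r * x (Sum.inl (Sum.inr i)))
        = r * r * (x (Sum.inl (Sum.inl i)) * x (Sum.inl (Sum.inr i))) := fun i => by ring
    simp only [h1, ← Finset.mul_sum]
    ring
  · intro x x' y
    rw [polar_quadFormMinus, polar_quadFormMinus, polar_quadFormMinus, add_dotProduct]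
  · intro r x y
    rw [polar_quadFormMinus, polar_quadFormMinus, smul_dotProduct]

theorem isometry_of_gram {F V : Type*} [Field F] [AddCommGroup V] [Module F V] {κ : Type*}
    [Fintype κ] [DecidableEq κ] (Q : QuadraticForm F V) (Q' : QuadraticForm F (κ → F))
    (β : Module.Basis κ F V) (h1 : ∀ i, Q (β i) = Q' (Pi.single i 1))
    (h2 : ∀ i j, QuadraticMap.polar ⇑Q (β i) (β j)
      = QuadraticMap.polar ⇑Q' (Pi.single i 1) (Pi.single j 1)) :
    ∀ v, Q' (β.equivFun v) = Q v := by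
  intro v
  have hs : ∀ i, β.equivFun (β i) = Pi.single i 1 := fun i => by
    funext j
    rw [β.equivFun_self i j, Pi.single_apply]
    simp only [eq_comm]
  have h3 := quad_eq_of_basis β (Q'.comp (β.equivFun : V →ₗ[F] (κ → F))) Q (by
      intro i
      rw [QuadraticMap.comp_apply, h1]
      congr 1
      exact hs i) (by
      intro i j
      rw [h2]
      unfold QuadraticMap.polar
      rw [QuadraticMap.comp_apply, QuadraticMap.comp_apply, QuadraticMap.comp_apply, map_add]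
      have hs' : ∀ i, (β.equivFun : V →ₗ[F] (κ → F)) (β i) = Pi.single i 1 := hs
      rw [hs', hs']) v
  exact h3

theorem single_dot_mulVec_single {F κ : Type*} [Field F] [Fintype κ] [DecidableEq κ]
    (M : Matrix κ κ F) (i j : κ) :
    (Pi.single i 1 : κ → F) ⬝ᵥ M.mulVec (Pi.single j 1) = M i j := by
  simp

theorem quadFormPlus_single {F : Type*} [Field F] (m : ℕ) (i : Fin m ⊕ Fin m) :
    Cfsg.quadFormPlus m F (Pi.single i 1) = 0 := by
  unfold Cfsg.quadFormPlus
  apply Finset.sum_eq_zero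
  intro j _
  rcases i with i | i
  · simp [Pi.single_apply]
  · simp [Pi.single_apply]

theorem quadFormMinus_single_inl {F : Type*} [Field F] (k : ℕ) (a b : F) (i : Fin k ⊕ Fin k) :
    Cfsg.quadFormMinus k F a b (Pi.single (Sum.inl i) 1) = 0 := by
  unfold Cfsg.quadFormMinus
  have h1 : ∑ j : Fin k, (Pi.single (Sum.inl i) 1 : (Fin k ⊕ Fin k) ⊕ Fin 2 → F)
      (Sum.inl (Sum.inl j)) * (Pi.single (Sum.inl i) 1 : (Fin k ⊕ Fin k) ⊕ Fin 2 → F)
      (Sum.inl (Sum.inr j)) = 0 := by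
    apply Finset.sum_eq_zero
    intro j _
    rcases i with i | i
    · simp [Pi.single_apply]
    · simp [Pi.single_apply]
  rw [h1]
  simp [Pi.single_apply]

theorem quadFormMinus_single_inr0 {F : Type*} [Field F] (k : ℕ) (a b : F) :
    Cfsg.quadFormMinus k F a b (Pi.single (Sum.inr 0) 1) = 1 := by
  unfold Cfsg.quadFormMinus
  simp [Pi.single_apply]

theorem quadFormMinus_single_inr1 {F : Type*} [Field F] (k : ℕ) (a b : F) :
    Cfsg.quadFormMinus k F a b (Pi.single (Sum.inr 1) 1) = b := by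
  unfold Cfsg.quadFormMinus
  simp [Pi.single_apply]

theorem plus_of_family {F V : Type*} [Field F] [AddCommGroup V] [Module F V]
    [FiniteDimensional F V] {n : ℕ} (Q : QuadraticForm F V)
    (hV : Module.finrank F V = 2 * n) (e f : Fin n → V)
    (h1 : ∀ i, Q (e i) = 0 ∧ Q (f i) = 0)
    (h2 : ∀ i j, QuadraticMap.polar ⇑Q (e i) (f j) = if i = j then 1 else 0)
    (h3 : ∀ i j, QuadraticMap.polar ⇑Q (e i) (e j) = 0
      ∧ QuadraticMap.polar ⇑Q (f i) (f j) = 0) :
    ∃ g : V ≃ₗ[F] (Fin n ⊕ Fin n → F), ∀ v, Cfsg.quadFormPlus n F (g v) = Q v := by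
  classical
  have hG : ∀ i j, QuadraticMap.polarBilin Q (Sum.elim e f i) (Sum.elim e f j)
      = (Matrix.fromBlocks 0 1 1 0 : Matrix (Fin n ⊕ Fin n) (Fin n ⊕ Fin n) F) i j := by
    rintro (i | i) (j | j)
    · exact (h3 i j).1
    · show QuadraticMap.polar ⇑Q (e i) (f j) = _
      rw [h2, Matrix.fromBlocks_apply₁₂, Matrix.one_apply]
    · show QuadraticMap.polar ⇑Q (f i) (e j) = _
      rw [QuadraticMap.polar_comm, h2, Matrix.fromBlocks_apply₂₁, Matrix.one_apply]
      simp only [eq_comm]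
    · exact (h3 i j).2
  obtain ⟨β, hβ⟩ := basis_of_gram (QuadraticMap.polarBilin Q) (Sum.elim e f)
    (Matrix.fromBlocks 0 1 1 0) hG (by
      rw [det_swapBlocks]
      exact pow_ne_zero _ (neg_ne_zero.2 one_ne_zero))
    (by simp [hV]; ring)
  obtain ⟨Q', hQ'⟩ := exists_quadFormPlus F n
  refine ⟨β.equivFun, fun v => ?_⟩
  rw [← hQ']
  apply isometry_of_gram Q Q' β
  · intro i
    rw [hQ', quadFormPlus_single, hβ]
    rcases i with i | i
    · exact (h1 i).1
    · exact (h1 i).2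
  · intro i j
    have h5 : (⇑Q' : (Fin n ⊕ Fin n → F) → F) = Cfsg.quadFormPlus n F := funext hQ'
    rw [h5, polar_quadFormPlus, single_dot_mulVec_single, hβ]
    exact hG i j

theorem minus_of_family {F V : Type*} [Field F] [AddCommGroup V] [Module F V]
    [FiniteDimensional F V] {k : ℕ} (Q : QuadraticForm F V)
    (hV : Module.finrank F V = 2 * k + 2) (e f : Fin k → V) (x y : V) (a b : F)
    (hdisc : (2 : F) * (2 * b) - a * a ≠ 0)
    (h1 : ∀ i, Q (e i) = 0 ∧ Q (f i) = 0)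
    (h2 : ∀ i j, QuadraticMap.polar ⇑Q (e i) (f j) = if i = j then 1 else 0)
    (h3 : ∀ i j, QuadraticMap.polar ⇑Q (e i) (e j) = 0
      ∧ QuadraticMap.polar ⇑Q (f i) (f j) = 0)
    (h4 : ∀ i, QuadraticMap.polar ⇑Q (e i) x = 0 ∧ QuadraticMap.polar ⇑Q (e i) y = 0
      ∧ QuadraticMap.polar ⇑Q (f i) x = 0 ∧ QuadraticMap.polar ⇑Q (f i) y = 0)
    (hx : Q x = 1) (hxy : QuadraticMap.polar ⇑Q x y = a) (hy : Q y = b) :
    ∃ g : V ≃ₗ[F] ((Fin k ⊕ Fin k) ⊕ Fin 2 → F),
      ∀ v, Cfsg.quadFormMinus k F a b (g v) = Q v := by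
  classical
  have hG : ∀ i j, QuadraticMap.polarBilin Q
        ((Sum.elim (Sum.elim e f) ![x, y] : (Fin k ⊕ Fin k) ⊕ Fin 2 → V) i)
        ((Sum.elim (Sum.elim e f) ![x, y] : (Fin k ⊕ Fin k) ⊕ Fin 2 → V) j)
      = (Matrix.fromBlocks (Matrix.fromBlocks 0 1 1 0) 0 0 !![2, a; a, 2 * b] :
          Matrix ((Fin k ⊕ Fin k) ⊕ Fin 2) ((Fin k ⊕ Fin k) ⊕ Fin 2) F) i j := by
    rintro ((i | i) | i) ((j | j) | j)
    · exact (h3 i j).1
    · show QuadraticMap.polar ⇑Q (e i) (f j) = _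
      rw [h2]
      simp [Matrix.one_apply]
    · show QuadraticMap.polar ⇑Q (e i) (![x, y] j) = _
      fin_cases j
      · exact (h4 i).1
      · exact (h4 i).2.1
    · show QuadraticMap.polar ⇑Q (f i) (e j) = _
      rw [QuadraticMap.polar_comm, h2]
      simp [Matrix.one_apply, eq_comm]
    · exact (h3 i j).2
    · show QuadraticMap.polar ⇑Q (f i) (![x, y] j) = _
      fin_cases j
      · exact (h4 i).2.2.1
      · exact (h4 i).2.2.2
    · show QuadraticMap.polar ⇑Q (![x, y] i) (e j) = _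
      rw [QuadraticMap.polar_comm]
      fin_cases i
      · exact (h4 j).1
      · exact (h4 j).2.1
    · show QuadraticMap.polar ⇑Q (![x, y] i) (f j) = _
      rw [QuadraticMap.polar_comm]
      fin_cases i
      · exact (h4 j).2.2.1
      · exact (h4 j).2.2.2
    · show QuadraticMap.polar ⇑Q (![x, y] i) (![x, y] j) = _
      fin_cases i <;> fin_cases j
      · show QuadraticMap.polar ⇑Q x x = 2
        rw [QuadraticMap.polar_self, hx]
        simp
      · exact hxy
      · show QuadraticMap.polar ⇑Q y x = a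
        rw [QuadraticMap.polar_comm]
        exact hxy
      · show QuadraticMap.polar ⇑Q y y = 2 * b
        rw [QuadraticMap.polar_self, hy]
        simp [two_mul]
  obtain ⟨β, hβ⟩ := basis_of_gram (QuadraticMap.polarBilin Q)
    (Sum.elim (Sum.elim e f) ![x, y] : (Fin k ⊕ Fin k) ⊕ Fin 2 → V)
    (Matrix.fromBlocks (Matrix.fromBlocks 0 1 1 0) 0 0 !![2, a; a, 2 * b]) hG (by
      rw [Matrix.det_fromBlocks_zero₁₂, det_swapBlocks, Matrix.det_fin_two_of]
      exact mul_ne_zero (pow_ne_zero _ (neg_ne_zero.2 one_ne_zero)) hdisc)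
    (by simp [hV]; ring)
  obtain ⟨Q', hQ'⟩ := exists_quadFormMinus F k a b
  refine ⟨β.equivFun, fun v => ?_⟩
  rw [← hQ']
  apply isometry_of_gram Q Q' β
  · intro i
    rw [hQ', hβ]
    rcases i with (i | i) | i
    · rw [quadFormMinus_single_inl]
      exact (h1 i).1
    · rw [quadFormMinus_single_inl]
      exact (h1 i).2
    · fin_cases i
      · show Q x = Cfsg.quadFormMinus k F a b (Pi.single (Sum.inr 0) 1)
        rw [quadFormMinus_single_inr0, hx]
      · show Q y = Cfsg.quadFormMinus k F a b (Pi.single (Sum.inr 1) 1)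
        rw [quadFormMinus_single_inr1, hy]
  · intro i j
    have h5 : (⇑Q' : ((Fin k ⊕ Fin k) ⊕ Fin 2 → F) → F) = Cfsg.quadFormMinus k F a b :=
      funext hQ'
    rw [h5, polar_quadFormMinus, single_dot_mulVec_single, hβ]
    exact hG i j

theorem aniso_of_irred {F : Type*} [Field F] (ζ : F) (hζ : ∀ t : F, t ^ 2 + t + ζ ≠ 0) :
    ∀ z₁ z₂ : F, z₁ ^ 2 + 1 * z₁ * z₂ + ζ * z₂ ^ 2 = 0 → z₁ = 0 ∧ z₂ = 0 := by
  intro z₁ z₂ hz
  by_cases h2 : z₂ = 0
  · subst h2
    simp at hz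
    exact ⟨hz, rfl⟩
  · exfalso
    apply hζ (z₁ / z₂)
    field_simp
    linear_combination hz

theorem aniso_disc {F : Type*} [Field F] [Finite F] (a b : F)
    (hab : ∀ z₁ z₂ : F, z₁ ^ 2 + a * z₁ * z₂ + b * z₂ ^ 2 = 0 → z₁ = 0 ∧ z₂ = 0) :
    (2 : F) * (2 * b) - a * a ≠ 0 := by
  intro h0
  by_cases h2 : (2 : F) = 0
  · have ha : a = 0 := by
      rw [h2] at h0
      simp at h0
      exact h0
    have hch : CharP F 2 := CharTwo.of_one_ne_zero_of_two_eq_zero one_ne_zero h2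
    obtain ⟨r, hr⟩ := FiniteField.isSquare_of_char_two (ringChar.eq F 2) b
    have h3 := hab r 1 (by
      rw [ha, hr]
      linear_combination (r * r) * h2)
    exact one_ne_zero h3.2
  · have h3 := hab (-a / 2) 1 (by
      field_simp
      linear_combination h0)
    exact one_ne_zero h3.2

theorem hyp_family_of_singular {F : Type*} [Field F] [Finite F] (k : ℕ) {V : Type*}
    [AddCommGroup V] [Module F V] [FiniteDimensional F V] (Q : QuadraticForm F V)
    (hQ : (QuadraticMap.polarBilin Q).Nondegenerate) (hV : Module.finrank F V = 2 * k + 2)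
    {U : Type*} [AddCommGroup U] [Module F U] [FiniteDimensional F U] (j : U →ₗ[F] V)
    (hj : Function.Injective j) (hU : Module.finrank F U = k + 1)
    (hsing : ∀ u, Q (j u) = 0) :
    ∃ e f : Fin (k + 1) → V, (∀ i, Q (e i) = 0 ∧ Q (f i) = 0) ∧
      (∀ i j, QuadraticMap.polar ⇑Q (e i) (f j) = if i = j then 1 else 0) ∧
      (∀ i j, QuadraticMap.polar ⇑Q (e i) (e j) = 0
        ∧ QuadraticMap.polar ⇑Q (f i) (f j) = 0) := by
  rcases exists_hyp_family k Q hQ hV with h | ⟨e, f, x, y, ζ, hζ, h1, h2, h3, h4, hx, hxy, hy⟩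
  · exact h
  · exfalso
    have aniso := aniso_of_irred ζ hζ
    have hdisc := aniso_disc 1 ζ aniso
    obtain ⟨g, hg⟩ := minus_of_family Q hV e f x y 1 ζ hdisc h1 h2 h3 h4 hx hxy hy
    have hle := minus_singular_finrank_le k 1 ζ aniso
      (LinearMap.range ((g : V →ₗ[F] ((Fin k ⊕ Fin k) ⊕ Fin 2 → F)) ∘ₗ j)) (by
        rintro _ ⟨u, rfl⟩
        show Cfsg.quadFormMinus k F 1 ζ (g (j u)) = 0
        rw [hg, hsing])
    have hinj : Function.Injective ((g : V →ₗ[F] ((Fin k ⊕ Fin k) ⊕ Fin 2 → F)) ∘ₗ j) :=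
      g.injective.comp hj
    rw [LinearMap.finrank_range_of_inj hinj, hU] at hle
    omega

end Cfsg.Agent.Helper15
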