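import Mathlib
import Cfsg.Agent.Helper15.ORoot4
import Cfsg.Agent.Helper15.QuadStd
import Cfsg.Agent.Helper15.Gram

set_option autoImplicit false

namespace Cfsg.Agent.Helper15

open scoped commutatorElement

section Generic

variable {G : Type*} [Group G]

theorem commutator_le_of_le {H A B : Subgroup G} (hA : A ≤ H) (hB : B ≤ H) : ⁅A, B⁆ ≤ H := by
  rw [Subgroup.commutator_le]
  intro a ha b hb
  rw [commutatorElement_def]
  exact H.mul_mem (H.mul_mem (H.mul_mem (hA ha) (hB hb)) (H.inv_mem (hA ha))) (H.inv_mem (hB hb))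

theorem comm_subgroupOf_eq {H A B : Subgroup G} (hA : A ≤ H) (hB : B ≤ H) :
    ⁅A.subgroupOf H, B.subgroupOf H⁆ = (⁅A, B⁆).subgroupOf H := by
  apply Subgroup.map_injective H.subtype_injective
  rw [Subgroup.map_commutator, Subgroup.subgroupOf_map_subtype, Subgroup.subgroupOf_map_subtype,
    Subgroup.subgroupOf_map_subtype, inf_of_le_left hA, inf_of_le_left hB,
    inf_of_le_left (commutator_le_of_le hA hB)]

theorem commCase_subgroupOf (S : Set (Subgroup G)) (H A B : Subgroup G) (hA : A ≤ H)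
    (hB : B ≤ H) (h : Cfsg.RootCommutatorCase S A B) :
    Cfsg.RootCommutatorCase ((fun A : Subgroup G => A.subgroupOf H) '' S) (A.subgroupOf H)
      (B.subgroupOf H) := by
  obtain ⟨h1, h2, h3, h4⟩ := h
  have hAB : ⁅A, B⁆ ≤ H := commutator_le_of_le hA hB
  refine ⟨?_, ?_, ?_, ?_⟩
  · rw [comm_subgroupOf_eq hA hB]
    exact Set.mem_image_of_mem _ h1
  · intro c hc x hx
    rw [comm_subgroupOf_eq hA hB] at hc
    apply Subtype.ext
    refine h2 c.1 (Subgroup.mem_subgroupOf.1 hc) x.1 ?_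
    have hx' : x.1 ∈ (A.subgroupOf H ⊔ B.subgroupOf H).map H.subtype := ⟨x, hx, rfl⟩
    rw [Subgroup.map_sup, Subgroup.subgroupOf_map_subtype, Subgroup.subgroupOf_map_subtype] at hx'
    have hle2 : A ⊓ H ⊔ B ⊓ H ≤ A ⊔ B := sup_le_sup inf_le_left inf_le_left
    exact hle2 hx'
  · intro a ha ha1
    rw [comm_subgroupOf_eq hA hB]
    apply Subgroup.map_injective H.subtype_injective
    rw [MonoidHom.map_closure, Subgroup.subgroupOf_map_subtype, inf_of_le_left hAB,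
      ← h3 a.1 (Subgroup.mem_subgroupOf.1 ha) (fun h => ha1 (Subtype.ext h))]
    congr 1
    ext y
    constructor
    · rintro ⟨_, ⟨b, hb, rfl⟩, rfl⟩
      exact ⟨b.1, Subgroup.mem_subgroupOf.1 hb, rfl⟩
    · rintro ⟨b, hb, rfl⟩
      exact ⟨_, ⟨⟨b, hB hb⟩, Subgroup.mem_subgroupOf.2 hb, rfl⟩, rfl⟩
  · intro b hb hb1
    rw [comm_subgroupOf_eq hA hB]
    apply Subgroup.map_injective H.subtype_injective
    rw [MonoidHom.map_closure, Subgroup.subgroupOf_map_subtype, inf_of_le_left hAB,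
      ← h4 b.1 (Subgroup.mem_subgroupOf.1 hb) (fun h => hb1 (Subtype.ext h))]
    congr 1
    ext y
    constructor
    · rintro ⟨_, ⟨a, ha, rfl⟩, rfl⟩
      exact ⟨a.1, Subgroup.mem_subgroupOf.1 ha, rfl⟩
    · rintro ⟨a, ha, rfl⟩
      exact ⟨_, ⟨⟨a, hA ha⟩, Subgroup.mem_subgroupOf.2 ha, rfl⟩, rfl⟩

theorem conjBy_le_of_le {H A : Subgroup G} (hA : A ≤ H) (g : G) (hg : g ∈ H) :
    Cfsg.conjBy A g ≤ H := by
  rintro _ ⟨y, hy, rfl⟩
  show g * y * g⁻¹ ∈ H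
  exact H.mul_mem (H.mul_mem hg (hA hy)) (H.inv_mem hg)

theorem rankOneCond_of_subgroupOf {H A B : Subgroup G} (hA : A ≤ H) (hB : B ≤ H)
    (h : Cfsg.RankOneCondition (A.subgroupOf H) (B.subgroupOf H)) :
    Cfsg.RankOneCondition A B := by
  intro a ha ha1
  obtain ⟨b, hb, hb1, hconj⟩ := h ⟨a, hA ha⟩ (Subgroup.mem_subgroupOf.2 ha)
    (fun h1 => ha1 (congrArg Subtype.val h1))
  refine ⟨b.1, Subgroup.mem_subgroupOf.1 hb, fun h1 => hb1 (Subtype.ext h1), ?_⟩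
  rw [conjBy_subgroupOf, conjBy_subgroupOf] at hconj
  exact subgroupOf_inj_of_le (conjBy_le_of_le hA _ (H.inv_mem b.2))
    (conjBy_le_of_le hB _ (H.inv_mem (hA ha))) hconj

theorem kroot_subgroupOf_gen (L : Type*) [Field L] (S : Set (Subgroup G)) (H : Subgroup G)
    (hH : H = ⨆ B ∈ S, B)
    (hcomm : ∀ A ∈ S, ∀ a ∈ A, ∀ b ∈ A, a * b = b * a)
    (hne : ∀ A ∈ S, A ≠ ⊥)
    (hconj : ∀ A ∈ S, ∀ g : G, Cfsg.conjBy A g ∈ S)
    (hpair : ∀ A ∈ S, ∀ B ∈ S, (∀ a ∈ A, ∀ b ∈ B, a * b = b * a) ∨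
      (Cfsg.IsRankOnePair A B ∧ ∃ φ : Matrix.SpecialLinearGroup (Fin 2) L →* G,
        φ.ker ≤ Subgroup.center (Matrix.SpecialLinearGroup (Fin 2) L) ∧
        (Cfsg.upperUnipotentSL2 L).map φ = A ∧ (Cfsg.lowerUnipotentSL2 L).map φ = B) ∨
      (Cfsg.RootCommutatorCase S A B ∧ ¬ Cfsg.RankOneCondition A B)) :
    Cfsg.IsKRootSubgroupSet L ((fun A : Subgroup G => A.subgroupOf H) '' S) := by
  have hle : ∀ A ∈ S, A ≤ H := fun A hA => by
    rw [hH]
    exact le_biSup (fun A => A) hA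
  have hroot : Cfsg.IsRootSubgroupSet ((fun A : Subgroup G => A.subgroupOf H) '' S) := by
    refine ⟨?_, ?_, generates_subgroupOf S H hH, ?_, ?_⟩
    · rintro _ ⟨A, hA, rfl⟩
      exact isMulComm_subgroupOf (hcomm A hA)
    · rintro _ ⟨A, hA, rfl⟩ hbot
      exact hne A hA (bot_of_subgroupOf_bot (hle A hA) hbot)
    · rintro _ ⟨A, hA, rfl⟩ g
      exact ⟨Cfsg.conjBy A (g : G), hconj A hA g, (conjBy_subgroupOf H A g).symm⟩
    · rintro _ ⟨A, hA, rfl⟩ _ ⟨B, hB, rfl⟩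
      rcases hpair A hA B hB with h | h | h
      · left
        exact comm_bot_subgroupOf h
      · right; left
        exact rankOne_subgroupOf (hle A hA) (hle B hB) (hcomm A hA) (hcomm B hB) h.1
      · right; right
        exact commCase_subgroupOf S H A B (hle A hA) (hle B hB) h.1
  refine ⟨hroot, ?_⟩
  rintro _ ⟨A, hA, rfl⟩ _ ⟨B, hB, rfl⟩ hp
  rcases hpair A hA B hB with h | ⟨-, φ, hker, hU, hL⟩ | h
  · exfalso
    obtain ⟨a, ha, ha1⟩ := exists_ne_one_of_ne_bot (hne A hA)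
    obtain ⟨b, hb, hb1, hconj⟩ := hp.cond_left ⟨a, hle A hA ha⟩ (Subgroup.mem_subgroupOf.2 ha)
      (fun h1 => ha1 (congrArg Subtype.val h1))
    apply hp.ne
    have e1 : Cfsg.conjBy (A.subgroupOf H) b⁻¹ = A.subgroupOf H := by
      apply conjBy_of_commute
      intro x hx
      have h2 : Commute b x := by
        apply Subtype.ext
        exact (h x.1 (Subgroup.mem_subgroupOf.1 hx) b.1 (Subgroup.mem_subgroupOf.1 hb)).symm
      exact h2.inv_left.eq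
    have e2 : Cfsg.conjBy (B.subgroupOf H) (⟨a, hle A hA ha⟩ : ↥H)⁻¹ = B.subgroupOf H := by
      apply conjBy_of_commute
      intro x hx
      have h2 : Commute (⟨a, hle A hA ha⟩ : ↥H) x := by
        apply Subtype.ext
        exact h a ha x.1 (Subgroup.mem_subgroupOf.1 hx)
      exact h2.inv_left.eq
    rw [e1, e2] at hconj
    exact hconj
  · have hrange : ∀ x, φ x ∈ H := by
      intro x
      have h1 : φ x ∈ (⊤ : Subgroup (Matrix.SpecialLinearGroup (Fin 2) L)).map φ :=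
        ⟨x, Subgroup.mem_top x, rfl⟩
      rw [← sl2_upper_lower_top L, Subgroup.map_sup, hU, hL] at h1
      exact (sup_le (hle A hA) (hle B hB)) h1
    obtain ⟨φ', hφ'⟩ : ∃ φ' : Matrix.SpecialLinearGroup (Fin 2) L →* ↥H,
        ∀ x, ((φ' x : ↥H) : G) = φ x := ⟨φ.codRestrict H hrange, fun x => rfl⟩
    have hU' : (Cfsg.upperUnipotentSL2 L).map φ' = A.subgroupOf H := by
      ext x
      rw [Subgroup.mem_subgroupOf, ← hU]
      constructor
      · rintro ⟨u, hu, rfl⟩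
        exact ⟨u, hu, (hφ' u).symm⟩
      · rintro ⟨u, hu, hux⟩
        exact ⟨u, hu, Subtype.ext ((hφ' u).trans hux)⟩
    have hL' : (Cfsg.lowerUnipotentSL2 L).map φ' = B.subgroupOf H := by
      ext x
      rw [Subgroup.mem_subgroupOf, ← hL]
      constructor
      · rintro ⟨u, hu, rfl⟩
        exact ⟨u, hu, (hφ' u).symm⟩
      · rintro ⟨u, hu, hux⟩
        exact ⟨u, hu, Subtype.ext ((hφ' u).trans hux)⟩
    refine ⟨φ', ?_, ?_, hU', hL'⟩
    · rw [MonoidHom.range_eq_map, ← sl2_upper_lower_top L, Subgroup.map_sup, hU', hL']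
    · intro M hM
      apply hker
      rw [MonoidHom.mem_ker] at hM ⊢
      rw [← hφ', hM]
      rfl
  · exact absurd (rankOneCond_of_subgroupOf (hle A hA) (hle B hB) hp.cond_left) h.2

end Generic

variable {F : Type*} [Field F] {κ : Type} [Fintype κ] [DecidableEq κ]

theorem o_exists_perp3 (Q : QuadraticForm F (κ → F)) (hdim : 6 ≤ Fintype.card κ)
    (w₀ a b : κ → F) :
    ∃ y, opf Q y w₀ = 0 ∧ opf Q y a = 0 ∧ opf Q y b = 0 ∧ ∀ c : F, y ≠ c • w₀ := by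
  obtain ⟨L, hL⟩ : ∃ L : (κ → F) →ₗ[F] (Fin 3 → F),
      ∀ y, L y = ![opf Q y w₀, opf Q y a, opf Q y b] := by
    refine ⟨LinearMap.pi (fun i : Fin 3 => (QuadraticMap.polarBilin Q).flip (![w₀, a, b] i)),
      fun y => ?_⟩
    ext i
    fin_cases i <;> rfl
  have h1 := LinearMap.finrank_range_add_finrank_ker L
  have h2 : Module.finrank F (LinearMap.range L) ≤ 3 := by
    have h := Submodule.finrank_le (LinearMap.range L)
    rw [Module.finrank_fintype_fun_eq_card, Fintype.card_fin] at h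
    exact h
  have h3 : Module.finrank F (κ → F) = Fintype.card κ := Module.finrank_fintype_fun_eq_card F
  by_contra hcon
  push Not at hcon
  have hle : LinearMap.ker L ≤ Submodule.span F {w₀} := by
    intro y hy
    rw [LinearMap.mem_ker, hL] at hy
    have e0 : opf Q y w₀ = 0 := by simpa using congrFun hy 0
    have e1 : opf Q y a = 0 := by simpa using congrFun hy 1
    have e2 : opf Q y b = 0 := by simpa using congrFun hy 2
    obtain ⟨c, hc⟩ := hcon y e0 e1 e2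
    rw [Submodule.mem_span_singleton]
    exact ⟨c, hc.symm⟩
  have h4 := Submodule.finrank_mono hle
  have h5 : Module.finrank F (Submodule.span F {w₀}) ≤ 1 := by
    by_cases hw : w₀ = 0
    · rw [hw, Submodule.span_zero_singleton, finrank_bot]
      exact Nat.zero_le 1
    · rw [finrank_span_singleton hw]
  omega

theorem o_exists_opp_vec (Q : QuadraticForm F (κ → F))
    (hnd : ∀ x, (∀ y, opf Q y x = 0) → x = 0) (hdim : 6 ≤ Fintype.card κ) (w₀ a b : κ → F)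
    (ha : Q a = 0) (hb : Q b = 0) (haw : opf Q a w₀ = 0)
    (hbw : opf Q b w₀ = 0) (ha' : ∀ c : F, a ≠ c • w₀) (hb' : ∀ c : F, b ≠ c • w₀) :
    ∃ w, Q w = 0 ∧ opf Q w w₀ = 0 ∧ opf Q w a ≠ 0 ∧ opf Q w b ≠ 0 := by
  have haa : opf Q a a = 0 := opf_self Q a ha
  have hbb : opf Q b b = 0 := opf_self Q b hb
  obtain ⟨ν, hν⟩ : ∃ ν : F, ν = opf Q a b := ⟨_, rfl⟩
  have hba : opf Q b a = ν := by rw [opf_comm, hν]
  have hy : ∃ y, opf Q y w₀ = 0 ∧ opf Q y a * opf Q y b - ν * Q y ≠ 0 := by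
    by_cases hν0 : ν = 0
    · obtain ⟨y₁, h10, h1a⟩ := o_dual Q hnd w₀ a ha'
      obtain ⟨y₂, h20, h2b⟩ := o_dual Q hnd w₀ b hb'
      obtain ⟨y, hy, hya, hyb⟩ := avoid_two (fun y => opf Q y a) (fun y => opf Q y b)
        (fun x y => opf_add_left Q x y a) (fun x y => opf_add_left Q x y b) y₁ y₂
        (by
          show opf Q y₁ a ≠ 0
          rw [h1a]
          exact one_ne_zero)
        (by
          show opf Q y₂ b ≠ 0
          rw [h2b]
          exact one_ne_zero)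
      refine ⟨y, ?_, ?_⟩
      · rcases hy with rfl | rfl | rfl
        · exact h10
        · exact h20
        · rw [opf_add_left, h10, h20, add_zero]
      · rw [hν0, zero_mul, sub_zero]
        exact mul_ne_zero hya hyb
    · obtain ⟨y₀, h00, h0a, h0b, h0'⟩ := o_exists_perp3 Q hdim w₀ a b
      obtain ⟨y₁, h10, h11⟩ := o_dual Q hnd w₀ y₀ h0'
      by_cases hq : Q y₀ = 0
      · by_cases hD1 : opf Q y₁ a * opf Q y₁ b - ν * Q y₁ = 0
        · refine ⟨y₁ + y₀, by rw [opf_add_left, h10, h00, add_zero], ?_⟩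
          rw [opf_add_left, opf_add_left, h0a, h0b, add_zero, add_zero, oQ_add, hq, h11]
          intro h0
          apply hν0
          linear_combination hD1 - h0
        · exact ⟨y₁, h10, hD1⟩
      · refine ⟨y₀, h00, ?_⟩
        rw [h0a, zero_mul, zero_sub]
        exact neg_ne_zero.2 (mul_ne_zero hν0 hq)
  obtain ⟨y, hy0, hyD⟩ := hy
  obtain ⟨α, hα⟩ : ∃ α : F, α = opf Q y a := ⟨_, rfl⟩
  obtain ⟨β, hβ⟩ : ∃ β : F, β = opf Q y b := ⟨_, rfl⟩
  obtain ⟨q, hq⟩ : ∃ q : F, q = Q y := ⟨_, rfl⟩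
  rw [← hα, ← hβ, ← hq] at hyD
  have hQw : ∀ s t : F, Q (y + (s • a + t • b)) = q + s * t * ν + s * α + t * β := by
    intro s t
    rw [oQ_add, oQ_add, oQ_smul, oQ_smul, ha, hb, opf_smul_left, opf_smul_right, opf_add_right,
      opf_smul_right, opf_smul_right, ← hν, ← hα, ← hβ, ← hq]
    ring
  have hwa : ∀ s t : F, opf Q (y + (s • a + t • b)) a = α + t * ν := by
    intro s t
    rw [opf_add_left, opf_add_left, opf_smul_left, opf_smul_left, haa, hba, ← hα]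
    ring
  have hwb : ∀ s t : F, opf Q (y + (s • a + t • b)) b = β + s * ν := by
    intro s t
    rw [opf_add_left, opf_add_left, opf_smul_left, opf_smul_left, hbb, ← hν, ← hβ]
    ring
  have hw0 : ∀ s t : F, opf Q (y + (s • a + t • b)) w₀ = 0 := by
    intro s t
    rw [opf_add_left, opf_add_left, opf_smul_left, opf_smul_left, hy0, haw, hbw]
    ring
  by_cases hν0 : ν = 0
  · rw [hν0, zero_mul, sub_zero] at hyD
    have hα0 : α ≠ 0 := left_ne_zero_of_mul hyD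
    have hβ0 : β ≠ 0 := right_ne_zero_of_mul hyD
    refine ⟨y + ((-(q / α)) • a + (0 : F) • b), ?_, hw0 _ _, ?_, ?_⟩
    · rw [hQw, hν0]
      have e : (-(q / α)) * α = -q := by field_simp
      linear_combination e
    · rw [hwa, hν0, mul_zero, add_zero]
      exact hα0
    · rw [hwb, hν0, mul_zero, add_zero]
      exact hβ0
  · obtain ⟨i, hi⟩ : ∃ i : F, i * ν = 1 := ⟨_, inv_mul_cancel₀ hν0⟩
    refine ⟨y + (((α * β - ν * q - β) * i) • a + ((1 - α) * i) • b), ?_, hw0 _ _, ?_, ?_⟩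
    · rw [hQw]
      linear_combination ((α * β - ν * q - β) * (1 - α) * i - q) * hi
    · rw [hwa]
      have e : α + (1 - α) * i * ν = 1 := by linear_combination (1 - α) * hi
      rw [e]
      exact one_ne_zero
    · rw [hwb]
      have e : β + (α * β - ν * q - β) * i * ν = α * β - ν * q := by
        linear_combination (α * β - ν * q - β) * hi
      rw [e]
      exact hyD

theorem sg_common_opp (Q : QuadraticForm F (κ → F))
    (hnd : ∀ x, (∀ y, opf Q y x = 0) → x = 0) (hdim : 6 ≤ Fintype.card κ)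
    (p₁ r₁ p₂ r₂ : κ → F) (h₁ : IsSingLine Q p₁ r₁) (h₂ : IsSingLine Q p₂ r₂) :
    ∃ w₁ w₂, IsSingLine Q w₁ w₂ ∧
      opf Q p₁ w₁ * opf Q r₁ w₂ - opf Q p₁ w₂ * opf Q r₁ w₁ ≠ 0 ∧
      opf Q p₂ w₁ * opf Q r₂ w₂ - opf Q p₂ w₂ * opf Q r₂ w₁ ≠ 0 := by
  have hp1 : ∀ c : F, p₁ ≠ c • (0 : κ → F) := by
    intro c hc
    rw [smul_zero] at hc
    have h := h₁.1 1 0 (by rw [hc, smul_zero, zero_smul, add_zero])
    exact one_ne_zero h.1
  have hp2 : ∀ c : F, p₂ ≠ c • (0 : κ → F) := by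
    intro c hc
    rw [smul_zero] at hc
    have h := h₂.1 1 0 (by rw [hc, smul_zero, zero_smul, add_zero])
    exact one_ne_zero h.1
  obtain ⟨w₁, hw1, -, hw1a, hw1b⟩ := o_exists_opp_vec Q hnd hdim 0 p₁ p₂ h₁.2.1 h₂.2.1
    (opf_zero_right Q p₁) (opf_zero_right Q p₂) hp1 hp2
  obtain ⟨a₁, ha₁⟩ : ∃ a₁ : κ → F, a₁ = (-(opf Q w₁ r₁)) • p₁ + (opf Q w₁ p₁) • r₁ := ⟨_, rfl⟩
  obtain ⟨a₂, ha₂⟩ : ∃ a₂ : κ → F, a₂ = (-(opf Q w₁ r₂)) • p₂ + (opf Q w₁ p₂) • r₂ := ⟨_, rfl⟩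
  have key : ∀ (p r : κ → F), IsSingLine Q p r → opf Q w₁ p ≠ 0 → ∀ a : κ → F,
      a = (-(opf Q w₁ r)) • p + (opf Q w₁ p) • r →
      Q a = 0 ∧ opf Q a w₁ = 0 ∧ ∀ c : F, a ≠ c • w₁ := by
    intro p r h hne a ha
    refine ⟨?_, ?_, ?_⟩
    · rw [ha]
      exact (singPair_comb h.2 _ _ 0 0).1
    · rw [ha, opf_add_left, opf_smul_left, opf_smul_left, opf_comm Q p w₁, opf_comm Q r w₁]
      ring
    · intro c hc
      have e1 : opf Q a p = 0 := by
        rw [ha, opf_add_left, opf_smul_left, opf_smul_left, opf_self Q p h.2.1, opf_comm Q r p,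
          h.2.2.2]
        ring
      rw [hc, opf_smul_left] at e1
      have hc0 : c = 0 := (mul_eq_zero.1 e1).resolve_right hne
      rw [hc0, zero_smul, ha] at hc
      exact hne (h.1 _ _ hc).2
  obtain ⟨q1, q2, q3⟩ := key p₁ r₁ h₁ hw1a a₁ ha₁
  obtain ⟨q4, q5, q6⟩ := key p₂ r₂ h₂ hw1b a₂ ha₂
  obtain ⟨w₂, hw2, hw21, hw2a, hw2b⟩ := o_exists_opp_vec Q hnd hdim w₁ a₁ a₂ q1 q4 q2 q5 q3 q6
  have hd1 : opf Q p₁ w₁ * opf Q r₁ w₂ - opf Q p₁ w₂ * opf Q r₁ w₁ ≠ 0 := by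
    intro h0
    apply hw2a
    rw [ha₁, opf_add_right, opf_smul_right, opf_smul_right, opf_comm Q w₂ p₁, opf_comm Q w₂ r₁,
      opf_comm Q w₁ r₁, opf_comm Q w₁ p₁]
    linear_combination h0
  have hd2 : opf Q p₂ w₁ * opf Q r₂ w₂ - opf Q p₂ w₂ * opf Q r₂ w₁ ≠ 0 := by
    intro h0
    apply hw2b
    rw [ha₂, opf_add_right, opf_smul_right, opf_smul_right, opf_comm Q w₂ p₂, opf_comm Q w₂ r₂,
      opf_comm Q w₁ r₂, opf_comm Q w₁ p₂]
    linear_combination h0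
  refine ⟨w₁, w₂, ⟨?_, hw1, hw2, by rw [opf_comm]; exact hw21⟩, hd1, hd2⟩
  intro x y hxy
  have e1 : x * opf Q p₁ w₁ + y * opf Q p₁ w₂ = 0 := by
    have h := congrArg (fun v => opf Q p₁ v) hxy
    simp only [opf_add_right, opf_smul_right, opf_zero_right] at h
    exact h
  have e2 : x * opf Q r₁ w₁ + y * opf Q r₁ w₂ = 0 := by
    have h := congrArg (fun v => opf Q r₁ v) hxy
    simp only [opf_add_right, opf_smul_right, opf_zero_right] at h
    exact h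
  have hx : (opf Q p₁ w₁ * opf Q r₁ w₂ - opf Q p₁ w₂ * opf Q r₁ w₁) * x = 0 := by
    linear_combination opf Q r₁ w₂ * e1 - opf Q p₁ w₂ * e2
  have hy : (opf Q p₁ w₁ * opf Q r₁ w₂ - opf Q p₁ w₂ * opf Q r₁ w₁) * y = 0 := by
    linear_combination opf Q p₁ w₁ * e2 - opf Q r₁ w₁ * e1
  exact ⟨(mul_eq_zero.1 hx).resolve_left hd1, (mul_eq_zero.1 hy).resolve_left hd1⟩

theorem sgFam_connected (Q : QuadraticForm F (κ → F))
    (hnd : ∀ x, (∀ y, opf Q y x = 0) → x = 0) (hdim : 6 ≤ Fintype.card κ) :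
    Cfsg.IsConnectedFamily (Cfsg.FAdj (sgFam Q)) (sgFam Q) := by
  rintro A ⟨p₁, r₁, h₁, rfl⟩ B ⟨p₂, r₂, h₂, rfl⟩
  obtain ⟨w₁, w₂, hw, hd1, hd2⟩ := sg_common_opp Q hnd hdim p₁ r₁ p₂ r₂ h₁ h₂
  have s1 : Cfsg.FAdj (sgFam Q) (sgGrp Q p₁ r₁) (sgGrp Q w₁ w₂) :=
    ⟨⟨p₁, r₁, h₁, rfl⟩, ⟨w₁, w₂, hw, rfl⟩, sg_rankOne_pair Q hnd p₁ r₁ w₁ w₂ h₁ hw hd1⟩
  have s2 : Cfsg.FAdj (sgFam Q) (sgGrp Q w₁ w₂) (sgGrp Q p₂ r₂) :=
    ⟨⟨w₁, w₂, hw, rfl⟩, ⟨p₂, r₂, h₂, rfl⟩,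
      Cfsg.RankOnePair_symm (sg_rankOne_pair Q hnd p₂ r₂ w₁ w₂ h₂ hw hd2)⟩
  exact Relation.ReflTransGen.tail (Relation.ReflTransGen.single s1) s2

theorem sgFam_kroot (Q : QuadraticForm F (κ → F))
    (hnd : ∀ x, (∀ y, opf Q y x = 0) → x = 0) :
    Cfsg.IsKRootSubgroupSet F
      ((fun A : Subgroup ↥(Cfsg.isometryGroup F ⇑Q) => A.subgroupOf (⨆ B ∈ sgFam Q, B))
        '' sgFam Q) := by
  refine kroot_subgroupOf_gen F (sgFam Q) _ rfl ?_ ?_ ?_ ?_
  · rintro A ⟨p, r, h, rfl⟩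
    exact sgGrp_comm_self Q hnd p r h
  · rintro A ⟨p, r, h, rfl⟩
    exact sgGrp_ne_bot Q hnd p r h
  · rintro A ⟨p, r, h, rfl⟩ g
    exact ⟨oAct g p, oAct g r, singLine_act g h, sgGrp_conj Q g p r⟩
  · rintro A ⟨p, r, h, rfl⟩ B ⟨p', r', h', rfl⟩
    rcases sg_trichotomy Q hnd p r p' r' h h' with h1 | h1 | h1
    · left
      exact h1
    · right; left
      exact ⟨sg_rankOne_pair Q hnd p r p' r' h h' h1, sg_psl2 Q hnd p r p' r' h h' h1⟩
    · right; right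
      exact h1

theorem siegel_root_fun (Qf : (κ → F) → F) (Q : QuadraticForm F (κ → F)) (hQ : ⇑Q = Qf)
    (hnd : ∀ x, (∀ y, opf Q y x = 0) → x = 0) (hdim : 6 ≤ Fintype.card κ)
    (S : Set (Subgroup ↥(Cfsg.isometryGroup F Qf)))
    (hS : S = {A : Subgroup ↥(Cfsg.isometryGroup F Qf) | ∃ p r : κ → F,
      LinearIndependent F ![p, r] ∧ Qf p = 0 ∧ Qf r = 0 ∧ Qf (p + r) = 0 ∧
      A = Subgroup.closure {σ : ↥(Cfsg.isometryGroup F Qf) | ∀ v : κ → F,
        Qf (v + p) - Qf v - Qf p = 0 → Qf (v + r) - Qf v - Qf r = 0 →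
          ((σ : Matrix.GeneralLinearGroup κ F) : Matrix κ κ F).mulVec v = v}}) :
    Cfsg.IsKRootSubgroupSet F ((fun A : Subgroup ↥(Cfsg.isometryGroup F Qf) =>
        A.subgroupOf (⨆ B ∈ S, B)) '' S) ∧
      Cfsg.IsConnectedFamily (Cfsg.FAdj S) S := by
  subst hQ
  have hS' : S = sgFam Q := by
    rw [hS]
    ext A
    constructor
    · rintro ⟨p, r, hind, hp, hr, hpr, rfl⟩
      refine ⟨p, r, ⟨LinearIndependent.pair_iff.1 hind, hp, hr, ?_⟩, rfl⟩
      show Q (p + r) - Q p - Q r = 0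
      rw [hpr, hp, hr]
      ring
    · rintro ⟨p, r, ⟨hind, hp, hr, hpr⟩, rfl⟩
      refine ⟨p, r, LinearIndependent.pair_iff.2 hind, hp, hr, ?_, rfl⟩
      rw [oQ_add, hp, hr, hpr]
      ring
  rw [hS']
  exact ⟨sgFam_kroot Q hnd, sgFam_connected Q hnd hdim⟩

theorem quadFormPlus_nondeg (F : Type*) [Field F] (n : ℕ)
    (Q : QuadraticForm F (Fin n ⊕ Fin n → F)) (hQ : ∀ v, Q v = Cfsg.quadFormPlus n F v) :
    ∀ x, (∀ y, opf Q y x = 0) → x = 0 := by
  intro x hx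
  have hQ' : ⇑Q = Cfsg.quadFormPlus n F := funext hQ
  have key : ∀ i, (Matrix.fromBlocks 0 1 1 0 :
      Matrix (Fin n ⊕ Fin n) (Fin n ⊕ Fin n) F).mulVec x i = 0 := by
    intro i
    have h1 := hx (Pi.single i 1)
    unfold opf at h1
    rw [hQ', polar_quadFormPlus, single_one_dotProduct] at h1
    exact h1
  funext i
  rcases i with i | i
  · have h := key (Sum.inr i)
    simpa [Matrix.fromBlocks_mulVec] using h
  · have h := key (Sum.inl i)
    simpa [Matrix.fromBlocks_mulVec] using h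

end Cfsg.Agent.Helper15
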