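import Mathlib
import Cfsg.Agent.Helper15.PSU3

set_option autoImplicit false

namespace Cfsg.Agent.Helper15

open scoped MatrixGroups

theorem two_ne_zero_of_odd {K : Type*} [Field K] [Fintype K] {q : ℕ}
    (hK : Fintype.card K = q ^ 2) (hq : Odd q) : (2 : K) ≠ 0 := by
  intro h2
  have h1 : addOrderOf (1 : K) ∣ 2 := addOrderOf_dvd_of_nsmul_eq_zero (by
    rw [nsmul_eq_mul, mul_one]
    exact_mod_cast h2)
  have h3 : addOrderOf (1 : K) ≠ 1 := by
    rw [Ne, AddMonoid.addOrderOf_eq_one_iff]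
    exact one_ne_zero
  have h4 : addOrderOf (1 : K) = 2 := by
    rcases (Nat.dvd_prime Nat.prime_two).1 h1 with h | h
    · exact absurd h h3
    · exact h
  have h5 : 2 ∣ Fintype.card K := h4 ▸ addOrderOf_dvd_card
  rw [hK] at h5
  have h6 := Nat.Prime.dvd_of_dvd_pow Nat.prime_two h5
  exact (Nat.not_even_iff_odd.2 hq) (even_iff_two_dvd.2 h6)

theorem herm_polar_zero {K : Type*} [Field K] [Fintype K] {q : ℕ} (hK : Fintype.card K = q ^ 2)
    {V : Type*} [AddCommGroup V] [Module K V] {h : V → V → K} (hh : IsHerm q h)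
    (P : V → V) (hadd : ∀ v w, P (v + w) = P v + P w) (hsmul : ∀ (c : K) v, P (c • v) = c • P v)
    (hP : ∀ v, h (P v) (P v) = 0) : ∀ v w, h (P v) (P w) = 0 := by
  intro v w
  obtain ⟨μ, hμ⟩ := exists_not_fixed hK
  have h1 : ∀ z, h (P v) (P z) + h (P z) (P v) = 0 := by
    intro z
    have h2 := hP (v + z)
    rw [hadd, hh.add_left, hh.add_right hK, hh.add_right hK, hP v, hP z] at h2
    linear_combination h2
  have h2 := h1 w
  have h3 := h1 (μ • w)
  rw [hsmul, hh.smul_right, hh.smul_left] at h3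
  have h4 : (μ ^ q - μ) * h (P v) (P w) = 0 := by linear_combination h3 - μ * h2
  rcases mul_eq_zero.1 h4 with h5 | h5
  · exact absurd (sub_eq_zero.1 h5) hμ
  · exact h5

/-- `A` acts as the negative reflection `v ↦ 2 h(v,a) a - v`. -/
def IsNegRefl {K : Type*} [Field K] {n q : ℕ} (A : ↥(Cfsg.SU n K q)) (a : Fin n → K) : Prop :=
  ∀ v, suAct A v = (2 * Cfsg.hermForm n K q v a) • a - v

theorem negRefl_conj {K : Type*} [Field K] {n q : ℕ} (g A : ↥(Cfsg.SU n K q)) (a : Fin n → K)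
    (hA : IsNegRefl A a) : IsNegRefl (g * A * g⁻¹) (suAct g a) := by
  intro v
  have h1 : Cfsg.hermForm n K q (suAct g⁻¹ v) a = Cfsg.hermForm n K q v (suAct g a) := by
    rw [← suAct_pres g, suAct_inv_right]
  rw [suAct_mul, suAct_mul, hA, suAct_sub, suAct_smul, suAct_inv_right, h1]

theorem negRefl_fix {K : Type*} [Field K] {n q : ℕ} (A : ↥(Cfsg.SU n K q)) (a : Fin n → K)
    (haa : Cfsg.hermForm n K q a a = 1) (hA : IsNegRefl A a) : suAct A a = a := by
  rw [hA, haa, mul_one, two_smul, add_sub_cancel_right]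

theorem negRefl_sq {K : Type*} [Field K] {n q : ℕ} (A : ↥(Cfsg.SU n K q)) (a : Fin n → K)
    (haa : Cfsg.hermForm n K q a a = 1) (hA : IsNegRefl A a) : A * A = 1 := by
  have hAa := negRefl_fix A a haa hA
  apply su_ext
  intro v
  rw [suAct_one, suAct_mul, hA v, suAct_sub, suAct_smul, hAa, hA v, sub_sub_cancel]

theorem negRefl_ne_one {K : Type*} [Field K] [Fintype K] {q : ℕ} (hK : Fintype.card K = q ^ 2)
    (h2 : (2 : K) ≠ 0) (A : ↥(Cfsg.SU 3 K q)) (a : Fin 3 → K) (hA : IsNegRefl A a) : A ≠ 1 := by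
  classical
  have hh := hermForm_isHerm hK 3
  have hq := two_le_of_card_sq hK
  have hq1 : 1 ≤ q := by omega
  rintro rfl
  have key : ∀ i j : Fin 3, (2 : K) * (Pi.single i 1 : Fin 3 → K) j = 2 * a i ^ q * a j := by
    intro i j
    have h3 := congrFun (hA (Pi.single i 1)) j
    rw [suAct_one, hh.conj a (Pi.single i 1), herm_single_right hq1, Pi.sub_apply, Pi.smul_apply,
      smul_eq_mul] at h3
    linear_combination h3
  have h00 := key 0 0
  have h01 := key 0 1
  have h11 := key 1 1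
  rw [Pi.single_eq_same] at h00 h11
  rw [Pi.single_eq_of_ne (by decide)] at h01
  have ha0 : a 0 ^ q ≠ 0 := by
    intro h
    rw [h] at h00
    apply h2
    linear_combination h00
  have ha1 : a 1 ≠ 0 := by
    intro h
    rw [h] at h11
    apply h2
    linear_combination h11
  have h5 : (2 : K) * a 0 ^ q * a 1 ≠ 0 := mul_ne_zero (mul_ne_zero h2 ha0) ha1
  apply h5
  linear_combination -h01

theorem su3_norm_one_transitive {K : Type*} [Field K] [Fintype K] {q : ℕ}
    (hK : Fintype.card K = q ^ 2) (hq : Odd q) (a b : Fin 3 → K)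
    (haa : Cfsg.hermForm 3 K q a a = 1) (hbb : Cfsg.hermForm 3 K q b b = 1) :
    ∃ g : ↥(Cfsg.SU 3 K q), suAct g a = b := by
  have hq2 : ¬ (0 = 0 ∧ q = 2) := by
    rintro ⟨-, h⟩
    rw [h] at hq
    exact absurd hq (by decide)
  obtain ⟨t₁, ht₁, h1⟩ := suTr_norm_one_transitive hK 0 hq2 a haa
  obtain ⟨t₂, ht₂, h2⟩ := suTr_norm_one_transitive hK 0 hq2 b hbb
  obtain ⟨g₁, hg₁⟩ := gu_to_su t₁ (suTr_le_GU _ _ _ ht₁) (suTr_det t₁ ht₁)
  obtain ⟨g₂, hg₂⟩ := gu_to_su t₂ (suTr_le_GU _ _ _ ht₂) (suTr_det t₂ ht₂)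
  refine ⟨g₂ * g₁⁻¹, ?_⟩
  have h3 : suAct g₁ (Pi.single 0 1) = a := by rw [hg₁]; exact h1
  have h4 : suAct g₂ (Pi.single 0 1) = b := by rw [hg₂]; exact h2
  rw [suAct_mul, ← h3, suAct_inv_left, h4]

theorem negRefl_exists {K : Type*} [Field K] [Fintype K] {q : ℕ}
    (hK : Fintype.card K = q ^ 2) (hq : Odd q) (a : Fin 3 → K)
    (haa : Cfsg.hermForm 3 K q a a = 1) : ∃ A : ↥(Cfsg.SU 3 K q), IsNegRefl A a := by
  classical
  have hh := hermForm_isHerm hK 3
  have hq2 := two_le_of_card_sq hK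
  have hq1 : 1 ≤ q := by omega
  have hev : Even (q + 1) := hq.add_one
  obtain ⟨s, hs, hsd⟩ := su_diag_mem 3 q ![1, -1, (-1 : K)] (by
    intro k
    fin_cases k
    · exact one_pow _
    · exact hev.neg_one_pow
    · exact hev.neg_one_pow) (by
    rw [Fin.prod_univ_three]
    simp)
  have he : Cfsg.hermForm 3 K q (Pi.single 0 1) (Pi.single 0 1) = 1 := by
    rw [hermForm_single hq1, if_pos rfl]
  have hD : IsNegRefl (⟨s, hs⟩ : ↥(Cfsg.SU 3 K q)) (Pi.single 0 1) := by
    intro v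
    show (s : Matrix (Fin 3) (Fin 3) K).mulVec v = _
    rw [hsd, herm_single_right hq1]
    funext i
    rw [Matrix.mulVec_diagonal, Pi.sub_apply, Pi.smul_apply, smul_eq_mul]
    fin_cases i
    · show (1 : K) * v 0 = 2 * v 0 * (Pi.single 0 1 : Fin 3 → K) 0 - v 0
      rw [Pi.single_eq_same]
      ring
    · show (-1 : K) * v 1 = 2 * v 0 * (Pi.single 0 1 : Fin 3 → K) 1 - v 1
      rw [Pi.single_eq_of_ne (by decide)]
      ring
    · show (-1 : K) * v 2 = 2 * v 0 * (Pi.single 0 1 : Fin 3 → K) 2 - v 2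
      rw [Pi.single_eq_of_ne (by decide)]
      ring
  obtain ⟨g, hg⟩ := su3_norm_one_transitive hK hq (Pi.single 0 1) a he haa
  refine ⟨g * ⟨s, hs⟩ * g⁻¹, ?_⟩
  have h1 := negRefl_conj g _ _ hD
  rw [hg] at h1
  exact h1

theorem mat2_inv_cases {K : Type*} [Field K] (h2 : (2 : K) ≠ 0) (M : Matrix (Fin 2) (Fin 2) K)
    (hMM : M * M = 1) (hdet : M.det = 1) : M = 1 ∨ M = -1 := by
  have e00 := congrFun (congrFun hMM 0) 0
  have e01 := congrFun (congrFun hMM 0) 1
  have e10 := congrFun (congrFun hMM 1) 0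
  have e11 := congrFun (congrFun hMM 1) 1
  rw [Matrix.mul_apply, Fin.sum_univ_two] at e00 e01 e10 e11
  rw [Matrix.one_apply_eq] at e00 e11
  rw [Matrix.one_apply_ne (by decide)] at e01 e10
  rw [Matrix.det_fin_two] at hdet
  have h4 : (M 0 0 + M 1 1 - 2) * (M 0 0 + M 1 1 + 2) = 0 := by
    linear_combination e00 + e11 + 2 * hdet
  rcases mul_eq_zero.1 h4 with h5 | h5
  · left
    have hb : M 0 1 = 0 := by
      have h6 : 2 * M 0 1 = 0 := by linear_combination e01 - M 0 1 * h5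
      exact (mul_eq_zero.1 h6).resolve_left h2
    have hc : M 1 0 = 0 := by
      have h6 : 2 * M 1 0 = 0 := by linear_combination e10 - M 1 0 * h5
      exact (mul_eq_zero.1 h6).resolve_left h2
    have ha : M 0 0 = 1 := by
      have h6 : (M 0 0 - 1) * (M 0 0 - 1) = 0 := by
        linear_combination M 0 0 * h5 - hdet - M 0 1 * hc
      have h7 := mul_self_eq_zero.1 h6
      linear_combination h7
    have hd : M 1 1 = 1 := by linear_combination h5 - ha
    ext i j
    fin_cases i <;> fin_cases j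
    · exact ha
    · exact hb
    · exact hc
    · exact hd
  · right
    have hb : M 0 1 = 0 := by
      have h6 : 2 * M 0 1 = 0 := by linear_combination -e01 + M 0 1 * h5
      exact (mul_eq_zero.1 h6).resolve_left h2
    have hc : M 1 0 = 0 := by
      have h6 : 2 * M 1 0 = 0 := by linear_combination -e10 + M 1 0 * h5
      exact (mul_eq_zero.1 h6).resolve_left h2
    have ha : M 0 0 = -1 := by
      have h6 : (M 0 0 + 1) * (M 0 0 + 1) = 0 := by
        linear_combination M 0 0 * h5 - hdet - M 0 1 * hc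
      have h7 := mul_self_eq_zero.1 h6
      linear_combination h7
    have hd : M 1 1 = -1 := by linear_combination h5 - ha
    ext i j
    fin_cases i <;> fin_cases j
    · exact ha
    · show M 0 1 = -(1 : Matrix (Fin 2) (Fin 2) K) 0 1
      rw [Matrix.one_apply_ne (by decide), neg_zero]
      exact hb
    · show M 1 0 = -(1 : Matrix (Fin 2) (Fin 2) K) 1 0
      rw [Matrix.one_apply_ne (by decide), neg_zero]
      exact hc
    · exact hd

end Cfsg.Agent.Helper15
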