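import Mathlib
import Cfsg.Agent.Helper15.SU3Inv

set_option autoImplicit false

namespace Cfsg.Agent.Helper15

open scoped MatrixGroups

/-- Every involution of `SU_3(q)`, `q` odd, is a negative reflection. -/
theorem su3_inv_negRefl {K : Type*} [Field K] [Fintype K] {q : ℕ} (hK : Fintype.card K = q ^ 2)
    (hq : Odd q) (A : ↥(Cfsg.SU 3 K q)) (hA1 : A ≠ 1) (hA2 : A * A = 1) :
    ∃ a : Fin 3 → K, Cfsg.hermForm 3 K q a a = 1 ∧ IsNegRefl A a := by
  classical
  have hh := hermForm_isHerm hK 3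
  have hq2 := two_le_of_card_sq hK
  have hq1 : 1 ≤ q := by omega
  have h2 := two_ne_zero_of_odd hK hq
  have hAA : ∀ v, suAct A (suAct A v) = v := by
    intro v
    rw [← suAct_mul, hA2, suAct_one]
  have hex : ∃ v, Cfsg.hermForm 3 K q (suAct A v + v) (suAct A v + v) ≠ 0 := by
    by_contra hcon
    push Not at hcon
    have hPP := herm_polar_zero hK hh (fun v => suAct A v + v)
      (fun v w => by
        show suAct A (v + w) + (v + w) = suAct A v + v + (suAct A w + w)
        rw [suAct_add]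
        abel)
      (fun c v => by
        show suAct A (c • v) + c • v = c • (suAct A v + v)
        rw [suAct_smul, smul_add])
      hcon
    have hPM : ∀ v w, Cfsg.hermForm 3 K q (suAct A v + v) (suAct A w - w) = 0 := by
      intro v w
      have e1 : Cfsg.hermForm 3 K q v (suAct A w) = Cfsg.hermForm 3 K q (suAct A v) w := by
        rw [← suAct_pres A v (suAct A w), hAA]
      rw [hh.add_left, hh.sub_right hK, hh.sub_right hK, suAct_pres, e1]
      ring
    have hzero : ∀ v, suAct A v + v = 0 := by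
      intro v
      apply hh.nondeg
      intro w
      have e1 : Cfsg.hermForm 3 K q (suAct A v + v) (suAct A w + w) = 0 := hPP v w
      have e2 := hPM v w
      have e3 : Cfsg.hermForm 3 K q (suAct A v + v) ((2 : K) • w) = 0 := by
        have e4 : (2 : K) • w = (suAct A w + w) - (suAct A w - w) := by
          rw [two_smul]
          abel
        rw [e4, hh.sub_right hK, e1, e2, sub_zero]
      rw [hh.smul_right] at e3
      exact (mul_eq_zero.1 e3).resolve_left (pow_ne_zero _ h2)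
    have hmat : ((A : Matrix.SpecialLinearGroup (Fin 3) K) : Matrix (Fin 3) (Fin 3) K) = -1 := by
      apply mat_ext_mulVec
      intro x
      rw [Matrix.neg_mulVec, Matrix.one_mulVec]
      exact eq_neg_of_add_eq_zero_left (hzero x)
    have hdet := A.1.2
    rw [hmat, Matrix.det_neg, Matrix.det_one, Fintype.card_fin] at hdet
    apply h2
    linear_combination -hdet
  obtain ⟨v, hv⟩ := hex
  obtain ⟨c, hc⟩ : ∃ c : K, c = Cfsg.hermForm 3 K q (suAct A v + v) (suAct A v + v) := ⟨_, rfl⟩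
  rw [← hc] at hv
  have hcq : c ^ q = c := by
    rw [hc]
    exact (hh.conj _ _).symm
  obtain ⟨l, hl0, hl⟩ := norm_exists hK c⁻¹ (inv_ne_zero hv) (by rw [inv_pow, hcq])
  obtain ⟨a, ha⟩ : ∃ a : Fin 3 → K, a = l • (suAct A v + v) := ⟨_, rfl⟩
  have haa : Cfsg.hermForm 3 K q a a = 1 := by
    rw [ha, hh.smul_left, hh.smul_right, ← hc, ← mul_assoc, ← pow_succ', hl, inv_mul_cancel₀ hv]
  have hAa : suAct A a = a := by
    rw [ha, suAct_smul, suAct_add, hAA, add_comm]
  have he : Cfsg.hermForm 3 K q (Pi.single 0 1) (Pi.single 0 1) = 1 := by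
    rw [hermForm_single hq1, if_pos rfl]
  obtain ⟨g, hg⟩ := su3_norm_one_transitive hK hq (Pi.single 0 1) a he haa
  obtain ⟨B, hB⟩ : ∃ B : ↥(Cfsg.SU 3 K q), B = g⁻¹ * A * g := ⟨_, rfl⟩
  have hAB : A = g * B * g⁻¹ := by
    rw [hB]
    group
  have hBe : suAct B (Pi.single 0 1) = Pi.single 0 1 := by
    rw [hB, suAct_mul, suAct_mul, hg, hAa, ← hg, suAct_inv_left]
  have hBB : ∀ x, suAct B (suAct B x) = x := by
    intro x
    have h3 : B * B = 1 := by
      rw [hB]
      calc g⁻¹ * A * g * (g⁻¹ * A * g) = g⁻¹ * (A * A) * g := by group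
        _ = 1 := by
          rw [hA2]
          group
    rw [← suAct_mul, h3, suAct_one]
  have hBmem : Matrix.SpecialLinearGroup.toGL (B : Matrix.SpecialLinearGroup (Fin 3) K)
      ∈ Cfsg.GU 3 K q := (mem_GU_iff _ _ _).2 ((mem_SU_iff _ _ _).1 B.2)
  have hBact : ∀ x, glAct (Matrix.SpecialLinearGroup.toGL
      (B : Matrix.SpecialLinearGroup (Fin 3) K)) x = suAct B x := fun x => rfl
  have hdetB : ((Matrix.SpecialLinearGroup.toGL (B : Matrix.SpecialLinearGroup (Fin 3) K) :
      GL (Fin 3) K) : Matrix (Fin 3) (Fin 3) K).det = 1 := B.1.2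
  obtain ⟨g', hg', hBg', hdet'⟩ := gu_fix_zero (n := 2) hq1 _ hBmem (by
    rw [hBact]
    exact hBe)
  have hg'g' : ∀ x : Fin 2 → K, glAct g' (glAct g' x) = x := by
    intro x
    have h3 := hBB (Fin.cons 0 x)
    rw [← hBact, ← hBact, hBg', glBlk_act_cons, glBlk_act_cons] at h3
    have h4 := congrArg Fin.tail h3
    rw [Fin.tail_cons, Fin.tail_cons] at h4
    exact h4
  have hMM : (g' : Matrix (Fin 2) (Fin 2) K) * (g' : Matrix (Fin 2) (Fin 2) K) = 1 := by
    apply mat_ext_mulVec
    intro x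
    rw [← Matrix.mulVec_mulVec, Matrix.one_mulVec]
    exact hg'g' x
  rcases mat2_inv_cases h2 _ hMM (hdet'.trans hdetB) with h1 | h1
  · exfalso
    apply hA1
    have hB1 : B = 1 := by
      apply su_ext
      intro x
      rw [suAct_one, ← hBact, hBg', glBlk_act]
      have h5 : glAct g' (Fin.tail x) = Fin.tail x := by
        show (g' : Matrix (Fin 2) (Fin 2) K).mulVec _ = _
        rw [h1, Matrix.one_mulVec]
      rw [h5]
      exact Fin.cons_self_tail x
    rw [hAB, hB1]
    group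
  · refine ⟨a, haa, ?_⟩
    have hBrefl : IsNegRefl B (Pi.single 0 1) := by
      intro x
      rw [← hBact, hBg', glBlk_act, herm_single_right hq1]
      have hneg : glAct g' (Fin.tail x) = -Fin.tail x := by
        show (g' : Matrix (Fin 2) (Fin 2) K).mulVec _ = _
        rw [h1, Matrix.neg_mulVec, Matrix.one_mulVec]
      rw [hneg]
      funext i
      refine Fin.cases ?_ (fun j => ?_) i
      · rw [Fin.cons_zero, Pi.sub_apply, Pi.smul_apply, Pi.single_eq_same, smul_eq_mul]
        ring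
      · rw [Fin.cons_succ, Pi.sub_apply, Pi.smul_apply, Pi.single_eq_of_ne (Fin.succ_ne_zero j),
          smul_zero, zero_sub]
        rfl
    have hArefl := negRefl_conj g B _ hBrefl
    rw [hg] at hArefl
    rw [hAB]
    exact hArefl

theorem negRefl_eq_iff {K : Type*} [Field K] [Fintype K] {q : ℕ} (hK : Fintype.card K = q ^ 2)
    (h2 : (2 : K) ≠ 0) {n : ℕ} (A B : ↥(Cfsg.SU n K q)) (a b : Fin n → K)
    (haa : Cfsg.hermForm n K q a a = 1) (hbb : Cfsg.hermForm n K q b b = 1)
    (hA : IsNegRefl A a) (hB : IsNegRefl B b) :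
    A = B ↔ ∃ l : K, l ^ (q + 1) = 1 ∧ b = l • a := by
  have hh := hermForm_isHerm hK n
  constructor
  · rintro rfl
    have h1 := negRefl_fix A a haa hA
    have h3 := hB a
    rw [h1] at h3
    obtain ⟨μ, hμ⟩ : ∃ μ : K, μ = Cfsg.hermForm n K q a b := ⟨_, rfl⟩
    rw [← hμ] at h3
    have h4 : a = μ • b := by
      have h5 : (2 : K) • a = (2 : K) • (μ • b) := by
        rw [smul_smul, two_smul]
        rw [eq_sub_iff_add_eq] at h3
        exact h3
      exact smul_right_injective _ h2 h5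
    have h6 : μ ^ (q + 1) = 1 := by
      have h7 := haa
      rw [h4, hh.smul_left, hh.smul_right, hbb, mul_one] at h7
      rw [pow_succ']
      exact h7
    have hμ0 : μ ≠ 0 := by
      rintro rfl
      rw [zero_pow (Nat.succ_ne_zero q)] at h6
      exact zero_ne_one h6
    refine ⟨μ⁻¹, by rw [inv_pow, h6, inv_one], ?_⟩
    rw [h4, smul_smul, inv_mul_cancel₀ hμ0, one_smul]
  · rintro ⟨l, hl, rfl⟩
    apply su_ext
    intro v
    rw [hA, hB, hh.smul_right, smul_smul]
    congr 2
    rw [pow_succ] at hl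
    linear_combination (-2 * Cfsg.hermForm n K q v a) * hl

theorem negRefl_commute {K : Type*} [Field K] [Fintype K] {q : ℕ} (hK : Fintype.card K = q ^ 2)
    (h2 : (2 : K) ≠ 0) {n : ℕ} (A B : ↥(Cfsg.SU n K q)) (a b : Fin n → K)
    (haa : Cfsg.hermForm n K q a a = 1) (hbb : Cfsg.hermForm n K q b b = 1)
    (hA : IsNegRefl A a) (hB : IsNegRefl B b) (hne : A ≠ B) (hc : Commute A B) :
    Cfsg.hermForm n K q a b = 0 := by
  have hh := hermForm_isHerm hK n
  by_contra hab
  apply hne
  have hAa := negRefl_fix A a haa hA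
  obtain ⟨w, hw⟩ : ∃ w, w = suAct B a := ⟨_, rfl⟩
  have hAw : suAct A w = w := by
    rw [hw, ← suAct_mul, hc.eq, suAct_mul, hAa]
  have h3 := hA w
  rw [hAw] at h3
  have h4 : w = Cfsg.hermForm n K q w a • a := by
    have h5 : (2 : K) • w = (2 : K) • (Cfsg.hermForm n K q w a • a) := by
      rw [smul_smul, two_smul]
      rw [eq_sub_iff_add_eq] at h3
      exact h3
    exact smul_right_injective _ h2 h5
  have h6 := hB a
  rw [← hw] at h6
  obtain ⟨ν, hν⟩ : ∃ ν : K,
      ν = (Cfsg.hermForm n K q w a + 1) / (2 * Cfsg.hermForm n K q a b) := ⟨_, rfl⟩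
  have h7 : b = ν • a := by
    have h8 : (2 * Cfsg.hermForm n K q a b) • b = (Cfsg.hermForm n K q w a + 1) • a := by
      rw [add_smul, one_smul, ← h4, h6, sub_add_cancel]
    have h9 : (2 * Cfsg.hermForm n K q a b) ≠ 0 := mul_ne_zero h2 hab
    rw [hν, div_eq_inv_mul, ← smul_smul, ← h8, smul_smul, inv_mul_cancel₀ h9, one_smul]
  have h10 : ν ^ (q + 1) = 1 := by
    have h11 := hbb
    rw [h7, hh.smul_left, hh.smul_right, haa, mul_one] at h11
    rw [pow_succ']
    exact h11
  exact (negRefl_eq_iff hK h2 A B a b haa hbb hA hB).2 ⟨ν, h10, h7⟩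

theorem orthonormal3_expand {K : Type*} [Field K] [Fintype K] {q : ℕ}
    (hK : Fintype.card K = q ^ 2) (a b c : Fin 3 → K)
    (haa : Cfsg.hermForm 3 K q a a = 1) (hbb : Cfsg.hermForm 3 K q b b = 1)
    (hcc : Cfsg.hermForm 3 K q c c = 1) (hab : Cfsg.hermForm 3 K q a b = 0)
    (hac : Cfsg.hermForm 3 K q a c = 0) (hbc : Cfsg.hermForm 3 K q b c = 0) (v : Fin 3 → K) :
    v = Cfsg.hermForm 3 K q v a • a + Cfsg.hermForm 3 K q v b • b
      + Cfsg.hermForm 3 K q v c • c := by
  have hh := hermForm_isHerm hK 3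
  have hq := two_le_of_card_sq hK
  have hq1 : 1 ≤ q := by omega
  have hba := hh.swap_zero hq1 _ _ hab
  have hca := hh.swap_zero hq1 _ _ hac
  have hcb := hh.swap_zero hq1 _ _ hbc
  have hV : Module.finrank K (Fin 3 → K) = 3 := Module.finrank_fin_fun K
  have hortho : ∀ i j : Fin 3, Cfsg.hermForm 3 K q (![a, b, c] i) (![a, b, c] j)
      = if i = j then 1 else 0 := by
    intro i j
    fin_cases i <;> fin_cases j <;> simp [haa, hbb, hcc, hab, hac, hbc, hba, hca, hcb]
  obtain ⟨ρ, hρ, -⟩ := herm_frame_equiv hK hh hV ⟨![a, b, c], hortho⟩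
  obtain ⟨d, hd⟩ : ∃ d, ρ d = v := ρ.surjective v
  rw [hρ, Fin.sum_univ_three] at hd
  have hd' : v = d 0 • a + d 1 • b + d 2 • c := hd.symm
  have e0 : Cfsg.hermForm 3 K q v a = d 0 := by
    rw [hd', hh.add_left, hh.add_left, hh.smul_left, hh.smul_left, hh.smul_left, haa, hba, hca]
    ring
  have e1 : Cfsg.hermForm 3 K q v b = d 1 := by
    rw [hd', hh.add_left, hh.add_left, hh.smul_left, hh.smul_left, hh.smul_left, hab, hbb, hcb]
    ring
  have e2 : Cfsg.hermForm 3 K q v c = d 2 := by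
    rw [hd', hh.add_left, hh.add_left, hh.smul_left, hh.smul_left, hh.smul_left, hac, hbc, hcc]
    ring
  rw [e0, e1, e2]
  exact hd'

theorem negRefl_prod {K : Type*} [Field K] [Fintype K] {q : ℕ} (hK : Fintype.card K = q ^ 2)
    (A B C : ↥(Cfsg.SU 3 K q)) (a b c : Fin 3 → K)
    (haa : Cfsg.hermForm 3 K q a a = 1) (hbb : Cfsg.hermForm 3 K q b b = 1)
    (hcc : Cfsg.hermForm 3 K q c c = 1) (hab : Cfsg.hermForm 3 K q a b = 0)
    (hac : Cfsg.hermForm 3 K q a c = 0) (hbc : Cfsg.hermForm 3 K q b c = 0)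
    (hA : IsNegRefl A a) (hB : IsNegRefl B b) (hC : IsNegRefl C c) : A * B = C := by
  have hh := hermForm_isHerm hK 3
  have hq := two_le_of_card_sq hK
  have hq1 : 1 ≤ q := by omega
  have hba := hh.swap_zero hq1 _ _ hab
  apply su_ext
  intro v
  have hexp := orthonormal3_expand hK a b c haa hbb hcc hab hac hbc v
  rw [suAct_mul, hB v, suAct_sub, suAct_smul, hA b, hA v, hC v, hba, mul_zero, zero_smul,
    zero_sub]
  generalize Cfsg.hermForm 3 K q v a = x at hexp ⊢
  generalize Cfsg.hermForm 3 K q v b = y at hexp ⊢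
  generalize Cfsg.hermForm 3 K q v c = z at hexp ⊢
  rw [hexp]
  module

end Cfsg.Agent.Helper15
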