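import Mathlib
import Cfsg.Agent.Helper15.SU3Inv2

set_option autoImplicit false

namespace Cfsg.Agent.Helper15

open scoped MatrixGroups

set_option maxHeartbeats 800000 in
/-- Involutions of `SU_3(q)`, `q` odd. -/
theorem su3_involutions {K : Type*} [Field K] [Fintype K] {q : ℕ} (hq : Odd q)
    (hK : Fintype.card K = q ^ 2) (t : ↥(Cfsg.SU 3 K q)) (ht : t ≠ 1) (ht2 : t * t = 1) :
    (∀ x : ↥(Cfsg.SU 3 K q), x ≠ 1 → x * x = 1 → ∃ g : ↥(Cfsg.SU 3 K q), g * t * g⁻¹ = x) ∧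
    Nat.card {x : ↥(Cfsg.SU 3 K q) // x ≠ 1 ∧ x * x = 1} = q ^ 2 * (q ^ 2 - q + 1) ∧
    Nat.card ↥(Subgroup.centralizer ({t} : Set ↥(Cfsg.SU 3 K q))) = q * (q + 1) * (q ^ 2 - 1) ∧
    ∀ x : ↥(Cfsg.SU 3 K q), x ≠ 1 → x * x = 1 → x ≠ t → Commute t x →
      Nat.card {y : ↥(Cfsg.SU 3 K q) // y ≠ 1 ∧ y * y = 1 ∧ y ≠ t ∧ y ≠ x ∧ Commute t y
        ∧ Commute x y} = 1 := by
  classical
  have hh := hermForm_isHerm hK 3
  have hq2 := two_le_of_card_sq hK
  have hq1 : 1 ≤ q := by omega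
  have h2 := two_ne_zero_of_odd hK hq
  haveI : Finite ↥(Cfsg.SU 3 K q) := inferInstance
  have hconj : ∀ x y : ↥(Cfsg.SU 3 K q), x ≠ 1 → x * x = 1 → y ≠ 1 → y * y = 1 →
      ∃ g : ↥(Cfsg.SU 3 K q), g * x * g⁻¹ = y := by
    intro x y hx1 hx2 hy1 hy2
    obtain ⟨a, haa, hxa⟩ := su3_inv_negRefl hK hq x hx1 hx2
    obtain ⟨b, hbb, hyb⟩ := su3_inv_negRefl hK hq y hy1 hy2
    obtain ⟨g, hg⟩ := su3_norm_one_transitive hK hq a b haa hbb
    refine ⟨g, ?_⟩
    have h1 := negRefl_conj g x a hxa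
    rw [hg] at h1
    exact (negRefl_eq_iff hK h2 _ _ b b hbb hbb h1 hyb).2 ⟨1, one_pow _, (one_smul _ _).symm⟩
  haveI : Fintype {x : ↥(Cfsg.SU 3 K q) // x ≠ 1 ∧ x * x = 1} := Fintype.ofFinite _
  have hcount : Nat.card {x : ↥(Cfsg.SU 3 K q) // x ≠ 1 ∧ x * x = 1} * (q + 1)
      = q ^ 2 * (q ^ 3 + 1) := by
    have hX := herm_norm_one_card hK 3
    rw [if_neg (by decide)] at hX
    have hf : ∀ a : {v : Fin 3 → K // Cfsg.hermForm 3 K q v v = 1},
        ∃ A : ↥(Cfsg.SU 3 K q), IsNegRefl A a.1 := fun a => negRefl_exists hK hq a.1 a.2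
    choose f hf using hf
    let F : {v : Fin 3 → K // Cfsg.hermForm 3 K q v v = 1}
        → {x : ↥(Cfsg.SU 3 K q) // x ≠ 1 ∧ x * x = 1} :=
      fun a => ⟨f a, negRefl_ne_one hK h2 _ _ (hf a), negRefl_sq _ _ a.2 (hf a)⟩
    have hfiber : ∀ y : {x : ↥(Cfsg.SU 3 K q) // x ≠ 1 ∧ x * x = 1},
        Nat.card {a // F a = y} = q + 1 := by
      intro y
      obtain ⟨a₀, ha₀, hy⟩ := su3_inv_negRefl hK hq y.1 y.2.1 y.2.2
      have ha₀0 : a₀ ≠ 0 := by
        rintro rfl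
        rw [hh.zero_left] at ha₀
        exact zero_ne_one ha₀
      have hdvd : q + 1 ∣ Fintype.card K - 1 := by
        obtain ⟨k, rfl⟩ : ∃ k, q = k + 1 := ⟨q - 1, by omega⟩
        refine ⟨k, ?_⟩
        rw [hK]
        exact Nat.sub_eq_of_eq_add (by ring)
      rw [← card_roots_of_unity_of_dvd (K := K) (q + 1) (by omega) hdvd]
      symm
      apply Nat.card_congr
      have hnorm : ∀ l : {c : K // c ^ (q + 1) = 1},
          Cfsg.hermForm 3 K q (l.1 • a₀) (l.1 • a₀) = 1 := by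
        intro l
        rw [hh.smul_left, hh.smul_right, ha₀, mul_one, ← pow_succ']
        exact l.2
      refine Equiv.ofBijective (fun l => ⟨⟨l.1 • a₀, hnorm l⟩, ?_⟩) ⟨?_, ?_⟩
      · apply Subtype.ext
        exact ((negRefl_eq_iff hK h2 y.1 _ a₀ _ ha₀ (hnorm l) hy (hf ⟨l.1 • a₀, hnorm l⟩)).2
          ⟨l.1, l.2, rfl⟩).symm
      · intro l l' hll
        have h3 : l.1 • a₀ = l'.1 • a₀ := congrArg (fun z => z.1.1) hll
        exact Subtype.ext (smul_left_injective K ha₀0 h3)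
      · rintro ⟨a, ha⟩
        have h1 : f a = y.1 := congrArg Subtype.val ha
        obtain ⟨l, hl, hal⟩ := (negRefl_eq_iff hK h2 y.1 (f a) a₀ a.1 ha₀ a.2 hy (hf a)).1
          h1.symm
        refine ⟨⟨l, hl⟩, ?_⟩
        apply Subtype.ext
        apply Subtype.ext
        exact hal.symm
    rw [show q ^ 2 * (q ^ 3 + 1) = q ^ (3 - 1) * (q ^ 3 + 1) from rfl, ← hX,
      ← Nat.card_congr (Equiv.sigmaFiberEquiv F), Nat.card_sigma,
      Finset.sum_congr rfl (fun b _ => hfiber b), Finset.sum_const, Finset.card_univ,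
      smul_eq_mul, ← Nat.card_eq_fintype_card]
  have hG : Nat.card ↥(Cfsg.SU 3 K q)
      = Nat.card {x : ↥(Cfsg.SU 3 K q) // x ≠ 1 ∧ x * x = 1}
        * Nat.card ↥(Subgroup.centralizer ({t} : Set ↥(Cfsg.SU 3 K q))) := by
    let Φ : ↥(Cfsg.SU 3 K q) → {x : ↥(Cfsg.SU 3 K q) // x ≠ 1 ∧ x * x = 1} :=
      fun g => ⟨g * t * g⁻¹, fun h => ht (conj_eq_one_iff.1 h), by
        rw [conj_mul, ht2, mul_one, mul_inv_cancel]⟩
    have hfiberC : ∀ y : {x : ↥(Cfsg.SU 3 K q) // x ≠ 1 ∧ x * x = 1},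
        Nat.card {g // Φ g = y}
          = Nat.card ↥(Subgroup.centralizer ({t} : Set ↥(Cfsg.SU 3 K q))) := by
      intro y
      obtain ⟨g₀, hg₀⟩ := hconj t y.1 ht ht2 y.2.1 y.2.2
      symm
      apply Nat.card_congr
      refine Equiv.ofBijective (fun c => ⟨g₀ * c.1, ?_⟩) ⟨?_, ?_⟩
      · apply Subtype.ext
        show g₀ * c.1 * t * (g₀ * c.1)⁻¹ = y.1
        have hc : t * c.1 = c.1 * t :=
          (Subgroup.mem_centralizer_iff.1 c.2) t (Set.mem_singleton t)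
        rw [← hg₀, mul_inv_rev]
        calc g₀ * c.1 * t * (c.1⁻¹ * g₀⁻¹) = g₀ * (c.1 * t) * c.1⁻¹ * g₀⁻¹ := by group
          _ = g₀ * (t * c.1) * c.1⁻¹ * g₀⁻¹ := by rw [hc]
          _ = g₀ * t * g₀⁻¹ := by group
      · intro c c' hcc
        have h3 : g₀ * c.1 = g₀ * c'.1 := congrArg Subtype.val hcc
        exact Subtype.ext (mul_left_cancel h3)
      · rintro ⟨g, hg⟩
        have h1 : g * t * g⁻¹ = y.1 := congrArg Subtype.val hg
        have h3 : g * t * g⁻¹ = g₀ * t * g₀⁻¹ := by rw [h1, hg₀]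
        refine ⟨⟨g₀⁻¹ * g, ?_⟩, ?_⟩
        · rw [Subgroup.mem_centralizer_iff]
          intro h hh'
          rw [Set.mem_singleton_iff] at hh'
          rw [hh']
          calc t * (g₀⁻¹ * g) = g₀⁻¹ * (g₀ * t * g₀⁻¹) * g := by group
            _ = g₀⁻¹ * (g * t * g⁻¹) * g := by rw [h3]
            _ = g₀⁻¹ * g * t := by group
        · apply Subtype.ext
          show g₀ * (g₀⁻¹ * g) = g
          group
    rw [← Nat.card_congr (Equiv.sigmaFiberEquiv Φ), Nat.card_sigma,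
      Finset.sum_congr rfl (fun b _ => hfiberC b), Finset.sum_const, Finset.card_univ,
      smul_eq_mul, ← Nat.card_eq_fintype_card]
  have hSU : (q + 1) * Nat.card ↥(Cfsg.SU 3 K q)
      = q ^ 3 * ((q + 1) * (q ^ 2 - 1) * (q ^ 3 + 1)) := by
    have h := card_SU hK 3 (by norm_num)
    rw [Finset.prod_range_succ, Finset.prod_range_succ, Finset.prod_range_one,
      if_pos (by decide : Even 0), if_neg (by decide : ¬ Even 1), if_pos (by decide : Even 2),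
      zero_add, pow_one] at h
    exact h
  have hY : Nat.card {x : ↥(Cfsg.SU 3 K q) // x ≠ 1 ∧ x * x = 1} = q ^ 2 * (q ^ 2 - q + 1) := by
    obtain ⟨k, hk⟩ : ∃ k, q = k + 1 := ⟨q - 1, by omega⟩
    have e1 : q ^ 2 - q = k ^ 2 + k := by
      rw [hk]
      exact Nat.sub_eq_of_eq_add (by ring)
    rw [e1]
    have e2 : q ^ 2 * (q ^ 3 + 1) = q ^ 2 * (k ^ 2 + k + 1) * (q + 1) := by
      rw [hk]
      ring
    rw [e2] at hcount
    exact Nat.eq_of_mul_eq_mul_right (by omega) hcount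
  have hC : Nat.card ↥(Subgroup.centralizer ({t} : Set ↥(Cfsg.SU 3 K q)))
      = q * (q + 1) * (q ^ 2 - 1) := by
    obtain ⟨k, hk⟩ : ∃ k, q = k + 1 := ⟨q - 1, by omega⟩
    have e1 : q ^ 2 - q = k ^ 2 + k := by
      rw [hk]
      exact Nat.sub_eq_of_eq_add (by ring)
    have e4 : q ^ 2 - 1 = k ^ 2 + 2 * k := by
      rw [hk]
      exact Nat.sub_eq_of_eq_add (by ring)
    rw [hG, hY, e1, e4] at hSU
    rw [e4]
    have hpos : 0 < (q + 1) * (q ^ 2 * (k ^ 2 + k + 1)) := by positivity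
    have h5 : (q + 1) * (q ^ 2 * (k ^ 2 + k + 1))
        * Nat.card ↥(Subgroup.centralizer ({t} : Set ↥(Cfsg.SU 3 K q)))
        = (q + 1) * (q ^ 2 * (k ^ 2 + k + 1)) * (q * (q + 1) * (k ^ 2 + 2 * k)) := by
      rw [mul_assoc, hSU, hk]
      ring
    exact Nat.eq_of_mul_eq_mul_left hpos h5
  refine ⟨fun x hx1 hx2 => hconj t x ht ht2 hx1 hx2, hY, hC, ?_⟩
  intro x hx1 hx2 hxt hcomm
  rw [Nat.card_eq_one_iff_unique]
  obtain ⟨a, haa, hta⟩ := su3_inv_negRefl hK hq t ht ht2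
  obtain ⟨b, hbb, hxb⟩ := su3_inv_negRefl hK hq x hx1 hx2
  have hab := negRefl_commute hK h2 t x a b haa hbb hta hxb (Ne.symm hxt) hcomm
  constructor
  · have key : ∀ y : {y : ↥(Cfsg.SU 3 K q) // y ≠ 1 ∧ y * y = 1 ∧ y ≠ t ∧ y ≠ x ∧ Commute t y
        ∧ Commute x y}, y.1 = t * x := by
      intro y
      obtain ⟨hy1, hy2, hyt, hyx, hty, hxy⟩ := y.2
      obtain ⟨c, hcc, hyc⟩ := su3_inv_negRefl hK hq y.1 hy1 hy2
      have hac := negRefl_commute hK h2 t y.1 a c haa hcc hta hyc (Ne.symm hyt) hty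
      have hbc := negRefl_commute hK h2 x y.1 b c hbb hcc hxb hyc (Ne.symm hyx) hxy
      exact (negRefl_prod hK t x y.1 a b c haa hbb hcc hab hac hbc hta hxb hyc).symm
    exact ⟨fun y y' => Subtype.ext ((key y).trans (key y').symm)⟩
  · have htinv : t⁻¹ = t := inv_eq_of_mul_eq_one_right ht2
    refine ⟨⟨t * x, ?_, ?_, ?_, ?_, ?_, ?_⟩⟩
    · intro h
      apply hxt
      rw [← inv_eq_of_mul_eq_one_right h, htinv]
    · calc t * x * (t * x) = t * (x * t) * x := by group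
        _ = t * (t * x) * x := by rw [hcomm.eq]
        _ = (t * t) * (x * x) := by group
        _ = 1 := by rw [ht2, hx2, mul_one]
    · intro h
      exact hx1 (mul_left_cancel (h.trans (mul_one t).symm))
    · intro h
      exact ht (mul_right_cancel (h.trans (one_mul x).symm))
    · exact (Commute.refl t).mul_right hcomm
    · exact hcomm.symm.mul_right (Commute.refl x)

end Cfsg.Agent.Helper15
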