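import Mathlib
import Cfsg.Agent.Helper15.SU3Inv3

set_option autoImplicit false

namespace Cfsg.Agent.Helper15

open scoped MatrixGroups

/-- A vector orthogonal to two given vectors of the 3-dimensional unitary space. -/
theorem hcross_spec {K : Type*} [Field K] [Fintype K] {q : ℕ} (hK : Fintype.card K = q ^ 2)
    (u w : Fin 3 → K) :
    ∃ d : Fin 3 → K, Cfsg.hermForm 3 K q d u = 0 ∧ Cfsg.hermForm 3 K q d w = 0 ∧
      Cfsg.hermForm 3 K q d d = Cfsg.hermForm 3 K q u u * Cfsg.hermForm 3 K q w w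
        - Cfsg.hermForm 3 K q u w * Cfsg.hermForm 3 K q w u := by
  obtain ⟨φ, hφ⟩ := exists_frob hK
  have e : ∀ a b c d : K, (a ^ q * b ^ q - c ^ q * d ^ q) ^ q = a * b - c * d := by
    intro a b c d
    rw [← hφ (a ^ q * b ^ q - c ^ q * d ^ q), map_sub, map_mul, map_mul, hφ, hφ, hφ, hφ,
      pow_card_sq hK, pow_card_sq hK, pow_card_sq hK, pow_card_sq hK]
  obtain ⟨d, hd0, hd1, hd2⟩ : ∃ d : Fin 3 → K, d 0 = u 1 ^ q * w 2 ^ q - u 2 ^ q * w 1 ^ q
      ∧ d 1 = u 2 ^ q * w 0 ^ q - u 0 ^ q * w 2 ^ q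
      ∧ d 2 = u 0 ^ q * w 1 ^ q - u 1 ^ q * w 0 ^ q :=
    ⟨![u 1 ^ q * w 2 ^ q - u 2 ^ q * w 1 ^ q, u 2 ^ q * w 0 ^ q - u 0 ^ q * w 2 ^ q,
      u 0 ^ q * w 1 ^ q - u 1 ^ q * w 0 ^ q], rfl, rfl, rfl⟩
  refine ⟨d, ?_, ?_, ?_⟩
  · unfold Cfsg.hermForm
    rw [Fin.sum_univ_three, hd0, hd1, hd2]
    ring
  · unfold Cfsg.hermForm
    rw [Fin.sum_univ_three, hd0, hd1, hd2]
    ring
  · unfold Cfsg.hermForm
    rw [Fin.sum_univ_three, Fin.sum_univ_three, Fin.sum_univ_three, Fin.sum_univ_three,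
      Fin.sum_univ_three, hd0, hd1, hd2, e, e, e]
    ring

theorem su3_common_perp {K : Type*} [Field K] [Fintype K] {q : ℕ} (hK : Fintype.card K = q ^ 2)
    (u w : Fin 3 → K) (huu : Cfsg.hermForm 3 K q u u = 1) (hww : Cfsg.hermForm 3 K q w w = 1)
    (hne : Cfsg.hermForm 3 K q w u ^ (q + 1) ≠ 1) :
    ∃ c : Fin 3 → K, Cfsg.hermForm 3 K q c c = 1 ∧ Cfsg.hermForm 3 K q c u = 0
      ∧ Cfsg.hermForm 3 K q c w = 0 := by
  have hh := hermForm_isHerm hK 3
  obtain ⟨d, hdu, hdw, hdd⟩ := hcross_spec hK u w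
  rw [huu, hww, one_mul, hh.conj w u] at hdd
  have hdd0 : Cfsg.hermForm 3 K q d d ≠ 0 := by
    rw [hdd, ← pow_succ]
    intro h0
    exact hne (sub_eq_zero.1 h0).symm
  obtain ⟨μ, hμ0, hμ⟩ := norm_exists hK _ hdd0 (hh.conj d d).symm
  refine ⟨μ⁻¹ • d, ?_, ?_, ?_⟩
  · rw [hh.smul_left, hh.smul_right, ← hμ, inv_pow, ← mul_assoc, ← mul_inv, ← pow_succ',
      inv_mul_cancel₀ (pow_ne_zero _ hμ0)]
  · rw [hh.smul_left, hdu, mul_zero]
  · rw [hh.smul_left, hdw, mul_zero]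

theorem negRefl_orth_commute {K : Type*} [Field K] [Fintype K] {q : ℕ}
    (hK : Fintype.card K = q ^ 2) {n : ℕ} (A B : ↥(Cfsg.SU n K q)) (a b : Fin n → K)
    (hA : IsNegRefl A a) (hB : IsNegRefl B b) (hab : Cfsg.hermForm n K q a b = 0) :
    Commute A B := by
  have hh := hermForm_isHerm hK n
  have hq := two_le_of_card_sq hK
  have hba := hh.swap_zero (by omega) _ _ hab
  have hAb : suAct A b = -b := by rw [hA, hba, mul_zero, zero_smul, zero_sub]
  have hBa : suAct B a = -a := by rw [hB, hab, mul_zero, zero_smul, zero_sub]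
  show A * B = B * A
  apply su_ext
  intro v
  rw [suAct_mul, suAct_mul, hB v, hA v, suAct_sub, suAct_sub, suAct_smul, suAct_smul, hAb, hBa,
    hA v, hB v, smul_neg, smul_neg]
  abel

theorem negRefl_scale {K : Type*} [Field K] {n q : ℕ}
    (hh : IsHerm q (Cfsg.hermForm n K q)) (A : ↥(Cfsg.SU n K q)) (a : Fin n → K) (l : K)
    (hl : l ^ (q + 1) = 1) (hA : IsNegRefl A a) : IsNegRefl A (l • a) := by
  intro v
  rw [hA v, hh.smul_right, smul_smul]
  congr 2
  rw [pow_succ] at hl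
  linear_combination (-(2 * Cfsg.hermForm n K q v a)) * hl

theorem orthonormal3_norm {K : Type*} [Field K] [Fintype K] {q : ℕ}
    (hK : Fintype.card K = q ^ 2) (a b c : Fin 3 → K)
    (haa : Cfsg.hermForm 3 K q a a = 1) (hbb : Cfsg.hermForm 3 K q b b = 1)
    (hcc : Cfsg.hermForm 3 K q c c = 1) (hab : Cfsg.hermForm 3 K q a b = 0)
    (hac : Cfsg.hermForm 3 K q a c = 0) (hbc : Cfsg.hermForm 3 K q b c = 0) (v : Fin 3 → K) :
    Cfsg.hermForm 3 K q v v = Cfsg.hermForm 3 K q v a ^ (q + 1)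
      + Cfsg.hermForm 3 K q v b ^ (q + 1) + Cfsg.hermForm 3 K q v c ^ (q + 1) := by
  have hh := hermForm_isHerm hK 3
  have e := orthonormal3_expand hK a b c haa hbb hcc hab hac hbc v
  have e2 : Cfsg.hermForm 3 K q v v = Cfsg.hermForm 3 K q v
      (Cfsg.hermForm 3 K q v a • a + Cfsg.hermForm 3 K q v b • b
        + Cfsg.hermForm 3 K q v c • c) := congrArg (Cfsg.hermForm 3 K q v) e
  rw [hh.add_right hK, hh.add_right hK, hh.smul_right, hh.smul_right, hh.smul_right] at e2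
  rw [e2]
  ring

/-- Counting involutions through their centres. -/
theorem su3_inv_count {K : Type*} [Field K] [Fintype K] {q : ℕ} (hq : Odd q)
    (hK : Fintype.card K = q ^ 2) (P : ↥(Cfsg.SU 3 K q) → Prop) (Q : (Fin 3 → K) → Prop)
    (hPQ : ∀ x b, IsNegRefl x b → Cfsg.hermForm 3 K q b b = 1 → (P x ↔ Q b)) :
    Nat.card {x : ↥(Cfsg.SU 3 K q) // x ≠ 1 ∧ x * x = 1 ∧ P x} * (q + 1)
      = Nat.card {b : Fin 3 → K // Cfsg.hermForm 3 K q b b = 1 ∧ Q b} := by
  classical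
  have hh := hermForm_isHerm hK 3
  have hq2 := two_le_of_card_sq hK
  have h2 := two_ne_zero_of_odd hK hq
  haveI : Finite ↥(Cfsg.SU 3 K q) := inferInstance
  haveI : Fintype {x : ↥(Cfsg.SU 3 K q) // x ≠ 1 ∧ x * x = 1 ∧ P x} := Fintype.ofFinite _
  have hf : ∀ a : {v : Fin 3 → K // Cfsg.hermForm 3 K q v v = 1 ∧ Q v},
      ∃ A : ↥(Cfsg.SU 3 K q), IsNegRefl A a.1 := fun a => negRefl_exists hK hq a.1 a.2.1
  choose f hf using hf
  let F : {v : Fin 3 → K // Cfsg.hermForm 3 K q v v = 1 ∧ Q v}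
      → {x : ↥(Cfsg.SU 3 K q) // x ≠ 1 ∧ x * x = 1 ∧ P x} :=
    fun a => ⟨f a, negRefl_ne_one hK h2 _ _ (hf a), negRefl_sq _ _ a.2.1 (hf a),
      (hPQ _ _ (hf a) a.2.1).2 a.2.2⟩
  have hfiber : ∀ y : {x : ↥(Cfsg.SU 3 K q) // x ≠ 1 ∧ x * x = 1 ∧ P x},
      Nat.card {a // F a = y} = q + 1 := by
    intro y
    obtain ⟨a₀, ha₀, hy⟩ := su3_inv_negRefl hK hq y.1 y.2.1 y.2.2.1
    have ha₀0 : a₀ ≠ 0 := by
      rintro rfl
      rw [hh.zero_left] at ha₀
      exact zero_ne_one ha₀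
    have hdvd : q + 1 ∣ Fintype.card K - 1 := by
      obtain ⟨k, rfl⟩ : ∃ k, q = k + 1 := ⟨q - 1, by omega⟩
      refine ⟨k, ?_⟩
      rw [hK]
      exact Nat.sub_eq_of_eq_add (by ring)
    rw [← card_roots_of_unity_of_dvd (K := K) (q + 1) (by omega) hdvd]
    symm
    apply Nat.card_congr
    have hnorm : ∀ l : {c : K // c ^ (q + 1) = 1},
        Cfsg.hermForm 3 K q (l.1 • a₀) (l.1 • a₀) = 1 := by
      intro l
      rw [hh.smul_left, hh.smul_right, ha₀, mul_one, ← pow_succ']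
      exact l.2
    have hQ : ∀ l : {c : K // c ^ (q + 1) = 1}, Q (l.1 • a₀) := fun l =>
      (hPQ y.1 _ (negRefl_scale hh y.1 a₀ l.1 l.2 hy) (hnorm l)).1 y.2.2.2
    refine Equiv.ofBijective (fun l => ⟨⟨l.1 • a₀, hnorm l, hQ l⟩, ?_⟩) ⟨?_, ?_⟩
    · apply Subtype.ext
      exact ((negRefl_eq_iff hK h2 y.1 _ a₀ _ ha₀ (hnorm l) hy
        (hf ⟨l.1 • a₀, hnorm l, hQ l⟩)).2 ⟨l.1, l.2, rfl⟩).symm
    · intro l l' hll
      have h3 : l.1 • a₀ = l'.1 • a₀ := congrArg (fun z => z.1.1) hll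
      exact Subtype.ext (smul_left_injective K ha₀0 h3)
    · rintro ⟨a, ha⟩
      have h1 : f a = y.1 := congrArg Subtype.val ha
      obtain ⟨l, hl, hal⟩ := (negRefl_eq_iff hK h2 y.1 (f a) a₀ a.1 ha₀ a.2.1 hy (hf a)).1
        h1.symm
      refine ⟨⟨l, hl⟩, ?_⟩
      apply Subtype.ext
      apply Subtype.ext
      exact hal.symm
  rw [← Nat.card_congr (Equiv.sigmaFiberEquiv F), Nat.card_sigma,
    Finset.sum_congr rfl (fun b _ => hfiber b), Finset.sum_const, Finset.card_univ,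
    smul_eq_mul, ← Nat.card_eq_fintype_card]

theorem herm3_count_first {K : Type*} [Field K] [Fintype K] (q : ℕ) (R : K → Prop)
    [DecidablePred R] :
    Nat.card {d : Fin 3 → K // Cfsg.hermForm 3 K q d d = 1 ∧ R (d 0)}
      = ∑ x : K, if R x then hcnt K q 2 (1 - x ^ (q + 1)) else 0 := by
  classical
  have h1 : ∀ x : K, (if R x then hcnt K q 2 (1 - x ^ (q + 1)) else 0)
      = Nat.card {v : Fin 2 → K // ∑ i, v i ^ (q + 1) = 1 - x ^ (q + 1) ∧ R x} := by
    intro x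
    by_cases hx : R x
    · rw [if_pos hx]
      unfold hcnt
      apply Nat.card_congr
      exact Equiv.subtypeEquivRight (fun v => ⟨fun h => ⟨h, hx⟩, fun h => h.1⟩)
    · rw [if_neg hx]
      symm
      rw [Nat.card_eq_zero]
      left
      exact ⟨fun v => hx v.2.2⟩
  rw [Finset.sum_congr rfl (fun x _ => h1 x), ← Nat.card_sigma]
  apply Nat.card_congr
  exact
    { toFun := fun v => ⟨v.1 0, ⟨Fin.tail v.1, by
        have h := v.2.1
        rw [hermForm_self_eq, Fin.sum_univ_succ] at h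
        refine ⟨?_, v.2.2⟩
        rw [eq_sub_iff_add_eq, add_comm]
        exact h⟩⟩
      invFun := fun s => ⟨Fin.cons s.1 s.2.1, by
        rw [hermForm_self_eq, Fin.sum_univ_succ]
        simp only [Fin.cons_zero, Fin.cons_succ]
        rw [s.2.2.1]
        exact ⟨by ring, s.2.2.2⟩⟩
      left_inv := fun v => Subtype.ext (Fin.cons_self_tail v.1)
      right_inv := fun s => rfl }

theorem su3_count_R {K : Type*} [Field K] [Fintype K] {q : ℕ} (hq : Odd q)
    (hK : Fintype.card K = q ^ 2) (a : Fin 3 → K) (haa : Cfsg.hermForm 3 K q a a = 1)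
    (R : K → Prop) [DecidablePred R] :
    Nat.card {b : Fin 3 → K // Cfsg.hermForm 3 K q b b = 1 ∧ R (Cfsg.hermForm 3 K q b a)}
      = ∑ x : K, if R x then hcnt K q 2 (1 - x ^ (q + 1)) else 0 := by
  classical
  have hq2 := two_le_of_card_sq hK
  have hq1 : 1 ≤ q := by omega
  have he : Cfsg.hermForm 3 K q (Pi.single 0 1) (Pi.single 0 1) = 1 := by
    rw [hermForm_single hq1 3 0 0, if_pos rfl]
  obtain ⟨g, hg⟩ := su3_norm_one_transitive hK hq (Pi.single 0 1) a he haa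
  rw [← herm3_count_first q R]
  apply Nat.card_congr
  have hcoord : ∀ b : Fin 3 → K, (suAct g⁻¹ b) 0 = Cfsg.hermForm 3 K q b a := by
    intro b
    rw [← herm_single_right hq1 3 (suAct g⁻¹ b) 0, ← suAct_pres g, suAct_inv_right, hg]
  exact
    { toFun := fun b => ⟨suAct g⁻¹ b.1, by rw [suAct_pres]; exact b.2.1, by
        rw [hcoord]; exact b.2.2⟩
      invFun := fun d => ⟨suAct g d.1, by rw [suAct_pres]; exact d.2.1, by
        rw [← hcoord, suAct_inv_left]; exact d.2.2⟩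
      left_inv := fun b => Subtype.ext (suAct_inv_right g b.1)
      right_inv := fun d => Subtype.ext (suAct_inv_left g d.1) }

theorem sum_ite_hcnt {K : Type*} [Field K] [Fintype K] {q : ℕ} (hK : Fintype.card K = q ^ 2)
    (R : K → Prop) [DecidablePred R] (hR : ∀ x, R x → x ^ (q + 1) ≠ 1) :
    ∑ x : K, (if R x then hcnt K q 2 (1 - x ^ (q + 1)) else 0)
      = Nat.card {x : K // R x} * hcnt K q 2 1 := by
  obtain ⟨φ, hφ⟩ := exists_frob hK
  have h1 : ∀ x : K, (if R x then hcnt K q 2 (1 - x ^ (q + 1)) else 0)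
      = if R x then hcnt K q 2 1 else 0 := by
    intro x
    by_cases hx : R x
    · rw [if_pos hx, if_pos hx]
      apply hcnt_fixed hK
      · intro h
        apply hR x hx
        rw [sub_eq_zero] at h
        exact h.symm
      · rw [← hφ, map_sub, map_one, hφ, norm_pow_fixed hK]
    · rw [if_neg hx, if_neg hx]
  rw [Finset.sum_congr rfl (fun x _ => h1 x), Finset.sum_ite, Finset.sum_const_zero, add_zero,
    Finset.sum_const, smul_eq_mul, Nat.card_eq_fintype_card, Fintype.card_subtype]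

theorem card_not_zero_not_norm_one {K : Type*} [Field K] [Fintype K] {q : ℕ}
    (hK : Fintype.card K = q ^ 2) :
    Nat.card {x : K // x ≠ 0 ∧ x ^ (q + 1) ≠ 1} + (q + 2) = q ^ 2 := by
  classical
  have hq2 := two_le_of_card_sq hK
  rw [Nat.card_eq_fintype_card, Fintype.card_subtype]
  have hfib : (Finset.univ.filter (fun x : K => x ^ (q + 1) = 1)).card = q + 1 :=
    (norm_fiber_card hK).1 1 one_ne_zero (one_pow _)
  have h0 : (0 : K) ∉ Finset.univ.filter (fun x : K => x ^ (q + 1) = 1) := by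
    rw [Finset.mem_filter]
    rintro ⟨-, h⟩
    rw [zero_pow (by omega)] at h
    exact zero_ne_one h
  have hset : Finset.univ.filter (fun x : K => x ≠ 0 ∧ x ^ (q + 1) ≠ 1)
      = Finset.univ \ (insert 0 (Finset.univ.filter (fun x : K => x ^ (q + 1) = 1))) := by
    ext x
    simp only [Finset.mem_filter, Finset.mem_univ, true_and, Finset.mem_sdiff,
      Finset.mem_insert, not_or]
  have h3 := Finset.card_sdiff_add_card_eq_card
    (Finset.subset_univ (insert 0 (Finset.univ.filter (fun x : K => x ^ (q + 1) = 1))))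
  rw [Finset.card_insert_of_notMem h0, hfib, Finset.card_univ, hK] at h3
  rw [hset]
  omega

end Cfsg.Agent.Helper15
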