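import Mathlib
import Cfsg.Agent.Helper15.SU3Graph

set_option autoImplicit false

namespace Cfsg.Agent.Helper15

open scoped MatrixGroups

/-- Indicator of a proposition. -/
noncomputable def pind (p : Prop) : ℕ := @ite ℕ p (Classical.propDecidable p) 1 0

theorem pind_pos {p : Prop} (h : p) : pind p = 1 := if_pos h

theorem pind_neg {p : Prop} (h : ¬ p) : pind p = 0 := if_neg h

theorem card_eq_sum_pind {G : Type*} [Fintype G] (P : G → Prop) :
    Nat.card {x // P x} = ∑ x : G, pind (P x) := by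
  classical
  rw [Nat.card_eq_fintype_card, Fintype.card_subtype, Finset.card_filter]
  apply Finset.sum_congr rfl
  intro x _
  by_cases h : P x
  · rw [if_pos h, pind_pos h]
  · rw [if_neg h, pind_neg h]

set_option maxHeartbeats 1600000 in
/-- The commuting involution graph of `SU_3(q)`, `q` odd. -/
theorem su3_commuting_graph {K : Type*} [Field K] [Fintype K] {q : ℕ} (hq : Odd q)
    (hK : Fintype.card K = q ^ 2) (t : ↥(Cfsg.SU 3 K q)) (ht : t ≠ 1) (ht2 : t * t = 1) :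
    Nat.card {x : ↥(Cfsg.SU 3 K q) // x ≠ 1 ∧ x * x = 1 ∧ x ≠ t ∧ Commute t x} = q * (q - 1) ∧
    Nat.card {x : ↥(Cfsg.SU 3 K q) // x ≠ 1 ∧ x * x = 1 ∧ ¬ Commute t x ∧
        ∃ y : ↥(Cfsg.SU 3 K q), y ≠ 1 ∧ y * y = 1 ∧ Commute t y ∧ Commute y x}
      = q * (q - 2) * (q ^ 2 - 1) ∧
    Nat.card {x : ↥(Cfsg.SU 3 K q) // x ≠ 1 ∧ x * x = 1 ∧ ¬ Commute t x ∧
        ∀ y : ↥(Cfsg.SU 3 K q), y ≠ 1 → y * y = 1 → ¬ (Commute t y ∧ Commute y x)}
      = (q + 1) * (q ^ 2 - 1) ∧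
    ∀ x : ↥(Cfsg.SU 3 K q), x ≠ 1 → x * x = 1 →
      ∃ y z : ↥(Cfsg.SU 3 K q), y ≠ 1 ∧ y * y = 1 ∧ z ≠ 1 ∧ z * z = 1 ∧
        Commute t y ∧ Commute y z ∧ Commute z x := by
  classical
  have hh := hermForm_isHerm hK 3
  have hq2 := two_le_of_card_sq hK
  have hq1 : 1 ≤ q := by omega
  have hq3 : 3 ≤ q := by
    obtain ⟨k, hk⟩ := hq
    omega
  have h2 := two_ne_zero_of_odd hK hq
  obtain ⟨a, haa, hta⟩ := su3_inv_negRefl hK hq t ht ht2
  have hEq : ∀ (x : ↥(Cfsg.SU 3 K q)) (b : Fin 3 → K), IsNegRefl x b →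
      Cfsg.hermForm 3 K q b b = 1 → x = t →
      Cfsg.hermForm 3 K q b a ^ (q + 1) = 1 ∧ Cfsg.hermForm 3 K q b a ≠ 0 := by
    intro x b hxb hbb hxt
    obtain ⟨l, hl, hbl⟩ := (negRefl_eq_iff hK h2 t x a b haa hbb hta hxb).1 hxt.symm
    have h1 : Cfsg.hermForm 3 K q b a = l := by rw [hbl, hh.smul_left, haa, mul_one]
    rw [h1]
    refine ⟨hl, ?_⟩
    rintro rfl
    rw [zero_pow (by omega)] at hl
    exact zero_ne_one hl
  have hComm : ∀ (x : ↥(Cfsg.SU 3 K q)) (b : Fin 3 → K), IsNegRefl x b →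
      Cfsg.hermForm 3 K q b b = 1 → Commute t x → Cfsg.hermForm 3 K q b a = 0 ∨ x = t := by
    intro x b hxb hbb hc
    by_cases hxt : x = t
    · exact Or.inr hxt
    · left
      exact hh.swap_zero hq1 _ _
        (negRefl_commute hK h2 t x a b haa hbb hta hxb (Ne.symm hxt) hc)
  have hPQ1 : ∀ (x : ↥(Cfsg.SU 3 K q)) (b : Fin 3 → K), IsNegRefl x b →
      Cfsg.hermForm 3 K q b b = 1 →
      ((x ≠ t ∧ Commute t x) ↔ Cfsg.hermForm 3 K q b a = 0) := by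
    intro x b hxb hbb
    constructor
    · rintro ⟨hxt, hc⟩
      exact (hComm x b hxb hbb hc).resolve_right hxt
    · intro hba
      exact ⟨fun hxt => (hEq x b hxb hbb hxt).2 hba,
        negRefl_orth_commute hK t x a b hta hxb (hh.swap_zero hq1 _ _ hba)⟩
  have hPQ2 : ∀ (x : ↥(Cfsg.SU 3 K q)) (b : Fin 3 → K), IsNegRefl x b →
      Cfsg.hermForm 3 K q b b = 1 →
      ((¬ Commute t x ∧ ∃ y : ↥(Cfsg.SU 3 K q), y ≠ 1 ∧ y * y = 1 ∧ Commute t y ∧ Commute y x)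
        ↔ (Cfsg.hermForm 3 K q b a ≠ 0 ∧ Cfsg.hermForm 3 K q b a ^ (q + 1) ≠ 1)) := by
    intro x b hxb hbb
    constructor
    · rintro ⟨hnc, y, hy1, hy2, hty, hyx⟩
      have hba : Cfsg.hermForm 3 K q b a ≠ 0 := fun h0 =>
        hnc (negRefl_orth_commute hK t x a b hta hxb (hh.swap_zero hq1 _ _ h0))
      refine ⟨hba, fun hN => ?_⟩
      obtain ⟨c, hcc, hyc⟩ := su3_inv_negRefl hK hq y hy1 hy2
      have hyt : y ≠ t := by
        rintro rfl
        exact hnc hyx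
      have hyx' : y ≠ x := by
        rintro rfl
        exact hnc hty
      have hca : Cfsg.hermForm 3 K q c a = 0 := (hComm y c hyc hcc hty).resolve_right hyt
      have hcb : Cfsg.hermForm 3 K q c b = 0 :=
        negRefl_commute hK h2 y x c b hcc hbb hyc hxb hyx' hyx
      have hac := hh.swap_zero hq1 _ _ hca
      have hbc := hh.swap_zero hq1 _ _ hcb
      obtain ⟨e, hea, hec, hee⟩ := hcross_spec hK a c
      rw [haa, hcc, hac, zero_mul, sub_zero, one_mul] at hee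
      have hae := hh.swap_zero hq1 _ _ hea
      have hce := hh.swap_zero hq1 _ _ hec
      have hP := orthonormal3_norm hK a c e haa hcc hee hac hae hce b
      rw [hbb, hN, hbc, zero_pow (by omega), add_zero] at hP
      have hbe : Cfsg.hermForm 3 K q b e = 0 := by
        have h3 : Cfsg.hermForm 3 K q b e ^ (q + 1) = 0 := by
          linear_combination (-1 : K) * hP
        exact (pow_eq_zero_iff (by omega)).1 h3
      have hexp := orthonormal3_expand hK a c e haa hcc hee hac hae hce b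
      rw [hbc, hbe, zero_smul, zero_smul, add_zero, add_zero] at hexp
      apply hnc
      have h4 : t = x := (negRefl_eq_iff hK h2 t x a b haa hbb hta hxb).2
        ⟨Cfsg.hermForm 3 K q b a, hN, hexp⟩
      rw [← h4]
    · rintro ⟨hba, hN⟩
      constructor
      · intro hc
        rcases hComm x b hxb hbb hc with h0 | hxt
        · exact hba h0
        · exact hN (hEq x b hxb hbb hxt).1
      · obtain ⟨c, hcc, hca, hcb⟩ := su3_common_perp hK a b haa hbb hN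
        obtain ⟨y, hy⟩ := negRefl_exists hK hq c hcc
        exact ⟨y, negRefl_ne_one hK h2 y c hy, negRefl_sq y c hcc hy,
          negRefl_orth_commute hK t y a c hta hy (hh.swap_zero hq1 _ _ hca),
          negRefl_orth_commute hK y x c b hy hxb hcb⟩
  have hcnt21 : hcnt K q 2 1 = q * (q ^ 2 - 1) := by
    have h := herm_norm_one_card hK 2
    rw [herm_card_eq_hcnt, if_pos (by decide)] at h
    rw [h]
    norm_num
  -- first count
  have hc1 := su3_inv_count hq hK (fun x => x ≠ t ∧ Commute t x)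
    (fun b => Cfsg.hermForm 3 K q b a = 0) hPQ1
  rw [su3_count_R hq hK a haa (fun x => x = 0),
    Finset.sum_eq_single 0 (fun x _ hx => if_neg hx) (fun h => absurd (Finset.mem_univ _) h),
    if_pos rfl, zero_pow (by omega), sub_zero, hcnt21] at hc1
  have hC1 : Nat.card {x : ↥(Cfsg.SU 3 K q) // x ≠ 1 ∧ x * x = 1 ∧ x ≠ t ∧ Commute t x}
      = q * (q - 1) := by
    obtain ⟨k, hk⟩ : ∃ k, q = k + 1 := ⟨q - 1, by omega⟩
    have e1 : q ^ 2 - 1 = k * (q + 1) := by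
      rw [hk]
      exact Nat.sub_eq_of_eq_add (by ring)
    have e2 : q - 1 = k := by omega
    rw [e1] at hc1
    rw [e2]
    apply Nat.eq_of_mul_eq_mul_right (by omega : 0 < q + 1)
    rw [hc1]
    ring
  -- second count
  have hc2 := su3_inv_count hq hK
    (fun x => ¬ Commute t x ∧ ∃ y : ↥(Cfsg.SU 3 K q), y ≠ 1 ∧ y * y = 1 ∧ Commute t y
      ∧ Commute y x)
    (fun b => Cfsg.hermForm 3 K q b a ≠ 0 ∧ Cfsg.hermForm 3 K q b a ^ (q + 1) ≠ 1) hPQ2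
  rw [su3_count_R hq hK a haa (fun x => x ≠ 0 ∧ x ^ (q + 1) ≠ 1),
    sum_ite_hcnt hK (fun x => x ≠ 0 ∧ x ^ (q + 1) ≠ 1) (fun x hx => hx.2), hcnt21] at hc2
  have hC2 : Nat.card {x : ↥(Cfsg.SU 3 K q) // x ≠ 1 ∧ x * x = 1 ∧ ¬ Commute t x ∧
        ∃ y : ↥(Cfsg.SU 3 K q), y ≠ 1 ∧ y * y = 1 ∧ Commute t y ∧ Commute y x}
      = q * (q - 2) * (q ^ 2 - 1) := by
    have h5 := card_not_zero_not_norm_one hK
    obtain ⟨k, hk⟩ : ∃ k, q = k + 2 := ⟨q - 2, by omega⟩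
    have e2 : q - 2 = k := by omega
    have e3 : Nat.card {x : K // x ≠ 0 ∧ x ^ (q + 1) ≠ 1} = k * (q + 1) := by
      have h6 : q ^ 2 = k * (q + 1) + (q + 2) := by
        rw [hk]
        ring
      omega
    rw [e3] at hc2
    rw [e2]
    apply Nat.eq_of_mul_eq_mul_right (by omega : 0 < q + 1)
    rw [hc2]
    ring
  -- third count by partition
  haveI : Fintype ↥(Cfsg.SU 3 K q) := Fintype.ofFinite _
  have hY := (su3_involutions hq hK t ht ht2).2.1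
  have hpt : ∀ x : ↥(Cfsg.SU 3 K q), pind (x ≠ 1 ∧ x * x = 1)
      = pind (x = t)
        + pind (x ≠ 1 ∧ x * x = 1 ∧ x ≠ t ∧ Commute t x)
        + pind (x ≠ 1 ∧ x * x = 1 ∧ ¬ Commute t x ∧
            ∃ y : ↥(Cfsg.SU 3 K q), y ≠ 1 ∧ y * y = 1 ∧ Commute t y ∧ Commute y x)
        + pind (x ≠ 1 ∧ x * x = 1 ∧ ¬ Commute t x ∧
            ∀ y : ↥(Cfsg.SU 3 K q), y ≠ 1 → y * y = 1 → ¬ (Commute t y ∧ Commute y x)) := by
    intro x
    by_cases hx : x ≠ 1 ∧ x * x = 1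
    · rw [pind_pos hx]
      by_cases hxt : x = t
      · have hn1 : ¬ (x ≠ 1 ∧ x * x = 1 ∧ x ≠ t ∧ Commute t x) := fun h => h.2.2.1 hxt
        have hn2 : ¬ (x ≠ 1 ∧ x * x = 1 ∧ ¬ Commute t x ∧
            ∃ y : ↥(Cfsg.SU 3 K q), y ≠ 1 ∧ y * y = 1 ∧ Commute t y ∧ Commute y x) :=
          fun h => h.2.2.1 (hxt ▸ Commute.refl t)
        have hn3 : ¬ (x ≠ 1 ∧ x * x = 1 ∧ ¬ Commute t x ∧
            ∀ y : ↥(Cfsg.SU 3 K q), y ≠ 1 → y * y = 1 → ¬ (Commute t y ∧ Commute y x)) :=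
          fun h => h.2.2.1 (hxt ▸ Commute.refl t)
        rw [pind_pos hxt, pind_neg hn1, pind_neg hn2, pind_neg hn3]
      · rw [pind_neg hxt]
        by_cases hc : Commute t x
        · have hn2 : ¬ (x ≠ 1 ∧ x * x = 1 ∧ ¬ Commute t x ∧
              ∃ y : ↥(Cfsg.SU 3 K q), y ≠ 1 ∧ y * y = 1 ∧ Commute t y ∧ Commute y x) :=
            fun h => h.2.2.1 hc
          have hn3 : ¬ (x ≠ 1 ∧ x * x = 1 ∧ ¬ Commute t x ∧
              ∀ y : ↥(Cfsg.SU 3 K q), y ≠ 1 → y * y = 1 → ¬ (Commute t y ∧ Commute y x)) :=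
            fun h => h.2.2.1 hc
          rw [pind_pos (⟨hx.1, hx.2, hxt, hc⟩ : x ≠ 1 ∧ x * x = 1 ∧ x ≠ t ∧ Commute t x),
            pind_neg hn2, pind_neg hn3]
        · have hn1 : ¬ (x ≠ 1 ∧ x * x = 1 ∧ x ≠ t ∧ Commute t x) := fun h => hc h.2.2.2
          rw [pind_neg hn1]
          by_cases hy : ∃ y : ↥(Cfsg.SU 3 K q), y ≠ 1 ∧ y * y = 1 ∧ Commute t y ∧ Commute y x
          · have hn3 : ¬ (x ≠ 1 ∧ x * x = 1 ∧ ¬ Commute t x ∧
                ∀ y : ↥(Cfsg.SU 3 K q), y ≠ 1 → y * y = 1 → ¬ (Commute t y ∧ Commute y x)) := by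
              intro h
              obtain ⟨y, hy1, hy2, hy3⟩ := hy
              exact h.2.2.2 y hy1 hy2 hy3
            have hp2 : x ≠ 1 ∧ x * x = 1 ∧ ¬ Commute t x ∧
                ∃ y : ↥(Cfsg.SU 3 K q), y ≠ 1 ∧ y * y = 1 ∧ Commute t y ∧ Commute y x :=
              ⟨hx.1, hx.2, hc, hy⟩
            rw [pind_pos hp2, pind_neg hn3]
          · have hn2 : ¬ (x ≠ 1 ∧ x * x = 1 ∧ ¬ Commute t x ∧
                ∃ y : ↥(Cfsg.SU 3 K q), y ≠ 1 ∧ y * y = 1 ∧ Commute t y ∧ Commute y x) :=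
              fun h => hy h.2.2.2
            have hp3 : x ≠ 1 ∧ x * x = 1 ∧ ¬ Commute t x ∧
                ∀ y : ↥(Cfsg.SU 3 K q), y ≠ 1 → y * y = 1 → ¬ (Commute t y ∧ Commute y x) :=
              ⟨hx.1, hx.2, hc, fun y hy1 hy2 hy3 => hy ⟨y, hy1, hy2, hy3.1, hy3.2⟩⟩
            rw [pind_neg hn2, pind_pos hp3]
    · have hn0 : ¬ x = t := fun h => hx (h ▸ ⟨ht, ht2⟩)
      have hn1 : ¬ (x ≠ 1 ∧ x * x = 1 ∧ x ≠ t ∧ Commute t x) := fun h => hx ⟨h.1, h.2.1⟩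
      have hn2 : ¬ (x ≠ 1 ∧ x * x = 1 ∧ ¬ Commute t x ∧
          ∃ y : ↥(Cfsg.SU 3 K q), y ≠ 1 ∧ y * y = 1 ∧ Commute t y ∧ Commute y x) :=
        fun h => hx ⟨h.1, h.2.1⟩
      have hn3 : ¬ (x ≠ 1 ∧ x * x = 1 ∧ ¬ Commute t x ∧
          ∀ y : ↥(Cfsg.SU 3 K q), y ≠ 1 → y * y = 1 → ¬ (Commute t y ∧ Commute y x)) :=
        fun h => hx ⟨h.1, h.2.1⟩
      rw [pind_neg hx, pind_neg hn0, pind_neg hn1, pind_neg hn2, pind_neg hn3]
  have hsum := Finset.sum_congr (s₁ := (Finset.univ : Finset ↥(Cfsg.SU 3 K q))) rfl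
    (fun x _ => hpt x)
  rw [card_eq_sum_pind] at hY
  have hC1' := hC1
  rw [card_eq_sum_pind] at hC1'
  have hC2' := hC2
  rw [card_eq_sum_pind] at hC2'
  rw [Finset.sum_add_distrib, Finset.sum_add_distrib, Finset.sum_add_distrib, hY, hC1', hC2',
    Finset.sum_eq_single t (fun x _ hx => pind_neg hx) (fun h => absurd (Finset.mem_univ _) h),
    pind_pos rfl] at hsum
  have hC3 : Nat.card {x : ↥(Cfsg.SU 3 K q) // x ≠ 1 ∧ x * x = 1 ∧ ¬ Commute t x ∧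
        ∀ y : ↥(Cfsg.SU 3 K q), y ≠ 1 → y * y = 1 → ¬ (Commute t y ∧ Commute y x)}
      = (q + 1) * (q ^ 2 - 1) := by
    obtain ⟨k, hk⟩ : ∃ k, q = k + 2 := ⟨q - 2, by omega⟩
    have e1 : q - 1 = k + 1 := by omega
    have e2 : q - 2 = k := by omega
    have e3 : q ^ 2 - 1 = k ^ 2 + 4 * k + 3 := by
      rw [hk]
      exact Nat.sub_eq_of_eq_add (by ring)
    have e4 : q ^ 2 - q + 1 = k ^ 2 + 3 * k + 3 := by
      have : q ^ 2 - q = k ^ 2 + 3 * k + 2 := by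
        rw [hk]
        exact Nat.sub_eq_of_eq_add (by ring)
      omega
    rw [e1, e2, e3, e4] at hsum
    rw [e3, card_eq_sum_pind]
    have e5 : q ^ 2 * (k ^ 2 + 3 * k + 3) = 1 + q * (k + 1) + q * k * (k ^ 2 + 4 * k + 3)
        + (q + 1) * (k ^ 2 + 4 * k + 3) := by
      rw [hk]
      ring
    exact Nat.add_left_cancel (hsum.symm.trans e5)
  refine ⟨hC1, hC2, hC3, ?_⟩
  -- diameter
  intro x hx1 hx2
  obtain ⟨b, hbb, hxb⟩ := su3_inv_negRefl hK hq x hx1 hx2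
  have key2 : ∀ (y : ↥(Cfsg.SU 3 K q)) (c : Fin 3 → K), IsNegRefl y c →
      Cfsg.hermForm 3 K q c c = 1 → y ≠ 1 → y * y = 1 → Commute t y →
      Cfsg.hermForm 3 K q b c ^ (q + 1) ≠ 1 →
      ∃ y z : ↥(Cfsg.SU 3 K q), y ≠ 1 ∧ y * y = 1 ∧ z ≠ 1 ∧ z * z = 1 ∧
        Commute t y ∧ Commute y z ∧ Commute z x := by
    intro y c hyc hcc hy1 hy2 hty hN
    obtain ⟨d, hdd, hdc, hdb⟩ := su3_common_perp hK c b hcc hbb hN
    obtain ⟨z, hz⟩ := negRefl_exists hK hq d hdd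
    exact ⟨y, z, hy1, hy2, negRefl_ne_one hK h2 z d hz, negRefl_sq z d hdd hz, hty,
      negRefl_orth_commute hK y z c d hyc hz (hh.swap_zero hq1 _ _ hdc),
      negRefl_orth_commute hK z x d b hz hxb hdb⟩
  by_cases hN : Cfsg.hermForm 3 K q b a ^ (q + 1) = 1
  · have he0 : Cfsg.hermForm 3 K q (Pi.single 0 1) (Pi.single 0 1) = 1 := by
      rw [hermForm_single hq1 3 0 0, if_pos rfl]
    obtain ⟨g, hg⟩ := su3_norm_one_transitive hK hq (Pi.single 0 1) a he0 haa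
    obtain ⟨c1, hc1def⟩ : ∃ c1 : Fin 3 → K, c1 = suAct g (Pi.single 1 1) := ⟨_, rfl⟩
    obtain ⟨c2, hc2def⟩ : ∃ c2 : Fin 3 → K, c2 = suAct g (Pi.single 2 1) := ⟨_, rfl⟩
    have hc11 : Cfsg.hermForm 3 K q c1 c1 = 1 := by
      rw [hc1def, suAct_pres, hermForm_single hq1 3 1 1, if_pos rfl]
    have hc22 : Cfsg.hermForm 3 K q c2 c2 = 1 := by
      rw [hc2def, suAct_pres, hermForm_single hq1 3 2 2, if_pos rfl]
    have hac1 : Cfsg.hermForm 3 K q a c1 = 0 := by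
      rw [hc1def, ← hg, suAct_pres, hermForm_single hq1 3 0 1, if_neg (by decide)]
    have hac2 : Cfsg.hermForm 3 K q a c2 = 0 := by
      rw [hc2def, ← hg, suAct_pres, hermForm_single hq1 3 0 2, if_neg (by decide)]
    have hc1c2 : Cfsg.hermForm 3 K q c1 c2 = 0 := by
      rw [hc1def, hc2def, suAct_pres, hermForm_single hq1 3 1 2, if_neg (by decide)]
    have hP := orthonormal3_norm hK a c1 c2 haa hc11 hc22 hac1 hac2 hc1c2 b
    rw [hbb, hN] at hP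
    by_cases hN1 : Cfsg.hermForm 3 K q b c1 ^ (q + 1) = 1
    · have hN2 : Cfsg.hermForm 3 K q b c2 ^ (q + 1) ≠ 1 := by
        intro hN2
        rw [hN1, hN2] at hP
        apply h2
        linear_combination (-1 : K) * hP
      obtain ⟨y, hy⟩ := negRefl_exists hK hq c2 hc22
      exact key2 y c2 hy hc22 (negRefl_ne_one hK h2 y c2 hy) (negRefl_sq y c2 hc22 hy)
        (negRefl_orth_commute hK t y a c2 hta hy hac2) hN2
    · obtain ⟨y, hy⟩ := negRefl_exists hK hq c1 hc11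
      exact key2 y c1 hy hc11 (negRefl_ne_one hK h2 y c1 hy) (negRefl_sq y c1 hc11 hy)
        (negRefl_orth_commute hK t y a c1 hta hy hac1) hN1
  · exact key2 t a hta haa ht ht2 (Commute.refl t) hN

end Cfsg.Agent.Helper15
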