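import Mathlib
import Cfsg.Agent.Helper15.PSU3

set_option autoImplicit false

namespace Cfsg.Agent.Helper15

open scoped MatrixGroups

theorem suAct_sum {K : Type*} [Field K] {n q : ℕ} (A : ↥(Cfsg.SU n K q)) {ι : Type*}
    (s : Finset ι) (g : ι → Fin n → K) :
    suAct A (∑ i ∈ s, g i) = ∑ i ∈ s, suAct A (g i) :=
  map_sum (((A : Matrix.SpecialLinearGroup (Fin n) K) : Matrix (Fin n) (Fin n) K).mulVecLin) g s

/-- A hyperbolic partner for the first vector of an isotropic frame, orthogonal to the rest. -/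
theorem herm_frame_partner {K : Type*} [Field K] [Fintype K] {q : ℕ}
    (hK : Fintype.card K = q ^ 2)
    {V : Type*} [AddCommGroup V] [Module K V] {h : V → V → K} (hh : IsHerm q h) {r : ℕ}
    (f : Fin (r + 1) → V) (hli : LinearIndependent K f) (hiso : ∀ i j, h (f i) (f j) = 0) :
    ∃ w, h w w = 0 ∧ h (f 0) w = 1 ∧ ∀ i, i ≠ 0 → h (f i) w = 0 := by
  classical
  obtain ⟨φ, hφ⟩ := exists_frob hK
  have hq := two_le_of_card_sq hK
  obtain ⟨z, hz⟩ := hermPsi_surjective hK hh f hli (Pi.single 0 1)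
  have hzf : ∀ i, h z (f i) = if i = 0 then 1 else 0 := by
    intro i
    have h1 := congrFun hz i
    rw [hermPsi_apply] at h1
    rw [h1, Pi.single_apply]
  have hz0 : h z (f 0) = 1 := by rw [hzf, if_pos rfl]
  have h0z : h (f 0) z = 1 := by rw [hh.conj z (f 0), hz0, one_pow]
  obtain ⟨θ, hθ⟩ := exists_trace_one hK
  have hzz : h z z ^ q = h z z := (hh.conj z z).symm
  refine ⟨z + (-(h z z) * θ) • f 0, ?_, ?_, ?_⟩
  · rw [herm_expand hK hh, hz0, h0z, hiso, ← hφ (-(h z z) * θ), map_mul, map_neg, hφ, hφ, hzz]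
    linear_combination (-(h z z)) * hθ
  · rw [hh.add_right hK, hh.smul_right, h0z, hiso, mul_zero, add_zero]
  · intro i hi
    rw [hh.add_right hK, hh.smul_right, hiso, mul_zero, add_zero, hh.conj z (f i), hzf,
      if_neg hi, zero_pow (by omega)]

/-- Structure of an involution of `SU_n(q)` in characteristic `2`. -/
theorem su_inv2_structure {K : Type*} [Field K] [Fintype K] [CharP K 2] {q : ℕ}
    (hK : Fintype.card K = q ^ 2) (n r : ℕ) (A : ↥(Cfsg.SU n K q)) (hA : A * A = 1)
    (hr : (((A : Matrix.SpecialLinearGroup (Fin n) K) : Matrix (Fin n) (Fin n) K) - 1).rank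
      = r) :
    ∃ f : Fin r → (Fin n → K),
      LinearIndependent K f ∧ (∀ i j, Cfsg.hermForm n K q (f i) (f j) = 0) ∧
      ∀ x, suAct A x = x + ∑ i, Cfsg.hermForm n K q x (f i) • f i := by
  classical
  have hq := two_le_of_card_sq hK
  have hh := hermForm_isHerm hK n
  have h2 : (2 : K) = 0 := by
    have := CharP.cast_eq_zero K 2
    exact_mod_cast this
  obtain ⟨N, hN⟩ : ∃ N : (Fin n → K) →ₗ[K] (Fin n → K), N
      = (((A : Matrix.SpecialLinearGroup (Fin n) K) : Matrix (Fin n) (Fin n) K) - 1).mulVecLin :=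
    ⟨_, rfl⟩
  have hNx : ∀ x, N x = suAct A x - x := by
    intro x
    rw [hN, Matrix.mulVecLin_apply, Matrix.sub_mulVec, Matrix.one_mulVec]
    rfl
  have hAA : ∀ x, suAct A (suAct A x) = x := by
    intro x
    rw [← suAct_mul, hA, suAct_one]
  have hadj : ∀ x y, Cfsg.hermForm n K q (suAct A x) y = Cfsg.hermForm n K q x (suAct A y) := by
    intro x y
    rw [← suAct_pres A x (suAct A y), hAA]
  have hNN : ∀ x y, Cfsg.hermForm n K q (N x) (N y) = 0 := by
    intro x y
    rw [hNx, hNx, hh.sub_left, hh.sub_right hK, hh.sub_right hK, suAct_pres, hadj]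
    linear_combination (Cfsg.hermForm n K q x y - Cfsg.hermForm n K q x (suAct A y)) * h2
  have hsym : ∀ x y, Cfsg.hermForm n K q (N x) y = Cfsg.hermForm n K q x (N y) := by
    intro x y
    rw [hNx, hNx, hh.sub_left, hh.sub_right hK, hadj]
  have hrk : Module.finrank K (LinearMap.range N) = r := by
    rw [hN]
    exact hr
  obtain ⟨C, hC⟩ := Submodule.exists_isCompl (LinearMap.ker N)
  have hfin : Module.finrank K C = r := by
    have h1 := Submodule.finrank_add_eq_of_isCompl hC
    have h3 := LinearMap.finrank_range_add_finrank_ker N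
    omega
  have hβ : IsHerm q (fun a b : C => Cfsg.hermForm n K q (N (a : Fin n → K)) (b : Fin n → K)) := by
    refine ⟨?_, ?_, ?_, ?_⟩
    · intro u u' w
      show Cfsg.hermForm n K q (N ((u + u' : C) : Fin n → K)) _ = _
      rw [Submodule.coe_add, map_add, hh.add_left]
    · intro c u w
      show Cfsg.hermForm n K q (N ((c • u : C) : Fin n → K)) _ = _
      rw [Submodule.coe_smul, map_smul, hh.smul_left]
    · intro u w
      show Cfsg.hermForm n K q (N (w : Fin n → K)) (u : Fin n → K) = _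
      rw [hh.conj (u : Fin n → K) (N (w : Fin n → K)), hsym]
    · intro u hu
      have hNu : N (u : Fin n → K) = 0 := by
        apply hh.nondeg
        intro x
        have hx : x ∈ LinearMap.ker N ⊔ C := by
          rw [hC.sup_eq_top]
          exact Submodule.mem_top
        obtain ⟨k, hk, c, hc, rfl⟩ := Submodule.mem_sup.1 hx
        rw [hh.add_right hK, hsym, LinearMap.mem_ker.1 hk, hh.zero_right (by omega), zero_add]
        exact hu ⟨c, hc⟩
      apply Subtype.ext
      exact Submodule.disjoint_def.1 hC.disjoint (u : Fin n → K) (LinearMap.mem_ker.2 hNu) u.2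
  obtain ⟨e⟩ := herm_exists_frame hK r _ hβ hfin
  have he : ∀ i j, Cfsg.hermForm n K q (N (e.1 i : Fin n → K)) (e.1 j : Fin n → K)
      = if i = j then 1 else 0 := e.2
  obtain ⟨ρ, hρ, -⟩ := herm_frame_equiv hK hβ hfin e
  refine ⟨fun i => N (e.1 i : Fin n → K), ?_, fun i j => hNN _ _, ?_⟩
  · rw [Fintype.linearIndependent_iff]
    intro g hg j
    have h1 : Cfsg.hermForm n K q (∑ i, g i • N (e.1 i : Fin n → K)) (e.1 j : Fin n → K) = 0 := by
      rw [hg, hh.zero_left]
    rw [hh.sum_left, Finset.sum_eq_single j] at h1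
    · rw [he, if_pos rfl, mul_one] at h1
      exact h1
    · intro i _ hij
      rw [he, if_neg hij, mul_zero]
    · intro hj
      exact absurd (Finset.mem_univ j) hj
  · intro x
    have hx : x ∈ LinearMap.ker N ⊔ C := by
      rw [hC.sup_eq_top]
      exact Submodule.mem_top
    obtain ⟨k, hk, c, hc, rfl⟩ := Submodule.mem_sup.1 hx
    have hNk : N k = 0 := LinearMap.mem_ker.1 hk
    obtain ⟨a, ha⟩ := ρ.surjective ⟨c, hc⟩
    have hc' : c = ∑ j, a j • (e.1 j : Fin n → K) := by
      have h1 : ((ρ a : C) : Fin n → K) = c := congrArg Subtype.val ha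
      rw [hρ] at h1
      rw [← h1, Submodule.coe_sum]
      exact Finset.sum_congr rfl (fun i _ => Submodule.coe_smul _ _)
    have hNkc : N (k + c) = ∑ j, a j • N (e.1 j : Fin n → K) := by
      rw [map_add, hNk, zero_add, hc', map_sum]
      exact Finset.sum_congr rfl (fun i _ => map_smul _ _ _)
    have hcoef : ∀ i, Cfsg.hermForm n K q (k + c) (N (e.1 i : Fin n → K)) = a i := by
      intro i
      rw [hh.add_left]
      have h1 : Cfsg.hermForm n K q k (N (e.1 i : Fin n → K)) = 0 := by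
        rw [← hsym, hNk, hh.zero_left]
      rw [h1, zero_add, hc', hh.sum_left, Finset.sum_eq_single i]
      · rw [← hsym, he i i, if_pos rfl, mul_one]
      · intro j _ hji
        rw [← hsym, he j i, if_neg hji, mul_zero]
      · intro hi
        exact absurd (Finset.mem_univ i) hi
    have h3 := hNx (k + c)
    rw [hNkc] at h3
    rw [Finset.sum_congr rfl (fun i _ => by rw [hcoef i]), h3]
    abel

/-- Two involutions of the same shape are conjugate in `SU`. -/
theorem su_inv2_conj {K : Type*} [Field K] [Fintype K] [CharP K 2] {q : ℕ}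
    (hK : Fintype.card K = q ^ 2) (n r : ℕ) (A B : ↥(Cfsg.SU n K q))
    (f f' : Fin (r + 1) → (Fin n → K)) (hf : LinearIndependent K f)
    (hf' : LinearIndependent K f')
    (hiso : ∀ i j, Cfsg.hermForm n K q (f i) (f j) = 0)
    (hiso' : ∀ i j, Cfsg.hermForm n K q (f' i) (f' j) = 0)
    (hA : ∀ x, suAct A x = x + ∑ i, Cfsg.hermForm n K q x (f i) • f i)
    (hB : ∀ x, suAct B x = x + ∑ i, Cfsg.hermForm n K q x (f' i) • f' i) : IsConj A B := by
  classical
  have hq := two_le_of_card_sq hK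
  have hh := hermForm_isHerm hK n
  obtain ⟨M, hM, hMf⟩ := gu_frame_transitive hK n (r + 1) f f' hf hf' hiso hiso'
  obtain ⟨w, hww, h0w, hiw⟩ := herm_frame_partner hK hh f' hf' hiso'
  have hqe : Even q := by
    obtain ⟨k, -, hk⟩ := FiniteField.card K 2
    have h1 : 2 ∣ q ^ 2 := by
      rw [← hK, hk]
      exact dvd_pow_self 2 k.ne_zero
    exact even_iff_two_dvd.2 (Nat.Prime.dvd_of_dvd_pow Nat.prime_two h1)
  obtain ⟨m, hm⟩ := hqe
  have hdet0 : (M : Matrix (Fin n) (Fin n) K).det ≠ 0 :=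
    ((Matrix.isUnit_iff_isUnit_det _).1 M.isUnit).ne_zero
  obtain ⟨δ, hδdef⟩ : ∃ δ : K, δ = ((M : Matrix (Fin n) (Fin n) K).det)⁻¹ := ⟨_, rfl⟩
  have hδ : δ ^ (q + 1) = 1 := by
    rw [hδdef, inv_pow, gu_det_pow hK n M hM, inv_one]
  obtain ⟨l, hldef⟩ : ∃ l : K, l = δ ^ (m + 1) := ⟨_, rfl⟩
  have hl : l ^ (q + 1) = 1 := by
    rw [hldef, ← pow_mul, mul_comm, pow_mul, hδ, one_pow]
  have hl2 : l * l = δ := by
    rw [hldef, ← pow_add]
    have h1 : m + 1 + (m + 1) = (q + 1) + 1 := by omega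
    rw [h1, pow_succ, hδ, one_mul]
  have hl0 : l ≠ 0 := by
    intro h0
    rw [h0, zero_pow (by omega)] at hl
    exact zero_ne_one hl
  have hlq : l ^ q * l = 1 := by
    rw [← pow_succ]
    exact hl
  have hlq' : l⁻¹ ^ q = l := by
    rw [inv_pow]
    exact inv_eq_of_mul_eq_one_right hlq
  obtain ⟨D, hD, hDdet, hDx⟩ := gu_hyp_rot hK n (f' 0) w (hiso' 0 0) hww h0w l hl0
  rw [hlq'] at hDdet hDx
  have hdetDM : ((D * M : GL (Fin n) K) : Matrix (Fin n) (Fin n) K).det = 1 := by
    rw [Units.val_mul, Matrix.det_mul, hDdet, hl2, hδdef, inv_mul_cancel₀ hdet0]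
  obtain ⟨G, hG⟩ := gu_to_su (D * M) ((Cfsg.GU n K q).mul_mem hD hM) hdetDM
  have hGf : ∀ i, suAct G (f i) = if i = 0 then l • f' 0 else f' i := by
    intro i
    rw [hG, glAct_mul]
    have h1 : glAct M (f i) = f' i := hMf i
    rw [h1]
    show (D : Matrix (Fin n) (Fin n) K).mulVec (f' i) = _
    rw [hDx]
    by_cases hi : i = 0
    · subst hi
      rw [if_pos rfl, h0w, hiso', mul_one, mul_zero, zero_smul, add_zero, sub_smul, one_smul]
      abel
    · rw [if_neg hi, hiw i hi, hiso', mul_zero, zero_smul, zero_smul, add_zero,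
        add_zero]
  refine isConj_iff.2 ⟨G, su_ext _ _ (fun x => ?_)⟩
  rw [suAct_mul, suAct_mul, hA, suAct_add, suAct_inv_right, hB]
  congr 1
  rw [suAct_sum]
  apply Finset.sum_congr rfl
  intro i _
  rw [suAct_smul, ← suAct_pres G, suAct_inv_right, hGf]
  by_cases hi : i = 0
  · subst hi
    rw [if_pos rfl, hh.smul_right, smul_smul, mul_right_comm, hlq, one_mul]
  · rw [if_neg hi]

theorem su_char_two_involutions {F : Type*} [Field F] [Fintype F] [CharP F 2] {n q : ℕ}
    (hF : Fintype.card F = q ^ 2) (a b : ↥(Cfsg.SU n F q))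
    (ha : orderOf a = 2) (hb : orderOf b = 2) :
    (IsConj a b ↔ IsConj (a : Matrix.SpecialLinearGroup (Fin n) F)
        (b : Matrix.SpecialLinearGroup (Fin n) F)) ∧
    (IsConj a b ↔ (((a : Matrix.SpecialLinearGroup (Fin n) F) : Matrix (Fin n) (Fin n) F)
        - 1).rank = (((b : Matrix.SpecialLinearGroup (Fin n) F) : Matrix (Fin n) (Fin n) F)
        - 1).rank) := by
  classical
  have h1 : IsConj a b → IsConj (a : Matrix.SpecialLinearGroup (Fin n) F)
      (b : Matrix.SpecialLinearGroup (Fin n) F) := by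
    intro hc
    obtain ⟨c, hc⟩ := isConj_iff.1 hc
    refine isConj_iff.2 ⟨(c : Matrix.SpecialLinearGroup (Fin n) F), ?_⟩
    rw [← hc]
    rfl
  have h2 : IsConj (a : Matrix.SpecialLinearGroup (Fin n) F)
      (b : Matrix.SpecialLinearGroup (Fin n) F) →
      (((a : Matrix.SpecialLinearGroup (Fin n) F) : Matrix (Fin n) (Fin n) F) - 1).rank
        = (((b : Matrix.SpecialLinearGroup (Fin n) F) : Matrix (Fin n) (Fin n) F) - 1).rank := by
    intro hc
    obtain ⟨c, hc⟩ := isConj_iff.1 hc
    have hcc : (c : Matrix (Fin n) (Fin n) F) * ((c⁻¹ : Matrix.SpecialLinearGroup (Fin n) F)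
        : Matrix (Fin n) (Fin n) F) = 1 := by
      rw [← Matrix.SpecialLinearGroup.coe_mul, mul_inv_cancel, Matrix.SpecialLinearGroup.coe_one]
    have h3 : ((b : Matrix.SpecialLinearGroup (Fin n) F) : Matrix (Fin n) (Fin n) F) - 1
        = (c : Matrix (Fin n) (Fin n) F)
          * (((a : Matrix.SpecialLinearGroup (Fin n) F) : Matrix (Fin n) (Fin n) F) - 1)
          * ((c⁻¹ : Matrix.SpecialLinearGroup (Fin n) F) : Matrix (Fin n) (Fin n) F) := by
      rw [← hc, Matrix.SpecialLinearGroup.coe_mul, Matrix.SpecialLinearGroup.coe_mul,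
        Matrix.mul_sub, Matrix.sub_mul, Matrix.mul_one, hcc]
    rw [h3, Matrix.rank_mul_eq_left_of_isUnit_det, Matrix.rank_mul_eq_right_of_isUnit_det]
    · rw [c.2]
      exact isUnit_one
    · rw [(c⁻¹).2]
      exact isUnit_one
  have h3 : (((a : Matrix.SpecialLinearGroup (Fin n) F) : Matrix (Fin n) (Fin n) F) - 1).rank
        = (((b : Matrix.SpecialLinearGroup (Fin n) F) : Matrix (Fin n) (Fin n) F) - 1).rank →
      IsConj a b := by
    intro hrk
    have haa : a * a = 1 := by
      rw [← pow_two, ← ha, pow_orderOf_eq_one]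
    have hbb : b * b = 1 := by
      rw [← pow_two, ← hb, pow_orderOf_eq_one]
    have ha1 : a ≠ 1 := by
      intro h
      rw [h, orderOf_one] at ha
      omega
    have hr0 : (((a : Matrix.SpecialLinearGroup (Fin n) F) : Matrix (Fin n) (Fin n) F)
        - 1).rank ≠ 0 := by
      intro h0
      apply ha1
      apply Subtype.ext
      apply Subtype.ext
      have h5 : LinearMap.range ((((a : Matrix.SpecialLinearGroup (Fin n) F)
          : Matrix (Fin n) (Fin n) F) - 1).mulVecLin) = ⊥ := Submodule.finrank_eq_zero.1 h0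
      have h6 := LinearMap.range_eq_bot.1 h5
      have h4 : ((a : Matrix.SpecialLinearGroup (Fin n) F) : Matrix (Fin n) (Fin n) F) - 1
          = 0 := by
        ext i j
        have h7 := congrFun (LinearMap.congr_fun h6 (Pi.single j 1)) i
        rw [Matrix.mulVecLin_apply, Matrix.mulVec_single_one] at h7
        exact h7
      rw [sub_eq_zero] at h4
      rw [h4]
      rfl
    obtain ⟨r, hr⟩ := Nat.exists_eq_succ_of_ne_zero hr0
    obtain ⟨f, hf, hiso, hA⟩ := su_inv2_structure hF n (r + 1) a haa hr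
    obtain ⟨f', hf', hiso', hB⟩ := su_inv2_structure hF n (r + 1) b hbb (hrk ▸ hr)
    exact su_inv2_conj hF n r a b f f' hf hf' hiso hiso' hA hB
  exact ⟨⟨h1, fun h => h3 (h2 h)⟩, ⟨fun h => h2 (h1 h), h3⟩⟩

end Cfsg.Agent.Helper15
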